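import Cfsg.Agent.Helper16.D8Core

/-!
# S3716 pieces CZ1: the 3-part of `|G|` is `9` in a `D8Cfg` configuration

Also contains the shared lemma `d8_three_subgroup`: a 3-subgroup containing an element `φ m₀`
of order 3 or 6 consists of elements `φ m` with `m ^ 3 = 1`.
-/

set_option autoImplicit false

open Cfsg Cfsg.Agent.Helper16 DihedralGroup

namespace Cfsg.Agent.Helper39

set_option maxRecDepth 1000000 in
theorem d8_wm_pow_twelve : ∀ m : WM, m ^ 12 = 1 := by decide +kernel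

set_option maxRecDepth 1000000 in
theorem d8_wm_card : Fintype.card WM = 72 := by decide +kernel

set_option maxRecDepth 1000000 in
theorem d8_wm_card_cube : (Finset.univ.filter (fun m : WM => m ^ 3 = 1)).card = 9 := by
  decide +kernel

/-- An element of `WM` of 3-power order satisfies `m ^ 3 = 1`. -/
theorem d8_wm_cube_of_pow {m : WM} {k : ℕ} (hm : m ^ (3 ^ k) = 1) : m ^ 3 = 1 := by
  have h1 : orderOf m ∣ 3 ^ k := orderOf_dvd_of_pow_eq_one hm
  have h2 : orderOf m ∣ 4 * 3 := orderOf_dvd_of_pow_eq_one (d8_wm_pow_twelve m)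
  have h3 : Nat.Coprime (3 ^ k) 4 := Nat.Coprime.pow_left k (by decide)
  have h4 : Nat.Coprime (orderOf m) 4 := Nat.Coprime.coprime_dvd_left h1 h3
  have h5 : orderOf m ∣ 3 := Nat.Coprime.dvd_of_dvd_mul_left h4 h2
  exact orderOf_dvd_iff_pow_eq_one.mp h5

/-- An element of `WM` of 3-power order with `m ^ 4 = 1` is trivial. -/
theorem d8_wm_one_of_pow {m : WM} {k : ℕ} (hm : m ^ (3 ^ k) = 1) (h4 : m ^ 4 = 1) : m = 1 := by
  have h1 : orderOf m ∣ 3 ^ k := orderOf_dvd_of_pow_eq_one hm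
  have h2 : orderOf m ∣ 4 := orderOf_dvd_of_pow_eq_one h4
  have h3 : Nat.Coprime (3 ^ k) 4 := Nat.Coprime.pow_left k (by decide)
  have h5 : orderOf m ∣ 1 := by
    have := Nat.dvd_gcd h1 h2
    rwa [h3] at this
  exact orderOf_eq_one_iff.mp (Nat.dvd_one.mp h5)

/-- A 3-subgroup containing `φ m₀`, `m₀ ^ 4 ≠ 1`, consists of elements `φ m` with `m ^ 3 = 1`. -/
theorem d8_three_subgroup {G : Type*} [Group G] [Finite G] {φ : WM →* G} (h : D8Cfg φ)
    (Q : Subgroup G) (hQ : IsPGroup 3 Q) (m₀ : WM) (hm₀ : m₀ ^ 4 ≠ 1) (hmem : φ m₀ ∈ Q) :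
    ∀ q ∈ Q, ∃ m : WM, m ^ 3 = 1 ∧ φ m = q := by
  have : Fact (Nat.Prime 3) := ⟨by norm_num⟩
  have hm₀1 : m₀ ≠ 1 := by
    rintro rfl
    exact hm₀ (one_pow 4)
  have hφm₀ : φ m₀ ≠ 1 := by
    intro h1
    apply hm₀1
    apply h.inj
    rw [h1, map_one]
  have : Nontrivial Q := by
    refine ⟨⟨⟨φ m₀, hmem⟩, 1, ?_⟩⟩
    intro h1
    apply hφm₀
    exact congrArg Subtype.val h1
  have := hQ.center_nontrivial
  obtain ⟨z, hz⟩ := exists_ne (1 : Subgroup.center Q)
  have hzc : ∀ q : Q, q * (z : Q) = (z : Q) * q := fun q =>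
    (Subgroup.mem_center_iff.mp z.2 q)
  have hz1 : ((z : Q) : G) ≠ 1 := by
    intro h1
    apply hz
    apply Subtype.ext
    apply Subtype.ext
    exact h1
  -- `z` commutes with `φ m₀`
  have hzm : ((z : Q) : G) * φ m₀ = φ m₀ * ((z : Q) : G) := by
    have := hzc ⟨φ m₀, hmem⟩
    have h2 := congrArg Subtype.val this
    simp only [Subgroup.coe_mul] at h2
    exact h2.symm
  obtain ⟨n, hn⟩ := h.mem_range_of_commute hm₀ hzm
  obtain ⟨k, hk⟩ := hQ (z : Q)
  have hnk : n ^ (3 ^ k) = 1 := by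
    apply h.inj
    rw [map_pow, hn, map_one]
    have := congrArg Subtype.val hk
    simpa using this
  have hn4 : n ^ 4 ≠ 1 := by
    intro h4
    have := d8_wm_one_of_pow hnk h4
    apply hz1
    rw [← hn, this, map_one]
  intro q hq
  have hqz : q * φ n = φ n * q := by
    have := hzc ⟨q, hq⟩
    have h2 := congrArg Subtype.val this
    simp only [Subgroup.coe_mul] at h2
    rw [hn]
    exact h2
  obtain ⟨m, hm⟩ := h.mem_range_of_commute hn4 hqz
  obtain ⟨j, hj⟩ := hQ ⟨q, hq⟩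
  refine ⟨m, ?_, hm⟩
  have hmj : m ^ (3 ^ j) = 1 := by
    apply h.inj
    rw [map_pow, hm, map_one]
    have := congrArg Subtype.val hj
    simpa using this
  exact d8_wm_cube_of_pow hmj

/-- A 3-subgroup containing `φ m₀`, `m₀ ^ 4 ≠ 1`, has at most 9 elements. -/
theorem d8_three_subgroup_card {G : Type*} [Group G] [Finite G] {φ : WM →* G} (h : D8Cfg φ)
    (Q : Subgroup G) (hQ : IsPGroup 3 Q) (m₀ : WM) (hm₀ : m₀ ^ 4 ≠ 1) (hmem : φ m₀ ∈ Q) :
    Nat.card Q ≤ 9 := by
  classical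
  have h1 := d8_three_subgroup h Q hQ m₀ hm₀ hmem
  have h2 : (Q : Set G) ⊆ ((Finset.univ.filter (fun m : WM => m ^ 3 = 1)).image φ : Finset G) := by
    intro q hq
    obtain ⟨m, hm3, hm⟩ := h1 q hq
    simp only [Finset.coe_image, Set.mem_image, Finset.mem_coe, Finset.mem_filter,
      Finset.mem_univ, true_and]
    exact ⟨m, hm3, hm⟩
  have h3 : Nat.card Q = (Q : Set G).ncard := (Nat.card_coe_set_eq _)
  rw [h3]
  calc (Q : Set G).ncard
      ≤ (((Finset.univ.filter (fun m : WM => m ^ 3 = 1)).image φ : Finset G) : Set G).ncard :=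
        Set.ncard_le_ncard h2 (Finset.finite_toSet _)
    _ = ((Finset.univ.filter (fun m : WM => m ^ 3 = 1)).image φ).card := Set.ncard_coe_finset _
    _ ≤ (Finset.univ.filter (fun m : WM => m ^ 3 = 1)).card := Finset.card_image_le
    _ = 9 := d8_wm_card_cube

theorem d8_card_three_part {G : Type*} [Group G] [Finite G] {φ : WM →* G} (h : D8Cfg φ) :
    9 ∣ Nat.card G ∧ ¬ 27 ∣ Nat.card G := by
  have : Fact (Nat.Prime 3) := ⟨by norm_num⟩
  constructor
  · have h1 : Nat.card φ.range = 72 := by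
      rw [← Nat.card_congr (φ.ofInjective h.inj).toEquiv, Nat.card_eq_fintype_card]
      exact d8_wm_card
    have h2 : Nat.card φ.range ∣ Nat.card G := Subgroup.card_subgroup_dvd_card _
    rw [h1] at h2
    exact Dvd.dvd.trans (by norm_num) h2
  · intro h27
    -- a Sylow 3-subgroup containing `φ wT1`
    have hz : IsPGroup 3 (Subgroup.zpowers (φ wT1)) := by
      rw [IsPGroup.iff_card]
      refine ⟨1, ?_⟩
      rw [Nat.card_zpowers]
      have h1 : orderOf (φ wT1) = orderOf wT1 := orderOf_injective φ h.inj wT1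
      rw [h1]
      have h2 : wT1 ^ 3 = 1 := by decide
      have h3 : wT1 ≠ 1 := by decide
      have h4 : orderOf wT1 ∣ 3 := orderOf_dvd_of_pow_eq_one h2
      rcases (Nat.dvd_prime (by norm_num : Nat.Prime 3)).mp h4 with h5 | h5
      · exact absurd (orderOf_eq_one_iff.mp h5) h3
      · rw [h5, pow_one]
    obtain ⟨P, hP⟩ := hz.exists_le_sylow
    have h1 : Nat.card (P : Subgroup G) ≤ 9 :=
      d8_three_subgroup_card h P P.isPGroup' wT1 (by decide) (hP (Subgroup.mem_zpowers _))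
    have h2 : 3 ^ 3 ∣ Nat.card (P : Subgroup G) :=
      P.pow_dvd_card_of_pow_dvd_card (by norm_num; exact h27)
    have h3 : 0 < Nat.card (P : Subgroup G) := Nat.card_pos
    have := Nat.le_of_dvd h3 h2
    omega

end Cfsg.Agent.Helper39
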