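import Cfsg.Agent.Helper39.D8CZ1

/-!
# S3716 piece CZ2: the 3-part of `|C_G(φ u)|` is `3` for `u = wS1, wTau`
-/

set_option autoImplicit false

open Cfsg Cfsg.Agent.Helper16 DihedralGroup

namespace Cfsg.Agent.Helper39

set_option maxRecDepth 1000000 in
theorem d8_wm_card_cube_comm_s1 :
    (Finset.univ.filter (fun m : WM => m ^ 3 = 1 ∧ m * wS1 = wS1 * m)).card = 3 := by
  decide +kernel

set_option maxRecDepth 1000000 in
theorem d8_wm_card_cube_comm_tau :
    (Finset.univ.filter (fun m : WM => m ^ 3 = 1 ∧ m * wTau = wTau * m)).card = 3 := by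
  decide +kernel

/-- A 3-subgroup of `C_G(φ u)` containing `φ x₀`, `x₀ ^ 4 ≠ 1`, consists of elements `φ m`
with `m ^ 3 = 1` and `m` commuting with `u`. -/
theorem d8_centralizer_three_sub {G : Type*} [Group G] [Finite G] {φ : WM →* G} (h : D8Cfg φ)
    (u x₀ : WM) (hx : x₀ ^ 4 ≠ 1) (Q : Subgroup G) (hQ : IsPGroup 3 Q)
    (hQC : Q ≤ Subgroup.centralizer ({φ u} : Set G)) (hmem : φ x₀ ∈ Q) :
    ∀ q ∈ Q, ∃ m : WM, m ^ 3 = 1 ∧ m * u = u * m ∧ φ m = q := by
  intro q hq
  obtain ⟨m, hm3, hm⟩ := d8_three_subgroup h Q hQ x₀ hx hmem q hq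
  refine ⟨m, hm3, ?_, hm⟩
  have h1 := Subgroup.mem_centralizer_iff.mp (hQC hq) (φ u) (Set.mem_singleton _)
  apply h.inj
  rw [map_mul, map_mul, hm, h1]

/-- A Sylow 3-subgroup of `C_G(φ u)` all of whose elements are `φ m` with `m ^ 3 = 1` and `m`
commuting with `u`. -/
theorem d8_centralizer_sylow {G : Type*} [Group G] [Finite G] {φ : WM →* G} (h : D8Cfg φ)
    (u x₀ : WM) (hx3 : x₀ ^ 3 = 1) (hx : x₀ ^ 4 ≠ 1) (hxu : x₀ * u = u * x₀) :
    ∃ Q' : Sylow 3 ↥(Subgroup.centralizer ({φ u} : Set G)),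
      ∀ q ∈ (Q' : Subgroup ↥(Subgroup.centralizer ({φ u} : Set G))),
        ∃ m : WM, m ^ 3 = 1 ∧ m * u = u * m ∧ φ m = (q : G) := by
  have : Fact (Nat.Prime 3) := ⟨by norm_num⟩
  have hxC : φ x₀ ∈ Subgroup.centralizer ({φ u} : Set G) := by
    rw [Subgroup.mem_centralizer_iff]
    intro y hy
    rw [Set.mem_singleton_iff] at hy
    rw [hy, ← map_mul, ← map_mul, hxu]
  obtain ⟨x', hx'⟩ : ∃ x' : ↥(Subgroup.centralizer ({φ u} : Set G)), (x' : G) = φ x₀ :=
    ⟨⟨φ x₀, hxC⟩, rfl⟩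
  have hx'3 : x' ^ 3 = 1 := by
    apply Subtype.ext
    rw [Subgroup.coe_pow, hx', ← map_pow, hx3, map_one]
    rfl
  have hz : IsPGroup 3 (Subgroup.zpowers x') := by
    rintro ⟨y, hy⟩
    refine ⟨1, ?_⟩
    obtain ⟨i, rfl⟩ := Subgroup.mem_zpowers_iff.mp hy
    apply Subtype.ext
    simp only [pow_one, Subgroup.coe_pow, Subgroup.coe_one]
    rw [← zpow_natCast, ← zpow_mul, mul_comm, zpow_mul, zpow_natCast, hx'3, one_zpow]
  obtain ⟨Q', hQ'⟩ := hz.exists_le_sylow
  refine ⟨Q', ?_⟩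
  intro q hq
  have hQ : IsPGroup 3 ((Q' : Subgroup ↥(Subgroup.centralizer ({φ u} : Set G))).map
      (Subgroup.centralizer ({φ u} : Set G)).subtype) :=
    Q'.isPGroup'.map _
  refine d8_centralizer_three_sub h u x₀ hx _ hQ (Subgroup.map_subtype_le _) ?_ (q : G) ?_
  · exact ⟨x', hQ' (Subgroup.mem_zpowers x'), hx'⟩
  · exact ⟨q, hq, rfl⟩

/-- General form of CZ2. -/
theorem d8_centralizer_three_part_aux {G : Type*} [Group G] [Finite G] {φ : WM →* G}
    (h : D8Cfg φ) (u x₀ : WM) (hx3 : x₀ ^ 3 = 1) (hx : x₀ ^ 4 ≠ 1) (hxu : x₀ * u = u * x₀)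
    (hcard : (Finset.univ.filter (fun m : WM => m ^ 3 = 1 ∧ m * u = u * m)).card = 3) :
    3 ∣ Nat.card (Subgroup.centralizer ({φ u} : Set G)) ∧
      ¬ 9 ∣ Nat.card (Subgroup.centralizer ({φ u} : Set G)) := by
  classical
  have : Fact (Nat.Prime 3) := ⟨by norm_num⟩
  constructor
  · have hxC : Subgroup.zpowers (φ x₀) ≤ Subgroup.centralizer ({φ u} : Set G) := by
      rw [Subgroup.zpowers_le, Subgroup.mem_centralizer_iff]
      intro y hy
      rw [Set.mem_singleton_iff] at hy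
      rw [hy, ← map_mul, ← map_mul, hxu]
    have h1 := Subgroup.card_dvd_of_le hxC
    rw [Nat.card_zpowers, orderOf_injective φ h.inj x₀] at h1
    have h2 : orderOf x₀ = 3 := by
      have h4 : orderOf x₀ ∣ 3 := orderOf_dvd_of_pow_eq_one hx3
      rcases (Nat.dvd_prime (by norm_num : Nat.Prime 3)).mp h4 with h5 | h5
      · exfalso
        apply hx
        rw [orderOf_eq_one_iff.mp h5, one_pow]
      · exact h5
    rwa [h2] at h1
  · intro h9
    obtain ⟨Q', hQ'⟩ := d8_centralizer_sylow h u x₀ hx3 hx hxu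
    have h2 : 3 ^ 2 ∣ Nat.card (Q' : Subgroup ↥(Subgroup.centralizer ({φ u} : Set G))) :=
      Q'.pow_dvd_card_of_pow_dvd_card (by norm_num; exact h9)
    have h3 : Nat.card (Q' : Subgroup ↥(Subgroup.centralizer ({φ u} : Set G))) ≤ 3 := by
      have h4 : (fun q : ↥(Subgroup.centralizer ({φ u} : Set G)) => (q : G)) ''
          ((Q' : Subgroup ↥(Subgroup.centralizer ({φ u} : Set G))) :
            Set ↥(Subgroup.centralizer ({φ u} : Set G))) ⊆
          ((Finset.univ.filter (fun m : WM => m ^ 3 = 1 ∧ m * u = u * m)).image φ : Finset G) := by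
        rintro _ ⟨q, hq, rfl⟩
        obtain ⟨m, hm3, hmu, hm⟩ := hQ' q hq
        simp only [Finset.coe_image, Set.mem_image, Finset.mem_coe, Finset.mem_filter,
          Finset.mem_univ, true_and]
        exact ⟨m, ⟨hm3, hmu⟩, hm⟩
      have h5 : Nat.card (Q' : Subgroup ↥(Subgroup.centralizer ({φ u} : Set G))) =
          ((Q' : Subgroup ↥(Subgroup.centralizer ({φ u} : Set G))) :
            Set ↥(Subgroup.centralizer ({φ u} : Set G))).ncard :=
        (Nat.card_coe_set_eq _)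
      rw [h5, ← Set.ncard_image_of_injective _ Subtype.val_injective]
      calc _ ≤ (((Finset.univ.filter (fun m : WM => m ^ 3 = 1 ∧ m * u = u * m)).image φ :
              Finset G) : Set G).ncard := Set.ncard_le_ncard h4 (Finset.finite_toSet _)
        _ = ((Finset.univ.filter (fun m : WM => m ^ 3 = 1 ∧ m * u = u * m)).image φ).card :=
            Set.ncard_coe_finset _
        _ ≤ (Finset.univ.filter (fun m : WM => m ^ 3 = 1 ∧ m * u = u * m)).card :=
            Finset.card_image_le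
        _ = 3 := hcard
    have h6 : 0 < Nat.card (Q' : Subgroup ↥(Subgroup.centralizer ({φ u} : Set G))) :=
      Nat.card_pos
    have := Nat.le_of_dvd h6 h2
    omega

theorem d8_centralizer_three_part {G : Type*} [Group G] [Finite G] {φ : WM →* G} (h : D8Cfg φ)
    (u : WM) (hu : u = wS1 ∨ u = wTau) :
    3 ∣ Nat.card (Subgroup.centralizer ({φ u} : Set G)) ∧
      ¬ 9 ∣ Nat.card (Subgroup.centralizer ({φ u} : Set G)) := by
  rcases hu with rfl | rfl
  · exact d8_centralizer_three_part_aux h wS1 wT2 (by decide) (by decide) (by decide)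
      d8_wm_card_cube_comm_s1
  · exact d8_centralizer_three_part_aux h wTau wD (by decide) (by decide) (by decide)
      d8_wm_card_cube_comm_tau

end Cfsg.Agent.Helper39
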