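import Cfsg.Agent.Helper39.D8CZ2

/-!
# S3716 piece FU: `φ wS1` and `φ wTau` are not conjugate in `G`
-/

set_option autoImplicit false

open Cfsg Cfsg.Agent.Helper16 DihedralGroup

namespace Cfsg.Agent.Helper39

set_option maxRecDepth 1000000 in
theorem d8_wm_s1_not_conj_tau : ∀ k : WM, k * wS1 * k⁻¹ ≠ wTau := by decide +kernel

theorem d8_not_isConj {G : Type*} [Group G] [Finite G] {φ : WM →* G} (h : D8Cfg φ) :
    ¬ IsConj (φ wS1) (φ wTau) := by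
  have : Fact (Nat.Prime 3) := ⟨by norm_num⟩
  intro hconj
  obtain ⟨g, hg⟩ := isConj_iff.mp hconj
  -- `s = g t₂ g⁻¹` centralizes `τ`
  have hsC : g * φ wT2 * g⁻¹ ∈ Subgroup.centralizer ({φ wTau} : Set G) := by
    rw [Subgroup.mem_centralizer_iff]
    intro y hy
    rw [Set.mem_singleton_iff] at hy
    rw [hy, ← hg]
    have h1 : φ wS1 * φ wT2 = φ wT2 * φ wS1 := by
      rw [← map_mul, ← map_mul]
      congr 1
    calc g * φ wS1 * g⁻¹ * (g * φ wT2 * g⁻¹) = g * (φ wS1 * φ wT2) * g⁻¹ := by group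
      _ = g * (φ wT2 * φ wS1) * g⁻¹ := by rw [h1]
      _ = g * φ wT2 * g⁻¹ * (g * φ wS1 * g⁻¹) := by group
  obtain ⟨Q', hQ'⟩ := d8_centralizer_sylow h wTau wD (by decide) (by decide) (by decide)
  obtain ⟨s', hs'⟩ : ∃ s' : ↥(Subgroup.centralizer ({φ wTau} : Set G)),
      (s' : G) = g * φ wT2 * g⁻¹ := ⟨⟨_, hsC⟩, rfl⟩
  have hs'3 : s' ^ 3 = 1 := by
    apply Subtype.ext
    rw [Subgroup.coe_pow, hs', conj_pow, ← map_pow]
    have : wT2 ^ 3 = 1 := by decide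
    rw [this, map_one]
    simp
  have hz : IsPGroup 3 (Subgroup.zpowers s') := by
    rintro ⟨y, hy⟩
    refine ⟨1, ?_⟩
    obtain ⟨i, rfl⟩ := Subgroup.mem_zpowers_iff.mp hy
    apply Subtype.ext
    simp only [pow_one, Subgroup.coe_pow, Subgroup.coe_one]
    rw [← zpow_natCast, ← zpow_mul, mul_comm, zpow_mul, zpow_natCast, hs'3, one_zpow]
  obtain ⟨R, hR⟩ := hz.exists_le_sylow
  obtain ⟨c, hc⟩ := MulAction.exists_smul_eq
    ↥(Subgroup.centralizer ({φ wTau} : Set G)) Q' R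
  have hsR : s' ∈ (R : Subgroup ↥(Subgroup.centralizer ({φ wTau} : Set G))) :=
    hR (Subgroup.mem_zpowers s')
  have hcs : c⁻¹ * s' * c ∈ (Q' : Subgroup ↥(Subgroup.centralizer ({φ wTau} : Set G))) := by
    rw [← hc] at hsR
    rw [Sylow.coe_subgroup_smul, Subgroup.mem_pointwise_smul_iff_inv_smul_mem] at hsR
    simpa [MulAut.smul_def] using hsR
  obtain ⟨m, -, -, hm⟩ := hQ' _ hcs
  have hm' : ((c : G)⁻¹ * g) * φ wT2 * ((c : G)⁻¹ * g)⁻¹ = φ m := by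
    rw [hm]
    simp only [Subgroup.coe_mul, Subgroup.coe_inv, hs']
    group
  obtain ⟨k, hk⟩ := h.ti wT2 (by decide) ((c : G)⁻¹ * g) (by rw [hm']; exact ⟨m, rfl⟩)
  have hcτ : φ wTau * (c : G) = (c : G) * φ wTau :=
    Subgroup.mem_centralizer_iff.mp c.2 (φ wTau) (Set.mem_singleton _)
  have h2 : φ (k * wS1 * k⁻¹) = φ wTau := by
    rw [map_mul, map_mul, map_inv, hk]
    calc (c : G)⁻¹ * g * φ wS1 * ((c : G)⁻¹ * g)⁻¹
        = (c : G)⁻¹ * (g * φ wS1 * g⁻¹) * (c : G) := by group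
      _ = (c : G)⁻¹ * (φ wTau * (c : G)) := by rw [hg, mul_assoc]
      _ = φ wTau := by rw [hcτ]; group
  exact d8_wm_s1_not_conj_tau k (h.inj h2)

end Cfsg.Agent.Helper39
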