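import Mathlib
import Cfsg.Prelude.Def_LocalEven
import Cfsg.Agent.Helper5.SL2Sylow

set_option autoImplicit false

namespace Cfsg.Agent.Helper39

open Matrix

section qd
variable {F : Type*} [Field F]

/-- The set defining `qdOver` is already a subgroup. -/
def qdSub (F : Type*) [Field F] : Subgroup (Matrix.SpecialLinearGroup (Fin 3) F) where
  carrier := {M | (M : Matrix (Fin 3) (Fin 3) F) 2 0 = 0 ∧
    (M : Matrix (Fin 3) (Fin 3) F) 2 1 = 0 ∧ (M : Matrix (Fin 3) (Fin 3) F) 2 2 = 1}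
  one_mem' := by simp
  mul_mem' := by
    rintro A B ⟨a0, a1, a2⟩ ⟨b0, b1, b2⟩
    refine ⟨?_, ?_, ?_⟩ <;>
      simp [Matrix.SpecialLinearGroup.coe_mul, Matrix.mul_apply, Fin.sum_univ_three, a0, a1, a2,
        b0, b1, b2]
  inv_mem' := by
    rintro A ⟨a0, a1, a2⟩
    have h : (A : Matrix (Fin 3) (Fin 3) F) * ((A⁻¹ : Matrix.SpecialLinearGroup (Fin 3) F) :
        Matrix (Fin 3) (Fin 3) F) = 1 := by
      rw [← Matrix.SpecialLinearGroup.coe_mul, mul_inv_cancel, Matrix.SpecialLinearGroup.coe_one]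
    have h0 := congrFun (congrFun h 2) 0
    have h1 := congrFun (congrFun h 2) 1
    have h2 := congrFun (congrFun h 2) 2
    simp [Matrix.mul_apply, Fin.sum_univ_three, a0, a1, a2] at h0 h1 h2
    exact ⟨h0, h1, h2⟩

theorem qdOver_eq : Cfsg.qdOver F = qdSub F := Subgroup.closure_eq (qdSub F)

theorem qd_mem_iff (M : Matrix.SpecialLinearGroup (Fin 3) F) :
    M ∈ Cfsg.qdOver F ↔ (M : Matrix (Fin 3) (Fin 3) F) 2 0 = 0 ∧
      (M : Matrix (Fin 3) (Fin 3) F) 2 1 = 0 ∧ (M : Matrix (Fin 3) (Fin 3) F) 2 2 = 1 := by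
  rw [qdOver_eq]; rfl

/-- Matrix entries of an element of `Qd`. -/
def qdE (M : ↥(Cfsg.qdOver F)) (i j : Fin 3) : F :=
  ((M : Matrix.SpecialLinearGroup (Fin 3) F) : Matrix (Fin 3) (Fin 3) F) i j

theorem qdE_20 (M : ↥(Cfsg.qdOver F)) : qdE M 2 0 = 0 := ((qd_mem_iff _).1 M.2).1
theorem qdE_21 (M : ↥(Cfsg.qdOver F)) : qdE M 2 1 = 0 := ((qd_mem_iff _).1 M.2).2.1
theorem qdE_22 (M : ↥(Cfsg.qdOver F)) : qdE M 2 2 = 1 := ((qd_mem_iff _).1 M.2).2.2

theorem qdE_one (i j : Fin 3) : qdE (1 : ↥(Cfsg.qdOver F)) i j = if i = j then 1 else 0 := by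
  show ((1 : Matrix.SpecialLinearGroup (Fin 3) F) : Matrix (Fin 3) (Fin 3) F) i j = _
  rw [Matrix.SpecialLinearGroup.coe_one, Matrix.one_apply]

theorem qdE_mul (M N : ↥(Cfsg.qdOver F)) (i j : Fin 3) :
    qdE (M * N) i j = qdE M i 0 * qdE N 0 j + qdE M i 1 * qdE N 1 j + qdE M i 2 * qdE N 2 j := by
  show (((M : Matrix.SpecialLinearGroup (Fin 3) F) * (N : Matrix.SpecialLinearGroup (Fin 3) F) :
    Matrix.SpecialLinearGroup (Fin 3) F) : Matrix (Fin 3) (Fin 3) F) i j = _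
  rw [Matrix.SpecialLinearGroup.coe_mul, Matrix.mul_apply, Fin.sum_univ_three]
  rfl

theorem qdE_ext {M N : ↥(Cfsg.qdOver F)} (h : ∀ i j, qdE M i j = qdE N i j) : M = N := by
  apply Subtype.ext
  apply Subtype.ext
  ext i j
  exact h i j

theorem qdE_det (M : ↥(Cfsg.qdOver F)) :
    qdE M 0 0 * qdE M 1 1 - qdE M 0 1 * qdE M 1 0 = 1 := by
  have hdet : ((M : Matrix.SpecialLinearGroup (Fin 3) F) : Matrix (Fin 3) (Fin 3) F).det = 1 :=
    (M : Matrix.SpecialLinearGroup (Fin 3) F).2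
  rw [Matrix.det_fin_three] at hdet
  have h0 := qdE_20 M
  have h1 := qdE_21 M
  have h2 := qdE_22 M
  unfold qdE at *
  rw [h0, h1, h2] at hdet
  linear_combination hdet

/-- Projection `Qd → SL₂` (function). -/
def qdPiFun (M : ↥(Cfsg.qdOver F)) : Matrix.SpecialLinearGroup (Fin 2) F :=
  ⟨!![qdE M 0 0, qdE M 0 1; qdE M 1 0, qdE M 1 1], by
    rw [Matrix.det_fin_two_of]; exact qdE_det M⟩

theorem qdPiFun_coe (M : ↥(Cfsg.qdOver F)) :
    (qdPiFun M : Matrix (Fin 2) (Fin 2) F) = !![qdE M 0 0, qdE M 0 1; qdE M 1 0, qdE M 1 1] := rfl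

/-- Projection `Qd → SL₂`. -/
def qdPi (F : Type*) [Field F] : ↥(Cfsg.qdOver F) →* Matrix.SpecialLinearGroup (Fin 2) F where
  toFun M := qdPiFun M
  map_one' := by
    apply Subtype.ext
    rw [qdPiFun_coe, Matrix.SpecialLinearGroup.coe_one]
    ext i j
    fin_cases i <;> fin_cases j <;> simp [qdE_one]
  map_mul' M N := by
    apply Subtype.ext
    rw [Matrix.SpecialLinearGroup.coe_mul, qdPiFun_coe, qdPiFun_coe, qdPiFun_coe]
    ext i j
    fin_cases i <;> fin_cases j <;>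
      simp [Matrix.mul_apply, Fin.sum_univ_two, qdE_mul, qdE_20, qdE_21]

theorem qdPi_apply (M : ↥(Cfsg.qdOver F)) (i j : Fin 2) :
    (qdPi F M : Matrix (Fin 2) (Fin 2) F) i j =
      qdE M (Fin.castSucc i) (Fin.castSucc j) := by
  show (qdPiFun M : Matrix (Fin 2) (Fin 2) F) i j = _
  rw [qdPiFun_coe]
  fin_cases i <;> fin_cases j <;> rfl

theorem qdPi_eq_one_iff (M : ↥(Cfsg.qdOver F)) :
    qdPi F M = 1 ↔ qdE M 0 0 = 1 ∧ qdE M 0 1 = 0 ∧ qdE M 1 0 = 0 ∧ qdE M 1 1 = 1 := by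
  constructor
  · intro h
    have h' : ∀ i j : Fin 2, (qdPi F M : Matrix (Fin 2) (Fin 2) F) i j =
        (1 : Matrix (Fin 2) (Fin 2) F) i j := by
      intro i j; rw [h]; rfl
    refine ⟨?_, ?_, ?_, ?_⟩
    · have := h' 0 0; rw [qdPi_apply] at this; simpa using this
    · have := h' 0 1; rw [qdPi_apply] at this; simpa using this
    · have := h' 1 0; rw [qdPi_apply] at this; simpa using this
    · have := h' 1 1; rw [qdPi_apply] at this; simpa using this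
  · rintro ⟨h00, h01, h10, h11⟩
    apply Subtype.ext
    ext i j
    rw [qdPi_apply]
    fin_cases i <;> fin_cases j <;> simp [h00, h01, h10, h11]

/-- The translation matrix `T(v)` in `SL₃`. -/
def qdTm (v : Fin 2 → F) : Matrix.SpecialLinearGroup (Fin 3) F :=
  ⟨!![1, 0, v 0; 0, 1, v 1; 0, 0, 1], by simp [Matrix.det_fin_three]⟩

theorem qdTm_coe (v : Fin 2 → F) :
    (qdTm v : Matrix (Fin 3) (Fin 3) F) = !![1, 0, v 0; 0, 1, v 1; 0, 0, 1] := rfl

/-- The translation `T(v)`. -/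
def qdT (v : Fin 2 → F) : ↥(Cfsg.qdOver F) :=
  ⟨qdTm v, (qd_mem_iff _).2 (by rw [qdTm_coe]; simp)⟩

/-- The block-diagonal matrix `D(A)` in `SL₃`. -/
def qdDm (A : Matrix.SpecialLinearGroup (Fin 2) F) : Matrix.SpecialLinearGroup (Fin 3) F :=
  ⟨!![(A : Matrix (Fin 2) (Fin 2) F) 0 0, (A : Matrix (Fin 2) (Fin 2) F) 0 1, 0;
      (A : Matrix (Fin 2) (Fin 2) F) 1 0, (A : Matrix (Fin 2) (Fin 2) F) 1 1, 0; 0, 0, 1], by
    have h := A.2
    rw [Matrix.det_fin_two] at h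
    simp [Matrix.det_fin_three]
    linear_combination h⟩

theorem qdDm_coe (A : Matrix.SpecialLinearGroup (Fin 2) F) :
    (qdDm A : Matrix (Fin 3) (Fin 3) F) =
      !![(A : Matrix (Fin 2) (Fin 2) F) 0 0, (A : Matrix (Fin 2) (Fin 2) F) 0 1, 0;
      (A : Matrix (Fin 2) (Fin 2) F) 1 0, (A : Matrix (Fin 2) (Fin 2) F) 1 1, 0; 0, 0, 1] := rfl

/-- The block-diagonal element `D(A)`. -/
def qdD (A : Matrix.SpecialLinearGroup (Fin 2) F) : ↥(Cfsg.qdOver F) :=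
  ⟨qdDm A, (qd_mem_iff _).2 (by rw [qdDm_coe]; simp)⟩

theorem qdT_entries (v : Fin 2 → F) :
    qdE (qdT v) 0 0 = 1 ∧ qdE (qdT v) 0 1 = 0 ∧ qdE (qdT v) 0 2 = v 0 ∧
    qdE (qdT v) 1 0 = 0 ∧ qdE (qdT v) 1 1 = 1 ∧ qdE (qdT v) 1 2 = v 1 := by
  refine ⟨?_, ?_, ?_, ?_, ?_, ?_⟩ <;> simp [qdE, qdT, qdTm_coe]

theorem qdD_entries (A : Matrix.SpecialLinearGroup (Fin 2) F) :
    qdE (qdD A) 0 0 = (A : Matrix (Fin 2) (Fin 2) F) 0 0 ∧
    qdE (qdD A) 0 1 = (A : Matrix (Fin 2) (Fin 2) F) 0 1 ∧ qdE (qdD A) 0 2 = 0 ∧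
    qdE (qdD A) 1 0 = (A : Matrix (Fin 2) (Fin 2) F) 1 0 ∧
    qdE (qdD A) 1 1 = (A : Matrix (Fin 2) (Fin 2) F) 1 1 ∧ qdE (qdD A) 1 2 = 0 := by
  refine ⟨?_, ?_, ?_, ?_, ?_, ?_⟩ <;> simp [qdE, qdD, qdDm_coe]

theorem qdPi_qdD (A : Matrix.SpecialLinearGroup (Fin 2) F) : qdPi F (qdD A) = A := by
  apply Subtype.ext
  ext i j
  rw [qdPi_apply]
  obtain ⟨h00, h01, -, h10, h11, -⟩ := qdD_entries A
  fin_cases i <;> fin_cases j <;> simp [h00, h01, h10, h11]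

theorem qdPi_qdT (v : Fin 2 → F) : qdPi F (qdT v) = 1 := by
  rw [qdPi_eq_one_iff]
  obtain ⟨h00, h01, -, h10, h11, -⟩ := qdT_entries v
  exact ⟨h00, h01, h10, h11⟩

theorem qdPi_surjective : Function.Surjective (qdPi F) := fun A => ⟨qdD A, qdPi_qdD A⟩

end qd

section qdker
variable {F : Type*} [Field F]

/-- Coordinates of a translation. -/
def qdPsi (M : ↥(qdPi F).ker) : Fin 2 → F := ![qdE M.1 0 2, qdE M.1 1 2]

theorem qd_ker_entries (M : ↥(qdPi F).ker) :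
    qdE M.1 0 0 = 1 ∧ qdE M.1 0 1 = 0 ∧ qdE M.1 1 0 = 0 ∧ qdE M.1 1 1 = 1 :=
  (qdPi_eq_one_iff M.1).1 (MonoidHom.mem_ker.1 M.2)

theorem qdPsi_mul (M N : ↥(qdPi F).ker) : qdPsi (M * N) = qdPsi M + qdPsi N := by
  obtain ⟨m00, m01, m10, m11⟩ := qd_ker_entries M
  ext i
  fin_cases i
  · show qdE (M.1 * N.1) 0 2 = qdE M.1 0 2 + qdE N.1 0 2
    rw [qdE_mul, m00, m01, qdE_22]; ring
  · show qdE (M.1 * N.1) 1 2 = qdE M.1 1 2 + qdE N.1 1 2
    rw [qdE_mul, m10, m11, qdE_22]; ring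

theorem qdPsi_injective : Function.Injective (qdPsi (F := F)) := by
  intro M N h
  obtain ⟨m00, m01, m10, m11⟩ := qd_ker_entries M
  obtain ⟨n00, n01, n10, n11⟩ := qd_ker_entries N
  have h0 : qdE M.1 0 2 = qdE N.1 0 2 := congrFun h 0
  have h1 : qdE M.1 1 2 = qdE N.1 1 2 := congrFun h 1
  apply Subtype.ext
  apply qdE_ext
  intro i j
  fin_cases i <;> fin_cases j
  · exact m00.trans n00.symm
  · exact m01.trans n01.symm
  · exact h0
  · exact m10.trans n10.symm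
  · exact m11.trans n11.symm
  · exact h1
  · exact (qdE_20 M.1).trans (qdE_20 N.1).symm
  · exact (qdE_21 M.1).trans (qdE_21 N.1).symm
  · exact (qdE_22 M.1).trans (qdE_22 N.1).symm

theorem qdT_mem_ker (v : Fin 2 → F) : qdT v ∈ (qdPi F).ker := MonoidHom.mem_ker.2 (qdPi_qdT v)

theorem qdPsi_qdT (v : Fin 2 → F) : qdPsi ⟨qdT v, qdT_mem_ker v⟩ = v := by
  obtain ⟨-, -, h02, -, -, h12⟩ := qdT_entries v
  ext i
  fin_cases i
  · exact h02
  · exact h12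

theorem qdPsi_surjective : Function.Surjective (qdPsi (F := F)) :=
  fun v => ⟨⟨qdT v, qdT_mem_ker v⟩, qdPsi_qdT v⟩

theorem qdPsi_one : qdPsi (1 : ↥(qdPi F).ker) = 0 := by
  have := qdPsi_mul (1 : ↥(qdPi F).ker) 1
  rw [mul_one] at this
  exact left_eq_add.1 this

theorem qdPsi_pow (M : ↥(qdPi F).ker) (k : ℕ) : qdPsi (M ^ k) = k • qdPsi M := by
  induction k with
  | zero => rw [pow_zero, zero_smul, qdPsi_one]
  | succ k ih => rw [pow_succ, qdPsi_mul, ih, add_smul, one_smul]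

/-- The complement `K` of block-diagonal matrices. -/
def qdK (F : Type*) [Field F] : Subgroup ↥(Cfsg.qdOver F) where
  carrier := {M | qdE M 0 2 = 0 ∧ qdE M 1 2 = 0}
  one_mem' := by
    constructor <;> simp [qdE_one]
  mul_mem' := by
    rintro A B ⟨a0, a1⟩ ⟨b0, b1⟩
    constructor
    · show qdE (A * B) 0 2 = 0
      rw [qdE_mul, a0, b0, b1]; ring
    · show qdE (A * B) 1 2 = 0
      rw [qdE_mul, a1, b0, b1]; ring
  inv_mem' := by
    rintro A ⟨a0, a1⟩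
    have h : A * A⁻¹ = 1 := mul_inv_cancel A
    have h0 : qdE (A * A⁻¹) 0 2 = 0 := by rw [h, qdE_one]; simp
    have h1 : qdE (A * A⁻¹) 1 2 = 0 := by rw [h, qdE_one]; simp
    rw [qdE_mul, a0, zero_mul, add_zero] at h0
    rw [qdE_mul, a1, zero_mul, add_zero] at h1
    have hdet := qdE_det A
    constructor
    · show qdE A⁻¹ 0 2 = 0
      linear_combination qdE A 1 1 * h0 - qdE A 0 1 * h1 - qdE A⁻¹ 0 2 * hdet
    · show qdE A⁻¹ 1 2 = 0
      linear_combination qdE A 0 0 * h1 - qdE A 1 0 * h0 - qdE A⁻¹ 1 2 * hdet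

theorem mem_qdK (M : ↥(Cfsg.qdOver F)) : M ∈ qdK F ↔ qdE M 0 2 = 0 ∧ qdE M 1 2 = 0 := Iff.rfl

theorem qdD_mem_qdK (A : Matrix.SpecialLinearGroup (Fin 2) F) : qdD A ∈ qdK F := by
  obtain ⟨-, -, h02, -, -, h12⟩ := qdD_entries A
  exact ⟨h02, h12⟩

theorem qdK_inf_ker : qdK F ⊓ (qdPi F).ker = ⊥ := by
  rw [eq_bot_iff]
  rintro M ⟨⟨h02, h12⟩, hM⟩
  obtain ⟨m00, m01, m10, m11⟩ := (qdPi_eq_one_iff M).1 (MonoidHom.mem_ker.1 hM)
  rw [Subgroup.mem_bot]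
  apply qdE_ext
  intro i j
  rw [qdE_one]
  fin_cases i <;> fin_cases j
  · simpa using m00
  · simpa using m01
  · simpa using h02
  · simpa using m10
  · simpa using m11
  · simpa using h12
  · simpa using qdE_20 M
  · simpa using qdE_21 M
  · simpa using qdE_22 M

theorem qdK_sup_ker : qdK F ⊔ (qdPi F).ker = ⊤ := by
  rw [eq_top_iff]
  intro M _
  have h1 : M * (qdD (qdPi F M))⁻¹ ∈ (qdPi F).ker := by
    rw [MonoidHom.mem_ker, map_mul, map_inv, qdPi_qdD, mul_inv_cancel]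
  have h2 : M = (M * (qdD (qdPi F M))⁻¹) * qdD (qdPi F M) := by group
  rw [h2, sup_comm]
  exact Subgroup.mul_mem_sup h1 (qdD_mem_qdK _)

theorem qdK_restrict_bijective :
    Function.Bijective ((qdPi F).comp (qdK F).subtype) := by
  constructor
  · rw [← MonoidHom.ker_eq_bot_iff, eq_bot_iff]
    intro k hk
    rw [MonoidHom.mem_ker] at hk
    have : (k : ↥(Cfsg.qdOver F)) ∈ qdK F ⊓ (qdPi F).ker :=
      ⟨k.2, MonoidHom.mem_ker.2 hk⟩
    rw [qdK_inf_ker, Subgroup.mem_bot] at this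
    rw [Subgroup.mem_bot]
    exact Subtype.ext this
  · intro A
    exact ⟨⟨qdD A, qdD_mem_qdK A⟩, qdPi_qdD A⟩

theorem qd_natural : Cfsg.IsNaturalSL2Module F (qdPi F).ker (qdK F) := by
  have hker_normal : ((qdPi F).ker).Normal := inferInstance
  refine ⟨?_, (qdPi F).comp (qdK F).subtype,
    AddEquiv.mk' (Equiv.ofBijective (fun a : Additive ↥(qdPi F).ker => qdPsi (Additive.toMul a))
      ⟨fun a b h => Additive.toMul.injective (qdPsi_injective h),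
        fun v => ⟨Additive.ofMul ⟨qdT v, qdT_mem_ker v⟩, qdPsi_qdT v⟩⟩)
      (fun a b => qdPsi_mul (Additive.toMul a) (Additive.toMul b)),
    qdK_restrict_bijective.2, ?_, ?_⟩
  · intro l _
    rw [Subgroup.mem_normalizer_iff]
    intro h
    constructor
    · intro hh
      exact hker_normal.conj_mem h hh l
    · intro hh
      have := hker_normal.conj_mem _ hh l⁻¹
      have e : l⁻¹ * (l * h * l⁻¹) * l⁻¹⁻¹ = h := by group
      rwa [e] at this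
  · ext k
    rw [MonoidHom.mem_ker, Subgroup.mem_subgroupOf, Subgroup.mem_centralizer_iff]
    constructor
    · intro hk
      have : k = 1 := qdK_restrict_bijective.1 (hk.trans (map_one _).symm)
      rw [this]
      intro h _
      simp
    · intro hc
      obtain ⟨k02, k12⟩ := (mem_qdK _).1 k.2
      have key : ∀ v : Fin 2 → F,
          qdE (k : ↥(Cfsg.qdOver F)) 0 0 * v 0 + qdE (k : ↥(Cfsg.qdOver F)) 0 1 * v 1 = v 0 ∧
          qdE (k : ↥(Cfsg.qdOver F)) 1 0 * v 0 + qdE (k : ↥(Cfsg.qdOver F)) 1 1 * v 1 = v 1 := by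
        intro v
        have hcv := hc (qdT v) (qdT_mem_ker v)
        obtain ⟨t00, t01, t02, t10, t11, t12⟩ := qdT_entries v
        have e0 := congrArg (fun M => qdE M 0 2) hcv
        have e1 := congrArg (fun M => qdE M 1 2) hcv
        simp only [qdE_mul, t00, t01, t02, t10, t11, t12, k02, k12, qdE_22] at e0 e1
        constructor
        · linear_combination -e0
        · linear_combination -e1
      have h1 := key ![1, 0]
      have h2 := key ![0, 1]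
      simp at h1 h2
      show qdPi F (k : ↥(Cfsg.qdOver F)) = 1
      rw [qdPi_eq_one_iff]
      exact ⟨h1.1, h2.1, h1.2, h2.2⟩
  · intro l v
    have hmem : (l : ↥(Cfsg.qdOver F)) * v * (l : ↥(Cfsg.qdOver F))⁻¹ ∈ (qdPi F).ker :=
      hker_normal.conj_mem v v.2 l
    refine ⟨⟨_, hmem⟩, rfl, ?_⟩
    obtain ⟨l02, l12⟩ := (mem_qdK _).1 l.2
    have hcl : ((l : ↥(Cfsg.qdOver F)) * v * (l : ↥(Cfsg.qdOver F))⁻¹) * l = l * v := by group
    have e0 := congrArg (fun M => qdE M 0 2) hcl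
    have e1 := congrArg (fun M => qdE M 1 2) hcl
    simp only [qdE_mul _ (l : ↥(Cfsg.qdOver F)), qdE_mul (l : ↥(Cfsg.qdOver F)) v, l02, l12,
      qdE_22, mul_zero, add_zero, zero_add, mul_one] at e0 e1
    show qdPsi ⟨_, hmem⟩ = (qdPi F (l : ↥(Cfsg.qdOver F)) : Matrix (Fin 2) (Fin 2) F) *ᵥ qdPsi v
    ext i
    fin_cases i
    · show qdE ((l : ↥(Cfsg.qdOver F)) * (v : ↥(Cfsg.qdOver F)) * (l : ↥(Cfsg.qdOver F))⁻¹) 0 2 = _
      rw [e0]
      simp [Matrix.mulVec, dotProduct, Fin.sum_univ_two, qdPi_apply, qdPsi]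
    · show qdE ((l : ↥(Cfsg.qdOver F)) * (v : ↥(Cfsg.qdOver F)) * (l : ↥(Cfsg.qdOver F))⁻¹) 1 2 = _
      rw [e1]
      simp [Matrix.mulVec, dotProduct, Fin.sum_univ_two, qdPi_apply, qdPsi]

end qdker

section qdmain
variable {F : Type*} [Field F]

/-- The Weyl element of `SL₂`. -/
def qdW (F : Type*) [Field F] : Matrix.SpecialLinearGroup (Fin 2) F :=
  ⟨!![0, 1; -1, 0], by simp [Matrix.det_fin_two]⟩

theorem qdW_coe : (qdW F : Matrix (Fin 2) (Fin 2) F) = !![0, 1; -1, 0] := rfl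

theorem qdW_conj_uSL_entry (b : F) :
    ((qdW F * Helper5.uSL b * (qdW F)⁻¹ : Matrix.SpecialLinearGroup (Fin 2) F) :
      Matrix (Fin 2) (Fin 2) F) 1 0 = -b := by
  rw [Matrix.SpecialLinearGroup.coe_mul, Matrix.SpecialLinearGroup.coe_mul,
    Matrix.SpecialLinearGroup.coe_inv, Matrix.adjugate_fin_two, qdW_coe, Helper5.uSL_coe]
  simp [Matrix.mul_apply, Fin.sum_univ_two]

variable [Fintype F] {p : ℕ} [Fact p.Prime] [CharP F p]

theorem sl2_normal_pgroup_eq_bot (P : Subgroup (Matrix.SpecialLinearGroup (Fin 2) F))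
    (hn : P.Normal) (hP : IsPGroup p P) : P = ⊥ := by
  obtain ⟨P₁, hP₁⟩ := hP.exists_le_sylow
  obtain ⟨g, hg⟩ := MulAction.exists_smul_eq (Matrix.SpecialLinearGroup (Fin 2) F) P₁
    (Helper5.sylowUSL p)
  have hle : P ≤ Helper5.USL := by
    intro x hx
    rw [← Helper5.sylowUSL_coe p, ← hg, Sylow.coe_subgroup_smul,
      Subgroup.mem_pointwise_smul_iff_inv_smul_mem]
    apply hP₁
    have : (MulAut.conj g)⁻¹ • x = g⁻¹ * x * g⁻¹⁻¹ := by
      rw [MulAut.smul_def, MulAut.conj_inv_apply, inv_inv]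
    rw [this]
    exact hn.conj_mem x hx g⁻¹
  rw [eq_bot_iff]
  intro x hx
  obtain ⟨b, rfl⟩ := (Helper5.mem_USL_iff x).1 (hle hx)
  have hw := hle (hn.conj_mem _ hx (qdW F))
  obtain ⟨c, hc⟩ := (Helper5.mem_USL_iff _).1 hw
  have h10 := congrArg (fun M : Matrix.SpecialLinearGroup (Fin 2) F =>
    (M : Matrix (Fin 2) (Fin 2) F) 1 0) hc
  simp only [qdW_conj_uSL_entry, Helper5.uSL_coe] at h10
  have hb : b = 0 := by
    have : (0 : F) = -b := by simpa using h10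
    exact neg_eq_zero.1 this.symm
  rw [Subgroup.mem_bot, hb, Helper5.uSL_zero]

theorem qd_ker_isPGroup : IsPGroup p ↥(qdPi F).ker := by
  intro M
  refine ⟨1, ?_⟩
  rw [pow_one]
  apply qdPsi_injective
  rw [qdPsi_pow, qdPsi_one]
  ext i
  simp [CharP.cast_eq_zero]

theorem qd_pCore_eq_ker : Cfsg.pCore p ↥(Cfsg.qdOver F) = (qdPi F).ker := by
  apply le_antisymm
  · have hO : IsPGroup p (Cfsg.pCore p ↥(Cfsg.qdOver F)) :=
      Sylow.sSup_of_normal _ (fun _ h => h.2) (fun _ h => h.1)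
    have hOn : (Cfsg.pCore p ↥(Cfsg.qdOver F)).Normal := Subgroup.sSup_normal _ (fun _ h => h.1)
    have himg : ((Cfsg.pCore p ↥(Cfsg.qdOver F)).map (qdPi F)) = ⊥ :=
      sl2_normal_pgroup_eq_bot _ (hOn.map _ qdPi_surjective) (hO.map _)
    intro M hM
    rw [MonoidHom.mem_ker]
    have : qdPi F M ∈ (Cfsg.pCore p ↥(Cfsg.qdOver F)).map (qdPi F) :=
      Subgroup.mem_map_of_mem _ hM
    rw [himg, Subgroup.mem_bot] at this
    exact this
  · exact le_sSup ⟨inferInstance, qd_ker_isPGroup⟩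

theorem qd_structure :
    (∀ M : ↥(Cfsg.qdOver F), M ∈ Cfsg.pCore p ↥(Cfsg.qdOver F) ↔
      ((M : Matrix.SpecialLinearGroup (Fin 3) F) : Matrix (Fin 3) (Fin 3) F) 0 0 = 1 ∧
      ((M : Matrix.SpecialLinearGroup (Fin 3) F) : Matrix (Fin 3) (Fin 3) F) 0 1 = 0 ∧
      ((M : Matrix.SpecialLinearGroup (Fin 3) F) : Matrix (Fin 3) (Fin 3) F) 1 0 = 0 ∧
      ((M : Matrix.SpecialLinearGroup (Fin 3) F) : Matrix (Fin 3) (Fin 3) F) 1 1 = 1) ∧
    ∃ K : Subgroup ↥(Cfsg.qdOver F),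
      (∀ M : ↥(Cfsg.qdOver F), M ∈ K ↔
        ((M : Matrix.SpecialLinearGroup (Fin 3) F) : Matrix (Fin 3) (Fin 3) F) 0 2 = 0 ∧
        ((M : Matrix.SpecialLinearGroup (Fin 3) F) : Matrix (Fin 3) (Fin 3) F) 1 2 = 0) ∧
      K ⊓ Cfsg.pCore p ↥(Cfsg.qdOver F) = ⊥ ∧ K ⊔ Cfsg.pCore p ↥(Cfsg.qdOver F) = ⊤ ∧
      Nonempty (↥K ≃* Matrix.SpecialLinearGroup (Fin 2) F) ∧
      Cfsg.IsNaturalSL2Module F (Cfsg.pCore p ↥(Cfsg.qdOver F)) K := by
  rw [qd_pCore_eq_ker]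
  refine ⟨?_, qdK F, ?_, qdK_inf_ker, qdK_sup_ker,
    ⟨MulEquiv.ofBijective _ qdK_restrict_bijective⟩, qd_natural⟩
  · intro M
    rw [MonoidHom.mem_ker, qdPi_eq_one_iff]
    rfl
  · intro M
    exact mem_qdK M

end qdmain

end Cfsg.Agent.Helper39
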