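-- helper39: piece STEP3 of CALL S2459 (helper35): over the field with three elements a non-scalar
-- matrix of determinant one is similar to a product `Lhat * Uhat` of block triangular matrices
-- whose 2x2 blocks square to `-1` (given the first-column normal form FC3 as a hypothesis in
-- `sou3_step_three_of`).
import Mathlib

set_option autoImplicit false
open Matrix

namespace Cfsg.Agent.Helper39

/-- In a field with three elements every element is `0`, `1` or `-1`, and `1 + 1 + 1 = 0`. -/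
theorem sou3_three_facts {F : Type*} [Field F] [Fintype F] (hF : Fintype.card F = 3) :
    ((1 : F) + 1 + 1 = 0) ∧ ∀ x : F, x = 0 ∨ x = 1 ∨ x = -1 := by
  classical
  have h3 : ((3 : ℕ) : F) = 0 := by
    rw [← hF]
    exact Nat.cast_card_eq_zero F
  have h3' : (1 : F) + 1 + 1 = 0 := by
    have : ((3 : ℕ) : F) = 1 + 1 + 1 := by norm_num
    rw [← this]
    exact h3
  refine ⟨h3', ?_⟩
  have h10 : (1 : F) ≠ 0 := one_ne_zero
  have hm10 : (-1 : F) ≠ 0 := neg_ne_zero.mpr one_ne_zero
  have hm11 : (-1 : F) ≠ 1 := by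
    intro h
    have : (1 : F) = 0 := by linear_combination h3' + h
    exact h10 this
  have hcard : ({0, 1, -1} : Finset F).card = 3 := by
    rw [Finset.card_insert_of_notMem, Finset.card_insert_of_notMem, Finset.card_singleton]
    · simp only [Finset.mem_singleton]
      exact fun h => hm11 h.symm
    · simp only [Finset.mem_insert, Finset.mem_singleton, not_or]
      exact ⟨fun h => h10 h.symm, fun h => hm10 h.symm⟩
  have huniv : ({0, 1, -1} : Finset F) = Finset.univ :=
    Finset.eq_univ_of_card _ (by rw [hcard, hF])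
  intro x
  have hx : x ∈ ({0, 1, -1} : Finset F) := by
    rw [huniv]
    exact Finset.mem_univ x
  simpa using hx

/-- Case `z = y`: `!![x, y; y, -x] = R * U` with `R² = U² = -1`. -/
theorem sou3_factor_sym {F : Type*} [Field F] (x y : F) (h : x * x + y * y = -1) :
    ∃ L U : Matrix (Fin 2) (Fin 2) F, L * L = -1 ∧ U * U = -1 ∧ L * U = !![x, y; y, -x] := by
  refine ⟨!![0, -1; 1, 0], !![y, -x; -x, -y], ?_, ?_, ?_⟩
  · ext i j
    fin_cases i <;> fin_cases j <;> simp [Matrix.mul_apply, Fin.sum_univ_two]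
  · ext i j
    fin_cases i <;> fin_cases j <;> simp [Matrix.mul_apply, Fin.sum_univ_two]
    · linear_combination h
    · ring
    · ring
    · linear_combination h
  · ext i j
    fin_cases i <;> fin_cases j <;> simp [Matrix.mul_apply, Fin.sum_univ_two]

/-- Case `x = 0`, `z = -y`, `y² = 1`, characteristic 3. -/
theorem sou3_factor_skew {F : Type*} [Field F] (h3 : (1 : F) + 1 + 1 = 0) (y : F)
    (hy : y * y = 1) :
    ∃ L U : Matrix (Fin 2) (Fin 2) F, L * L = -1 ∧ U * U = -1 ∧ L * U = !![0, y; -y, 0] := by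
  refine ⟨!![1, 1; 1, -1], !![y, -y; -y, -y], ?_, ?_, ?_⟩
  · ext i j
    fin_cases i <;> fin_cases j <;> simp [Matrix.mul_apply, Fin.sum_univ_two]
    · linear_combination h3
    · linear_combination h3
  · ext i j
    fin_cases i <;> fin_cases j <;> simp [Matrix.mul_apply, Fin.sum_univ_two]
    · linear_combination 2 * hy + h3
    · linear_combination 2 * hy + h3
  · ext i j
    fin_cases i <;> fin_cases j <;> simp [Matrix.mul_apply, Fin.sum_univ_two]
    · linear_combination (-y) * h3
    · linear_combination y * h3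

/-- Trace zero, determinant one. -/
theorem sou3_factor_tr {F : Type*} [Field F] [Fintype F] (hF : Fintype.card F = 3) (x y z : F)
    (hdet : x * (-x) - y * z = 1) :
    ∃ L U : Matrix (Fin 2) (Fin 2) F, L * L = -1 ∧ U * U = -1 ∧ L * U = !![x, y; z, -x] := by
  obtain ⟨h3, hall⟩ := sou3_three_facts hF
  have h10 : (1 : F) ≠ 0 := one_ne_zero
  have hsq : ∀ u : F, u * u ≠ -1 := by
    intro u hu
    rcases hall u with rfl | rfl | rfl
    · apply h10
      linear_combination hu
    · apply h10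
      linear_combination h3 - hu
    · apply h10
      linear_combination h3 - hu
  rcases hall y with rfl | rfl | rfl <;> rcases hall z with rfl | rfl | rfl
  · exact sou3_factor_sym x 0 (by linear_combination -hdet)
  · exact absurd (by linear_combination -hdet) (hsq x)
  · exact absurd (by linear_combination -hdet) (hsq x)
  · exact absurd (by linear_combination -hdet) (hsq x)
  · exact sou3_factor_sym x 1 (by linear_combination -hdet)
  · have hx : x = 0 := by
      have : x * x = 0 := by linear_combination -hdet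
      exact mul_self_eq_zero.mp this
    subst hx
    rw [neg_zero]
    exact sou3_factor_skew h3 1 (by ring)
  · exact absurd (by linear_combination -hdet) (hsq x)
  · have hx : x = 0 := by
      have : x * x = 0 := by linear_combination -hdet
      exact mul_self_eq_zero.mp this
    subst hx
    rw [neg_zero]
    have h := sou3_factor_skew h3 (-1) (by ring)
    rw [neg_neg] at h
    exact h
  · exact sou3_factor_sym x (-1) (by linear_combination -hdet)

theorem sou3_factor {F : Type*} [Field F] [Fintype F] (hF : Fintype.card F = 3)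
    (S : Matrix (Fin 2) (Fin 2) F)
    (hS : S = 1 ∨ S = -1 ∨ (S 0 0 + S 1 1 = 0 ∧ S 0 0 * S 1 1 - S 0 1 * S 1 0 = 1)) :
    ∃ L U : Matrix (Fin 2) (Fin 2) F, L * L = -1 ∧ U * U = -1 ∧ L * U = S := by
  rcases hS with rfl | rfl | ⟨htr, hdet⟩
  · refine ⟨!![0, -1; 1, 0], !![0, 1; -1, 0], ?_, ?_, ?_⟩ <;>
    · ext i j
      fin_cases i <;> fin_cases j <;> simp [Matrix.mul_apply, Fin.sum_univ_two]
  · refine ⟨!![0, -1; 1, 0], !![0, -1; 1, 0], ?_, ?_, ?_⟩ <;>
    · ext i j
      fin_cases i <;> fin_cases j <;> simp [Matrix.mul_apply, Fin.sum_univ_two]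
  · have hw : S 1 1 = -S 0 0 := by linear_combination htr
    have hS : S = !![S 0 0, S 0 1; S 1 0, -S 0 0] := by
      rw [← hw]
      exact Matrix.eta_fin_two S
    rw [hS]
    apply sou3_factor_tr hF
    rw [hw] at hdet
    exact hdet

theorem sou3_shear {F : Type*} [Field F] [Fintype F] (hF : Fintype.card F = 3) (p q c d : F)
    (hdet : p * d - q * c = 1) :
    ∃ t : F, (!![p + t * c, q + t * d; c, d] : Matrix (Fin 2) (Fin 2) F) = 1 ∨
      (!![p + t * c, q + t * d; c, d] : Matrix (Fin 2) (Fin 2) F) = -1 ∨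
      ((p + t * c) + d = 0 ∧ (p + t * c) * d - (q + t * d) * c = 1) := by
  obtain ⟨h3, hall⟩ := sou3_three_facts hF
  have h10 : (1 : F) ≠ 0 := one_ne_zero
  rcases hall c with rfl | rfl | rfl
  · rcases hall d with rfl | rfl | rfl
    · exfalso
      apply h10
      linear_combination -hdet
    · have hp : p = 1 := by linear_combination hdet
      subst hp
      refine ⟨-q, Or.inl ?_⟩
      ext i j
      fin_cases i <;> fin_cases j <;> simp
    · have hp : p = -1 := by linear_combination -hdet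
      subst hp
      refine ⟨q, Or.inr (Or.inl ?_)⟩
      ext i j
      fin_cases i <;> fin_cases j <;> simp
  · refine ⟨-(p + d), Or.inr (Or.inr ⟨by ring, by linear_combination hdet⟩)⟩
  · refine ⟨p + d, Or.inr (Or.inr ⟨by ring, by linear_combination hdet⟩)⟩

theorem sou3_step_three_of {F : Type*} [Field F] [Fintype F] (hF : Fintype.card F = 3)
    (hFC : ∀ (A : Matrix (Fin 3) (Fin 3) F),
      (∀ c : F, A ≠ c • (1 : Matrix (Fin 3) (Fin 3) F)) → ∀ κ : F,
      ∃ P : Matrix (Fin 3) (Fin 3) F, P.det = 1 ∧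
        (P * A * P⁻¹) 0 0 = κ ∧ (P * A * P⁻¹) 1 0 = 1 ∧ (P * A * P⁻¹) 2 0 = 0)
    (A : Matrix (Fin 3) (Fin 3) F) (hA : A.det = 1)
    (hns : ∀ c : F, A ≠ c • (1 : Matrix (Fin 3) (Fin 3) F)) :
    ∃ (P : Matrix (Fin 3) (Fin 3) F) (r1 r2 : F) (L U : Matrix (Fin 2) (Fin 2) F),
      P.det ≠ 0 ∧ L * L = -1 ∧ U * U = -1 ∧
      P * A * P⁻¹ = !![1, 0, 0; 1, L 0 0, L 0 1; 0, L 1 0, L 1 1] *
        !![1, r1, r2; 0, U 0 0, U 0 1; 0, U 1 0, U 1 1] := by
  obtain ⟨P1, hP1, h00, h10, h20⟩ := hFC A hns 1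
  obtain ⟨M, hM⟩ : ∃ M : Matrix (Fin 3) (Fin 3) F, M = P1 * A * P1⁻¹ := ⟨_, rfl⟩
  rw [← hM] at h00 h10 h20
  have hMdet : M.det = 1 := by
    rw [hM, Matrix.det_mul, Matrix.det_mul, Matrix.det_nonsing_inv, hP1, hA]
    simp
  have hMeq : M = !![1, M 0 1, M 0 2; 1, M 1 1, M 1 2; 0, M 2 1, M 2 2] := by
    ext i j
    fin_cases i <;> fin_cases j <;> simp [h00, h10, h20]
  have hdet : (M 1 1 - M 0 1) * M 2 2 - (M 1 2 - M 0 2) * M 2 1 = 1 := by
    have h := hMdet
    rw [Matrix.det_fin_three, h00, h10, h20] at h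
    linear_combination h
  obtain ⟨t, ht⟩ := sou3_shear hF (M 1 1 - M 0 1) (M 1 2 - M 0 2) (M 2 1) (M 2 2) hdet
  obtain ⟨L, U, hL, hU, hLU⟩ := sou3_factor hF
    (!![M 1 1 - M 0 1 + t * M 2 1, M 1 2 - M 0 2 + t * M 2 2; M 2 1, M 2 2]) (by
      rcases ht with h | h | h
      · exact Or.inl h
      · exact Or.inr (Or.inl h)
      · refine Or.inr (Or.inr ?_)
        simpa using h)
  have hEE' : (!![1, 0, -t; 0, 1, 0; 0, 0, 1] : Matrix (Fin 3) (Fin 3) F)
      * !![1, 0, t; 0, 1, 0; 0, 0, 1] = 1 := by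
    ext i j
    fin_cases i <;> fin_cases j <;> simp [Matrix.mul_apply, Fin.sum_univ_three]
  have hEinv : (!![1, 0, -t; 0, 1, 0; 0, 0, 1] : Matrix (Fin 3) (Fin 3) F)⁻¹
      = !![1, 0, t; 0, 1, 0; 0, 0, 1] := Matrix.inv_eq_right_inv hEE'
  have hEdet : (!![1, 0, -t; 0, 1, 0; 0, 0, 1] : Matrix (Fin 3) (Fin 3) F).det = 1 := by
    rw [Matrix.det_fin_three]
    simp
  refine ⟨!![1, 0, -t; 0, 1, 0; 0, 0, 1] * P1, M 0 1 - t * M 2 1, M 0 2 - t * M 2 2 + t, L, U,
    ?_, hL, hU, ?_⟩
  · rw [Matrix.det_mul, hEdet, hP1]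
    norm_num
  · have e1 : !![1, 0, -t; 0, 1, 0; 0, 0, 1] * P1 * A * (!![1, 0, -t; 0, 1, 0; 0, 0, 1] * P1)⁻¹
        = !![1, 0, -t; 0, 1, 0; 0, 0, 1] * M * !![1, 0, t; 0, 1, 0; 0, 0, 1] := by
      rw [Matrix.mul_inv_rev, hEinv, hM]
      simp only [Matrix.mul_assoc]
    rw [e1]
    have l00 := congrFun (congrFun hLU 0) 0
    have l01 := congrFun (congrFun hLU 0) 1
    have l10 := congrFun (congrFun hLU 1) 0
    have l11 := congrFun (congrFun hLU 1) 1
    simp [Matrix.mul_apply, Fin.sum_univ_two] at l00 l01 l10 l11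
    ext i j
    fin_cases i <;> fin_cases j <;>
      simp [Matrix.mul_apply, Matrix.vecMul, dotProduct, Fin.sum_univ_three, h00, h10, h20]
    all_goals first | ring1 | linear_combination -l00 | linear_combination -l01 |
      linear_combination -l10 | linear_combination -l11

end Cfsg.Agent.Helper39
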