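/-
helper39: CALL S4538 piece AV: the averaging operator of a subgroup is a projector onto the fixed
space and commutes with the elements normalising the subgroup.
-/
import Cfsg.Agent.Helper40.DZDefs

set_option autoImplicit false

namespace Cfsg.Agent.Helper39.DZ

open Cfsg.Agent.Helper40.DZ Cfsg.Agent.Helper44.PSLn Matrix

universe u

section General

variable {G : Type*} [Group G] [Finite G] {V : Type*} [AddCommGroup V] [Module ℂ V]
  [Module.Finite ℂ V]

/-- the averaging operator as a finite sum over the subgroup -/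
theorem avgL_apply_sum (ρ : Representation ℂ G V) (H : Subgroup G) [Fintype H] (v : V) :
    avgL ρ H v = (Nat.card H : ℂ)⁻¹ • ∑ h : H, ρ (h : G) v := by
  unfold avgL
  have h1 : (∑ᶠ h ∈ (H : Set G), ρ h) = ∑ h : H, ρ (h : G) := by
    rw [← finsum_set_coe_eq_finsum_mem (H : Set G)]
    exact finsum_eq_sum_of_fintype (fun h : H => ρ (h : G))
  rw [h1, LinearMap.smul_apply, LinearMap.sum_apply]

/-- R2a1: the average lies in the fixed space. -/
theorem avgL_mem (ρ : Representation ℂ G V) (H : Subgroup G) (v : V) :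
    avgL ρ H v ∈ fixS ρ (H : Set G) := by
  classical
  haveI : Fintype H := Fintype.ofFinite H
  rw [mem_fixS]
  intro g hg
  rw [avgL_apply_sum, map_smul, map_sum]
  congr 1
  refine Fintype.sum_equiv (Equiv.mulLeft (⟨g, hg⟩ : H)) _ _ ?_
  intro h
  rw [Equiv.coe_mulLeft, Subgroup.coe_mul, map_mul]
  rfl

/-- R2a2: the average is the identity on the fixed space. -/
theorem avgL_of_mem (ρ : Representation ℂ G V) (H : Subgroup G) {v : V}
    (hv : v ∈ fixS ρ (H : Set G)) : avgL ρ H v = v := by
  classical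
  haveI : Fintype H := Fintype.ofFinite H
  rw [avgL_apply_sum]
  have h1 : ∑ h : H, ρ (h : G) v = ∑ _h : H, v :=
    Finset.sum_congr rfl (fun h _ => hv (h : G) h.2)
  rw [h1, Finset.sum_const, Finset.card_univ, ← Nat.card_eq_fintype_card, ← Nat.cast_smul_eq_nsmul ℂ,
    smul_smul, inv_mul_cancel₀, one_smul]
  exact Nat.cast_ne_zero.mpr Nat.card_pos.ne'

/-- R2a3: the average commutes with elements normalizing `H`. -/
theorem avgL_conj (ρ : Representation ℂ G V) (H : Subgroup G) (g : G)
    (hg : ∀ h ∈ H, g * h * g⁻¹ ∈ H) (v : V) : avgL ρ H (ρ g v) = ρ g (avgL ρ H v) := by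
  classical
  haveI : Fintype H := Fintype.ofFinite H
  rw [avgL_apply_sum, avgL_apply_sum, map_smul, map_sum]
  congr 1
  let φ : H → H := fun h => ⟨g * h * g⁻¹, hg h h.2⟩
  have hφi : Function.Injective φ := by
    intro a b hab
    have h1 : g * (a : G) * g⁻¹ = g * (b : G) * g⁻¹ := congrArg Subtype.val hab
    apply Subtype.ext
    exact mul_left_cancel (mul_right_cancel h1)
  have hφb : Function.Bijective φ := Finite.injective_iff_bijective.mp hφi
  symm
  refine Fintype.sum_equiv (Equiv.ofBijective φ hφb) _ _ ?_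
  intro h
  have h2 : ((Equiv.ofBijective φ hφb h : H) : G) = g * h * g⁻¹ := rfl
  rw [h2]
  have h3 : ρ (g * (h : G) * g⁻¹) (ρ g v) = ρ (g * (h : G) * g⁻¹ * g) v := by
    rw [map_mul (ρ) (g * (h : G) * g⁻¹) g]
    rfl
  rw [h3, inv_mul_cancel_right, map_mul]
  rfl

end General

end Cfsg.Agent.Helper39.DZ
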