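/-
helper39: CALL S4538 piece A01: the dimension of the fixed space of a subgroup is the average of
the character.
-/
import Cfsg.Agent.Helper39.DZAV

set_option autoImplicit false

namespace Cfsg.Agent.Helper39.DZ

open Cfsg.Agent.Helper40.DZ Cfsg.Agent.Helper44.PSLn Matrix

universe u

section General

variable {G : Type*} [Group G] [Finite G] {V : Type*} [AddCommGroup V] [Module ℂ V]
  [Module.Finite ℂ V]

/-- the finsum of the character over a subgroup as a finite sum -/
theorem finsum_character_eq_sum (ρ : Representation ℂ G V) (H : Subgroup G) [Fintype H] :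
    ∑ᶠ h ∈ (H : Set G), ρ.character h = ∑ h : H, ρ.character (h : G) := by
  rw [← finsum_set_coe_eq_finsum_mem (H : Set G)]
  exact finsum_eq_sum_of_fintype (fun h : H => ρ.character (h : G))

/-- A0: dimension of the fixed space = average of the character. -/
theorem A0 (ρ : Representation ℂ G V) (H : Subgroup G) :
    (Nat.card H : ℂ) * (Module.finrank ℂ (fixS ρ (H : Set G)) : ℂ) =
      ∑ᶠ h ∈ (H : Set G), ρ.character h := by
  classical
  haveI : Fintype H := Fintype.ofFinite H
  have hproj : LinearMap.IsProj (fixS ρ (H : Set G)) (avgL ρ H) :=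
    ⟨avgL_mem ρ H, fun x hx => avgL_of_mem ρ H hx⟩
  have htr := hproj.trace
  have h1 : (∑ᶠ h ∈ (H : Set G), ρ h) = ∑ h : H, ρ (h : G) := by
    rw [← finsum_set_coe_eq_finsum_mem (H : Set G)]
    exact finsum_eq_sum_of_fintype (fun h : H => ρ (h : G))
  have h2 : LinearMap.trace ℂ V (avgL ρ H) =
      (Nat.card H : ℂ)⁻¹ * ∑ h : H, ρ.character (h : G) := by
    unfold avgL
    rw [h1, map_smul, map_sum, smul_eq_mul]
    rfl
  rw [finsum_character_eq_sum, ← htr, h2, ← mul_assoc, mul_inv_cancel₀, one_mul]
  exact Nat.cast_ne_zero.mpr Nat.card_pos.ne'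

/-- A1: if the character vanishes on `H ∖ {1}` then `|H| * dim V^H = dim V`. -/
theorem A1 (ρ : Representation ℂ G V) (H : Subgroup G)
    (h0 : ∀ h ∈ H, h ≠ 1 → ρ.character h = 0) :
    Nat.card H * Module.finrank ℂ (fixS ρ (H : Set G)) = Module.finrank ℂ V := by
  classical
  haveI : Fintype H := Fintype.ofFinite H
  have h1 := A0 ρ H
  rw [finsum_character_eq_sum] at h1
  have h2 : ∑ h : H, ρ.character (h : G) = ρ.character ((1 : H) : G) := by
    apply Finset.sum_eq_single (1 : H)
    · intro b _ hb
      apply h0 (b : G) b.2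
      intro hb1
      exact hb (Subtype.ext hb1)
    · intro h
      exact absurd (Finset.mem_univ _) h
  rw [h2, Subgroup.coe_one, Representation.char_one] at h1
  have h3 : ((Nat.card H * Module.finrank ℂ (fixS ρ (H : Set G)) : ℕ) : ℂ) =
      ((Module.finrank ℂ V : ℕ) : ℂ) := by
    rw [Nat.cast_mul]
    exact h1
  exact Nat.cast_injective h3

end General

end Cfsg.Agent.Helper39.DZ
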