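/-
helper39: CALL S0984 pieces AVG0, MONO (character sums over subgroups as dimensions of fixed
spaces).
-/
import Mathlib
import Cfsg.Agent.Helper39.DZA01

set_option autoImplicit false
set_option linter.style.haveILetI false
open Cfsg
open scoped ComplexConjugate

universe u

namespace Cfsg.Agent.Helper39

open Cfsg.Agent.Helper40.DZ

/-- a finsum over a subgroup as a finite sum -/
theorem a7_finsum_subgroup {G : Type u} [Group G] {M : Type*} [AddCommMonoid M]
    (f : G → M) (K : Subgroup G) [Fintype K] :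
    ∑ᶠ κ ∈ (K : Set G), f κ = ∑ κ : K, f (κ : G) := by
  rw [← finsum_set_coe_eq_finsum_mem (K : Set G)]
  exact finsum_eq_sum_of_fintype (fun κ : K => f (κ : G))

/-- PIECE AVG0 -/
theorem a7_avg_zero {G : Type u} [Group G] [Finite G] (χ : Cfsg.IrrCharacter G) (K : Subgroup G)
    (h0 : ∑ᶠ κ ∈ (K : Set G), (χ : G → ℂ) κ = 0) (g : G) :
    ∑ᶠ κ ∈ (K : Set G), (χ : G → ℂ) (κ * g) = 0 := by
  classical
  obtain ⟨n, ρ, -, hρ⟩ := χ.2
  haveI : Fintype K := Fintype.ofFinite K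
  have hA0 := Cfsg.Agent.Helper39.DZ.A0 ρ K
  rw [hρ, h0] at hA0
  have hfr : Module.finrank ℂ (fixS ρ (K : Set G)) = 0 := by
    rcases mul_eq_zero.mp hA0 with h | h
    · exact absurd h (Nat.cast_ne_zero.mpr Nat.card_pos.ne')
    · exact_mod_cast h
  have hbot : fixS ρ (K : Set G) = ⊥ := Submodule.finrank_eq_zero.mp hfr
  have hsum : ∑ κ : K, ρ (κ : G) = 0 := by
    apply LinearMap.ext
    intro v
    have h1 := Cfsg.Agent.Helper39.DZ.avgL_mem ρ K v
    rw [hbot, Submodule.mem_bot, Cfsg.Agent.Helper39.DZ.avgL_apply_sum] at h1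
    have hc : (Nat.card K : ℂ)⁻¹ ≠ 0 := inv_ne_zero (Nat.cast_ne_zero.mpr Nat.card_pos.ne')
    rw [LinearMap.sum_apply, LinearMap.zero_apply]
    exact (smul_eq_zero.mp h1).resolve_left hc
  rw [a7_finsum_subgroup]
  have h3 : ∀ κ : K, (χ : G → ℂ) ((κ : G) * g) = LinearMap.trace ℂ _ (ρ (κ : G) * ρ g) := by
    intro κ
    rw [← hρ, ← map_mul]
    rfl
  rw [Finset.sum_congr rfl (fun κ _ => h3 κ), ← map_sum, ← Finset.sum_mul, hsum, zero_mul, map_zero]

/-- PIECE MONO -/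
theorem a7_mono {G : Type u} [Group G] [Finite G] (χ : Cfsg.IrrCharacter G) (A B : Subgroup G)
    (hAB : A ≤ B) :
    ∃ m : ℕ, (Nat.card B : ℂ) * ∑ᶠ g ∈ (A : Set G), (χ : G → ℂ) g =
      (Nat.card A : ℂ) * (∑ᶠ g ∈ (B : Set G), (χ : G → ℂ) g + (Nat.card B : ℂ) * (m : ℂ)) := by
  obtain ⟨n, ρ, -, hρ⟩ := χ.2
  have hA := Cfsg.Agent.Helper39.DZ.A0 ρ A
  have hB := Cfsg.Agent.Helper39.DZ.A0 ρ B
  rw [hρ] at hA hB
  have hle : fixS ρ (B : Set G) ≤ fixS ρ (A : Set G) := fun v hv g hg => hv g (hAB hg)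
  have hfr := Submodule.finrank_mono hle
  refine ⟨Module.finrank ℂ (fixS ρ (A : Set G)) - Module.finrank ℂ (fixS ρ (B : Set G)), ?_⟩
  rw [← hA, ← hB, Nat.cast_sub hfr]
  ring

/-- PIECE FIXV -/
theorem a7_fixvec {G : Type u} [Group G] [Finite G] (χ : Cfsg.IrrCharacter G)
    (hχ : (χ : G → ℂ) 1 ≠ 1) (N T U : Subgroup G) (hUN : U ≤ N) (hUT : U ≤ T)
    (hsum : (Nat.card T : ℂ) * ∑ᶠ g ∈ (U : Set G), (χ : G → ℂ) g =
      (Nat.card U : ℂ) * ∑ᶠ g ∈ (T : Set G), (χ : G → ℂ) g)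
    (hN : ∑ᶠ g ∈ (N : Set G), (χ : G → ℂ) g ≠ 0) :
    ∃ S : Subgroup G, N ≤ S ∧ T ≤ S ∧ S ≠ ⊤ := by
  obtain ⟨n, ρ, hirr, hρ⟩ := χ.2
  have hU := Cfsg.Agent.Helper39.DZ.A0 ρ U
  have hT := Cfsg.Agent.Helper39.DZ.A0 ρ T
  have hNN := Cfsg.Agent.Helper39.DZ.A0 ρ N
  rw [hρ] at hU hT hNN
  have hT0 : (Nat.card T : ℂ) ≠ 0 := Nat.cast_ne_zero.mpr Nat.card_pos.ne'
  have hU0 : (Nat.card U : ℂ) ≠ 0 := Nat.cast_ne_zero.mpr Nat.card_pos.ne'
  have hfr : Module.finrank ℂ (fixS ρ (T : Set G)) = Module.finrank ℂ (fixS ρ (U : Set G)) := by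
    rw [← hU, ← hT] at hsum
    have h1 : (Module.finrank ℂ (fixS ρ (T : Set G)) : ℂ)
        = (Module.finrank ℂ (fixS ρ (U : Set G)) : ℂ) := by
      apply mul_left_cancel₀ (mul_ne_zero hT0 hU0)
      linear_combination -hsum
    exact_mod_cast h1
  have hTU : fixS ρ (T : Set G) ≤ fixS ρ (U : Set G) := fun v hv g hg => hv g (hUT hg)
  have heq : fixS ρ (T : Set G) = fixS ρ (U : Set G) := Submodule.eq_of_le_of_finrank_eq hTU hfr
  have hNU : fixS ρ (N : Set G) ≤ fixS ρ (U : Set G) := fun v hv g hg => hv g (hUN hg)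
  have hNfr : Module.finrank ℂ (fixS ρ (N : Set G)) ≠ 0 := by
    intro h
    apply hN
    rw [← hNN, h, Nat.cast_zero, mul_zero]
  obtain ⟨v, hvN, hv0⟩ : ∃ v ∈ fixS ρ (N : Set G), v ≠ 0 := by
    by_contra hcon
    simp only [not_exists, not_and, not_not] at hcon
    apply hNfr
    apply Submodule.finrank_eq_zero.mpr
    rw [eq_bot_iff]
    intro v hv
    exact (Submodule.mem_bot ℂ).mpr (hcon v hv)
  have hvT : v ∈ fixS ρ (T : Set G) := by
    rw [heq]
    exact hNU hvN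
  let S : Subgroup G :=
    { carrier := {g | ρ g v = v}
      mul_mem' := by
        intro a b ha hb
        have ha' : ρ a v = v := ha
        have hb' : ρ b v = v := hb
        show ρ (a * b) v = v
        rw [map_mul, Module.End.mul_apply, hb', ha']
      one_mem' := by
        show ρ 1 v = v
        rw [map_one, Module.End.one_apply]
      inv_mem' := by
        intro a ha
        have ha' : ρ a v = v := ha
        show ρ a⁻¹ v = v
        have h1 : ρ a⁻¹ (ρ a v) = v := by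
          rw [← Module.End.mul_apply, ← map_mul, inv_mul_cancel, map_one, Module.End.one_apply]
        rwa [ha'] at h1 }
  refine ⟨S, fun g hg => hvN g hg, fun g hg => hvT g hg, ?_⟩
  intro hS
  have hfix : ∀ g, ρ g v = v := by
    intro g
    have h1 : g ∈ S := by
      rw [hS]
      exact Subgroup.mem_top g
    exact h1
  let W : Subrepresentation ρ :=
    { toSubmodule := Submodule.span ℂ {v}
      apply_mem_toSubmodule := by
        intro g w hw
        obtain ⟨c, rfl⟩ := Submodule.mem_span_singleton.mp hw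
        rw [map_smul, hfix g]
        exact Submodule.smul_mem _ c (Submodule.mem_span_singleton_self v) }
  have hs : IsSimpleOrder (Subrepresentation ρ) := hirr
  rcases eq_bot_or_eq_top W with h | h
  · have h1 : v ∈ (⊥ : Subrepresentation ρ).toSubmodule :=
      h ▸ (Submodule.mem_span_singleton_self v : v ∈ W.toSubmodule)
    have h2 : v ∈ (⊥ : Submodule ℂ (Fin n → ℂ)) := h1
    exact hv0 ((Submodule.mem_bot ℂ).1 h2)
  · have h1 : Submodule.span ℂ {v} = (⊤ : Submodule ℂ (Fin n → ℂ)) := by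
      have h3 : W.toSubmodule = (⊤ : Subrepresentation ρ).toSubmodule := by rw [h]
      exact h3
    have h2 : Module.finrank ℂ (Fin n → ℂ) = 1 := by
      rw [← finrank_top ℂ (Fin n → ℂ), ← h1, finrank_span_singleton hv0]
    apply hχ
    rw [← hρ, Representation.char_one, h2, Nat.cast_one]

end Cfsg.Agent.Helper39
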