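import Mathlib
import Cfsg.Agent.Helper15.CharInner
import Cfsg.Agent.Helper79.Abelian
import Cfsg.Agent.Helper80.LinChar
import Cfsg.Agent.Helper80.CharOrtho

/-!
# Characters of finite abelian groups as sums of homomorphisms (helper39)

For a finite group `A` with commuting elements: every character is an `ℕ`-combination of
homomorphisms `A →* ℂˣ`, with Parseval, and the dual orthogonality relation.
-/

set_option autoImplicit false

namespace Cfsg.Agent.Helper39

open scoped ComplexConjugate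

universe u

section AbelDual

variable {A : Type u} [Group A] [Fintype A]

omit [Fintype A] in
theorem homIrr_surjective [Finite A] (hA : ∀ a b : A, a * b = b * a) :
    Function.Surjective (Helper80.homIrr (G := A)) := fun χ =>
  Helper80.exists_hom_of_linear χ (Helper79.irr_charDegree_eq_one_of_comm hA χ)

omit [Fintype A] in
theorem sum_irr_eq_sum_hom [Finite A] (hA : ∀ a b : A, a * b = b * a) [Fintype (A →* ℂˣ)]
    [Fintype (Cfsg.IrrCharacter A)] (T : Cfsg.IrrCharacter A → ℂ) :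
    ∑ χ : Cfsg.IrrCharacter A, T χ = ∑ f : A →* ℂˣ, T (Helper80.homIrr f) :=
  (Fintype.sum_bijective _ ⟨Helper80.homIrr_injective, homIrr_surjective hA⟩ _ _
    (fun _ => rfl)).symm

/-- A character of a finite abelian group is an `ℕ`-combination of homomorphisms. -/
theorem comm_char_decomp (hA : ∀ a b : A, a * b = b * a) [Fintype (A →* ℂˣ)] {θ : A → ℂ}
    (hθ : Cfsg.IsCharacter A θ) :
    ∃ n : (A →* ℂˣ) → ℕ,
      (∀ f : A →* ℂˣ, (n f : ℂ) = (Nat.card A : ℂ)⁻¹ * ∑ a : A, θ a * conj ((f a : ℂˣ) : ℂ)) ∧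
      (∀ a : A, θ a = ∑ f : A →* ℂˣ, (n f : ℂ) * ((f a : ℂˣ) : ℂ)) := by
  classical
  have : Fintype (Cfsg.IrrCharacter A) := Fintype.ofFinite _
  choose n hn using fun f : A →* ℂˣ =>
    Helper15.inner_nat hθ (Helper79.irr_isCharacter (Helper80.homIrr f))
  refine ⟨n, ?_, ?_⟩
  · intro f
    rw [← hn f]
    rfl
  · intro a
    have h := congrFun (Helper15.classFun_eq_sum (Helper15.isClassFunction_of_isChar hθ)) a
    rw [Finset.sum_apply, sum_irr_eq_sum_hom hA] at h
    refine h.trans ?_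
    apply Finset.sum_congr rfl
    intro f _
    rw [Pi.smul_apply, hn f]
    rfl

/-- Parseval for the decomposition. -/
theorem comm_char_norm [Fintype (A →* ℂˣ)] {θ : A → ℂ} {n : (A →* ℂˣ) → ℕ}
    (h1 : ∀ f : A →* ℂˣ, (n f : ℂ) = (Nat.card A : ℂ)⁻¹ * ∑ a : A, θ a * conj ((f a : ℂˣ) : ℂ))
    (h2 : ∀ a : A, θ a = ∑ f : A →* ℂˣ, (n f : ℂ) * ((f a : ℂˣ) : ℂ)) :
    ∑ a : A, θ a * conj (θ a) = (Nat.card A : ℂ) * ∑ f : A →* ℂˣ, ((n f : ℂ)) ^ 2 := by
  have hA0 : (Nat.card A : ℂ) ≠ 0 := by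
    exact_mod_cast Nat.card_pos.ne'
  have h3 : ∀ f : A →* ℂˣ, ∑ a : A, θ a * conj ((f a : ℂˣ) : ℂ) = (Nat.card A : ℂ) * (n f : ℂ) := by
    intro f
    rw [h1 f, mul_inv_cancel_left₀ hA0]
  calc ∑ a : A, θ a * conj (θ a)
      = ∑ a : A, ∑ f : A →* ℂˣ, (n f : ℂ) * (θ a * conj ((f a : ℂˣ) : ℂ)) := by
        apply Finset.sum_congr rfl
        intro a _
        nth_rewrite 2 [h2 a]
        rw [map_sum, Finset.mul_sum]
        apply Finset.sum_congr rfl
        intro f _
        rw [map_mul, Complex.conj_natCast]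
        ring
    _ = ∑ f : A →* ℂˣ, (n f : ℂ) * ∑ a : A, θ a * conj ((f a : ℂˣ) : ℂ) := by
        rw [Finset.sum_comm]
        apply Finset.sum_congr rfl
        intro f _
        rw [Finset.mul_sum]
    _ = (Nat.card A : ℂ) * ∑ f : A →* ℂˣ, ((n f : ℂ)) ^ 2 := by
        rw [Finset.mul_sum]
        apply Finset.sum_congr rfl
        intro f _
        rw [h3 f]
        ring

omit [Fintype A] in
/-- The degree is the sum of the multiplicities. -/
theorem comm_char_degree [Fintype (A →* ℂˣ)] {θ : A → ℂ} {n : (A →* ℂˣ) → ℕ}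
    (h2 : ∀ a : A, θ a = ∑ f : A →* ℂˣ, (n f : ℂ) * ((f a : ℂˣ) : ℂ)) :
    θ 1 = ((∑ f : A →* ℂˣ, n f : ℕ) : ℂ) := by
  rw [h2 1, Nat.cast_sum]
  apply Finset.sum_congr rfl
  intro f _
  rw [map_one, Units.val_one, mul_one]

/-- Dual orthogonality: `∑_f f(a) = 0` for `a ≠ 1`. -/
theorem hom_sum_apply_ne (hA : ∀ a b : A, a * b = b * a) [Fintype (A →* ℂˣ)]
    {a : A} (ha : a ≠ 1) :
    ∑ f : A →* ℂˣ, ((f a : ℂˣ) : ℂ) = 0 := by
  classical
  have : Fintype (Cfsg.IrrCharacter A) := Fintype.ofFinite _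
  have h := Helper80.irr_sum_mul_conj a (1 : A)
  rw [sum_irr_eq_sum_hom hA] at h
  have h2 : ∀ f : A →* ℂˣ, (Helper80.homIrr f : A → ℂ) a * conj ((Helper80.homIrr f : A → ℂ) 1)
      = ((f a : ℂˣ) : ℂ) := by
    intro f
    rw [Helper80.homIrr_apply, Helper80.homIrr_apply, map_one, Units.val_one, map_one, mul_one]
  rw [Finset.sum_congr rfl (fun f _ => h2 f)] at h
  rw [h, Nat.cast_eq_zero, Finset.card_eq_zero, Finset.filter_eq_empty_iff]
  intro x _ hx
  apply ha
  have : a = x⁻¹ * (x * a * x⁻¹) * x := by group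
  rw [this, hx]
  simp

/-- The number of homomorphisms `A →* ℂˣ` is `|A|`. -/
theorem card_hom_comm (hA : ∀ a b : A, a * b = b * a) [Fintype (A →* ℂˣ)] :
    Fintype.card (A →* ℂˣ) = Nat.card A := by
  classical
  have : Fintype (Cfsg.IrrCharacter A) := Fintype.ofFinite _
  have h := Helper80.irr_sum_mul_conj (1 : A) (1 : A)
  rw [sum_irr_eq_sum_hom hA] at h
  have h2 : ∀ f : A →* ℂˣ, (Helper80.homIrr f : A → ℂ) 1 * conj ((Helper80.homIrr f : A → ℂ) 1)
      = 1 := by
    intro f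
    rw [Helper80.homIrr_apply, map_one, Units.val_one, map_one, mul_one]
  rw [Finset.sum_congr rfl (fun f _ => h2 f)] at h
  have h3 : (Finset.univ.filter (fun x : A => x * 1 * x⁻¹ = 1)) = Finset.univ := by
    apply Finset.filter_true_of_mem
    intro x _
    simp
  rw [h3, Finset.card_univ, Finset.sum_const, Finset.card_univ, nsmul_eq_mul, mul_one] at h
  rw [Nat.card_eq_fintype_card]
  exact_mod_cast h

end AbelDual

end Cfsg.Agent.Helper39
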