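import Mathlib
import Cfsg.Agent.Helper39.SL2Zeros

/-!
# Elements of `SL₂` without eigenvector (helper39)

Matrix-level facts: the centralizer of a matrix `A` without eigenvector is `{a + b A}`,
traces, conjugation.
-/

set_option autoImplicit false

namespace Cfsg.Agent.Helper39

open scoped ComplexConjugate

section Elliptic

variable {F : Type*} [Field F]

/-- The matrix `A` has no eigenvector. -/
def NoEigen (A : Matrix (Fin 2) (Fin 2) F) : Prop :=
  ∀ (c : F) (v : Fin 2 → F), v ≠ 0 → A.mulVec v ≠ c • v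

theorem noEigen_coe10 {A : Matrix (Fin 2) (Fin 2) F} (h : NoEigen A) : A 1 0 ≠ 0 := by
  intro h0
  apply h (A 0 0) ![1, 0]
  · intro h1
    have := congrFun h1 0
    simp at this
  · funext i
    fin_cases i <;> simp [Matrix.mulVec, dotProduct, Fin.sum_univ_two, h0]

/-- A matrix commuting with `A` (where `A 1 0 ≠ 0`) is of the form `a + b A`. -/
theorem commute_eq_add_smul {A X : Matrix (Fin 2) (Fin 2) F} (hz : A 1 0 ≠ 0)
    (hc : X * A = A * X) :
    X = (X 1 1 - X 1 0 / A 1 0 * A 1 1) • (1 : Matrix (Fin 2) (Fin 2) F) +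
      (X 1 0 / A 1 0) • A := by
  have h10 : X 1 0 * A 0 0 + X 1 1 * A 1 0 = A 1 0 * X 0 0 + A 1 1 * X 1 0 := by
    have := congrFun (congrFun hc 1) 0
    rw [Matrix.mul_apply, Matrix.mul_apply, Fin.sum_univ_two, Fin.sum_univ_two] at this
    exact this
  have h11 : X 1 0 * A 0 1 + X 1 1 * A 1 1 = A 1 0 * X 0 1 + A 1 1 * X 1 1 := by
    have := congrFun (congrFun hc 1) 1
    rw [Matrix.mul_apply, Matrix.mul_apply, Fin.sum_univ_two, Fin.sum_univ_two] at this
    exact this
  ext i j
  fin_cases i <;> fin_cases j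
  · simp
    field_simp
    linear_combination -h10
  · simp
    field_simp
    linear_combination -h11
  · simp
    field_simp
  · simp

theorem noEigen_add_smul {A : Matrix (Fin 2) (Fin 2) F} (h : NoEigen A) (a : F) {b : F}
    (hb : b ≠ 0) : NoEigen (a • (1 : Matrix (Fin 2) (Fin 2) F) + b • A) := by
  intro c v hv heq
  apply h ((c - a) / b) v hv
  rw [Matrix.add_mulVec, Matrix.smul_mulVec, Matrix.smul_mulVec, Matrix.one_mulVec] at heq
  have h1 : b • A.mulVec v = (c - a) • v := by
    rw [sub_smul, ← heq]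
    simp
  rw [div_eq_inv_mul, mul_smul, ← h1, smul_smul, inv_mul_cancel₀ hb, one_smul]

theorem commute_of_commute_add_smul {A X : Matrix (Fin 2) (Fin 2) F} {a b : F} (hb : b ≠ 0)
    (h : X * (a • (1 : Matrix (Fin 2) (Fin 2) F) + b • A) =
      (a • (1 : Matrix (Fin 2) (Fin 2) F) + b • A) * X) : X * A = A * X := by
  rw [mul_add, add_mul, Matrix.mul_smul, Matrix.smul_mul, Matrix.mul_smul, Matrix.smul_mul,
    mul_one, one_mul, add_right_inj] at h
  have h2 := congrArg (fun M => b⁻¹ • M) h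
  simpa [smul_smul, inv_mul_cancel₀ hb] using h2

theorem det_add_smul {A : Matrix (Fin 2) (Fin 2) F} (hdet : A.det = 1) (a b : F) :
    (a • (1 : Matrix (Fin 2) (Fin 2) F) + b • A).det = a ^ 2 + a * b * A.trace + b ^ 2 := by
  rw [Matrix.det_fin_two] at hdet ⊢
  rw [Matrix.trace_fin_two]
  simp
  linear_combination b ^ 2 * hdet

theorem trace_add_smul (A : Matrix (Fin 2) (Fin 2) F) (a b : F) :
    (a • (1 : Matrix (Fin 2) (Fin 2) F) + b • A).trace = 2 * a + b * A.trace := by
  rw [Matrix.trace_fin_two, Matrix.trace_fin_two]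
  simp
  ring

/-- The discriminant of a matrix of determinant one without eigenvector is a non-square. -/
theorem not_isSquare_disc {A : Matrix (Fin 2) (Fin 2) F} (h2 : (2 : F) ≠ 0) (hdet : A.det = 1)
    (h : NoEigen A) : ¬ IsSquare (A.trace ^ 2 - 4) := by
  rintro ⟨d, hd⟩
  have hdet' := hdet
  rw [Matrix.det_fin_two] at hdet'
  have htr := Matrix.trace_fin_two A
  have h0 : (A - ((A.trace + d) / 2) • (1 : Matrix (Fin 2) (Fin 2) F)).det = 0 := by
    rw [Matrix.det_fin_two]
    simp
    field_simp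
    rw [htr] at hd ⊢
    linear_combination 4 * hdet' - hd
  obtain ⟨v, hv, hv0⟩ := Matrix.exists_mulVec_eq_zero_iff.mpr h0
  apply h ((A.trace + d) / 2) v hv
  rw [Matrix.sub_mulVec, Matrix.smul_mulVec, Matrix.one_mulVec, sub_eq_zero] at hv0
  exact hv0

/-- For a matrix `A` of determinant one without eigenvector, every "elliptic" trace `t`
is the trace of a matrix `a + b A` of determinant one. -/
theorem exists_commuting_of_trace [Fintype F] {A : Matrix (Fin 2) (Fin 2) F}
    (hF : ringChar F ≠ 2) (hdet : A.det = 1) (h : NoEigen A) {t : F}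
    (ht : ¬ IsSquare (t ^ 2 - 4)) :
    ∃ a b : F, b ≠ 0 ∧ (a • (1 : Matrix (Fin 2) (Fin 2) F) + b • A).det = 1 ∧
      (a • (1 : Matrix (Fin 2) (Fin 2) F) + b • A).trace = t := by
  have h2 : (2 : F) ≠ 0 := Ring.two_ne_zero hF
  have hA := not_isSquare_disc h2 hdet h
  obtain ⟨s, hs⟩ := isSquare_mul_of_not_isSquare hF ht hA
  have hD : A.trace ^ 2 - 4 ≠ 0 := by
    intro h0
    exact hA (h0 ▸ IsSquare.zero)
  have ht0 : t ^ 2 - 4 ≠ 0 := by
    intro h0
    exact ht (h0 ▸ IsSquare.zero)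
  have hs0 : s ≠ 0 := by
    rintro rfl
    rw [mul_zero] at hs
    rcases mul_eq_zero.1 hs with h0 | h0
    · exact ht0 h0
    · exact hD h0
  refine ⟨(t - s / (A.trace ^ 2 - 4) * A.trace) / 2, s / (A.trace ^ 2 - 4),
    div_ne_zero hs0 hD, ?_, ?_⟩
  · rw [det_add_smul hdet]
    field_simp
    linear_combination (A.trace ^ 2 - 4) * hs
  · rw [trace_add_smul]
    field_simp
    ring

/-- Two matrices of determinant one commuting with `A` (without eigenvector) and having the
same trace are equal or adjugate to each other. -/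
theorem eq_or_eq_adj_of_trace {A X Y : Matrix (Fin 2) (Fin 2) F} (h2 : (2 : F) ≠ 0)
    (hdet : A.det = 1) (h : NoEigen A) (hX : X * A = A * X) (hY : Y * A = A * Y)
    (hXd : X.det = 1) (hYd : Y.det = 1) (htr : X.trace = Y.trace) :
    Y = X ∨ Y = X.adjugate := by
  have hz := noEigen_coe10 h
  have hA := not_isSquare_disc h2 hdet h
  have hD : A.trace ^ 2 - 4 ≠ 0 := by
    intro h0
    exact hA (h0 ▸ IsSquare.zero)
  have eX := commute_eq_add_smul hz hX
  have eY := commute_eq_add_smul hz hY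
  set a := X 1 1 - X 1 0 / A 1 0 * A 1 1 with ha
  set b := X 1 0 / A 1 0 with hb
  set a' := Y 1 1 - Y 1 0 / A 1 0 * A 1 1 with ha'
  set b' := Y 1 0 / A 1 0 with hb'
  have dX : a ^ 2 + a * b * A.trace + b ^ 2 = 1 := by
    rw [← det_add_smul hdet, ← eX, hXd]
  have dY : a' ^ 2 + a' * b' * A.trace + b' ^ 2 = 1 := by
    rw [← det_add_smul hdet, ← eY, hYd]
  have tXY : 2 * a + b * A.trace = 2 * a' + b' * A.trace := by
    rw [← trace_add_smul, ← trace_add_smul, ← eX, ← eY, htr]
  have hbb : (b' - b) * (b' + b) = 0 := by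
    have h3 : (b' - b) * (b' + b) * (A.trace ^ 2 - 4) = 0 := by
      linear_combination (-4 : F) * dY + 4 * dX - (2 * a + b * A.trace + 2 * a' + b' * A.trace) * tXY
    rcases mul_eq_zero.1 h3 with h4 | h4
    · exact h4
    · exact absurd h4 hD
  rcases mul_eq_zero.1 hbb with h4 | h4
  · left
    have e1 : b' = b := by linear_combination h4
    have e2 : a' = a := by
      have : 2 * (a' - a) = 0 := by rw [e1] at tXY; linear_combination -tXY
      rcases mul_eq_zero.1 this with h5 | h5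
      · exact absurd h5 h2
      · linear_combination h5
    rw [eY, eX, e1, e2]
  · right
    have e1 : b' = -b := by linear_combination h4
    have e2 : a' = a + b * A.trace := by
      have : 2 * (a' - a - b * A.trace) = 0 := by rw [e1] at tXY; linear_combination -tXY
      rcases mul_eq_zero.1 this with h5 | h5
      · exact absurd h5 h2
      · linear_combination h5
    rw [eY, e1, e2]
    conv_rhs => rw [eX]
    rw [Matrix.adjugate_fin_two, Matrix.trace_fin_two]
    ext i j
    fin_cases i <;> fin_cases j <;> simp <;> ring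

/-- Conjugation preserves the absence of eigenvectors. -/
theorem noEigen_conj (x g : Matrix.SpecialLinearGroup (Fin 2) F)
    (h : NoEigen (g : Matrix (Fin 2) (Fin 2) F)) :
    NoEigen ((x * g * x⁻¹ : Matrix.SpecialLinearGroup (Fin 2) F) : Matrix (Fin 2) (Fin 2) F) := by
  intro c v hv heq
  have hinv : ((x⁻¹ : Matrix.SpecialLinearGroup (Fin 2) F) : Matrix (Fin 2) (Fin 2) F) *
      (x : Matrix (Fin 2) (Fin 2) F) = 1 := by
    rw [← Matrix.SpecialLinearGroup.coe_mul, inv_mul_cancel, Matrix.SpecialLinearGroup.coe_one]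
  have hinv' : (x : Matrix (Fin 2) (Fin 2) F) *
      ((x⁻¹ : Matrix.SpecialLinearGroup (Fin 2) F) : Matrix (Fin 2) (Fin 2) F) = 1 := by
    rw [← Matrix.SpecialLinearGroup.coe_mul, mul_inv_cancel, Matrix.SpecialLinearGroup.coe_one]
  apply h c (((x⁻¹ : Matrix.SpecialLinearGroup (Fin 2) F) : Matrix (Fin 2) (Fin 2) F).mulVec v)
  · intro h0
    apply hv
    have h1 := congrArg (fun w => (x : Matrix (Fin 2) (Fin 2) F).mulVec w) h0
    simp only [Matrix.mulVec_mulVec, hinv', Matrix.one_mulVec, Matrix.mulVec_zero] at h1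
    exact h1
  · have h1 := congrArg
      (fun w => ((x⁻¹ : Matrix.SpecialLinearGroup (Fin 2) F) : Matrix (Fin 2) (Fin 2) F).mulVec w)
      heq
    simp only [Matrix.SpecialLinearGroup.coe_mul, Matrix.mulVec_mulVec, Matrix.mulVec_smul] at h1
    rw [← Matrix.mul_assoc, ← Matrix.mul_assoc, hinv, Matrix.one_mul] at h1
    rw [Matrix.mulVec_mulVec]
    exact h1

theorem noEigen_of_isConj {g k : Matrix.SpecialLinearGroup (Fin 2) F} (hc : IsConj g k)
    (h : NoEigen (g : Matrix (Fin 2) (Fin 2) F)) : NoEigen (k : Matrix (Fin 2) (Fin 2) F) := by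
  obtain ⟨x, hx⟩ := isConj_iff.mp hc
  rw [← hx]
  exact noEigen_conj x g h

/-- An element of `SL₂` with an eigenvector is conjugate to an upper triangular one. -/
theorem exists_conj_triSL (g : Matrix.SpecialLinearGroup (Fin 2) F)
    (h : ¬ NoEigen (g : Matrix (Fin 2) (Fin 2) F)) :
    ∃ (x : Matrix.SpecialLinearGroup (Fin 2) F) (a : Fˣ) (b : F), g = x * triSL a b * x⁻¹ := by
  unfold NoEigen at h
  push Not at h
  obtain ⟨c, v, hv, hgv⟩ := h
  obtain ⟨x, hx⟩ : ∃ x : Matrix.SpecialLinearGroup (Fin 2) F,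
      (x : Matrix (Fin 2) (Fin 2) F).mulVec ![1, 0] = v := by
    by_cases h0 : v 0 = 0
    · have h1 : v 1 ≠ 0 := by
        intro h1
        apply hv
        funext i
        fin_cases i
        · exact h0
        · exact h1
      refine ⟨⟨!![0, -(v 1)⁻¹; v 1, 0], by simp [Matrix.det_fin_two, h1]⟩, ?_⟩
      funext i
      fin_cases i <;> simp [Matrix.mulVec, dotProduct, Fin.sum_univ_two, h0]
    · refine ⟨⟨!![v 0, 0; v 1, (v 0)⁻¹], by simp [Matrix.det_fin_two, h0]⟩, ?_⟩
      funext i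
      fin_cases i <;> simp [Matrix.mulVec, dotProduct, Fin.sum_univ_two]
  have hinv : ((x⁻¹ : Matrix.SpecialLinearGroup (Fin 2) F) : Matrix (Fin 2) (Fin 2) F) *
      (x : Matrix (Fin 2) (Fin 2) F) = 1 := by
    rw [← Matrix.SpecialLinearGroup.coe_mul, inv_mul_cancel, Matrix.SpecialLinearGroup.coe_one]
  have key : ((x⁻¹ * g * x : Matrix.SpecialLinearGroup (Fin 2) F) :
      Matrix (Fin 2) (Fin 2) F).mulVec ![1, 0] = c • ![1, 0] := by
    rw [Matrix.SpecialLinearGroup.coe_mul, Matrix.SpecialLinearGroup.coe_mul,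
      ← Matrix.mulVec_mulVec, ← Matrix.mulVec_mulVec, hx, hgv, Matrix.mulVec_smul, ← hx,
      Matrix.mulVec_mulVec, hinv, Matrix.one_mulVec]
  have h10 : ((x⁻¹ * g * x : Matrix.SpecialLinearGroup (Fin 2) F) :
      Matrix (Fin 2) (Fin 2) F) 1 0 = 0 := by
    have := congrFun key 1
    simpa [Matrix.mulVec, dotProduct, Fin.sum_univ_two] using this
  obtain ⟨a, -, -, ha⟩ := eq_triSL_of_upper (x⁻¹ * g * x) h10
  refine ⟨x, a, ((x⁻¹ * g * x : Matrix.SpecialLinearGroup (Fin 2) F) :
      Matrix (Fin 2) (Fin 2) F) 0 1, ?_⟩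
  rw [← ha]
  group

end Elliptic

end Cfsg.Agent.Helper39
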