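import Mathlib
import Cfsg.Agent.Helper39.Elliptic
import Cfsg.Agent.Helper39.DegreeGraphOdd
import Cfsg.Agent.Helper5.SLCard

/-!
# The non-split torus of `SL₂(q)`, `q` odd (helper39)

The centralizer `torSL g₀` of an element `g₀` without eigenvector: its elements, fusion,
the number of conjugates of an element lying in it, and an integration formula.
-/

set_option autoImplicit false

namespace Cfsg.Agent.Helper39

open scoped ComplexConjugate

section Torus

variable {F : Type*} [Field F]

/-- The centralizer of `g₀` in `SL₂`. -/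
def torSL (g₀ : Matrix.SpecialLinearGroup (Fin 2) F) :
    Subgroup (Matrix.SpecialLinearGroup (Fin 2) F) :=
  Subgroup.centralizer {g₀}

theorem mem_torSL_iff {g₀ x : Matrix.SpecialLinearGroup (Fin 2) F} :
    x ∈ torSL g₀ ↔ (x : Matrix (Fin 2) (Fin 2) F) * (g₀ : Matrix (Fin 2) (Fin 2) F) =
      (g₀ : Matrix (Fin 2) (Fin 2) F) * (x : Matrix (Fin 2) (Fin 2) F) := by
  unfold torSL
  rw [Subgroup.mem_centralizer_iff]
  constructor
  · intro h
    have h1 := h g₀ rfl
    have h2 := congrArg (fun y : Matrix.SpecialLinearGroup (Fin 2) F =>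
      (y : Matrix (Fin 2) (Fin 2) F)) h1
    simp only [Matrix.SpecialLinearGroup.coe_mul] at h2
    exact h2.symm
  · intro h y hy
    rw [Set.mem_singleton_iff] at hy
    subst hy
    apply Subtype.ext
    rw [Matrix.SpecialLinearGroup.coe_mul, Matrix.SpecialLinearGroup.coe_mul]
    exact h.symm

theorem mem_torSL_iff' {g₀ x : Matrix.SpecialLinearGroup (Fin 2) F} :
    x ∈ torSL g₀ ↔ x * g₀ = g₀ * x := by
  rw [mem_torSL_iff]
  constructor
  · intro h
    apply Subtype.ext
    rw [Matrix.SpecialLinearGroup.coe_mul, Matrix.SpecialLinearGroup.coe_mul]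
    exact h
  · intro h
    have h2 := congrArg (fun y : Matrix.SpecialLinearGroup (Fin 2) F =>
      (y : Matrix (Fin 2) (Fin 2) F)) h
    simp only [Matrix.SpecialLinearGroup.coe_mul] at h2
    exact h2

theorem negSL_mem_torSL (g₀ : Matrix.SpecialLinearGroup (Fin 2) F) : negSL ∈ torSL g₀ := by
  rw [mem_torSL_iff']
  exact (Subgroup.mem_center_iff.mp negSL_mem_center g₀).symm

/-- The elements of the torus are `± 1` or have no eigenvector. -/
theorem torSL_cases {g₀ x : Matrix.SpecialLinearGroup (Fin 2) F}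
    (hg₀ : NoEigen (g₀ : Matrix (Fin 2) (Fin 2) F)) (hx : x ∈ torSL g₀) :
    x = 1 ∨ x = negSL ∨ NoEigen (x : Matrix (Fin 2) (Fin 2) F) := by
  have hz := noEigen_coe10 hg₀
  have e := commute_eq_add_smul hz (mem_torSL_iff.mp hx)
  by_cases hb : (x : Matrix (Fin 2) (Fin 2) F) 1 0 / (g₀ : Matrix (Fin 2) (Fin 2) F) 1 0 = 0
  · rw [hb, zero_smul, add_zero, zero_mul, sub_zero] at e
    have hdet := x.det_coe
    rw [e] at hdet
    simp only [Matrix.det_smul, Fintype.card_fin, Matrix.det_one, mul_one] at hdet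
    have h1 : ((x : Matrix (Fin 2) (Fin 2) F) 1 1 - 1) * ((x : Matrix (Fin 2) (Fin 2) F) 1 1 + 1)
        = 0 := by linear_combination hdet
    rcases mul_eq_zero.1 h1 with h | h
    · left
      apply Subtype.ext
      rw [e, Matrix.SpecialLinearGroup.coe_one]
      have : (x : Matrix (Fin 2) (Fin 2) F) 1 1 = 1 := by linear_combination h
      rw [this, one_smul]
    · right; left
      apply Subtype.ext
      rw [e, negSL_coe]
      have : (x : Matrix (Fin 2) (Fin 2) F) 1 1 = -1 := by linear_combination h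
      rw [this]
      ext i j
      fin_cases i <;> fin_cases j <;> simp
  · right; right
    rw [e]
    exact noEigen_add_smul hg₀ _ hb

/-- An element commuting with an element of the torus without eigenvector lies in the torus. -/
theorem mem_torSL_of_commute {g₀ x y : Matrix.SpecialLinearGroup (Fin 2) F}
    (hg₀ : NoEigen (g₀ : Matrix (Fin 2) (Fin 2) F)) (hx : x ∈ torSL g₀)
    (hxe : NoEigen (x : Matrix (Fin 2) (Fin 2) F)) (hy : y * x = x * y) : y ∈ torSL g₀ := by
  have hz := noEigen_coe10 hg₀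
  have e := commute_eq_add_smul hz (mem_torSL_iff.mp hx)
  have hb : (x : Matrix (Fin 2) (Fin 2) F) 1 0 / (g₀ : Matrix (Fin 2) (Fin 2) F) 1 0 ≠ 0 :=
    div_ne_zero (noEigen_coe10 hxe) hz
  rw [mem_torSL_iff]
  apply commute_of_commute_add_smul hb
  rw [← e]
  have h2 := congrArg (fun y : Matrix.SpecialLinearGroup (Fin 2) F =>
    (y : Matrix (Fin 2) (Fin 2) F)) hy
  simp only [Matrix.SpecialLinearGroup.coe_mul] at h2
  exact h2

/-- The torus is abelian. -/
theorem torSL_comm {g₀ x y : Matrix.SpecialLinearGroup (Fin 2) F}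
    (hg₀ : NoEigen (g₀ : Matrix (Fin 2) (Fin 2) F)) (hx : x ∈ torSL g₀) (hy : y ∈ torSL g₀) :
    x * y = y * x := by
  have hz := noEigen_coe10 hg₀
  have e := commute_eq_add_smul hz (mem_torSL_iff.mp hx)
  have hy' := mem_torSL_iff.mp hy
  apply Subtype.ext
  rw [Matrix.SpecialLinearGroup.coe_mul, Matrix.SpecialLinearGroup.coe_mul, e]
  rw [add_mul, mul_add, Matrix.smul_mul, Matrix.mul_smul, Matrix.smul_mul, Matrix.mul_smul,
    one_mul, mul_one, hy']

/-- Elements of the torus with the same trace are equal or inverse to each other. -/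
theorem torSL_trace {g₀ x y : Matrix.SpecialLinearGroup (Fin 2) F} (h2 : (2 : F) ≠ 0)
    (hg₀ : NoEigen (g₀ : Matrix (Fin 2) (Fin 2) F)) (hx : x ∈ torSL g₀) (hy : y ∈ torSL g₀)
    (htr : (x : Matrix (Fin 2) (Fin 2) F).trace = (y : Matrix (Fin 2) (Fin 2) F).trace) :
    y = x ∨ y = x⁻¹ := by
  rcases eq_or_eq_adj_of_trace h2 g₀.det_coe hg₀ (mem_torSL_iff.mp hx) (mem_torSL_iff.mp hy)
    x.det_coe y.det_coe htr with h | h
  · left; exact Subtype.ext h
  · right
    apply Subtype.ext
    rw [Matrix.SpecialLinearGroup.coe_inv]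
    exact h

theorem ne_inv_of_noEigen (h2 : (2 : F) ≠ 0) {c : Matrix.SpecialLinearGroup (Fin 2) F}
    (hc : NoEigen (c : Matrix (Fin 2) (Fin 2) F)) : c⁻¹ ≠ c := by
  intro h
  have h1 := congrArg (fun y : Matrix.SpecialLinearGroup (Fin 2) F =>
    (y : Matrix (Fin 2) (Fin 2) F) 1 0) h
  simp only [Matrix.SpecialLinearGroup.coe_inv, Matrix.adjugate_fin_two] at h1
  simp at h1
  apply noEigen_coe10 hc
  have h3 : (2 : F) * (c : Matrix (Fin 2) (Fin 2) F) 1 0 = 0 := by linear_combination -h1
  rcases mul_eq_zero.1 h3 with h4 | h4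
  · exact absurd h4 h2
  · exact h4

end Torus

section Finite

variable {F : Type*} [Field F] [Fintype F] [DecidableEq F]

omit [DecidableEq F] in
/-- Elements without eigenvector and with the same trace are conjugate. -/
theorem isConj_of_noEigen_of_trace (hodd : Odd (Fintype.card F))
    {g c : Matrix.SpecialLinearGroup (Fin 2) F} (hg : NoEigen (g : Matrix (Fin 2) (Fin 2) F))
    (hc : NoEigen (c : Matrix (Fin 2) (Fin 2) F))
    (htr : (g : Matrix (Fin 2) (Fin 2) F).trace = (c : Matrix (Fin 2) (Fin 2) F).trace) :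
    IsConj g c := by
  have hodd' : Fintype.card F % 2 = 1 := Nat.odd_iff.mp hodd
  have h1 := sl2_isConj_compSL hodd' g (elliptic_props g hg).1 (elliptic_props g hg).2
  have h2 := sl2_isConj_compSL hodd' c (elliptic_props c hc).1 (elliptic_props c hc).2
  rw [htr] at h1
  exact h1.trans h2.symm

omit [Fintype F] [DecidableEq F] in
theorem noEigen_inv {c : Matrix.SpecialLinearGroup (Fin 2) F}
    (hc : NoEigen (c : Matrix (Fin 2) (Fin 2) F)) :
    NoEigen ((c⁻¹ : Matrix.SpecialLinearGroup (Fin 2) F) : Matrix (Fin 2) (Fin 2) F) := by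
  intro a v hv heq
  have hinv : (c : Matrix (Fin 2) (Fin 2) F) *
      ((c⁻¹ : Matrix.SpecialLinearGroup (Fin 2) F) : Matrix (Fin 2) (Fin 2) F) = 1 := by
    rw [← Matrix.SpecialLinearGroup.coe_mul, mul_inv_cancel, Matrix.SpecialLinearGroup.coe_one]
  have h1 := congrArg (fun w => (c : Matrix (Fin 2) (Fin 2) F).mulVec w) heq
  simp only [Matrix.mulVec_mulVec, hinv, Matrix.one_mulVec, Matrix.mulVec_smul] at h1
  have ha : a ≠ 0 := by
    rintro rfl
    rw [zero_smul] at h1
    exact hv h1
  apply hc a⁻¹ v hv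
  have h3 : a⁻¹ • v = (c : Matrix (Fin 2) (Fin 2) F).mulVec v := by
    conv_lhs => rw [h1]
    rw [smul_smul, inv_mul_cancel₀ ha, one_smul]
  exact h3.symm

omit [DecidableEq F] in
/-- An element without eigenvector is conjugate to its inverse. -/
theorem isConj_inv_of_noEigen (hodd : Odd (Fintype.card F))
    {c : Matrix.SpecialLinearGroup (Fin 2) F} (hc : NoEigen (c : Matrix (Fin 2) (Fin 2) F)) :
    IsConj c c⁻¹ := by
  apply isConj_of_noEigen_of_trace hodd hc (noEigen_inv hc)
  rw [Matrix.SpecialLinearGroup.coe_inv, Matrix.adjugate_fin_two, Matrix.trace_fin_two,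
    Matrix.trace_fin_two]
  simp
  ring

omit [DecidableEq F] in
/-- Every element without eigenvector is conjugate into the torus. -/
theorem exists_torSL_isConj (hodd : Odd (Fintype.card F))
    {g₀ : Matrix.SpecialLinearGroup (Fin 2) F} (hg₀ : NoEigen (g₀ : Matrix (Fin 2) (Fin 2) F))
    {g : Matrix.SpecialLinearGroup (Fin 2) F} (hg : NoEigen (g : Matrix (Fin 2) (Fin 2) F)) :
    ∃ c ∈ torSL g₀, NoEigen (c : Matrix (Fin 2) (Fin 2) F) ∧ IsConj g c := by
  classical
  have hF := ringChar_ne_two_of_odd hodd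
  have h2 : (2 : F) ≠ 0 := Ring.two_ne_zero hF
  have ht := not_isSquare_disc h2 g.det_coe hg
  obtain ⟨a, b, hb, hdet, htr⟩ := exists_commuting_of_trace hF g₀.det_coe hg₀ ht
  obtain ⟨c, hc⟩ : ∃ c : Matrix.SpecialLinearGroup (Fin 2) F,
      (c : Matrix (Fin 2) (Fin 2) F) =
        a • (1 : Matrix (Fin 2) (Fin 2) F) + b • (g₀ : Matrix (Fin 2) (Fin 2) F) :=
    ⟨⟨_, hdet⟩, rfl⟩
  have hce : NoEigen (c : Matrix (Fin 2) (Fin 2) F) := by
    rw [hc]
    exact noEigen_add_smul hg₀ a hb
  refine ⟨c, ?_, hce, ?_⟩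
  · rw [mem_torSL_iff, hc, add_mul, mul_add, Matrix.smul_mul, Matrix.mul_smul, Matrix.smul_mul,
      Matrix.mul_smul, one_mul, mul_one]
  · apply isConj_of_noEigen_of_trace hodd hg hce
    rw [hc]
    exact htr.symm

theorem sum_indicator_subgroup {G : Type*} [Group G] [Fintype G] (H : Subgroup G)
    [DecidablePred (· ∈ H)] :
    ∑ x : G, (if x ∈ H then (1 : ℂ) else 0) = (Nat.card H : ℂ) := by
  rw [Finset.sum_boole, Nat.card_eq_fintype_card (α := H)]
  congr 1
  exact (Fintype.card_subtype _).symm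

theorem sum_mul_indicator_subgroup {G : Type*} [Group G] [Fintype G] (H : Subgroup G)
    [DecidablePred (· ∈ H)] (f : G → ℂ) :
    ∑ x : G, f x * (if x ∈ H then (1 : ℂ) else 0) = ∑ a : H, f a := by
  simp only [mul_ite, mul_one, mul_zero]
  rw [← Finset.sum_filter]
  exact Finset.sum_subtype _ (fun x => by simp) _

open Classical in
/-- The number of `x` with `x⁻¹ g x` in the torus. -/
noncomputable def torCount (g₀ g : Matrix.SpecialLinearGroup (Fin 2) F) : ℂ :=
  ∑ x : Matrix.SpecialLinearGroup (Fin 2) F, if x⁻¹ * g * x ∈ torSL g₀ then (1 : ℂ) else 0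

theorem torCount_noEigen (hodd : Odd (Fintype.card F))
    {g₀ : Matrix.SpecialLinearGroup (Fin 2) F} (hg₀ : NoEigen (g₀ : Matrix (Fin 2) (Fin 2) F))
    {g : Matrix.SpecialLinearGroup (Fin 2) F} (hg : NoEigen (g : Matrix (Fin 2) (Fin 2) F)) :
    torCount g₀ g = 2 * (Nat.card (torSL g₀) : ℂ) := by
  classical
  have hF := ringChar_ne_two_of_odd hodd
  have h2 : (2 : F) ≠ 0 := Ring.two_ne_zero hF
  obtain ⟨c₁, hc₁, hc₁e, hconj⟩ := exists_torSL_isConj hodd hg₀ hg
  obtain ⟨y, hy⟩ := isConj_iff.mp hconj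
  obtain ⟨w, hw⟩ := isConj_iff.mp (isConj_inv_of_noEigen hodd hc₁e)
  have key : ∀ n : Matrix.SpecialLinearGroup (Fin 2) F,
      (if n⁻¹ * c₁ * n ∈ torSL g₀ then (1 : ℂ) else 0) =
      (if n ∈ torSL g₀ then (1 : ℂ) else 0) + (if n * w ∈ torSL g₀ then (1 : ℂ) else 0) := by
    intro n
    have hexcl : ¬ (n ∈ torSL g₀ ∧ n * w ∈ torSL g₀) := by
      rintro ⟨h1, h3⟩
      have hw' : w ∈ torSL g₀ := by
        have := (torSL g₀).mul_mem ((torSL g₀).inv_mem h1) h3
        simpa using this
      have h4 := torSL_comm hg₀ hw' hc₁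
      rw [h4, mul_inv_cancel_right] at hw
      exact ne_inv_of_noEigen h2 hc₁e hw.symm
    have hiff : n⁻¹ * c₁ * n ∈ torSL g₀ ↔ (n ∈ torSL g₀ ∨ n * w ∈ torSL g₀) := by
      constructor
      · intro hn
        have htr : (c₁ : Matrix (Fin 2) (Fin 2) F).trace =
            ((n⁻¹ * c₁ * n : Matrix.SpecialLinearGroup (Fin 2) F) :
              Matrix (Fin 2) (Fin 2) F).trace :=
          sl2_isConj_trace_eq (isConj_iff.mpr ⟨n⁻¹, by group⟩)
        rcases torSL_trace h2 hg₀ hc₁ hn htr with h | h
        · left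
          apply mem_torSL_of_commute hg₀ hc₁ hc₁e
          calc n * c₁ = n * (n⁻¹ * c₁ * n) := by rw [h]
            _ = c₁ * n := by group
        · right
          apply mem_torSL_of_commute hg₀ hc₁ hc₁e
          rw [← hw] at h
          calc n * w * c₁ = n * (w * c₁ * w⁻¹) * w := by group
            _ = n * (n⁻¹ * c₁ * n) * w := by rw [h]
            _ = c₁ * (n * w) := by group
      · rintro (hn | hn)
        · have h4 := torSL_comm hg₀ hn hc₁
          have : n⁻¹ * c₁ * n = c₁ := by
            rw [mul_assoc, ← h4]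
            group
          rw [this]
          exact hc₁
        · have h4 := torSL_comm hg₀ hn hc₁
          have : n⁻¹ * c₁ * n = c₁⁻¹ := by
            rw [← hw]
            calc n⁻¹ * c₁ * n = w * (n * w)⁻¹ * (c₁ * (n * w)) * w⁻¹ := by group
              _ = w * (n * w)⁻¹ * (n * w * c₁) * w⁻¹ := by rw [h4]
              _ = w * c₁ * w⁻¹ := by group
          rw [this]
          exact (torSL g₀).inv_mem hc₁
    by_cases h1 : n ∈ torSL g₀
    · have h3 : n * w ∉ torSL g₀ := fun h3 => hexcl ⟨h1, h3⟩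
      rw [if_pos (hiff.mpr (Or.inl h1)), if_pos h1, if_neg h3, add_zero]
    · by_cases h3 : n * w ∈ torSL g₀
      · rw [if_pos (hiff.mpr (Or.inr h3)), if_neg h1, if_pos h3, zero_add]
      · rw [if_neg (fun h => (hiff.mp h).elim h1 h3), if_neg h1, if_neg h3, add_zero]
  unfold torCount
  calc ∑ x : Matrix.SpecialLinearGroup (Fin 2) F,
        (if x⁻¹ * g * x ∈ torSL g₀ then (1 : ℂ) else 0)
      = ∑ n : Matrix.SpecialLinearGroup (Fin 2) F,
        (if n⁻¹ * c₁ * n ∈ torSL g₀ then (1 : ℂ) else 0) := by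
        apply Fintype.sum_equiv (Equiv.mulLeft y)
        intro x
        have : (y * x)⁻¹ * c₁ * (y * x) = x⁻¹ * g * x := by
          rw [← hy]
          group
        simp only [Equiv.coe_mulLeft, this]
    _ = ∑ n : Matrix.SpecialLinearGroup (Fin 2) F,
        ((if n ∈ torSL g₀ then (1 : ℂ) else 0) + (if n * w ∈ torSL g₀ then (1 : ℂ) else 0)) :=
        Finset.sum_congr rfl (fun n _ => key n)
    _ = (Nat.card (torSL g₀) : ℂ) + (Nat.card (torSL g₀) : ℂ) := by
        rw [Finset.sum_add_distrib, sum_indicator_subgroup]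
        congr 1
        rw [← sum_indicator_subgroup (torSL g₀)]
        exact Fintype.sum_equiv (Equiv.mulRight w) _ _ (fun n => rfl)
    _ = 2 * (Nat.card (torSL g₀) : ℂ) := by ring

theorem torCount_one (g₀ : Matrix.SpecialLinearGroup (Fin 2) F) :
    torCount g₀ 1 = (Nat.card (Matrix.SpecialLinearGroup (Fin 2) F) : ℂ) := by
  classical
  unfold torCount
  have : ∀ x : Matrix.SpecialLinearGroup (Fin 2) F, x⁻¹ * 1 * x ∈ torSL g₀ := by
    intro x
    simp
  rw [Finset.sum_congr rfl (fun x _ => if_pos (this x))]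
  simp [Nat.card_eq_fintype_card]

theorem torCount_negSL (g₀ : Matrix.SpecialLinearGroup (Fin 2) F) :
    torCount g₀ negSL = (Nat.card (Matrix.SpecialLinearGroup (Fin 2) F) : ℂ) := by
  classical
  unfold torCount
  have : ∀ x : Matrix.SpecialLinearGroup (Fin 2) F, x⁻¹ * negSL * x ∈ torSL g₀ := by
    intro x
    have h1 := Subgroup.mem_center_iff.mp (negSL_mem_center (F := F)) x
    have : x⁻¹ * negSL * x = negSL := by
      rw [mul_assoc, ← h1]
      group
    rw [this]
    exact negSL_mem_torSL g₀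
  rw [Finset.sum_congr rfl (fun x _ => if_pos (this x))]
  simp [Nat.card_eq_fintype_card]

theorem torCount_eigen {g₀ : Matrix.SpecialLinearGroup (Fin 2) F}
    (hg₀ : NoEigen (g₀ : Matrix (Fin 2) (Fin 2) F))
    {g : Matrix.SpecialLinearGroup (Fin 2) F} (h1 : g ≠ 1) (h2 : g ≠ negSL)
    (hg : ¬ NoEigen (g : Matrix (Fin 2) (Fin 2) F)) : torCount g₀ g = 0 := by
  classical
  unfold torCount
  apply Finset.sum_eq_zero
  intro x _
  rw [if_neg]
  intro hx
  rcases torSL_cases hg₀ hx with h | h | h
  · apply h1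
    calc g = x * (x⁻¹ * g * x) * x⁻¹ := by group
      _ = 1 := by rw [h]; group
  · apply h2
    have h3 := Subgroup.mem_center_iff.mp (negSL_mem_center (F := F)) x
    calc g = x * (x⁻¹ * g * x) * x⁻¹ := by group
      _ = x * negSL * x⁻¹ := by rw [h]
      _ = negSL := by rw [h3]; group
  · apply hg
    have h3 := noEigen_conj x _ h
    have h4 : x * (x⁻¹ * g * x) * x⁻¹ = g := by group
    rw [h4] at h3
    exact h3

open Classical in
theorem sum_mul_torCount (g₀ : Matrix.SpecialLinearGroup (Fin 2) F)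
    {f : Matrix.SpecialLinearGroup (Fin 2) F → ℂ}
    (hf : Cfsg.IsClassFunction (Matrix.SpecialLinearGroup (Fin 2) F) f) :
    ∑ g : Matrix.SpecialLinearGroup (Fin 2) F, f g * torCount g₀ g =
      (Nat.card (Matrix.SpecialLinearGroup (Fin 2) F) : ℂ) * ∑ a : torSL g₀, f a := by
  classical
  unfold torCount
  simp_rw [Finset.mul_sum]
  rw [Finset.sum_comm]
  have key : ∀ x : Matrix.SpecialLinearGroup (Fin 2) F,
      ∑ g : Matrix.SpecialLinearGroup (Fin 2) F,
        f g * (if x⁻¹ * g * x ∈ torSL g₀ then (1 : ℂ) else 0) = ∑ a : torSL g₀, f a := by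
    intro x
    rw [← sum_mul_indicator_subgroup (torSL g₀) f]
    symm
    apply Fintype.sum_equiv (MulAut.conj x).toEquiv
    intro g'
    have h1 : x⁻¹ * (x * g' * x⁻¹) * x = g' := by group
    simp only [MulEquiv.toEquiv_eq_coe, EquivLike.coe_coe, MulAut.conj_apply, h1, hf g' x]
  simp only [key, Finset.sum_const, Finset.card_univ, nsmul_eq_mul, Nat.card_eq_fintype_card]
  rw [Finset.mul_sum]

omit [DecidableEq F] in
theorem card_sl2_cast :
    (Nat.card (Matrix.SpecialLinearGroup (Fin 2) F) : ℂ) =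
      (Fintype.card F : ℂ) * ((Fintype.card F : ℂ) - 1) * ((Fintype.card F : ℂ) + 1) := by
  have hq1 : 1 < Fintype.card F := Fintype.one_lt_card
  rw [Helper5.card_SL2, Nat.cast_mul, Nat.cast_sub (Nat.one_le_pow _ _ (by omega))]
  push_cast
  ring

/-- Frobenius reciprocity for the permutation character on the projective line. -/
theorem sum_mul_psSL_one {f : Matrix.SpecialLinearGroup (Fin 2) F → ℂ}
    (hf : Cfsg.IsClassFunction (Matrix.SpecialLinearGroup (Fin 2) F) f) :
    ∑ g : Matrix.SpecialLinearGroup (Fin 2) F, f g * psSL (1 : MulChar F ℂ) g =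
      ((Fintype.card F : ℂ) + 1) * ∑ a : Fˣ, ∑ c : F, f (triSL a c) := by
  have hcf : Cfsg.IsClassFunction (Matrix.SpecialLinearGroup (Fin 2) F)
      (fun g => conj (f g)) := fun g h => by
    simp only
    rw [hf g h]
  have h1 := classInner_psSL (1 : MulChar F ℂ) (fun g => conj (f g)) hcf
  unfold Cfsg.classInner at h1
  simp only [Complex.conj_conj] at h1
  have hone : ∀ a : Fˣ, (1 : MulChar F ℂ) (a : F) = 1 := fun a => MulChar.one_apply a.isUnit
  simp only [hone, one_mul] at h1
  rw [card_sl2_cast] at h1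
  have hq1 : 1 < Fintype.card F := Fintype.one_lt_card
  have hq0 : (Fintype.card F : ℂ) ≠ 0 := by
    exact_mod_cast (by omega : Fintype.card F ≠ 0)
  have hq1' : (Fintype.card F : ℂ) - 1 ≠ 0 := by
    intro h
    have : (Fintype.card F : ℂ) = 1 := by linear_combination h
    have : Fintype.card F = 1 := by exact_mod_cast this
    omega
  have hq2 : (Fintype.card F : ℂ) + 1 ≠ 0 := by
    intro h
    have : ((Fintype.card F + 1 : ℕ) : ℂ) = 0 := by push_cast; exact h
    have : Fintype.card F + 1 = 0 := by exact_mod_cast this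
    omega
  have h3 : ∑ g : Matrix.SpecialLinearGroup (Fin 2) F, f g * psSL (1 : MulChar F ℂ) g =
      ∑ g : Matrix.SpecialLinearGroup (Fin 2) F, psSL (1 : MulChar F ℂ) g * f g :=
    Finset.sum_congr rfl (fun g _ => mul_comm _ _)
  rw [h3]
  field_simp at h1
  linear_combination h1

/-- **Integration formula** for class functions vanishing at the regular split semisimple
elements. -/
theorem torus_integration (hodd : Odd (Fintype.card F))
    {g₀ : Matrix.SpecialLinearGroup (Fin 2) F} (hg₀ : NoEigen (g₀ : Matrix (Fin 2) (Fin 2) F))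
    {f : Matrix.SpecialLinearGroup (Fin 2) F → ℂ}
    (hf : Cfsg.IsClassFunction (Matrix.SpecialLinearGroup (Fin 2) F) f)
    (hsplit : ∀ a : Fˣ, (a : F) ^ 2 ≠ 1 → f (triSL a 0) = 0) :
    ∑ g : Matrix.SpecialLinearGroup (Fin 2) F, f g * psSL (1 : MulChar F ℂ) g +
      (2 * (Nat.card (torSL g₀) : ℂ))⁻¹ *
        ∑ g : Matrix.SpecialLinearGroup (Fin 2) F, f g * torCount g₀ g -
      ∑ g : Matrix.SpecialLinearGroup (Fin 2) F, f g =
    (f 1 + f negSL) * ((Fintype.card F : ℂ) +
      (Nat.card (Matrix.SpecialLinearGroup (Fin 2) F) : ℂ) *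
        (2 * (Nat.card (torSL g₀) : ℂ))⁻¹) := by
  classical
  have hF := ringChar_ne_two_of_odd hodd
  have h2 : (2 : F) ≠ 0 := Ring.two_ne_zero hF
  have hN : (Nat.card (torSL g₀) : ℂ) ≠ 0 := by
    exact_mod_cast Nat.card_pos.ne'
  have hne : (1 : Matrix.SpecialLinearGroup (Fin 2) F) ≠ negSL := by
    intro h
    have h3 := congrArg (fun g : Matrix.SpecialLinearGroup (Fin 2) F =>
      (g : Matrix (Fin 2) (Fin 2) F) 0 0) h
    simp only [negSL_coe, Matrix.SpecialLinearGroup.coe_one] at h3
    simp at h3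
    apply h2
    linear_combination h3
  have hconjf : ∀ {g k : Matrix.SpecialLinearGroup (Fin 2) F}, IsConj g k → f g = f k := by
    intro g k hc
    obtain ⟨x, hx⟩ := isConj_iff.mp hc
    rw [← hx, hf g x]
  have hps := Cfsg.Agent.Helper79.isCharacter_isClassFunction
    (psSL_isCharacter (1 : MulChar F ℂ))
  have key : ∑ g : Matrix.SpecialLinearGroup (Fin 2) F,
      f g * (psSL (1 : MulChar F ℂ) g + (2 * (Nat.card (torSL g₀) : ℂ))⁻¹ * torCount g₀ g - 1) =
      (f 1 + f negSL) * ((Fintype.card F : ℂ) +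
      (Nat.card (Matrix.SpecialLinearGroup (Fin 2) F) : ℂ) *
        (2 * (Nat.card (torSL g₀) : ℂ))⁻¹) := by
    rw [Finset.sum_eq_add (1 : Matrix.SpecialLinearGroup (Fin 2) F) negSL hne]
    · rw [psSL_one, psSL_negSL, torCount_one, torCount_negSL,
        MulChar.one_apply (isUnit_one.neg)]
      ring
    · rintro g - ⟨hg1, hg2⟩
      by_cases hg : NoEigen (g : Matrix (Fin 2) (Fin 2) F)
      · rw [psSL_eq_zero_of_no_eigen 1 g hg, torCount_noEigen hodd hg₀ hg]
        field_simp
        ring
      · obtain ⟨x, a, b, rfl⟩ := exists_conj_triSL g hg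
        rw [torCount_eigen hg₀ hg1 hg2 hg, hf (triSL a b) x, hps (triSL a b) x]
        by_cases ha : (a : F) ^ 2 = 1
        · have hb : b ≠ 0 := by
            rintro rfl
            have h3 : ((a : F) - 1) * ((a : F) + 1) = 0 := by linear_combination ha
            rcases mul_eq_zero.1 h3 with h4 | h4
            · apply hg1
              have : a = 1 := Units.ext (by rw [Units.val_one]; linear_combination h4)
              rw [this, triSL_one_eq, uSL_zero]
              group
            · apply hg2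
              have : a = -1 := Units.ext (by rw [Units.val_neg, Units.val_one]; linear_combination h4)
              rw [this]
              have e : triSL (-1 : Fˣ) (0 : F) = negSL := by
                rw [negSL_eq_triSL]
              rw [e]
              have h5 := Subgroup.mem_center_iff.mp (negSL_mem_center (F := F)) x
              rw [h5]
              group
          rw [psSL_triSL_same 1 ha hb, MulChar.one_apply a.isUnit]
          ring
        · rw [hconjf (isConj_triSL ha b), hsplit a ha]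
          ring
    · intro h
      exact absurd (Finset.mem_univ _) h
    · intro h
      exact absurd (Finset.mem_univ _) h
  rw [← key, Finset.mul_sum, ← Finset.sum_add_distrib, ← Finset.sum_sub_distrib]
  apply Finset.sum_congr rfl
  intro g _
  ring

theorem sum_psSL_one_borel :
    ∑ a : Fˣ, ∑ c : F, psSL (1 : MulChar F ℂ) (triSL a c) =
      2 * ((Fintype.card F : ℂ) * ((Fintype.card F : ℂ) - 1)) := by
  have hps := Cfsg.Agent.Helper79.isCharacter_isClassFunction
    (psSL_isCharacter (1 : MulChar F ℂ))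
  have h1 := classInner_psSL (1 : MulChar F ℂ) (psSL (1 : MulChar F ℂ)) hps
  rw [psSL_inner] at h1
  have hone : ∀ a : Fˣ, (1 : MulChar F ℂ) (a : F) = 1 := fun a => MulChar.one_apply a.isUnit
  simp only [hone, one_mul, if_true, mul_one] at h1
  have hq1 : 1 < Fintype.card F := Fintype.one_lt_card
  have hq0 : (Fintype.card F : ℂ) ≠ 0 := by
    exact_mod_cast (by omega : Fintype.card F ≠ 0)
  have hq1' : (Fintype.card F : ℂ) - 1 ≠ 0 := by
    intro h
    have : (Fintype.card F : ℂ) = 1 := by linear_combination h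
    have : Fintype.card F = 1 := by exact_mod_cast this
    omega
  have h2 : ∑ a : Fˣ, ∑ c : F, conj (psSL (1 : MulChar F ℂ) (triSL a c)) =
      2 * ((Fintype.card F : ℂ) * ((Fintype.card F : ℂ) - 1)) := by
    field_simp at h1
    linear_combination -h1
  have h3 := congrArg conj h2
  simp only [map_sum, Complex.conj_conj, map_mul, map_sub, Complex.conj_natCast, map_one,
    map_ofNat] at h3
  exact h3

/-- The torus has order `q + 1`. -/
theorem card_torSL (hodd : Odd (Fintype.card F))
    {g₀ : Matrix.SpecialLinearGroup (Fin 2) F} (hg₀ : NoEigen (g₀ : Matrix (Fin 2) (Fin 2) F)) :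
    Nat.card (torSL g₀) = Fintype.card F + 1 := by
  classical
  have hF := ringChar_ne_two_of_odd hodd
  have h2 : (2 : F) ≠ 0 := Ring.two_ne_zero hF
  have hps := Cfsg.Agent.Helper79.isCharacter_isClassFunction
    (psSL_isCharacter (1 : MulChar F ℂ))
  have hN : (Nat.card (torSL g₀) : ℂ) ≠ 0 := by
    exact_mod_cast Nat.card_pos.ne'
  have hq1 : 1 < Fintype.card F := Fintype.one_lt_card
  have hq0 : (Fintype.card F : ℂ) ≠ 0 := by
    exact_mod_cast (by omega : Fintype.card F ≠ 0)
  have hq1' : (Fintype.card F : ℂ) - 1 ≠ 0 := by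
    intro h
    have : (Fintype.card F : ℂ) = 1 := by linear_combination h
    have : Fintype.card F = 1 := by exact_mod_cast this
    omega
  have hf : Cfsg.IsClassFunction (Matrix.SpecialLinearGroup (Fin 2) F)
      (fun g => 2 - psSL (1 : MulChar F ℂ) g) := fun g h => by
    simp only
    rw [hps g h]
  have hone : Cfsg.IsClassFunction (Matrix.SpecialLinearGroup (Fin 2) F)
      (fun _ => (1 : ℂ)) := fun g h => rfl
  have hint := torus_integration hodd hg₀ hf (fun a ha => by
    rw [psSL_triSL 1 ha, MulChar.one_apply a.isUnit, MulChar.one_apply (a⁻¹).isUnit]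
    ring)
  -- first term
  have t1 : ∑ g : Matrix.SpecialLinearGroup (Fin 2) F,
      (2 - psSL (1 : MulChar F ℂ) g) * psSL (1 : MulChar F ℂ) g = 0 := by
    rw [sum_mul_psSL_one hf]
    simp only [Finset.sum_sub_distrib]
    rw [sum_psSL_one_borel]
    simp only [Finset.sum_const, Finset.card_univ, Fintype.card_units, nsmul_eq_mul]
    rw [Nat.cast_sub hq1.le]
    push_cast
    ring
  -- the torus term
  have t2 : ∑ a : torSL g₀, psSL (1 : MulChar F ℂ) (a : Matrix.SpecialLinearGroup (Fin 2) F) =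
      2 * ((Fintype.card F : ℂ) + 1) := by
    have hne : (⟨1, (torSL g₀).one_mem⟩ : torSL g₀) ≠ ⟨negSL, negSL_mem_torSL g₀⟩ := by
      intro h
      have h3 := congrArg (fun g : torSL g₀ =>
        ((g : Matrix.SpecialLinearGroup (Fin 2) F) : Matrix (Fin 2) (Fin 2) F) 0 0) h
      simp only [negSL_coe, Matrix.SpecialLinearGroup.coe_one] at h3
      simp at h3
      apply h2
      linear_combination h3
    rw [Finset.sum_eq_add (⟨1, (torSL g₀).one_mem⟩ : torSL g₀) ⟨negSL, negSL_mem_torSL g₀⟩ hne]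
    · rw [psSL_one, psSL_negSL, MulChar.one_apply (isUnit_one.neg)]
      ring
    · rintro ⟨a, ha⟩ - ⟨h3, h4⟩
      rcases torSL_cases hg₀ ha with h | h | h
      · exact absurd (Subtype.ext h) h3
      · exact absurd (Subtype.ext h) h4
      · exact psSL_eq_zero_of_no_eigen 1 a h
    · intro h
      exact absurd (Finset.mem_univ _) h
    · intro h
      exact absurd (Finset.mem_univ _) h
  have t3 : ∑ g : Matrix.SpecialLinearGroup (Fin 2) F, psSL (1 : MulChar F ℂ) g =
      (Nat.card (Matrix.SpecialLinearGroup (Fin 2) F) : ℂ) := by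
    have h3 := sum_mul_psSL_one (F := F) hone
    simp only [one_mul] at h3
    rw [h3, card_sl2_cast]
    simp only [Finset.sum_const, Finset.card_univ, Fintype.card_units, nsmul_eq_mul, mul_one]
    rw [Nat.cast_sub hq1.le]
    push_cast
    ring
  rw [t1, sum_mul_torCount g₀ hf] at hint
  simp only [Finset.sum_sub_distrib, t2, t3, psSL_one, psSL_negSL,
    MulChar.one_apply (isUnit_one.neg)] at hint
  simp only [Finset.sum_const, Finset.card_univ, nsmul_eq_mul] at hint
  rw [← Nat.card_eq_fintype_card (α := torSL g₀), ← Nat.card_eq_fintype_card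
    (α := Matrix.SpecialLinearGroup (Fin 2) F), card_sl2_cast] at hint
  have hfin : (Nat.card (torSL g₀) : ℂ) = (Fintype.card F : ℂ) + 1 := by
    field_simp at hint
    have h5 : (Fintype.card F : ℂ) * ((Fintype.card F : ℂ) - 1) *
        ((Nat.card (torSL g₀) : ℂ) - ((Fintype.card F : ℂ) + 1)) = 0 := by
      linear_combination (1 / 4 : ℂ) * hint
    rcases mul_eq_zero.1 h5 with h6 | h6
    · rcases mul_eq_zero.1 h6 with h7 | h7
      · exact absurd h7 hq0
      · exact absurd h7 hq1'
    · linear_combination h6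
  exact_mod_cast hfin

end Finite

end Cfsg.Agent.Helper39
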