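import Mathlib
import Cfsg.Agent.Helper39.EllTorus

/-!
# The non-split torus of `SL₂(q)` is cyclic (helper39)

The centralizer `torSL g₀` of an element without eigenvector embeds in the multiplicative
group of an algebraic closure (via an eigenvalue), hence is cyclic.
-/

set_option autoImplicit false

namespace Cfsg.Agent.Helper39

section Cyc

variable {F : Type*} [Field F]

/-- A matrix without eigenvector has no root of its eigenvector equation. -/
theorem no_root_of_noEigen {A : Matrix (Fin 2) (Fin 2) F} (h : NoEigen A) (m : F) :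
    A 1 0 * m ^ 2 + (A 1 1 - A 0 0) * m - A 0 1 ≠ 0 := by
  intro hm
  apply h (A 1 0 * m + A 1 1) ![m, 1]
  · intro h1
    have := congrFun h1 1
    simp at this
  · ext i
    fin_cases i
    · simp [Matrix.mulVec, dotProduct, Fin.sum_univ_two]
      linear_combination -hm
    · simp [Matrix.mulVec, dotProduct, Fin.sum_univ_two]

/-- If `X` commutes with `A`, the eigenvector equation of `A` implies that of `X`. -/
theorem eigen_rel {K : Type*} [Field K] [Algebra F K] {A X : Matrix (Fin 2) (Fin 2) F}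
    (hz : A 1 0 ≠ 0) (hc : X * A = A * X) {m : K}
    (hm : algebraMap F K (A 1 0) * m ^ 2 + (algebraMap F K (A 1 1) - algebraMap F K (A 0 0)) * m
      - algebraMap F K (A 0 1) = 0) :
    algebraMap F K (X 1 0) * m ^ 2 + (algebraMap F K (X 1 1) - algebraMap F K (X 0 0)) * m
      - algebraMap F K (X 0 1) = 0 := by
  have e := commute_eq_add_smul hz hc
  have h10 : X 1 0 = X 1 0 / A 1 0 * A 1 0 := by field_simp
  have e00 := congrFun (congrFun e 0) 0
  have e01 := congrFun (congrFun e 0) 1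
  simp only [Matrix.add_apply, Matrix.smul_apply, Matrix.one_apply_eq, smul_eq_mul, mul_one]
    at e00
  simp only [Matrix.add_apply, Matrix.smul_apply, smul_eq_mul] at e01
  rw [Matrix.one_apply_ne (by decide : (0 : Fin 2) ≠ 1), mul_zero, zero_add] at e01
  have h00 : X 1 1 - X 0 0 = X 1 0 / A 1 0 * (A 1 1 - A 0 0) := by
    linear_combination -e00
  have h3 : algebraMap F K (X 1 1) - algebraMap F K (X 0 0) =
      algebraMap F K (X 1 0 / A 1 0) * (algebraMap F K (A 1 1) - algebraMap F K (A 0 0)) := by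
    rw [← map_sub, ← map_sub, ← map_mul, h00]
  have h4 : algebraMap F K (X 1 0) = algebraMap F K (X 1 0 / A 1 0) * algebraMap F K (A 1 0) := by
    rw [← map_mul, ← h10]
  have h5 : algebraMap F K (X 0 1) = algebraMap F K (X 1 0 / A 1 0) * algebraMap F K (A 0 1) := by
    rw [← map_mul, ← e01]
  rw [h3, h4, h5]
  linear_combination (algebraMap F K (X 1 0 / A 1 0)) * hm

/-- The eigenvalue homomorphism on the torus. -/
noncomputable def torHom {K : Type*} [Field K] [Algebra F K]
    {g₀ : Matrix.SpecialLinearGroup (Fin 2) F} (hg₀ : NoEigen (g₀ : Matrix (Fin 2) (Fin 2) F))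
    {m : K}
    (hm : algebraMap F K ((g₀ : Matrix (Fin 2) (Fin 2) F) 1 0) * m ^ 2 +
      (algebraMap F K ((g₀ : Matrix (Fin 2) (Fin 2) F) 1 1) -
        algebraMap F K ((g₀ : Matrix (Fin 2) (Fin 2) F) 0 0)) * m
      - algebraMap F K ((g₀ : Matrix (Fin 2) (Fin 2) F) 0 1) = 0) :
    torSL g₀ →* K where
  toFun x := algebraMap F K (((x : Matrix.SpecialLinearGroup (Fin 2) F) :
      Matrix (Fin 2) (Fin 2) F) 1 0) * m +
    algebraMap F K (((x : Matrix.SpecialLinearGroup (Fin 2) F) : Matrix (Fin 2) (Fin 2) F) 1 1)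
  map_one' := by simp
  map_mul' x y := by
    have hy := eigen_rel (noEigen_coe10 hg₀) (mem_torSL_iff.mp y.2) hm
    simp only [Subgroup.coe_mul, Matrix.SpecialLinearGroup.coe_mul, Matrix.mul_apply,
      Fin.sum_univ_two, map_add, map_mul]
    linear_combination (-(algebraMap F K (((x : Matrix.SpecialLinearGroup (Fin 2) F) :
      Matrix (Fin 2) (Fin 2) F) 1 0))) * hy

theorem torHom_apply {K : Type*} [Field K] [Algebra F K]
    {g₀ : Matrix.SpecialLinearGroup (Fin 2) F} (hg₀ : NoEigen (g₀ : Matrix (Fin 2) (Fin 2) F))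
    {m : K}
    (hm : algebraMap F K ((g₀ : Matrix (Fin 2) (Fin 2) F) 1 0) * m ^ 2 +
      (algebraMap F K ((g₀ : Matrix (Fin 2) (Fin 2) F) 1 1) -
        algebraMap F K ((g₀ : Matrix (Fin 2) (Fin 2) F) 0 0)) * m
      - algebraMap F K ((g₀ : Matrix (Fin 2) (Fin 2) F) 0 1) = 0) (x : torSL g₀) :
    torHom hg₀ hm x = algebraMap F K (((x : Matrix.SpecialLinearGroup (Fin 2) F) :
      Matrix (Fin 2) (Fin 2) F) 1 0) * m +
    algebraMap F K (((x : Matrix.SpecialLinearGroup (Fin 2) F) : Matrix (Fin 2) (Fin 2) F) 1 1) :=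
  rfl

theorem torHom_eq_one {K : Type*} [Field K] [Algebra F K]
    {g₀ : Matrix.SpecialLinearGroup (Fin 2) F} (hg₀ : NoEigen (g₀ : Matrix (Fin 2) (Fin 2) F))
    {m : K}
    (hm : algebraMap F K ((g₀ : Matrix (Fin 2) (Fin 2) F) 1 0) * m ^ 2 +
      (algebraMap F K ((g₀ : Matrix (Fin 2) (Fin 2) F) 1 1) -
        algebraMap F K ((g₀ : Matrix (Fin 2) (Fin 2) F) 0 0)) * m
      - algebraMap F K ((g₀ : Matrix (Fin 2) (Fin 2) F) 0 1) = 0) {x : torSL g₀}
    (hx : torHom hg₀ hm x = 1) : x = 1 := by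
  have hinj : Function.Injective (algebraMap F K) := (algebraMap F K).injective
  rw [torHom_apply] at hx
  have hz := noEigen_coe10 hg₀
  have e := commute_eq_add_smul hz (mem_torSL_iff.mp x.2)
  by_cases h10 : ((x : Matrix.SpecialLinearGroup (Fin 2) F) : Matrix (Fin 2) (Fin 2) F) 1 0 = 0
  · rw [h10, map_zero, zero_mul, zero_add] at hx
    have h11 : ((x : Matrix.SpecialLinearGroup (Fin 2) F) : Matrix (Fin 2) (Fin 2) F) 1 1 = 1 := by
      apply hinj
      rw [hx, map_one]
    apply Subtype.ext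
    apply Subtype.ext
    rw [e, h10, h11]
    simp
  · exfalso
    have h10' : algebraMap F K
        (((x : Matrix.SpecialLinearGroup (Fin 2) F) : Matrix (Fin 2) (Fin 2) F) 1 0) ≠ 0 := by
      intro h
      apply h10
      apply hinj
      rw [h, map_zero]
    have hmeq : m = algebraMap F K
        ((1 - ((x : Matrix.SpecialLinearGroup (Fin 2) F) : Matrix (Fin 2) (Fin 2) F) 1 1) /
          ((x : Matrix.SpecialLinearGroup (Fin 2) F) : Matrix (Fin 2) (Fin 2) F) 1 0) := by
      rw [map_div₀, map_sub, map_one, eq_div_iff h10']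
      linear_combination hx
    rw [hmeq] at hm
    rw [← map_pow, ← map_sub, ← map_mul, ← map_mul, ← map_add, ← map_sub] at hm
    have := hinj (hm.trans (map_zero _).symm)
    exact no_root_of_noEigen hg₀ _ this

theorem torHom_injective {K : Type*} [Field K] [Algebra F K]
    {g₀ : Matrix.SpecialLinearGroup (Fin 2) F} (hg₀ : NoEigen (g₀ : Matrix (Fin 2) (Fin 2) F))
    {m : K}
    (hm : algebraMap F K ((g₀ : Matrix (Fin 2) (Fin 2) F) 1 0) * m ^ 2 +
      (algebraMap F K ((g₀ : Matrix (Fin 2) (Fin 2) F) 1 1) -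
        algebraMap F K ((g₀ : Matrix (Fin 2) (Fin 2) F) 0 0)) * m
      - algebraMap F K ((g₀ : Matrix (Fin 2) (Fin 2) F) 0 1) = 0) :
    Function.Injective (torHom hg₀ hm) := by
  intro x y hxy
  have h1 : torHom hg₀ hm (x * y⁻¹) = 1 := by
    rw [map_mul, hxy, ← map_mul, mul_inv_cancel, map_one]
  have h2 := torHom_eq_one hg₀ hm h1
  exact mul_inv_eq_one.mp h2

/-- The torus is cyclic. -/
theorem isCyclic_torSL [Fintype F] [DecidableEq F]
    {g₀ : Matrix.SpecialLinearGroup (Fin 2) F} (hg₀ : NoEigen (g₀ : Matrix (Fin 2) (Fin 2) F)) :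
    IsCyclic (torSL g₀) := by
  have hz := noEigen_coe10 hg₀
  have hz' : algebraMap F (AlgebraicClosure F) ((g₀ : Matrix (Fin 2) (Fin 2) F) 1 0) ≠ 0 := by
    intro h
    apply hz
    apply (algebraMap F (AlgebraicClosure F)).injective
    rw [h, map_zero]
  obtain ⟨m, hm⟩ := IsAlgClosed.exists_root
    (Polynomial.C (algebraMap F (AlgebraicClosure F) ((g₀ : Matrix (Fin 2) (Fin 2) F) 1 0)) *
        Polynomial.X ^ 2 +
      Polynomial.C (algebraMap F (AlgebraicClosure F) ((g₀ : Matrix (Fin 2) (Fin 2) F) 1 1) -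
        algebraMap F (AlgebraicClosure F) ((g₀ : Matrix (Fin 2) (Fin 2) F) 0 0)) * Polynomial.X +
      Polynomial.C (-algebraMap F (AlgebraicClosure F) ((g₀ : Matrix (Fin 2) (Fin 2) F) 0 1)))
    (by rw [Polynomial.degree_quadratic hz']; decide)
  have hm' : algebraMap F (AlgebraicClosure F) ((g₀ : Matrix (Fin 2) (Fin 2) F) 1 0) * m ^ 2 +
      (algebraMap F (AlgebraicClosure F) ((g₀ : Matrix (Fin 2) (Fin 2) F) 1 1) -
        algebraMap F (AlgebraicClosure F) ((g₀ : Matrix (Fin 2) (Fin 2) F) 0 0)) * m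
      - algebraMap F (AlgebraicClosure F) ((g₀ : Matrix (Fin 2) (Fin 2) F) 0 1) = 0 := by
    have h := hm
    unfold Polynomial.IsRoot at h
    simp only [Polynomial.eval_add, Polynomial.eval_mul, Polynomial.eval_C, Polynomial.eval_pow,
      Polynomial.eval_X] at h
    linear_combination h
  exact isCyclic_of_injective_ringHom (torHom hg₀ hm') (torHom_injective hg₀ hm')

/-- A generator of the torus, of order `q + 1`. -/
theorem exists_gen_torSL [Fintype F] [DecidableEq F] (hodd : Odd (Fintype.card F))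
    {g₀ : Matrix.SpecialLinearGroup (Fin 2) F} (hg₀ : NoEigen (g₀ : Matrix (Fin 2) (Fin 2) F)) :
    ∃ c₀ : torSL g₀, (∀ x : torSL g₀, x ∈ Subgroup.zpowers c₀) ∧
      orderOf c₀ = Fintype.card F + 1 := by
  have := isCyclic_torSL hg₀
  obtain ⟨c₀, hc₀⟩ := IsCyclic.exists_generator (α := torSL g₀)
  exact ⟨c₀, hc₀, (orderOf_eq_card_of_forall_mem_zpowers hc₀).trans (card_torSL hodd hg₀)⟩

end Cyc

/-- Homomorphisms agreeing on a generator are equal. -/
theorem hom_eq_of_gen {A M : Type*} [Group A] [Group M] (f f' : A →* M) {c₀ : A}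
    (hgen : ∀ x : A, x ∈ Subgroup.zpowers c₀) (h : f c₀ = f' c₀) : f = f' := by
  ext x
  obtain ⟨k, rfl⟩ := Subgroup.mem_zpowers_iff.mp (hgen x)
  rw [map_zpow, map_zpow, h]

end Cfsg.Agent.Helper39
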