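import Mathlib
import Cfsg.Agent.Helper39.EllCyclic
import Cfsg.Agent.Helper39.AbelDual
import Cfsg.Agent.Helper15.CharScalar

/-!
# Cuspidal characters of `SL₂(q)` on the non-split torus (helper39)

Sums of a cuspidal irreducible character and of its absolute square over the torus, and the
decomposition of its restriction to the torus into homomorphisms.
-/

set_option autoImplicit false

namespace Cfsg.Agent.Helper39

open scoped ComplexConjugate

/-- A central involution acts by a sign in every irreducible character. -/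
theorem central_sign {G : Type*} [Group G] {χ : G → ℂ} (hχ : Cfsg.IsIrrCharacter G χ) {z : G}
    (hz : z ∈ Subgroup.center G) (hz2 : z * z = 1) :
    ∃ ε : ℂ, (ε = 1 ∨ ε = -1) ∧ ∀ g, χ (z * g) = ε * χ g := by
  obtain ⟨n, ρ, hirr, hχ⟩ := hχ
  have := hirr
  obtain ⟨c, hc⟩ := Helper15.rep_central_scalar ρ hz
  have hpos := Cfsg.Agent.Helper80.rep_finrank_pos ρ
  have hc2 : c * c = 1 := by
    have h1 : ρ z * ρ z = 1 := by rw [← map_mul, hz2, map_one]
    rw [hc, smul_mul_smul_comm, one_mul] at h1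
    have h3 := congrArg (LinearMap.trace ℂ (Fin n → ℂ)) h1
    rw [map_smul, LinearMap.trace_one, smul_eq_mul] at h3
    have h4 : (Module.finrank ℂ (Fin n → ℂ) : ℂ) ≠ 0 := by exact_mod_cast hpos.ne'
    have h5 : (c * c - 1) * (Module.finrank ℂ (Fin n → ℂ) : ℂ) = 0 := by
      rw [sub_mul, h3, one_mul, sub_self]
    rcases mul_eq_zero.mp h5 with h6 | h6
    · exact sub_eq_zero.mp h6
    · exact absurd h6 h4
  refine ⟨c, ?_, fun g => ?_⟩
  · have : (c - 1) * (c + 1) = 0 := by linear_combination hc2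
    rcases mul_eq_zero.1 this with h | h
    · left; linear_combination h
    · right; linear_combination h
  · rw [← hχ]; exact Helper15.char_mul_of_rep_scalar ρ hc g

section CuspTorus

variable {F : Type*} [Field F] [Fintype F] [DecidableEq F]

omit [Fintype F] [DecidableEq F] in
theorem negSL_mul_self : (negSL : Matrix.SpecialLinearGroup (Fin 2) F) * negSL = 1 := by
  rw [← mul_one (negSL * negSL), mul_assoc]
  exact negSL_mul_negSL_mul 1

omit [Fintype F] [DecidableEq F] in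
/-- The sign of an irreducible character of `SL₂` at `-1`. -/
theorem sl2_central_sign {χ : Matrix.SpecialLinearGroup (Fin 2) F → ℂ}
    (hχ : Cfsg.IsIrrCharacter (Matrix.SpecialLinearGroup (Fin 2) F) χ) :
    ∃ ε : ℂ, (ε = 1 ∨ ε = -1) ∧ ∀ g, χ (negSL * g) = ε * χ g :=
  central_sign hχ negSL_mem_center negSL_mul_self

open Classical in
/-- Sum of a class function, vanishing at the split regular elements, over the torus. -/
theorem sum_torSL_eq (hodd : Odd (Fintype.card F))
    {g₀ : Matrix.SpecialLinearGroup (Fin 2) F} (hg₀ : NoEigen (g₀ : Matrix (Fin 2) (Fin 2) F))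
    {f : Matrix.SpecialLinearGroup (Fin 2) F → ℂ}
    (hf : Cfsg.IsClassFunction (Matrix.SpecialLinearGroup (Fin 2) F) f)
    (hsplit : ∀ a : Fˣ, (a : F) ^ 2 ≠ 1 → f (triSL a 0) = 0) :
    ((Fintype.card F : ℂ) * ((Fintype.card F : ℂ) - 1)) * ∑ a : torSL g₀, f a =
      2 * ∑ g : Matrix.SpecialLinearGroup (Fin 2) F, f g -
        2 * ((Fintype.card F : ℂ) + 1) * ∑ a : Fˣ, ∑ c : F, f (triSL a c) +
        (f 1 + f negSL) * ((Fintype.card F : ℂ) * ((Fintype.card F : ℂ) + 1)) := by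
  have h := torus_integration hodd hg₀ hf hsplit
  rw [sum_mul_psSL_one hf, sum_mul_torCount g₀ hf, card_torSL hodd hg₀, card_sl2_cast] at h
  push_cast at h
  have hq1 : (Fintype.card F : ℂ) + 1 ≠ 0 := by
    exact_mod_cast (Nat.succ_ne_zero (Fintype.card F))
  have hinv : 2 * ((Fintype.card F : ℂ) + 1) * (2 * ((Fintype.card F : ℂ) + 1))⁻¹ = 1 :=
    mul_inv_cancel₀ (mul_ne_zero two_ne_zero hq1)
  linear_combination 2 * h +
    (-((Fintype.card F : ℂ) * ((Fintype.card F : ℂ) - 1)) * ∑ a : torSL g₀, f a +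
      (f 1 + f negSL) * ((Fintype.card F : ℂ) * ((Fintype.card F : ℂ) - 1))) * hinv

theorem cusp_ne_trivSL {χ : Matrix.SpecialLinearGroup (Fin 2) F → ℂ}
    (hc : ∀ α : MulChar F ℂ, Cfsg.classInner (psSL α) χ = 0) : χ ≠ trivSL := by
  rintro rfl
  have := hc 1
  rw [classInner_psSL_trivSL, if_pos rfl] at this
  exact one_ne_zero this

theorem cusp_sum_G {χ : Matrix.SpecialLinearGroup (Fin 2) F → ℂ}
    (hχ : Cfsg.IsIrrCharacter (Matrix.SpecialLinearGroup (Fin 2) F) χ)
    (hc : ∀ α : MulChar F ℂ, Cfsg.classInner (psSL α) χ = 0) :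
    ∑ g : Matrix.SpecialLinearGroup (Fin 2) F, χ g = 0 := by
  have h := Helper15.irr_inner_ne hχ trivSL_irr (cusp_ne_trivSL hc)
  unfold Cfsg.classInner at h
  simp only [trivSL, map_one, mul_one] at h
  rcases mul_eq_zero.1 h with h | h
  · exfalso
    rw [inv_eq_zero] at h
    have : Nat.card (Matrix.SpecialLinearGroup (Fin 2) F) ≠ 0 := Nat.card_pos.ne'
    exact this (by exact_mod_cast h)
  · exact h

theorem cusp_sum_B {χ : Matrix.SpecialLinearGroup (Fin 2) F → ℂ}
    (hχ : Cfsg.IsIrrCharacter (Matrix.SpecialLinearGroup (Fin 2) F) χ)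
    (hc : ∀ α : MulChar F ℂ, Cfsg.classInner (psSL α) χ = 0) :
    ∑ a : Fˣ, ∑ c : F, χ (triSL a c) = 0 := by
  have hcf := Cfsg.Agent.Helper79.isCharacter_isClassFunction
    (Cfsg.Agent.Helper79.isCharacter_of_irr hχ)
  have h := classInner_psSL (1 : MulChar F ℂ) χ hcf
  rw [hc 1] at h
  have hone : ∀ a : Fˣ, (1 : MulChar F ℂ) (a : F) = 1 := fun a => MulChar.one_apply a.isUnit
  simp only [hone, one_mul] at h
  have hq1 : 1 < Fintype.card F := Fintype.one_lt_card
  have hq0 : (Fintype.card F : ℂ) ≠ 0 := by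
    exact_mod_cast (by omega : Fintype.card F ≠ 0)
  have hq1' : (Fintype.card F : ℂ) - 1 ≠ 0 := by
    rw [sub_ne_zero]
    exact_mod_cast (by omega : Fintype.card F ≠ 1)
  have h2 : ∑ a : Fˣ, ∑ c : F, conj (χ (triSL a c)) = 0 := by
    rcases mul_eq_zero.1 h.symm with h' | h'
    · exact absurd h' (inv_ne_zero (mul_ne_zero hq0 hq1'))
    · exact h'
  have h3 := congrArg conj h2
  rw [map_sum, map_zero] at h3
  rw [← h3]
  apply Finset.sum_congr rfl
  intro a _
  rw [map_sum]
  apply Finset.sum_congr rfl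
  intro c _
  rw [Complex.conj_conj]

open Classical in
/-- The sum of a cuspidal irreducible character over the torus. -/
theorem cusp_sum_torSL (hodd : Odd (Fintype.card F))
    {g₀ : Matrix.SpecialLinearGroup (Fin 2) F} (hg₀ : NoEigen (g₀ : Matrix (Fin 2) (Fin 2) F))
    {χ : Matrix.SpecialLinearGroup (Fin 2) F → ℂ}
    (hχ : Cfsg.IsIrrCharacter (Matrix.SpecialLinearGroup (Fin 2) F) χ)
    (hc : ∀ α : MulChar F ℂ, Cfsg.classInner (psSL α) χ = 0) :
    ((Fintype.card F : ℂ) - 1) * ∑ a : torSL g₀, χ a =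
      (χ 1 + χ negSL) * ((Fintype.card F : ℂ) + 1) := by
  have hcf := Cfsg.Agent.Helper79.isCharacter_isClassFunction
    (Cfsg.Agent.Helper79.isCharacter_of_irr hχ)
  have h := sum_torSL_eq hodd hg₀ hcf (fun a ha => cuspidal_triSL hcf hc ha)
  rw [cusp_sum_G hχ hc, cusp_sum_B hχ hc] at h
  have hq1 : 1 < Fintype.card F := Fintype.one_lt_card
  have hq0 : (Fintype.card F : ℂ) ≠ 0 := by
    exact_mod_cast (by omega : Fintype.card F ≠ 0)
  apply mul_left_cancel₀ hq0
  linear_combination h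

/-- Parseval on the unipotent subgroup for a cuspidal irreducible character. -/
theorem cusp_sum_U_sq {χ : Matrix.SpecialLinearGroup (Fin 2) F → ℂ}
    (hχ : Cfsg.IsIrrCharacter (Matrix.SpecialLinearGroup (Fin 2) F) χ)
    (hc : ∀ α : MulChar F ℂ, Cfsg.classInner (psSL α) χ = 0) :
    ∑ x : F, χ (uSL x) * conj (χ (uSL x)) = (Fintype.card F : ℂ) * χ 1 := by
  obtain ⟨ψ, hψ⟩ := exists_primitive_addChar (F := F)
  obtain ⟨b, hb, hb1, -, hdeg, -⟩ := sl2_profile hχ hψ
  have hb0 := profile_zero_cuspidal hχ hc hb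
  have hq1 : 1 < Fintype.card F := Fintype.one_lt_card
  have hq0 : (Fintype.card F : ℂ) ≠ 0 := by
    exact_mod_cast (by omega : Fintype.card F ≠ 0)
  have h1 : ∀ c : F, ∑ x : F, χ (uSL x) * conj (ψ (c * x)) = (Fintype.card F : ℂ) * (b c : ℂ) := by
    intro c
    have h := hb c
    unfold uMult at h
    simp only [AddChar.mulShift_apply] at h
    rw [← h, mul_inv_cancel_left₀ hq0]
  have h2 : ∀ c : F, ((b c : ℂ)) ^ 2 = (b c : ℂ) := by
    intro c
    by_cases h0 : c = 0
    · rw [h0, hb0]; simp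
    · have h3 : b c = 0 ∨ b c = 1 := by
        have := hb1 c h0
        omega
      rcases h3 with h3 | h3 <;> rw [h3] <;> simp
  calc ∑ x : F, χ (uSL x) * conj (χ (uSL x))
      = ∑ x : F, ∑ c : F, (b c : ℂ) * (χ (uSL x) * conj (ψ (c * x))) := by
        apply Finset.sum_congr rfl
        intro x _
        nth_rewrite 2 [apply_uSL_eq_sum hψ χ x]
        rw [map_sum, Finset.mul_sum]
        apply Finset.sum_congr rfl
        intro c _
        rw [map_mul, hb c, Complex.conj_natCast]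
        ring
    _ = ∑ c : F, (b c : ℂ) * ∑ x : F, χ (uSL x) * conj (ψ (c * x)) := by
        rw [Finset.sum_comm]
        apply Finset.sum_congr rfl
        intro c _
        rw [Finset.mul_sum]
    _ = (Fintype.card F : ℂ) * χ 1 := by
        rw [hdeg, Nat.cast_sum, Finset.mul_sum]
        apply Finset.sum_congr rfl
        intro c _
        rw [h1 c]
        linear_combination (Fintype.card F : ℂ) * h2 c

omit [Fintype F] [DecidableEq F] in
theorem triSL_neg_one_eq (c : F) : triSL (-1 : Fˣ) c = negSL * uSL (-c) := by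
  apply Subtype.ext
  rw [Matrix.SpecialLinearGroup.coe_mul, triSL_coe, negSL_coe, uSL_coe]
  ext i j
  fin_cases i <;> fin_cases j <;> simp

/-- The sum of the absolute square of a cuspidal irreducible character over the Borel
subgroup. -/
theorem cusp_sum_B_sq (hodd : Odd (Fintype.card F))
    {χ : Matrix.SpecialLinearGroup (Fin 2) F → ℂ}
    (hχ : Cfsg.IsIrrCharacter (Matrix.SpecialLinearGroup (Fin 2) F) χ)
    (hc : ∀ α : MulChar F ℂ, Cfsg.classInner (psSL α) χ = 0) :
    ∑ a : Fˣ, ∑ c : F, χ (triSL a c) * conj (χ (triSL a c)) =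
      2 * ((Fintype.card F : ℂ) * χ 1) := by
  have hF := ringChar_ne_two_of_odd hodd
  have h2 : (2 : F) ≠ 0 := Ring.two_ne_zero hF
  have hcf := Cfsg.Agent.Helper79.isCharacter_isClassFunction
    (Cfsg.Agent.Helper79.isCharacter_of_irr hχ)
  obtain ⟨ε, hε, hsign⟩ := sl2_central_sign hχ
  have hεε : ε * conj ε = 1 := by
    rcases hε with rfl | rfl <;> simp
  have hne : (1 : Fˣ) ≠ -1 := by
    intro h
    have h1 := congrArg (fun u : Fˣ => (u : F)) h
    simp only [Units.val_one, Units.val_neg] at h1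
    apply h2
    linear_combination h1
  rw [Finset.sum_eq_add (1 : Fˣ) (-1 : Fˣ) hne]
  · have e1 : ∑ c : F, χ (triSL 1 c) * conj (χ (triSL 1 c)) = (Fintype.card F : ℂ) * χ 1 := by
      rw [← cusp_sum_U_sq hχ hc]
      apply Finset.sum_congr rfl
      intro c _
      rw [triSL_one_eq]
    have e2 : ∑ c : F, χ (triSL (-1) c) * conj (χ (triSL (-1) c)) =
        (Fintype.card F : ℂ) * χ 1 := by
      rw [← cusp_sum_U_sq hχ hc]
      rw [← Equiv.sum_comp (Equiv.neg F)
        (fun x : F => χ (uSL x) * conj (χ (uSL x)))]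
      apply Finset.sum_congr rfl
      intro c _
      rw [triSL_neg_one_eq, hsign, map_mul]
      simp only [Equiv.neg_apply]
      linear_combination (χ (uSL (-c)) * conj (χ (uSL (-c)))) * hεε
    rw [e1, e2]
    ring
  · intro a _ ha
    have ha2 : (a : F) ^ 2 ≠ 1 := by
      intro h
      have h3 : ((a : F) - 1) * ((a : F) + 1) = 0 := by linear_combination h
      rcases mul_eq_zero.1 h3 with h4 | h4
      · apply ha.1
        apply Units.ext
        rw [Units.val_one]
        linear_combination h4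
      · apply ha.2
        apply Units.ext
        rw [Units.val_neg, Units.val_one]
        linear_combination h4
    apply Finset.sum_eq_zero
    intro c _
    rw [classFunction_eq_of_isConj hcf (isConj_triSL ha2 c), cuspidal_triSL hcf hc ha2, zero_mul]
  · intro h
    exact absurd (Finset.mem_univ _) h
  · intro h
    exact absurd (Finset.mem_univ _) h

open Classical in
/-- The sum of the absolute square of a cuspidal irreducible character over the torus. -/
theorem cusp_sum_torSL_sq (hodd : Odd (Fintype.card F))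
    {g₀ : Matrix.SpecialLinearGroup (Fin 2) F} (hg₀ : NoEigen (g₀ : Matrix (Fin 2) (Fin 2) F))
    {χ : Matrix.SpecialLinearGroup (Fin 2) F → ℂ}
    (hχ : Cfsg.IsIrrCharacter (Matrix.SpecialLinearGroup (Fin 2) F) χ)
    (hc : ∀ α : MulChar F ℂ, Cfsg.classInner (psSL α) χ = 0) :
    ((Fintype.card F : ℂ) - 1) * ∑ a : torSL g₀, χ a * conj (χ a) =
      2 * ((Fintype.card F : ℂ) + 1) * ((χ 1 - 1) ^ 2 + (Fintype.card F : ℂ) - 2) := by
  have hch := Cfsg.Agent.Helper79.isCharacter_of_irr hχ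
  have hcf := Cfsg.Agent.Helper79.isCharacter_isClassFunction hch
  have hcf2 : Cfsg.IsClassFunction (Matrix.SpecialLinearGroup (Fin 2) F)
      (fun g => χ g * conj (χ g)) := fun g h => by
    show χ (h * g * h⁻¹) * conj (χ (h * g * h⁻¹)) = χ g * conj (χ g)
    rw [hcf g h]
  have h := sum_torSL_eq hodd hg₀ hcf2 (fun a ha => by
    show χ (triSL a 0) * conj (χ (triSL a 0)) = 0
    rw [cuspidal_triSL hcf hc ha, zero_mul])
  beta_reduce at h
  obtain ⟨ε, hε, hsign⟩ := sl2_central_sign hχ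
  have hεε : ε * conj ε = 1 := by
    rcases hε with rfl | rfl <;> simp
  obtain ⟨d, hd⟩ := Cfsg.Agent.Helper79.isCharacter_exists_one_eq hch
  have hn1 : χ negSL = ε * χ 1 := by
    have := hsign 1
    rwa [mul_one] at this
  have hG : ∑ g : Matrix.SpecialLinearGroup (Fin 2) F, χ g * conj (χ g) =
      (Fintype.card F : ℂ) * ((Fintype.card F : ℂ) - 1) * ((Fintype.card F : ℂ) + 1) := by
    have h1 := Helper15.irr_inner_self hχ
    unfold Cfsg.classInner at h1
    rw [← card_sl2_cast]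
    have h0 : (Nat.card (Matrix.SpecialLinearGroup (Fin 2) F) : ℂ) ≠ 0 := by
      exact_mod_cast Nat.card_pos.ne'
    rw [inv_mul_eq_iff_eq_mul₀ h0, mul_one] at h1
    exact h1
  rw [hG, cusp_sum_B_sq hodd hχ hc, hn1, map_mul, hd, Complex.conj_natCast] at h
  have hq1 : 1 < Fintype.card F := Fintype.one_lt_card
  have hq0 : (Fintype.card F : ℂ) ≠ 0 := by
    exact_mod_cast (by omega : Fintype.card F ≠ 0)
  apply mul_left_cancel₀ hq0
  rw [hd]
  linear_combination h + ((d : ℂ) * (d : ℂ) * ((Fintype.card F : ℂ) * ((Fintype.card F : ℂ) + 1))) * hεε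

open Classical in
/-- The restriction of a cuspidal irreducible character to the torus. -/
theorem cusp_torus_decomp (hodd : Odd (Fintype.card F))
    {g₀ : Matrix.SpecialLinearGroup (Fin 2) F} (hg₀ : NoEigen (g₀ : Matrix (Fin 2) (Fin 2) F))
    {χ : Matrix.SpecialLinearGroup (Fin 2) F → ℂ}
    (hχ : Cfsg.IsIrrCharacter (Matrix.SpecialLinearGroup (Fin 2) F) χ)
    (hc : ∀ α : MulChar F ℂ, Cfsg.classInner (psSL α) χ = 0)
    [Fintype (torSL g₀ →* ℂˣ)] :
    ∃ (ε : ℂ) (n : (torSL g₀ →* ℂˣ) → ℕ), (ε = 1 ∨ ε = -1) ∧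
      (∀ g, χ (negSL * g) = ε * χ g) ∧
      (∀ a : torSL g₀, χ a = ∑ f : torSL g₀ →* ℂˣ, (n f : ℂ) * ((f a : ℂˣ) : ℂ)) ∧
      (∀ f : torSL g₀ →* ℂˣ, n f ≠ 0 → ((f ⟨negSL, negSL_mem_torSL g₀⟩ : ℂˣ) : ℂ) = ε) ∧
      (∀ f : torSL g₀ →* ℂˣ, n f⁻¹ = n f) ∧
      χ 1 = ((∑ f : torSL g₀ →* ℂˣ, n f : ℕ) : ℂ) ∧
      ((Fintype.card F : ℂ) - 1) * ∑ f : torSL g₀ →* ℂˣ, ((n f : ℂ)) ^ 2 =
        2 * ((χ 1 - 1) ^ 2 + (Fintype.card F : ℂ) - 2) ∧
      ((Fintype.card F : ℂ) - 1) * (n 1 : ℂ) = (1 + ε) * χ 1 := by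
  have hch := Cfsg.Agent.Helper79.isCharacter_of_irr hχ
  have hcf := Cfsg.Agent.Helper79.isCharacter_isClassFunction hch
  obtain ⟨ε, hε, hsign⟩ := sl2_central_sign hχ
  have hA : ∀ a b : torSL g₀, a * b = b * a := fun a b => Subtype.ext (torSL_comm hg₀ a.2 b.2)
  have hθ := Cfsg.Agent.Helper79.isCharacter_restrict hch (torSL g₀)
  obtain ⟨n, hn1, hn2⟩ := comm_char_decomp hA hθ
  have hn1 : ∀ f : torSL g₀ →* ℂˣ, (n f : ℂ) = (Nat.card (torSL g₀) : ℂ)⁻¹ *
      ∑ a : torSL g₀, χ a * conj ((f a : ℂˣ) : ℂ) := hn1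
  have hn2 : ∀ a : torSL g₀, χ a = ∑ f : torSL g₀ →* ℂˣ, (n f : ℂ) * ((f a : ℂˣ) : ℂ) := hn2
  have hN : (Nat.card (torSL g₀) : ℂ) = (Fintype.card F : ℂ) + 1 := by
    rw [card_torSL hodd hg₀]
    push_cast
    rfl
  have hN0 : (Nat.card (torSL g₀) : ℂ) ≠ 0 := by exact_mod_cast Nat.card_pos.ne'
  have hq1 : (Fintype.card F : ℂ) + 1 ≠ 0 := by
    exact_mod_cast (Nat.succ_ne_zero (Fintype.card F))
  have hneg1 : χ negSL = ε * χ 1 := by
    have := hsign 1
    rwa [mul_one] at this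
  refine ⟨ε, n, hε, hsign, hn2, ?_, ?_, ?_, ?_, ?_⟩
  · -- parity
    intro f hf
    have hzz : (⟨negSL, negSL_mem_torSL g₀⟩ : torSL g₀) * ⟨negSL, negSL_mem_torSL g₀⟩ = 1 :=
      Subtype.ext negSL_mul_self
    have hfz : ((f ⟨negSL, negSL_mem_torSL g₀⟩ : ℂˣ) : ℂ) *
        ((f ⟨negSL, negSL_mem_torSL g₀⟩ : ℂˣ) : ℂ) = 1 := by
      rw [← Units.val_mul, ← map_mul, hzz, map_one, Units.val_one]
    have hfz' : ((f ⟨negSL, negSL_mem_torSL g₀⟩ : ℂˣ) : ℂ) = 1 ∨
        ((f ⟨negSL, negSL_mem_torSL g₀⟩ : ℂˣ) : ℂ) = -1 := by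
      have : (((f ⟨negSL, negSL_mem_torSL g₀⟩ : ℂˣ) : ℂ) - 1) *
          (((f ⟨negSL, negSL_mem_torSL g₀⟩ : ℂˣ) : ℂ) + 1) = 0 := by linear_combination hfz
      rcases mul_eq_zero.1 this with h | h
      · left; linear_combination h
      · right; linear_combination h
    have hS : ∑ a : torSL g₀, χ a * conj ((f a : ℂˣ) : ℂ) =
        ε * conj ((f ⟨negSL, negSL_mem_torSL g₀⟩ : ℂˣ) : ℂ) *
          ∑ a : torSL g₀, χ a * conj ((f a : ℂˣ) : ℂ) := by
      conv_lhs => rw [← Equiv.sum_comp (Equiv.mulLeft (⟨negSL, negSL_mem_torSL g₀⟩ : torSL g₀))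
        (fun a : torSL g₀ => χ a * conj ((f a : ℂˣ) : ℂ))]
      rw [Finset.mul_sum]
      apply Finset.sum_congr rfl
      intro a _
      simp only [Equiv.coe_mulLeft, Subgroup.coe_mul, map_mul, Units.val_mul]
      rw [hsign]
      ring
    have hnf : (n f : ℂ) = ε * conj ((f ⟨negSL, negSL_mem_torSL g₀⟩ : ℂˣ) : ℂ) * (n f : ℂ) := by
      rw [hn1 f]
      linear_combination (Nat.card (torSL g₀) : ℂ)⁻¹ * hS
    have hnf0 : (n f : ℂ) ≠ 0 := by exact_mod_cast hf
    have h1 : ε * conj ((f ⟨negSL, negSL_mem_torSL g₀⟩ : ℂˣ) : ℂ) = 1 := by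
      have : (ε * conj ((f ⟨negSL, negSL_mem_torSL g₀⟩ : ℂˣ) : ℂ) - 1) * (n f : ℂ) = 0 := by
        linear_combination -hnf
      rcases mul_eq_zero.1 this with h | h
      · linear_combination h
      · exact absurd h hnf0
    rcases hfz' with h | h
    · rw [h] at h1 ⊢
      rw [map_one, mul_one] at h1
      exact h1.symm
    · rw [h] at h1 ⊢
      rw [map_neg, map_one] at h1
      linear_combination h1
  · -- invariance under inversion
    intro f
    have hinv : ∀ a : torSL g₀,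
        χ ((a⁻¹ : torSL g₀) : Matrix.SpecialLinearGroup (Fin 2) F) = χ a := by
      intro a
      rcases torSL_cases hg₀ a.2 with h | h | h
      · have : a = 1 := Subtype.ext h
        rw [this, inv_one]
      · have e : (a⁻¹ : torSL g₀) = a := by
          apply Subtype.ext
          rw [Subgroup.coe_inv, h]
          exact inv_eq_of_mul_eq_one_left negSL_mul_self
        rw [e]
      · rw [Subgroup.coe_inv]
        exact (classFunction_eq_of_isConj hcf (isConj_inv_of_noEigen hodd h)).symm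
    apply Nat.cast_injective (R := ℂ)
    rw [hn1 f⁻¹, hn1 f]
    congr 1
    rw [← Equiv.sum_comp (Equiv.inv (torSL g₀))
      (fun a : torSL g₀ => χ a * conj ((f⁻¹ a : ℂˣ) : ℂ))]
    apply Finset.sum_congr rfl
    intro a _
    simp only [Equiv.inv_apply]
    rw [hinv a, MonoidHom.inv_apply, map_inv, inv_inv]
  · -- degree
    have h1 := comm_char_degree hn2
    rw [← h1]
    rfl
  · -- norm
    have h1 := comm_char_norm hn1 hn2
    have h2 := cusp_sum_torSL_sq hodd hg₀ hχ hc
    rw [h1, hN] at h2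
    apply mul_left_cancel₀ hq1
    linear_combination h2
  · -- the trivial homomorphism
    have h1 := hn1 1
    have h2 := cusp_sum_torSL hodd hg₀ hχ hc
    simp only [MonoidHom.one_apply, Units.val_one, map_one, mul_one] at h1
    rw [h1, hN]
    rw [hneg1] at h2
    field_simp
    linear_combination h2

end CuspTorus

end Cfsg.Agent.Helper39
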