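import Mathlib
import Cfsg.Agent.Helper39.CuspTorus

/-!
# Values of the cuspidal characters of `SL₂(q)` on the non-split torus (helper39)
-/

set_option autoImplicit false

namespace Cfsg.Agent.Helper39

open scoped ComplexConjugate

section CuspValues

variable {F : Type*} [Field F] [Fintype F] [DecidableEq F]

omit [DecidableEq F] in
theorem negSL_ne_one' (hodd : Odd (Fintype.card F)) :
    (negSL : Matrix.SpecialLinearGroup (Fin 2) F) ≠ 1 := by
  classical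
  have hF := ringChar_ne_two_of_odd hodd
  have h2 : (2 : F) ≠ 0 := Ring.two_ne_zero hF
  intro h
  have h1 := congrArg (fun y : Matrix.SpecialLinearGroup (Fin 2) F =>
    (y : Matrix (Fin 2) (Fin 2) F) 0 0) h
  simp only [negSL_coe, Matrix.SpecialLinearGroup.coe_one] at h1
  simp at h1
  apply h2
  linear_combination -h1

open Classical in
/-- The homomorphisms of the torus with a given value at `-1`: their number, and the vanishing
of their sum off the centre. -/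
theorem torSL_parity_sum (hodd : Odd (Fintype.card F))
    {g₀ : Matrix.SpecialLinearGroup (Fin 2) F} (hg₀ : NoEigen (g₀ : Matrix (Fin 2) (Fin 2) F))
    [Fintype (torSL g₀ →* ℂˣ)] {ε : ℂ} (hε : ε = 1 ∨ ε = -1) :
    2 * (Finset.univ.filter (fun f : torSL g₀ →* ℂˣ =>
      ((f ⟨negSL, negSL_mem_torSL g₀⟩ : ℂˣ) : ℂ) = ε)).card = Fintype.card F + 1 ∧
    ∀ a : torSL g₀, (a : Matrix.SpecialLinearGroup (Fin 2) F) ≠ 1 →
      (a : Matrix.SpecialLinearGroup (Fin 2) F) ≠ negSL →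
      ∑ f ∈ Finset.univ.filter (fun f : torSL g₀ →* ℂˣ =>
        ((f ⟨negSL, negSL_mem_torSL g₀⟩ : ℂˣ) : ℂ) = ε), ((f a : ℂˣ) : ℂ) = 0 := by
  have hA : ∀ a b : torSL g₀, a * b = b * a := fun a b => Subtype.ext (torSL_comm hg₀ a.2 b.2)
  have hz1 : (⟨negSL, negSL_mem_torSL g₀⟩ : torSL g₀) ≠ 1 := by
    intro h
    exact negSL_ne_one' hodd (congrArg Subtype.val h)
  have hzz : (⟨negSL, negSL_mem_torSL g₀⟩ : torSL g₀) * ⟨negSL, negSL_mem_torSL g₀⟩ = 1 :=
    Subtype.ext negSL_mul_self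
  have hfz : ∀ f : torSL g₀ →* ℂˣ, ((f ⟨negSL, negSL_mem_torSL g₀⟩ : ℂˣ) : ℂ) = 1 ∨
      ((f ⟨negSL, negSL_mem_torSL g₀⟩ : ℂˣ) : ℂ) = -1 := by
    intro f
    have hfz : ((f ⟨negSL, negSL_mem_torSL g₀⟩ : ℂˣ) : ℂ) *
        ((f ⟨negSL, negSL_mem_torSL g₀⟩ : ℂˣ) : ℂ) = 1 := by
      rw [← Units.val_mul, ← map_mul, hzz, map_one, Units.val_one]
    have : (((f ⟨negSL, negSL_mem_torSL g₀⟩ : ℂˣ) : ℂ) - 1) *
        (((f ⟨negSL, negSL_mem_torSL g₀⟩ : ℂˣ) : ℂ) + 1) = 0 := by linear_combination hfz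
    rcases mul_eq_zero.1 this with h | h
    · left; linear_combination h
    · right; linear_combination h
  have hεε : ε * ε = 1 := by
    rcases hε with rfl | rfl <;> norm_num
  have key : ∀ T : (torSL g₀ →* ℂˣ) → ℂ,
      ∑ f : torSL g₀ →* ℂˣ, (1 + ε * ((f ⟨negSL, negSL_mem_torSL g₀⟩ : ℂˣ) : ℂ)) * T f =
      2 * ∑ f ∈ Finset.univ.filter (fun f : torSL g₀ →* ℂˣ =>
        ((f ⟨negSL, negSL_mem_torSL g₀⟩ : ℂˣ) : ℂ) = ε), T f := by
    intro T
    rw [Finset.sum_filter, Finset.mul_sum]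
    apply Finset.sum_congr rfl
    intro f _
    by_cases h : ((f ⟨negSL, negSL_mem_torSL g₀⟩ : ℂˣ) : ℂ) = ε
    · rw [if_pos h, h, hεε]
      ring
    · rw [if_neg h]
      have h' : ((f ⟨negSL, negSL_mem_torSL g₀⟩ : ℂˣ) : ℂ) = -ε := by
        rcases hfz f with h1 | h1 <;> rcases hε with h2 | h2
        · exact absurd (h1.trans h2.symm) h
        · rw [h1, h2]; norm_num
        · rw [h1, h2]
        · exact absurd (h1.trans h2.symm) h
      rw [h']
      linear_combination (-T f) * hεε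
  constructor
  · have h1 := key (fun _ => 1)
    simp only [mul_one] at h1
    rw [Finset.sum_add_distrib, ← Finset.mul_sum, hom_sum_apply_ne hA hz1, mul_zero, add_zero,
      Finset.sum_const, Finset.card_univ, card_hom_comm hA, card_torSL hodd hg₀,
      Finset.sum_const, nsmul_eq_mul, nsmul_eq_mul, mul_one, mul_one] at h1
    exact_mod_cast h1.symm
  · intro a ha1 haz
    have h1 := key (fun f => ((f a : ℂˣ) : ℂ))
    have ha1' : a ≠ 1 := fun h => ha1 (by rw [h]; rfl)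
    have haz' : (⟨negSL, negSL_mem_torSL g₀⟩ : torSL g₀) * a ≠ 1 := by
      intro h
      apply haz
      have h2 : a = (⟨negSL, negSL_mem_torSL g₀⟩ : torSL g₀) := by
        calc a = (⟨negSL, negSL_mem_torSL g₀⟩ * ⟨negSL, negSL_mem_torSL g₀⟩ : torSL g₀) * a := by
              rw [hzz, one_mul]
          _ = ⟨negSL, negSL_mem_torSL g₀⟩ * (⟨negSL, negSL_mem_torSL g₀⟩ * a) := by
              rw [mul_assoc]
          _ = ⟨negSL, negSL_mem_torSL g₀⟩ := by rw [h, mul_one]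
      rw [h2]
    have h3 : ∑ f : torSL g₀ →* ℂˣ,
        (1 + ε * ((f ⟨negSL, negSL_mem_torSL g₀⟩ : ℂˣ) : ℂ)) * ((f a : ℂˣ) : ℂ) = 0 := by
      have h4 : ∀ f : torSL g₀ →* ℂˣ,
          (1 + ε * ((f ⟨negSL, negSL_mem_torSL g₀⟩ : ℂˣ) : ℂ)) * ((f a : ℂˣ) : ℂ) =
          ((f a : ℂˣ) : ℂ) + ε * ((f (⟨negSL, negSL_mem_torSL g₀⟩ * a) : ℂˣ) : ℂ) := by
        intro f
        rw [map_mul, Units.val_mul]
        ring
      rw [Finset.sum_congr rfl (fun f _ => h4 f), Finset.sum_add_distrib, ← Finset.mul_sum,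
        hom_sum_apply_ne hA ha1', hom_sum_apply_ne hA haz', mul_zero, add_zero]
    rw [h3] at h1
    have h5 := h1.symm
    rcases mul_eq_zero.1 h5 with h6 | h6
    · exact absurd h6 two_ne_zero
    · exact h6

open Classical in
/-- A cuspidal irreducible character of degree `q - 1` on the torus. -/
theorem full_cusp_torus (hodd : Odd (Fintype.card F))
    {g₀ : Matrix.SpecialLinearGroup (Fin 2) F} (hg₀ : NoEigen (g₀ : Matrix (Fin 2) (Fin 2) F))
    {χ : Matrix.SpecialLinearGroup (Fin 2) F → ℂ}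
    (hχ : Cfsg.IsIrrCharacter (Matrix.SpecialLinearGroup (Fin 2) F) χ)
    (hc : ∀ α : MulChar F ℂ, Cfsg.classInner (psSL α) χ = 0)
    (hdeg : χ 1 = (Fintype.card F : ℂ) - 1) :
    ∃ f : torSL g₀ →* ℂˣ, (∃ c : torSL g₀, f c ^ 2 ≠ 1) ∧
      (∀ g, χ (negSL * g) = ((f ⟨negSL, negSL_mem_torSL g₀⟩ : ℂˣ) : ℂ) * χ g) ∧
      ∀ a : torSL g₀, (a : Matrix.SpecialLinearGroup (Fin 2) F) ≠ 1 →
        (a : Matrix.SpecialLinearGroup (Fin 2) F) ≠ negSL →
        χ a = -(((f a : ℂˣ) : ℂ) + (((f a)⁻¹ : ℂˣ) : ℂ)) := by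
  have : Finite (torSL g₀ →* ℂˣ) := Helper80.finite_hom
  have : Fintype (torSL g₀ →* ℂˣ) := Fintype.ofFinite _
  obtain ⟨ε, n, hε, hsign, hdec, hpar, hinv, hsum, hsq, htriv⟩ :=
    cusp_torus_decomp hodd hg₀ hχ hc
  obtain ⟨hPcard, hPsum⟩ := torSL_parity_sum hodd hg₀ hε
  set P := Finset.univ.filter (fun f : torSL g₀ →* ℂˣ =>
    ((f ⟨negSL, negSL_mem_torSL g₀⟩ : ℂˣ) : ℂ) = ε) with hP
  have hq1 : 1 < Fintype.card F := Fintype.one_lt_card
  have hq1' : (Fintype.card F : ℂ) - 1 ≠ 0 := by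
    rw [sub_ne_zero]
    exact_mod_cast (by omega : Fintype.card F ≠ 1)
  have hnP : ∀ f : torSL g₀ →* ℂˣ, f ∉ P → n f = 0 := by
    intro f hf
    by_contra h
    exact hf (Finset.mem_filter.mpr ⟨Finset.mem_univ _, hpar f h⟩)
  have hS1 : ∑ f ∈ P, (n f : ℤ) = (Fintype.card F : ℤ) - 1 := by
    have h1 : ∑ f ∈ P, (n f : ℤ) = ∑ f : torSL g₀ →* ℂˣ, (n f : ℤ) :=
      Finset.sum_subset (Finset.subset_univ _) (fun f _ hf => by rw [hnP f hf]; rfl)
    rw [h1]
    have h2 : ((∑ f : torSL g₀ →* ℂˣ, (n f : ℤ) : ℤ) : ℂ) =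
        (((Fintype.card F : ℤ) - 1 : ℤ) : ℂ) := by
      push_cast
      rw [← hdeg, hsum, Nat.cast_sum]
    exact_mod_cast h2
  have hS2 : ∑ f ∈ P, (n f : ℤ) ^ 2 = 2 * (Fintype.card F : ℤ) - 4 := by
    have h1 : ∑ f ∈ P, (n f : ℤ) ^ 2 = ∑ f : torSL g₀ →* ℂˣ, (n f : ℤ) ^ 2 :=
      Finset.sum_subset (Finset.subset_univ _) (fun f _ hf => by rw [hnP f hf]; rfl)
    rw [h1]
    have h2 : ((∑ f : torSL g₀ →* ℂˣ, (n f : ℤ) ^ 2 : ℤ) : ℂ) =
        ((2 * (Fintype.card F : ℤ) - 4 : ℤ) : ℂ) := by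
      push_cast
      apply mul_left_cancel₀ hq1'
      rw [hsq, hdeg]
      ring
    exact_mod_cast h2
  have hS0 : (2 : ℤ) * (P.card : ℤ) = (Fintype.card F : ℤ) + 1 := by exact_mod_cast hPcard
  have hz : ∑ f ∈ P, ((n f : ℤ) - 1) * ((n f : ℤ) - 2) = 0 := by
    have h1 : ∀ f ∈ P, ((n f : ℤ) - 1) * ((n f : ℤ) - 2) =
        (n f : ℤ) ^ 2 - 3 * (n f : ℤ) + 2 := fun f _ => by ring
    rw [Finset.sum_congr rfl h1, Finset.sum_add_distrib, Finset.sum_sub_distrib,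
      ← Finset.mul_sum, hS1, hS2, Finset.sum_const, nsmul_eq_mul]
    linarith
  have hnn : ∀ f ∈ P, 0 ≤ ((n f : ℤ) - 1) * ((n f : ℤ) - 2) := by
    intro f _
    rcases Nat.lt_or_ge (n f) 2 with h | h
    · have h3 : n f = 0 ∨ n f = 1 := by omega
      rcases h3 with h3 | h3 <;> rw [h3] <;> norm_num
    · have : (2 : ℤ) ≤ n f := by exact_mod_cast h
      apply mul_nonneg <;> linarith
  have h12 : ∀ f ∈ P, n f = 1 ∨ n f = 2 := by
    intro f hf
    have h := (Finset.sum_eq_zero_iff_of_nonneg hnn).mp hz f hf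
    rcases mul_eq_zero.1 h with h | h
    · left
      have : (n f : ℤ) = 1 := by linarith
      exact_mod_cast this
    · right
      have : (n f : ℤ) = 2 := by linarith
      exact_mod_cast this
  set S := P.filter (fun f : torSL g₀ →* ℂˣ => n f = 1) with hS
  have hScard : S.card = 2 := by
    have h1 : ∑ f ∈ P, ((2 : ℤ) - (n f : ℤ)) = 2 := by
      rw [Finset.sum_sub_distrib, hS1, Finset.sum_const, nsmul_eq_mul]
      linarith
    have h2 : ∑ f ∈ P, ((2 : ℤ) - (n f : ℤ)) = (S.card : ℤ) := by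
      rw [hS, Finset.card_filter]
      push_cast
      apply Finset.sum_congr rfl
      intro f hf
      rcases h12 f hf with h | h <;> rw [h] <;> simp
    rw [h2] at h1
    exact_mod_cast h1
  obtain ⟨f₁, f₂, hne, hSeq⟩ := Finset.card_eq_two.mp hScard
  have hmemS : ∀ f : torSL g₀ →* ℂˣ, f ∈ S ↔ (f = f₁ ∨ f = f₂) := by
    intro f
    rw [hSeq]
    simp
  have hf₁S : f₁ ∈ S := (hmemS f₁).mpr (Or.inl rfl)
  have hf₂S : f₂ ∈ S := (hmemS f₂).mpr (Or.inr rfl)
  have hSP : ∀ f : torSL g₀ →* ℂˣ, f ∈ S → f ∈ P ∧ n f = 1 := fun f hf =>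
    Finset.mem_filter.mp hf
  have hval : ∀ a : torSL g₀, (a : Matrix.SpecialLinearGroup (Fin 2) F) ≠ 1 →
      (a : Matrix.SpecialLinearGroup (Fin 2) F) ≠ negSL →
      χ a = -(((f₁ a : ℂˣ) : ℂ) + ((f₂ a : ℂˣ) : ℂ)) := by
    intro a ha1 haz
    have h1 : χ a = ∑ f ∈ P, (n f : ℂ) * ((f a : ℂˣ) : ℂ) := by
      rw [hdec a]
      exact (Finset.sum_subset (Finset.subset_univ _)
        (fun f _ hf => by rw [hnP f hf]; simp)).symm
    have h2 : ∀ f ∈ P, (n f : ℂ) * ((f a : ℂˣ) : ℂ) =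
        2 * ((f a : ℂˣ) : ℂ) - (if n f = 1 then ((f a : ℂˣ) : ℂ) else 0) := by
      intro f hf
      rcases h12 f hf with h | h
      · rw [if_pos h, h]
        push_cast
        ring
      · rw [if_neg (by omega), h]
        push_cast
        ring
    rw [h1, Finset.sum_congr rfl h2, Finset.sum_sub_distrib, ← Finset.mul_sum,
      hPsum a ha1 haz, ← Finset.sum_filter, ← hS, hSeq, Finset.sum_pair hne]
    ring
  have hinvS : ∀ f : torSL g₀ →* ℂˣ, f ∈ S → f⁻¹ ∈ S := by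
    intro f hf
    obtain ⟨hfP, hf1⟩ := hSP f hf
    have h1 : n f⁻¹ = 1 := by rw [hinv f, hf1]
    rw [hS, Finset.mem_filter]
    refine ⟨?_, h1⟩
    by_contra h
    have := hnP _ h
    omega
  have hεf₁ : ((f₁ ⟨negSL, negSL_mem_torSL g₀⟩ : ℂˣ) : ℂ) = ε :=
    (Finset.mem_filter.mp (hSP f₁ hf₁S).1).2
  rcases (hmemS _).mp (hinvS f₁ hf₁S) with h | h
  · exfalso
    have h2 : f₂⁻¹ = f₂ := by
      rcases (hmemS _).mp (hinvS f₂ hf₂S) with h' | h'
      · exfalso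
        have h3 : f₂ = f₁ := by rw [← inv_inv f₂, h', h]
        exact hne h3.symm
      · exact h'
    obtain ⟨c₀, hgen, -⟩ := exists_gen_torSL hodd hg₀
    have hreal : ∀ f : torSL g₀ →* ℂˣ, f⁻¹ = f → f c₀ = 1 ∨ f c₀ = -1 := by
      intro f hf
      have h3 : f c₀ * f c₀ = 1 := by
        nth_rewrite 1 [← hf]
        rw [MonoidHom.inv_apply, inv_mul_cancel]
      have h4 : (((f c₀ : ℂˣ) : ℂ) - 1) * (((f c₀ : ℂˣ) : ℂ) + 1) = 0 := by
        have h5 := congrArg (fun u : ℂˣ => (u : ℂ)) h3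
        simp only [Units.val_mul, Units.val_one] at h5
        linear_combination h5
      rcases mul_eq_zero.1 h4 with h5 | h5
      · left
        apply Units.ext
        rw [Units.val_one]
        linear_combination h5
      · right
        apply Units.ext
        rw [Units.val_neg, Units.val_one]
        linear_combination h5
    have hone : ∀ f : torSL g₀ →* ℂˣ, f ∈ S → f c₀ = 1 → n 1 = 1 := by
      intro f hf hf1
      have : f = 1 := hom_eq_of_gen f 1 hgen (by rw [hf1, MonoidHom.one_apply])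
      rw [← this]
      exact (hSP f hf).2
    have hn1 : n 1 = 1 := by
      rcases hreal f₁ h with h3 | h3
      · exact hone f₁ hf₁S h3
      · rcases hreal f₂ h2 with h4 | h4
        · exact hone f₂ hf₂S h4
        · exact absurd (hom_eq_of_gen f₁ f₂ hgen (by rw [h3, h4])) hne
    rw [hn1, hdeg] at htriv
    have h5 : ε * ((Fintype.card F : ℂ) - 1) = 0 := by
      push_cast at htriv
      linear_combination -htriv
    rcases mul_eq_zero.1 h5 with h6 | h6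
    · rcases hε with h7 | h7 <;> rw [h7] at h6 <;> norm_num at h6
    · exact hq1' h6
  · refine ⟨f₁, ?_, ?_, ?_⟩
    · by_contra hall
      push Not at hall
      apply hne
      rw [← h]
      apply MonoidHom.ext
      intro c
      rw [MonoidHom.inv_apply]
      exact eq_inv_of_mul_eq_one_left (by rw [← pow_two]; exact hall c)
    · intro g
      rw [hεf₁]
      exact hsign g
    · intro a ha1 haz
      rw [hval a ha1 haz, ← h, MonoidHom.inv_apply]

open Classical in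
/-- A cuspidal irreducible character of degree `(q - 1)/2` on the torus. -/
theorem half_cusp_torus (hodd : Odd (Fintype.card F))
    {g₀ : Matrix.SpecialLinearGroup (Fin 2) F} (hg₀ : NoEigen (g₀ : Matrix (Fin 2) (Fin 2) F))
    {χ : Matrix.SpecialLinearGroup (Fin 2) F → ℂ}
    (hχ : Cfsg.IsIrrCharacter (Matrix.SpecialLinearGroup (Fin 2) F) χ)
    (hc : ∀ α : MulChar F ℂ, Cfsg.classInner (psSL α) χ = 0)
    {k : ℕ} (hk : Fintype.card F = 2 * k + 1) (hdeg : χ 1 = (k : ℂ)) :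
    ∃ f : torSL g₀ →* ℂˣ, f ≠ 1 ∧ (∀ a : torSL g₀, f a * f a = 1) ∧
      ∀ a : torSL g₀, (a : Matrix.SpecialLinearGroup (Fin 2) F) ≠ 1 →
        (a : Matrix.SpecialLinearGroup (Fin 2) F) ≠ negSL →
        χ a = -((f a : ℂˣ) : ℂ) := by
  have : Finite (torSL g₀ →* ℂˣ) := Helper80.finite_hom
  have : Fintype (torSL g₀ →* ℂˣ) := Fintype.ofFinite _
  obtain ⟨ε, n, hε, hsign, hdec, hpar, hinv, hsum, hsq, htriv⟩ :=
    cusp_torus_decomp hodd hg₀ hχ hc
  obtain ⟨hPcard, hPsum⟩ := torSL_parity_sum hodd hg₀ hε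
  set P := Finset.univ.filter (fun f : torSL g₀ →* ℂˣ =>
    ((f ⟨negSL, negSL_mem_torSL g₀⟩ : ℂˣ) : ℂ) = ε) with hP
  have hq1 : 1 < Fintype.card F := Fintype.one_lt_card
  have hk1 : 1 ≤ k := by omega
  have hq1' : (Fintype.card F : ℂ) - 1 ≠ 0 := by
    rw [sub_ne_zero]
    exact_mod_cast (by omega : Fintype.card F ≠ 1)
  have hqc : (Fintype.card F : ℂ) = 2 * (k : ℂ) + 1 := by
    rw [hk]
    push_cast
    ring
  have hk0 : (k : ℂ) ≠ 0 := by exact_mod_cast (by omega : k ≠ 0)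
  have hnP : ∀ f : torSL g₀ →* ℂˣ, f ∉ P → n f = 0 := by
    intro f hf
    by_contra h
    exact hf (Finset.mem_filter.mpr ⟨Finset.mem_univ _, hpar f h⟩)
  have hS1 : ∑ f ∈ P, (n f : ℤ) = (k : ℤ) := by
    have h1 : ∑ f ∈ P, (n f : ℤ) = ∑ f : torSL g₀ →* ℂˣ, (n f : ℤ) :=
      Finset.sum_subset (Finset.subset_univ _) (fun f _ hf => by rw [hnP f hf]; rfl)
    rw [h1]
    have h2 : ((∑ f : torSL g₀ →* ℂˣ, (n f : ℤ) : ℤ) : ℂ) = (((k : ℤ) : ℤ) : ℂ) := by
      push_cast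
      rw [← hdeg, hsum, Nat.cast_sum]
    exact_mod_cast h2
  have hS2 : ∑ f ∈ P, (n f : ℤ) ^ 2 = (k : ℤ) := by
    have h1 : ∑ f ∈ P, (n f : ℤ) ^ 2 = ∑ f : torSL g₀ →* ℂˣ, (n f : ℤ) ^ 2 :=
      Finset.sum_subset (Finset.subset_univ _) (fun f _ hf => by rw [hnP f hf]; rfl)
    rw [h1]
    have h2 : ((∑ f : torSL g₀ →* ℂˣ, (n f : ℤ) ^ 2 : ℤ) : ℂ) = (((k : ℤ) : ℤ) : ℂ) := by
      push_cast
      apply mul_left_cancel₀ hq1'
      rw [hsq, hdeg, hqc]
      ring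
    exact_mod_cast h2
  have hS0 : (P.card : ℤ) = (k : ℤ) + 1 := by
    have : P.card = k + 1 := by omega
    exact_mod_cast this
  have hz : ∑ f ∈ P, (n f : ℤ) * ((n f : ℤ) - 1) = 0 := by
    have h1 : ∀ f ∈ P, (n f : ℤ) * ((n f : ℤ) - 1) = (n f : ℤ) ^ 2 - (n f : ℤ) := fun f _ => by
      ring
    rw [Finset.sum_congr rfl h1, Finset.sum_sub_distrib, hS1, hS2]
    ring
  have hnn : ∀ f ∈ P, 0 ≤ (n f : ℤ) * ((n f : ℤ) - 1) := by
    intro f _
    rcases Nat.lt_or_ge (n f) 1 with h | h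
    · have h3 : n f = 0 := by omega
      rw [h3]
      norm_num
    · have : (1 : ℤ) ≤ n f := by exact_mod_cast h
      apply mul_nonneg <;> linarith
  have h01 : ∀ f ∈ P, n f = 0 ∨ n f = 1 := by
    intro f hf
    have h := (Finset.sum_eq_zero_iff_of_nonneg hnn).mp hz f hf
    rcases mul_eq_zero.1 h with h | h
    · left
      exact_mod_cast h
    · right
      have : (n f : ℤ) = 1 := by linarith
      exact_mod_cast this
  set S := P.filter (fun f : torSL g₀ →* ℂˣ => n f = 0) with hS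
  have hScard : S.card = 1 := by
    have h1 : ∑ f ∈ P, ((1 : ℤ) - (n f : ℤ)) = 1 := by
      rw [Finset.sum_sub_distrib, hS1, Finset.sum_const, nsmul_eq_mul, hS0]
      ring
    have h2 : ∑ f ∈ P, ((1 : ℤ) - (n f : ℤ)) = (S.card : ℤ) := by
      rw [hS, Finset.card_filter]
      push_cast
      apply Finset.sum_congr rfl
      intro f hf
      rcases h01 f hf with h | h <;> rw [h] <;> simp
    rw [h2] at h1
    exact_mod_cast h1
  obtain ⟨f₀, hSeq⟩ := Finset.card_eq_one.mp hScard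
  have hmemS : ∀ f : torSL g₀ →* ℂˣ, f ∈ S ↔ f = f₀ := by
    intro f
    rw [hSeq]
    simp
  have hf₀S : f₀ ∈ S := (hmemS f₀).mpr rfl
  have hf₀P : f₀ ∈ P := (Finset.mem_filter.mp hf₀S).1
  have hn0 : n f₀ = 0 := (Finset.mem_filter.mp hf₀S).2
  have hεf₀ : ((f₀ ⟨negSL, negSL_mem_torSL g₀⟩ : ℂˣ) : ℂ) = ε := (Finset.mem_filter.mp hf₀P).2
  have hval : ∀ a : torSL g₀, (a : Matrix.SpecialLinearGroup (Fin 2) F) ≠ 1 →
      (a : Matrix.SpecialLinearGroup (Fin 2) F) ≠ negSL →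
      χ a = -((f₀ a : ℂˣ) : ℂ) := by
    intro a ha1 haz
    have h1 : χ a = ∑ f ∈ P, (n f : ℂ) * ((f a : ℂˣ) : ℂ) := by
      rw [hdec a]
      exact (Finset.sum_subset (Finset.subset_univ _)
        (fun f _ hf => by rw [hnP f hf]; simp)).symm
    have h2 : ∀ f ∈ P, (n f : ℂ) * ((f a : ℂˣ) : ℂ) =
        ((f a : ℂˣ) : ℂ) - (if n f = 0 then ((f a : ℂˣ) : ℂ) else 0) := by
      intro f hf
      rcases h01 f hf with h | h
      · rw [if_pos h, h]
        push_cast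
        ring
      · rw [if_neg (by omega), h]
        push_cast
        ring
    rw [h1, Finset.sum_congr rfl h2, Finset.sum_sub_distrib, hPsum a ha1 haz,
      ← Finset.sum_filter, ← hS, hSeq, Finset.sum_singleton]
    ring
  have hεinv : ε⁻¹ = ε := by
    rcases hε with h | h <;> rw [h] <;> norm_num
  have hinv0 : f₀⁻¹ = f₀ := by
    rw [← hmemS, hS, Finset.mem_filter]
    refine ⟨?_, by rw [hinv f₀, hn0]⟩
    rw [hP, Finset.mem_filter]
    refine ⟨Finset.mem_univ _, ?_⟩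
    rw [MonoidHom.inv_apply, Units.val_inv_eq_inv_val, hεf₀, hεinv]
  refine ⟨f₀, ?_, ?_, hval⟩
  · intro h1
    have hε1 : ε = 1 := by
      rw [← hεf₀, h1, MonoidHom.one_apply, Units.val_one]
    rw [← h1, hn0, hdeg, hε1, hqc] at htriv
    push_cast at htriv
    apply hk0
    linear_combination -(1 / 2 : ℂ) * htriv
  · intro a
    nth_rewrite 1 [← hinv0]
    rw [MonoidHom.inv_apply, inv_mul_cancel]

end CuspValues

end Cfsg.Agent.Helper39
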