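import Mathlib
import Cfsg.Agent.Helper39.CuspValues

/-!
# Values of the characters of degree `(q ± 1)/2` of `SL₂(q)` at semisimple elements (helper39)
-/

set_option autoImplicit false

namespace Cfsg.Agent.Helper39

open scoped ComplexConjugate

section HalfValues

variable {F : Type*} [Field F] [Fintype F] [DecidableEq F]

/-- The two constituents of the principal series of a character `η ≠ 1` of `SL₂(q)`, `q` odd,
agree at the regular semisimple elements. -/
theorem quad_eq_of_regular (hodd : Odd (Fintype.card F)) {η : MulChar F ℂ} (h2 : η ≠ 1)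
    {θ θ' : Matrix.SpecialLinearGroup (Fin 2) F → ℂ}
    (hθ : Cfsg.IsIrrCharacter (Matrix.SpecialLinearGroup (Fin 2) F) θ)
    (hθ' : Cfsg.IsIrrCharacter (Matrix.SpecialLinearGroup (Fin 2) F) θ') (hne : θ ≠ θ')
    (hsum : psSL η = θ + θ') (g : Matrix.SpecialLinearGroup (Fin 2) F)
    (hns : NonScalar (g : Matrix (Fin 2) (Fin 2) F))
    (htr : (g : Matrix (Fin 2) (Fin 2) F).trace ^ 2 ≠ 4) :
    θ g = θ' g := by
  classical
  have hinj : Function.Injective (Matrix.SpecialLinearGroup.toGL :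
      Matrix.SpecialLinearGroup (Fin 2) F →* GL (Fin 2) F) := by
    intro a b hab
    apply Subtype.ext
    have := congrArg (fun g : GL (Fin 2) F => (g : Matrix (Fin 2) (Fin 2) F)) hab
    exact this
  let e : Matrix.SpecialLinearGroup (Fin 2) F ≃* (Matrix.SpecialLinearGroup.toGL :
      Matrix.SpecialLinearGroup (Fin 2) F →* GL (Fin 2) F).range := MonoidHom.ofInjective hinj
  have he : ∀ s : Matrix.SpecialLinearGroup (Fin 2) F,
      ((e s : (Matrix.SpecialLinearGroup.toGL :
      Matrix.SpecialLinearGroup (Fin 2) F →* GL (Fin 2) F).range) : GL (Fin 2) F) =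
      Matrix.SpecialLinearGroup.toGL s := fun s => MonoidHom.ofInjective_apply hinj
  have : Fintype (Matrix.SpecialLinearGroup.toGL :
      Matrix.SpecialLinearGroup (Fin 2) F →* GL (Fin 2) F).range := Fintype.ofFinite _
  have hθN : Cfsg.IsIrrCharacter (Matrix.SpecialLinearGroup.toGL :
      Matrix.SpecialLinearGroup (Fin 2) F →* GL (Fin 2) F).range (fun n => θ (e.symm n)) :=
    Cfsg.Agent.Helper80.irr_comp_surjective e.symm.toMonoidHom e.symm.surjective hθ
  have hθ'N : Cfsg.IsIrrCharacter (Matrix.SpecialLinearGroup.toGL :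
      Matrix.SpecialLinearGroup (Fin 2) F →* GL (Fin 2) F).range (fun n => θ' (e.symm n)) :=
    Cfsg.Agent.Helper80.irr_comp_surjective e.symm.toMonoidHom e.symm.surjective hθ'
  have hχ : Cfsg.IsIrrCharacter (GL (Fin 2) F) (psGL η 1) := psGL_irr h2
  have hres : (fun n : (Matrix.SpecialLinearGroup.toGL :
      Matrix.SpecialLinearGroup (Fin 2) F →* GL (Fin 2) F).range => psGL η 1 (n : GL (Fin 2) F)) =
      fun n => psSL η (e.symm n) := by
    funext n
    rw [psSL_eq, ← he, MulEquiv.apply_symm_apply]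
  have hin : Cfsg.classInner (fun n : (Matrix.SpecialLinearGroup.toGL :
      Matrix.SpecialLinearGroup (Fin 2) F →* GL (Fin 2) F).range => psGL η 1 (n : GL (Fin 2) F))
      (fun n => θ (e.symm n)) ≠ 0 := by
    rw [hres, Cfsg.Agent.Helper38.classInner_comp_equiv e.symm (psSL η) θ]
    exact quad_inner_ne hθ hθ' hne hsum
  have hin' : Cfsg.classInner (fun n : (Matrix.SpecialLinearGroup.toGL :
      Matrix.SpecialLinearGroup (Fin 2) F →* GL (Fin 2) F).range => psGL η 1 (n : GL (Fin 2) F))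
      (fun n => θ' (e.symm n)) ≠ 0 := by
    rw [hres, Cfsg.Agent.Helper38.classInner_comp_equiv e.symm (psSL η) θ']
    exact quad_inner_ne hθ' hθ (Ne.symm hne) (by rw [hsum, add_comm])
  obtain ⟨x, hx⟩ := Cfsg.Agent.Helper75.clifford_irrCharacter _ (psGL η 1) hχ _ _ hθN hθ'N hin hin'
  have h1 := hx (e g)
  simp only [MulEquiv.symm_apply_apply] at h1
  have hto : Matrix.SpecialLinearGroup.toGL (e.symm (MulAut.conjNormal x (e g))) =
      x * Matrix.SpecialLinearGroup.toGL g * x⁻¹ := by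
    rw [← he, MulEquiv.apply_symm_apply, MulAut.conjNormal_apply, he]
  have hconj : IsConj g (e.symm (MulAut.conjNormal x (e g))) := by
    have hc : IsConj (Matrix.SpecialLinearGroup.toGL g)
        (Matrix.SpecialLinearGroup.toGL (e.symm (MulAut.conjNormal x (e g)))) := by
      rw [hto]
      exact isConj_iff.mpr ⟨x, rfl⟩
    have htr' := isConj_trace_eq hc
    have hns' := isConj_nonScalar hc hns
    simp only [Matrix.SpecialLinearGroup.coe_GL_coe_matrix] at htr' hns'
    have hodd' : Fintype.card F % 2 = 1 := Nat.odd_iff.mp hodd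
    have c1 := sl2_isConj_compSL hodd' g hns htr
    have c2 := sl2_isConj_compSL hodd' _ hns' (by rw [← htr']; exact htr)
    rw [← htr'] at c2
    exact c1.trans c2.symm
  have hcf' := Cfsg.Agent.Helper79.isCharacter_isClassFunction
    (Cfsg.Agent.Helper79.isCharacter_of_irr hθ')
  have h3 : θ' g = θ' (e.symm (MulAut.conjNormal x (e g))) := classFunction_eq_of_isConj hcf' hconj
  rw [h3, ← h1]

/-- The value of an irreducible character of degree `(q + 1)/2` at a split regular element. -/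
theorem half_plus_value (hodd : Odd (Fintype.card F)) (hq : 5 ≤ Fintype.card F)
    {χ : Matrix.SpecialLinearGroup (Fin 2) F → ℂ}
    (hχ : Cfsg.IsIrrCharacter (Matrix.SpecialLinearGroup (Fin 2) F) χ)
    (hdeg : χ 1 = (((Fintype.card F + 1) / 2 : ℕ) : ℂ)) {a : Fˣ} (ha : (a : F) ^ 2 ≠ 1) :
    χ (triSL a 0) = quadC F (a : F) := by
  have hF := ringChar_ne_two_of_odd hodd
  obtain ⟨ψ, hψ⟩ := exists_primitive_addChar (F := F)
  obtain ⟨⟨η, θ', h1, h2, hθ', hne, hsum⟩, -⟩ := half_plus_type hodd hq hχ hdeg hψ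
  have hη : η = quadC F := quad_char_unique h1 h2 quadC_mul_self (quadC_ne_one hF)
  subst hη
  have ha0 : (a : F) ≠ 0 := a.ne_zero
  have hainv : ((a⁻¹ : Fˣ) : F) = (a : F)⁻¹ := Units.val_inv_eq_inv_val a
  have hns : NonScalar ((triSL a 0 : Matrix.SpecialLinearGroup (Fin 2) F) :
      Matrix (Fin 2) (Fin 2) F) := by
    right; right
    rw [triSL_coe]
    simp only [Matrix.of_apply, Matrix.cons_val', Matrix.cons_val_zero, Matrix.cons_val_one,
      Matrix.empty_val', Matrix.cons_val_fin_one]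
    intro h
    apply ha
    rw [hainv] at h
    field_simp at h
    linear_combination h
  have htr : ((triSL a 0 : Matrix.SpecialLinearGroup (Fin 2) F) :
      Matrix (Fin 2) (Fin 2) F).trace ^ 2 ≠ 4 := by
    rw [triSL_coe, Matrix.trace_fin_two]
    simp only [Matrix.of_apply, Matrix.cons_val', Matrix.cons_val_zero, Matrix.cons_val_one,
      Matrix.empty_val', Matrix.cons_val_fin_one]
    intro h
    apply ha
    rw [hainv] at h
    have h3 : ((a : F) ^ 2 - 1) ^ 2 = 0 := by
      field_simp at h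
      linear_combination h
    have h4 := pow_eq_zero_iff (two_ne_zero) |>.mp h3
    linear_combination h4
  have heq := quad_eq_of_regular hodd h2 hχ hθ' hne hsum (triSL a 0) hns htr
  have h4 := congrFun hsum (triSL a 0)
  rw [psSL_triSL _ ha, Pi.add_apply, ← heq, hainv] at h4
  have hsq : quadC F (a : F)⁻¹ = quadC F (a : F) := by
    by_cases hs : IsSquare (a : F)
    · rw [quadC_of_isSquare ha0 hs, quadC_of_isSquare (inv_ne_zero ha0) (isSquare_inv.mpr hs)]
    · rw [quadC_of_not_isSquare hs, quadC_of_not_isSquare (fun h => hs (isSquare_inv.mp h))]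
  rw [hsq] at h4
  have h5 : (2 : ℂ) * (χ (triSL a 0) - quadC F (a : F)) = 0 := by linear_combination -h4
  rcases mul_eq_zero.1 h5 with h6 | h6
  · exact absurd h6 two_ne_zero
  · exact sub_eq_zero.mp h6

omit [Fintype F] [DecidableEq F] in
theorem not_noEigen_one :
    ¬ NoEigen ((1 : Matrix.SpecialLinearGroup (Fin 2) F) : Matrix (Fin 2) (Fin 2) F) := fun h =>
  noEigen_coe10 h (by simp)

omit [Fintype F] [DecidableEq F] in
theorem not_noEigen_negSL :
    ¬ NoEigen ((negSL : Matrix.SpecialLinearGroup (Fin 2) F) : Matrix (Fin 2) (Fin 2) F) := fun h =>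
  noEigen_coe10 h (by rw [negSL_coe]; simp)

/-- The value of an irreducible character of degree `(q - 1)/2` at an element without
eigenvector. -/
theorem half_minus_value (hodd : Odd (Fintype.card F)) (hq : 5 ≤ Fintype.card F)
    {χ : Matrix.SpecialLinearGroup (Fin 2) F → ℂ}
    (hχ : Cfsg.IsIrrCharacter (Matrix.SpecialLinearGroup (Fin 2) F) χ)
    (hdeg : χ 1 = (((Fintype.card F - 1) / 2 : ℕ) : ℂ))
    {g : Matrix.SpecialLinearGroup (Fin 2) F} (hg : NoEigen (g : Matrix (Fin 2) (Fin 2) F)) :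
    (g ^ ((Fintype.card F + 1) / 2) = 1 → χ g = -1) ∧
    (g ^ ((Fintype.card F + 1) / 2) ≠ 1 → χ g = 1) := by
  classical
  obtain ⟨ψ, hψ⟩ := exists_primitive_addChar (F := F)
  obtain ⟨ε, hε⟩ := exists_nonsquare_of_odd hodd
  obtain ⟨hc, -⟩ := half_minus_type hodd hq hχ hdeg hψ hε
  obtain ⟨k, hk⟩ := hodd
  have e1 : (Fintype.card F - 1) / 2 = k := by omega
  have e2 : (Fintype.card F + 1) / 2 = k + 1 := by omega
  rw [e1] at hdeg
  rw [e2]
  obtain ⟨f, hf1, hf2, hval⟩ := half_cusp_torus ⟨k, hk⟩ hg hχ hc hk hdeg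
  obtain ⟨c₀, hgen, hord⟩ := exists_gen_torSL ⟨k, hk⟩ hg
  have hgmem : g ∈ torSL g := mem_torSL_iff'.mpr rfl
  have hg1 : g ≠ 1 := by
    rintro rfl
    exact not_noEigen_one hg
  have hgz : g ≠ negSL := by
    rintro rfl
    exact not_noEigen_negSL hg
  have hχg : χ g = -((f ⟨g, hgmem⟩ : ℂˣ) : ℂ) := hval ⟨g, hgmem⟩ hg1 hgz
  obtain ⟨j, hj⟩ := Subgroup.mem_zpowers_iff.mp (hgen ⟨g, hgmem⟩)
  have hfc : f c₀ = -1 := by
    have h3 := hf2 c₀
    have h4 : (((f c₀ : ℂˣ) : ℂ) - 1) * (((f c₀ : ℂˣ) : ℂ) + 1) = 0 := by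
      have h5 := congrArg (fun u : ℂˣ => (u : ℂ)) h3
      simp only [Units.val_mul, Units.val_one] at h5
      linear_combination h5
    rcases mul_eq_zero.1 h4 with h5 | h5
    · exfalso
      apply hf1
      apply hom_eq_of_gen f 1 hgen
      rw [MonoidHom.one_apply]
      apply Units.ext
      rw [Units.val_one]
      linear_combination h5
    · apply Units.ext
      rw [Units.val_neg, Units.val_one]
      linear_combination h5
  have hfg : f ⟨g, hgmem⟩ = (-1 : ℂˣ) ^ j := by rw [← hj, map_zpow, hfc]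
  have hpow : g ^ (k + 1) = 1 ↔ Even j := by
    have h1 : g ^ (k + 1) = 1 ↔ (⟨g, hgmem⟩ : torSL g) ^ (k + 1) = 1 := by
      rw [Subtype.ext_iff (a1 := (⟨g, hgmem⟩ : torSL g) ^ (k + 1))]
      simp
    rw [h1, ← hj, ← zpow_natCast, ← zpow_mul, ← orderOf_dvd_iff_zpow_eq_one, hord, hk]
    push_cast
    constructor
    · intro h
      have h2 : (2 : ℤ) * ((k : ℤ) + 1) ∣ j * ((k : ℤ) + 1) := by
        convert h using 1
        ring
      have h3 := Int.dvd_of_mul_dvd_mul_right (by positivity : ((k : ℤ) + 1) ≠ 0) h2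
      exact even_iff_two_dvd.mpr h3
    · intro h
      obtain ⟨t, ht⟩ := h
      exact ⟨t, by rw [ht]; ring⟩
  constructor
  · intro h
    have hev := hpow.mp h
    rw [hχg, hfg, hev.neg_one_zpow]
    simp
  · intro h
    have hodd' : ¬ Even j := fun he => h (hpow.mpr he)
    rw [hχg, hfg, (Int.not_even_iff_odd.mp hodd').neg_one_zpow]
    simp

end HalfValues

end Cfsg.Agent.Helper39
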