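import Mathlib
import Cfsg.Agent.Helper39.HalfValues

/-!
# The cuspidal characters of degree `q - 1` of `SL₂(q)`, `q` odd (helper39)

Cyclic subgroups of order `q + 1` are non-split tori; the characters of degree `q - 1` are
parametrized by the non-real characters of a torus.
-/

set_option autoImplicit false

namespace Cfsg.Agent.Helper39

open scoped ComplexConjugate

section CuspCount

variable {F : Type*} [Field F] [Fintype F] [DecidableEq F]

omit [Fintype F] [DecidableEq F] in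
theorem triSL_mul (a a' : Fˣ) (b b' : F) :
    triSL a b * triSL a' b' = triSL (a * a') ((a : F) * b' + b * ((a'⁻¹ : Fˣ) : F)) := by
  apply Subtype.ext
  rw [Matrix.SpecialLinearGroup.coe_mul, triSL_coe, triSL_coe, triSL_coe]
  ext i j
  fin_cases i <;> fin_cases j <;> simp [Matrix.mul_apply, Fin.sum_univ_two, mul_comm]

omit [Fintype F] [DecidableEq F] in
theorem triSL_pow (a : Fˣ) (b : F) (n : ℕ) : ∃ c : F, triSL a b ^ n = triSL (a ^ n) c := by
  induction n with
  | zero => exact ⟨0, by rw [pow_zero, pow_zero, triSL_one_eq, uSL_zero]⟩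
  | succ n ih =>
    obtain ⟨c, hc⟩ := ih
    exact ⟨_, by rw [pow_succ, hc, triSL_mul, pow_succ]⟩

omit [DecidableEq F] in
theorem uSL_pow_card (c : F) : uSL c ^ Fintype.card F = 1 := by
  have h1 : (Multiplicative.ofAdd c) ^ Fintype.card F = 1 := by
    have := pow_card_eq_one (x := Multiplicative.ofAdd c)
    rwa [Fintype.card_multiplicative] at this
  have h2 : uSL c = uSLHom (Multiplicative.ofAdd c) := rfl
  rw [h2, ← map_pow, h1, map_one]

theorem triSL_pow_card (a : Fˣ) (b : F) :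
    triSL a b ^ ((Fintype.card F - 1) * Fintype.card F) = 1 := by
  rw [pow_mul]
  obtain ⟨c, hc⟩ := triSL_pow a b (Fintype.card F - 1)
  have h1 : a ^ (Fintype.card F - 1) = 1 := by
    have := pow_card_eq_one (x := a)
    rwa [Fintype.card_units] at this
  rw [hc, h1, triSL_one_eq, uSL_pow_card]

/-- An element of order `q + 1` has no eigenvector. -/
theorem noEigen_of_orderOf {g : Matrix.SpecialLinearGroup (Fin 2) F}
    (hg : orderOf g = Fintype.card F + 1) : NoEigen (g : Matrix (Fin 2) (Fin 2) F) := by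
  by_contra h
  obtain ⟨x, a, b, hx⟩ := exists_conj_triSL g h
  have h1 : g ^ ((Fintype.card F - 1) * Fintype.card F) = 1 := by
    rw [hx, conj_pow, triSL_pow_card, mul_one, mul_inv_cancel]
  have h2 := orderOf_dvd_of_pow_eq_one h1
  rw [hg] at h2
  have h3 : (Fintype.card F + 1).Coprime (Fintype.card F) := by simp
  have h4 := h3.dvd_of_dvd_mul_right h2
  have hq1 : 1 < Fintype.card F := Fintype.one_lt_card
  have h5 := Nat.le_of_dvd (by omega) h4
  omega

/-- A cyclic subgroup of order `q + 1` is a non-split torus. -/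
theorem cyclic_eq_torSL (hodd : Odd (Fintype.card F))
    (C : Subgroup (Matrix.SpecialLinearGroup (Fin 2) F)) (hC : IsCyclic C)
    (hcard : Nat.card C = Fintype.card F + 1) :
    ∃ g₀ : Matrix.SpecialLinearGroup (Fin 2) F,
      NoEigen (g₀ : Matrix (Fin 2) (Fin 2) F) ∧ C = torSL g₀ := by
  obtain ⟨c₀, hc₀⟩ := hC.exists_generator
  have hord : orderOf c₀ = Fintype.card F + 1 :=
    (orderOf_eq_card_of_forall_mem_zpowers hc₀).trans hcard
  have hord' : orderOf (c₀ : Matrix.SpecialLinearGroup (Fin 2) F) = Fintype.card F + 1 := by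
    rw [Subgroup.orderOf_coe]
    exact hord
  have hne := noEigen_of_orderOf hord'
  refine ⟨c₀, hne, ?_⟩
  have hle : C ≤ torSL (c₀ : Matrix.SpecialLinearGroup (Fin 2) F) := by
    intro x hx
    obtain ⟨j, hj⟩ := Subgroup.mem_zpowers_iff.mp (hc₀ ⟨x, hx⟩)
    have hx' : x = (c₀ : Matrix.SpecialLinearGroup (Fin 2) F) ^ j := by
      have := congrArg Subtype.val hj
      simpa using this.symm
    rw [mem_torSL_iff', hx']
    exact (Commute.zpow_self (c₀ : Matrix.SpecialLinearGroup (Fin 2) F) j)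
  exact Subgroup.eq_of_le_of_card_ge hle (by rw [card_torSL hodd hne, hcard])

/-- A cuspidal irreducible character of degree `q - 1` takes the value `-1` at the nontrivial
unipotent elements. -/
theorem fc_value_uSL {χ : Matrix.SpecialLinearGroup (Fin 2) F → ℂ}
    (hχ : Cfsg.IsIrrCharacter (Matrix.SpecialLinearGroup (Fin 2) F) χ)
    (hc : ∀ α : MulChar F ℂ, Cfsg.classInner (psSL α) χ = 0)
    (hdeg : χ 1 = (Fintype.card F : ℂ) - 1) {y : F} (hy : y ≠ 0) : χ (uSL y) = -1 := by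
  obtain ⟨ψ, hψ⟩ := exists_primitive_addChar (F := F)
  obtain ⟨b, hb, hb1, -, hd, -⟩ := sl2_profile hχ hψ
  have hb0 := profile_zero_cuspidal hχ hc hb
  have hq1 : 1 < Fintype.card F := Fintype.one_lt_card
  have hsum : ∑ c : F, b c = b 0 + (Fintype.card F - 1) := by
    rw [hb0, zero_add]
    have h1 : ((∑ c : F, b c : ℕ) : ℂ) = ((Fintype.card F - 1 : ℕ) : ℂ) := by
      rw [← hd, hdeg, Nat.cast_sub (by omega)]
      simp
    exact_mod_cast h1
  have hall := profile_all_one b hb1 hsum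
  have hψy : ψ.mulShift y ≠ 1 := hψ hy
  have h1 := addChar_sum_erase hψy b hall
  rw [apply_uSL_eq_sum hψ χ y]
  have h2 : ∑ c : F, uMult uSL χ (ψ.mulShift c) * ψ (c * y) =
      ∑ c : F, (b c : ℂ) * (ψ.mulShift y) c := by
    apply Finset.sum_congr rfl
    intro c _
    rw [hb c, AddChar.mulShift_apply, mul_comm c y]
  rw [h2, h1, hb0]
  simp

/-- A cuspidal irreducible character of degree `q - 1` is determined by its sign at `-1` and its
values on a torus. -/
theorem fc_ext (hodd : Odd (Fintype.card F))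
    {g₀ : Matrix.SpecialLinearGroup (Fin 2) F} (hg₀ : NoEigen (g₀ : Matrix (Fin 2) (Fin 2) F))
    {χ χ' : Matrix.SpecialLinearGroup (Fin 2) F → ℂ}
    (hχ : Cfsg.IsIrrCharacter (Matrix.SpecialLinearGroup (Fin 2) F) χ)
    (hχ' : Cfsg.IsIrrCharacter (Matrix.SpecialLinearGroup (Fin 2) F) χ')
    (hc : ∀ α : MulChar F ℂ, Cfsg.classInner (psSL α) χ = 0)
    (hc' : ∀ α : MulChar F ℂ, Cfsg.classInner (psSL α) χ' = 0)
    (hdeg : χ 1 = (Fintype.card F : ℂ) - 1) (hdeg' : χ' 1 = (Fintype.card F : ℂ) - 1)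
    {ε : ℂ} (hs : ∀ g, χ (negSL * g) = ε * χ g) (hs' : ∀ g, χ' (negSL * g) = ε * χ' g)
    (htor : ∀ a : torSL g₀, (a : Matrix.SpecialLinearGroup (Fin 2) F) ≠ 1 →
      (a : Matrix.SpecialLinearGroup (Fin 2) F) ≠ negSL → χ a = χ' a) : χ = χ' := by
  have hcf := Cfsg.Agent.Helper79.isCharacter_isClassFunction
    (Cfsg.Agent.Helper79.isCharacter_of_irr hχ)
  have hcf' := Cfsg.Agent.Helper79.isCharacter_isClassFunction
    (Cfsg.Agent.Helper79.isCharacter_of_irr hχ')
  funext g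
  by_cases hg : NoEigen (g : Matrix (Fin 2) (Fin 2) F)
  · obtain ⟨c, hcmem, hce, hconj⟩ := exists_torSL_isConj hodd hg₀ hg
    rw [classFunction_eq_of_isConj hcf hconj, classFunction_eq_of_isConj hcf' hconj]
    have hc1 : c ≠ 1 := by
      rintro rfl
      exact not_noEigen_one hce
    have hcz : c ≠ negSL := by
      rintro rfl
      exact not_noEigen_negSL hce
    exact htor ⟨c, hcmem⟩ hc1 hcz
  · obtain ⟨x, a, b, hx⟩ := exists_conj_triSL g hg
    have e1 : χ g = χ (triSL a b) := by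
      rw [hx]
      exact hcf _ x
    have e2 : χ' g = χ' (triSL a b) := by
      rw [hx]
      exact hcf' _ x
    rw [e1, e2]
    by_cases ha : (a : F) ^ 2 = 1
    · have h3 : ((a : F) - 1) * ((a : F) + 1) = 0 := by linear_combination ha
      have key : ∀ y : F, χ (uSL y) = χ' (uSL y) := by
        intro y
        by_cases hy : y = 0
        · rw [hy, uSL_zero, hdeg, hdeg']
        · rw [fc_value_uSL hχ hc hdeg hy, fc_value_uSL hχ' hc' hdeg' hy]
      rcases mul_eq_zero.1 h3 with h4 | h4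
      · have h5 : a = 1 := Units.ext (by rw [Units.val_one]; linear_combination h4)
        rw [h5, triSL_one_eq]
        exact key b
      · have h5 : a = -1 := Units.ext (by rw [Units.val_neg, Units.val_one]; linear_combination h4)
        rw [h5, triSL_neg_one_eq, hs, hs', key]
    · rw [classFunction_eq_of_isConj hcf (isConj_triSL ha b),
        classFunction_eq_of_isConj hcf' (isConj_triSL ha b), cuspidal_triSL hcf hc ha,
        cuspidal_triSL hcf' hc' ha]

/-- Cuspidal of degree `q - 1`. -/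
def IsFullCusp (χ : Matrix.SpecialLinearGroup (Fin 2) F → ℂ) : Prop :=
  (∀ α : MulChar F ℂ, Cfsg.classInner (psSL α) χ = 0) ∧ χ 1 = (Fintype.card F : ℂ) - 1

/-- The number of cuspidal irreducible characters of degree `q - 1` is `(q - 1)/2`. -/
theorem card_fullCusp (hodd : Odd (Fintype.card F)) :
    2 * Nat.card {θ : Cfsg.IrrCharacter (Matrix.SpecialLinearGroup (Fin 2) F) //
      IsFullCusp (θ : Matrix.SpecialLinearGroup (Fin 2) F → ℂ)} = Fintype.card F - 1 := by
  classical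
  have : Fintype (Cfsg.IrrCharacter (Matrix.SpecialLinearGroup (Fin 2) F)) := Fintype.ofFinite _
  obtain ⟨ψ, hψ⟩ := exists_primitive_addChar (F := F)
  obtain ⟨ε, hε⟩ := exists_nonsquare_of_odd hodd
  obtain ⟨k, hk⟩ := hodd
  have hq1 : 1 < Fintype.card F := Fintype.one_lt_card
  have hk1 : 1 ≤ k := by omega
  have hqc : (Fintype.card F : ℂ) = 2 * (k : ℂ) + 1 := by
    rw [hk]
    push_cast
    ring
  have hT : ∀ θ : Cfsg.IrrCharacter (Matrix.SpecialLinearGroup (Fin 2) F),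
      uMult uSL (θ : Matrix.SpecialLinearGroup (Fin 2) F → ℂ) (ψ.mulShift 1) *
        conj (uMult uSL (θ : Matrix.SpecialLinearGroup (Fin 2) F → ℂ) (ψ.mulShift ε)) =
      (if (∃ α : MulChar F ℂ, α * α ≠ 1 ∧
          (θ : Matrix.SpecialLinearGroup (Fin 2) F → ℂ) = psSL α) then (1 : ℂ) else 0) +
      (if (θ : Matrix.SpecialLinearGroup (Fin 2) F → ℂ) = psSL (1 : MulChar F ℂ) - trivSL
          then (1 : ℂ) else 0) +
      (if IsFullCusp (θ : Matrix.SpecialLinearGroup (Fin 2) F → ℂ) then (1 : ℂ) else 0) := by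
    intro θ
    obtain ⟨s, p, m, hs, hp, hm, hd, -, ht⟩ := sl2_odd_types_nat ⟨k, hk⟩ θ.2 hψ hε hk
    rw [AddChar.mulShift_one, hp, hm, Complex.conj_natCast]
    have hPSdeg : (∃ α : MulChar F ℂ, α * α ≠ 1 ∧
        (θ : Matrix.SpecialLinearGroup (Fin 2) F → ℂ) = psSL α) →
        s + (p + m) * k = 2 * k + 2 := by
      rintro ⟨α, -, h⟩
      have h1 : (θ : Matrix.SpecialLinearGroup (Fin 2) F → ℂ) 1 = (Fintype.card F : ℂ) + 1 := by
        rw [h, psSL_one]
      rw [hd, hqc] at h1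
      have h2 : ((s + (p + m) * k : ℕ) : ℂ) = ((2 * k + 2 : ℕ) : ℂ) := by
        rw [h1]
        push_cast
        ring
      exact Nat.cast_injective h2
    have hSTdeg : (θ : Matrix.SpecialLinearGroup (Fin 2) F → ℂ) =
        psSL (1 : MulChar F ℂ) - trivSL → s + (p + m) * k = 2 * k + 1 := by
      intro h
      have h1 : (θ : Matrix.SpecialLinearGroup (Fin 2) F → ℂ) 1 = (Fintype.card F : ℂ) := by
        rw [h, Pi.sub_apply, psSL_one]
        simp [trivSL]
      rw [hd, hqc] at h1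
      have h2 : ((s + (p + m) * k : ℕ) : ℂ) = ((2 * k + 1 : ℕ) : ℂ) := by
        rw [h1]
        push_cast
        ring
      exact Nat.cast_injective h2
    have hFCdeg : IsFullCusp (θ : Matrix.SpecialLinearGroup (Fin 2) F → ℂ) →
        s + (p + m) * k = 2 * k := by
      intro h
      have h1 := h.2
      rw [hd, hqc] at h1
      have h2 : ((s + (p + m) * k : ℕ) : ℂ) = ((2 * k : ℕ) : ℂ) := by
        rw [h1]
        push_cast
        ring
      exact Nat.cast_injective h2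
    rcases ht with ⟨rfl, rfl, rfl, α, hα, h⟩ | ⟨rfl, rfl, rfl, h⟩ | ⟨rfl, rfl, rfl, h⟩ |
      ⟨rfl, hpm, η, θ', h1, h2, hθ', hne, hsum⟩ | ⟨rfl, h1, h2, h3, hcusp⟩
    · have a1 : ∃ α : MulChar F ℂ, α * α ≠ 1 ∧
          (θ : Matrix.SpecialLinearGroup (Fin 2) F → ℂ) = psSL α := ⟨α, hα, h⟩
      have a2 : ¬ (θ : Matrix.SpecialLinearGroup (Fin 2) F → ℂ) =
          psSL (1 : MulChar F ℂ) - trivSL := fun h' => by
        have := hSTdeg h'
        omega
      have a3 : ¬ IsFullCusp (θ : Matrix.SpecialLinearGroup (Fin 2) F → ℂ) := fun h' => by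
        have := hFCdeg h'
        omega
      rw [if_pos a1, if_neg a2, if_neg a3]
      simp
    · have a1 : ¬ ∃ α : MulChar F ℂ, α * α ≠ 1 ∧
          (θ : Matrix.SpecialLinearGroup (Fin 2) F → ℂ) = psSL α := fun h' => by
        have := hPSdeg h'
        omega
      have a2 : ¬ (θ : Matrix.SpecialLinearGroup (Fin 2) F → ℂ) =
          psSL (1 : MulChar F ℂ) - trivSL := fun h' => by
        have := hSTdeg h'
        omega
      have a3 : ¬ IsFullCusp (θ : Matrix.SpecialLinearGroup (Fin 2) F → ℂ) := fun h' => by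
        have := hFCdeg h'
        omega
      rw [if_neg a1, if_neg a2, if_neg a3]
      simp
    · have a1 : ¬ ∃ α : MulChar F ℂ, α * α ≠ 1 ∧
          (θ : Matrix.SpecialLinearGroup (Fin 2) F → ℂ) = psSL α := fun h' => by
        have := hPSdeg h'
        omega
      have a3 : ¬ IsFullCusp (θ : Matrix.SpecialLinearGroup (Fin 2) F → ℂ) := fun h' => by
        have := hFCdeg h'
        omega
      rw [if_neg a1, if_pos h, if_neg a3]
      simp
    · have a1 : ¬ ∃ α : MulChar F ℂ, α * α ≠ 1 ∧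
          (θ : Matrix.SpecialLinearGroup (Fin 2) F → ℂ) = psSL α := fun h' => by
        have := hPSdeg h'
        rw [hpm] at this
        omega
      have a2 : ¬ (θ : Matrix.SpecialLinearGroup (Fin 2) F → ℂ) =
          psSL (1 : MulChar F ℂ) - trivSL := fun h' => by
        have := hSTdeg h'
        rw [hpm] at this
        omega
      have a3 : ¬ IsFullCusp (θ : Matrix.SpecialLinearGroup (Fin 2) F → ℂ) := fun h' =>
        quad_inner_ne θ.2 hθ' hne hsum (h'.1 η)
      rw [if_neg a1, if_neg a2, if_neg a3]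
      have h4 : (p = 1 ∧ m = 0) ∨ (p = 0 ∧ m = 1) := by omega
      rcases h4 with ⟨rfl, rfl⟩ | ⟨rfl, rfl⟩ <;> simp
    · have hp' : p = 0 ∨ p = 1 := by omega
      have hm' : m = 0 ∨ m = 1 := by omega
      have a1 : ¬ ∃ α : MulChar F ℂ, α * α ≠ 1 ∧
          (θ : Matrix.SpecialLinearGroup (Fin 2) F → ℂ) = psSL α := fun h' => by
        have := hPSdeg h'
        rcases hp' with rfl | rfl <;> rcases hm' with rfl | rfl <;> simp at this <;> omega
      have a2 : ¬ (θ : Matrix.SpecialLinearGroup (Fin 2) F → ℂ) =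
          psSL (1 : MulChar F ℂ) - trivSL := fun h' => by
        have := hSTdeg h'
        rcases hp' with rfl | rfl <;> rcases hm' with rfl | rfl <;> simp at this <;> omega
      rw [if_neg a1, if_neg a2]
      by_cases hpm : p = 1 ∧ m = 1
      · obtain ⟨rfl, rfl⟩ := hpm
        have a3 : IsFullCusp (θ : Matrix.SpecialLinearGroup (Fin 2) F → ℂ) := by
          refine ⟨hcusp, ?_⟩
          rw [hd, hqc]
          push_cast
          ring
        rw [if_pos a3]
        simp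
      · have a3 : ¬ IsFullCusp (θ : Matrix.SpecialLinearGroup (Fin 2) F → ℂ) := fun h' => by
          have := hFCdeg h'
          rcases hp' with rfl | rfl <;> rcases hm' with rfl | rfl <;> simp at this <;> omega
        rw [if_neg a3]
        have h4 : p = 0 ∨ m = 0 := by omega
        rcases h4 with rfl | rfl <;> simp
  have hsum := ci_sum hψ (1 : F) ε
  rw [sum_sq_eq_nonsquare hε, add_zero, Finset.sum_congr rfl (fun θ _ => hT θ),
    Finset.sum_add_distrib, Finset.sum_add_distrib, Finset.sum_boole, Finset.sum_boole,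
    Finset.sum_boole] at hsum
  have hST : (Finset.univ.filter
      (fun θ : Cfsg.IrrCharacter (Matrix.SpecialLinearGroup (Fin 2) F) =>
        (θ : Matrix.SpecialLinearGroup (Fin 2) F → ℂ) =
          psSL (1 : MulChar F ℂ) - trivSL)).card = 1 := by
    rw [Finset.card_eq_one]
    refine ⟨⟨psSL (1 : MulChar F ℂ) - trivSL, psSL_one_sub_irr⟩, ?_⟩
    ext θ
    simp only [Finset.mem_filter, Finset.mem_univ, true_and, Finset.mem_singleton]
    exact ⟨fun h => Subtype.ext h, fun h => by rw [h]⟩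
  have hPS : 2 * (Finset.univ.filter
      (fun θ : Cfsg.IrrCharacter (Matrix.SpecialLinearGroup (Fin 2) F) =>
        ∃ α : MulChar F ℂ, α * α ≠ 1 ∧
          (θ : Matrix.SpecialLinearGroup (Fin 2) F → ℂ) = psSL α)).card =
      Fintype.card F - 3 := by
    rw [← natCard_mulChar_sq_ne_one ⟨k, hk⟩, ← Fintype.card_subtype, ← Nat.card_eq_fintype_card]
    apply natCard_subtype_two_to_one _
      (fun α : {α : MulChar F ℂ // α * α ≠ 1} =>
        (⟨psSL α.1, psSL_irr α.2⟩ : Cfsg.IrrCharacter (Matrix.SpecialLinearGroup (Fin 2) F)))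
      (fun α => ⟨α.1⁻¹, fun h => α.2 (by
        have h1 := congrArg (fun x => x⁻¹) h
        simpa using h1)⟩)
    · rintro ⟨α, hα⟩ h
      simp only [Subtype.mk.injEq] at h
      apply hα
      nth_rewrite 1 [← h]
      simp
    · intro α
      exact ⟨α.1, α.2, rfl⟩
    · rintro χ ⟨α, hα, h⟩
      exact ⟨⟨α, hα⟩, Subtype.ext h.symm⟩
    · rintro ⟨α, hα⟩ ⟨α', hα'⟩
      simp only [Subtype.mk.injEq]
      exact psSL_eq_iff hα hα'
  rw [Nat.card_eq_fintype_card, Fintype.card_subtype]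
  rw [hST] at hsum
  have h5 : (Finset.univ.filter
      (fun θ : Cfsg.IrrCharacter (Matrix.SpecialLinearGroup (Fin 2) F) =>
        ∃ α : MulChar F ℂ, α * α ≠ 1 ∧
          (θ : Matrix.SpecialLinearGroup (Fin 2) F → ℂ) = psSL α)).card + 1 +
      (Finset.univ.filter
      (fun θ : Cfsg.IrrCharacter (Matrix.SpecialLinearGroup (Fin 2) F) =>
        IsFullCusp (θ : Matrix.SpecialLinearGroup (Fin 2) F → ℂ))).card + 1 = Fintype.card F := by
    have h6 : (((Finset.univ.filter
      (fun θ : Cfsg.IrrCharacter (Matrix.SpecialLinearGroup (Fin 2) F) =>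
        ∃ α : MulChar F ℂ, α * α ≠ 1 ∧
          (θ : Matrix.SpecialLinearGroup (Fin 2) F → ℂ) = psSL α)).card + 1 +
      (Finset.univ.filter
      (fun θ : Cfsg.IrrCharacter (Matrix.SpecialLinearGroup (Fin 2) F) =>
        IsFullCusp (θ : Matrix.SpecialLinearGroup (Fin 2) F → ℂ))).card + 1 : ℕ) : ℂ) =
        ((Fintype.card F : ℕ) : ℂ) := by
      push_cast
      linear_combination hsum
    exact Nat.cast_injective h6
  omega

open Classical in
/-- Every non-real character of the torus comes from a cuspidal character of degree `q - 1`. -/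
theorem exists_fullCusp_of_hom (hodd : Odd (Fintype.card F))
    {g₀ : Matrix.SpecialLinearGroup (Fin 2) F} (hg₀ : NoEigen (g₀ : Matrix (Fin 2) (Fin 2) F))
    (θ : torSL g₀ →* ℂˣ) (hθ : ∃ c : torSL g₀, θ c ^ 2 ≠ 1) :
    ∃ χ : Matrix.SpecialLinearGroup (Fin 2) F → ℂ,
      Cfsg.IsIrrCharacter (Matrix.SpecialLinearGroup (Fin 2) F) χ ∧ IsFullCusp χ ∧
      (∀ g, χ (negSL * g) = ((θ ⟨negSL, negSL_mem_torSL g₀⟩ : ℂˣ) : ℂ) * χ g) ∧
      ∀ a : torSL g₀, (a : Matrix.SpecialLinearGroup (Fin 2) F) ≠ 1 →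
        (a : Matrix.SpecialLinearGroup (Fin 2) F) ≠ negSL →
        χ a = -(((θ a : ℂˣ) : ℂ) + (((θ a)⁻¹ : ℂˣ) : ℂ)) := by
  have : Finite (torSL g₀ →* ℂˣ) := Helper80.finite_hom
  have : Fintype (torSL g₀ →* ℂˣ) := Fintype.ofFinite _
  have hA : ∀ a b : torSL g₀, a * b = b * a := fun a b => Subtype.ext (torSL_comm hg₀ a.2 b.2)
  choose fθ hf1 hf2 hf3 using
    fun χ : {θ : Cfsg.IrrCharacter (Matrix.SpecialLinearGroup (Fin 2) F) //
      IsFullCusp (θ : Matrix.SpecialLinearGroup (Fin 2) F → ℂ)} =>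
    full_cusp_torus hodd hg₀ χ.1.2 χ.2.1 χ.2.2
  have hf1' : ∀ χ : {θ : Cfsg.IrrCharacter (Matrix.SpecialLinearGroup (Fin 2) F) //
      IsFullCusp (θ : Matrix.SpecialLinearGroup (Fin 2) F → ℂ)},
      ∃ c : torSL g₀, (fθ χ)⁻¹ c ^ 2 ≠ 1 := by
    intro χ
    obtain ⟨c, hc⟩ := hf1 χ
    refine ⟨c, ?_⟩
    rw [MonoidHom.inv_apply, inv_pow]
    intro h
    exact hc (inv_eq_one.mp h)
  let Φ : {θ : Cfsg.IrrCharacter (Matrix.SpecialLinearGroup (Fin 2) F) //
      IsFullCusp (θ : Matrix.SpecialLinearGroup (Fin 2) F → ℂ)} × Bool →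
      {f : torSL g₀ →* ℂˣ // ∃ c : torSL g₀, f c ^ 2 ≠ 1} :=
    fun x => bif x.2 then ⟨fθ x.1, hf1 x.1⟩ else ⟨(fθ x.1)⁻¹, hf1' x.1⟩
  have hzz : (⟨negSL, negSL_mem_torSL g₀⟩ : torSL g₀) * ⟨negSL, negSL_mem_torSL g₀⟩ = 1 :=
    Subtype.ext negSL_mul_self
  have hz2 : ∀ f : torSL g₀ →* ℂˣ, (f ⟨negSL, negSL_mem_torSL g₀⟩)⁻¹ =
      f ⟨negSL, negSL_mem_torSL g₀⟩ := by
    intro f
    apply inv_eq_of_mul_eq_one_left
    rw [← map_mul, hzz, map_one]
  have hkey : ∀ χ χ' : {θ : Cfsg.IrrCharacter (Matrix.SpecialLinearGroup (Fin 2) F) //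
      IsFullCusp (θ : Matrix.SpecialLinearGroup (Fin 2) F → ℂ)},
      (fθ χ' = fθ χ ∨ fθ χ' = (fθ χ)⁻¹) → χ = χ' := by
    intro χ χ' h
    apply Subtype.ext
    apply Subtype.ext
    have hzeq : ((fθ χ' ⟨negSL, negSL_mem_torSL g₀⟩ : ℂˣ) : ℂ) =
        ((fθ χ ⟨negSL, negSL_mem_torSL g₀⟩ : ℂˣ) : ℂ) := by
      rcases h with h | h
      · rw [h]
      · rw [h, MonoidHom.inv_apply, hz2]
    apply fc_ext hodd hg₀ χ.1.2 χ'.1.2 χ.2.1 χ'.2.1 χ.2.2 χ'.2.2 (hf2 χ)
      (by rw [← hzeq]; exact hf2 χ')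
    intro a ha1 haz
    rw [hf3 χ a ha1 haz, hf3 χ' a ha1 haz]
    rcases h with h | h
    · rw [h]
    · rw [h, MonoidHom.inv_apply, inv_inv, add_comm]
  have hnoninv : ∀ χ : {θ : Cfsg.IrrCharacter (Matrix.SpecialLinearGroup (Fin 2) F) //
      IsFullCusp (θ : Matrix.SpecialLinearGroup (Fin 2) F → ℂ)}, (fθ χ)⁻¹ ≠ fθ χ := by
    intro χ h
    obtain ⟨c, hc⟩ := hf1 χ
    apply hc
    have h1 : (fθ χ c)⁻¹ = fθ χ c := by
      have := congrArg (fun f : torSL g₀ →* ℂˣ => f c) h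
      simpa using this
    rw [pow_two]
    nth_rewrite 1 [← h1]
    exact inv_mul_cancel _
  have hinj : Function.Injective Φ := by
    rintro ⟨χ, b⟩ ⟨χ', b'⟩ h
    cases b <;> cases b'
    · have hval : (fθ χ)⁻¹ = (fθ χ')⁻¹ := congrArg Subtype.val h
      have h1 : χ = χ' := hkey χ χ' (Or.inl (inv_injective hval).symm)
      rw [h1]
    · exfalso
      have hval : (fθ χ)⁻¹ = fθ χ' := congrArg Subtype.val h
      have h1 : χ = χ' := hkey χ χ' (Or.inr hval.symm)
      subst h1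
      exact hnoninv χ hval
    · exfalso
      have hval : fθ χ = (fθ χ')⁻¹ := congrArg Subtype.val h
      have h1 : χ' = χ := hkey χ' χ (Or.inr hval)
      subst h1
      exact hnoninv χ' hval.symm
    · have hval : fθ χ = fθ χ' := congrArg Subtype.val h
      have h1 : χ = χ' := hkey χ χ' (Or.inl hval.symm)
      rw [h1]
  have hcardX : Nat.card ({θ : Cfsg.IrrCharacter (Matrix.SpecialLinearGroup (Fin 2) F) //
      IsFullCusp (θ : Matrix.SpecialLinearGroup (Fin 2) F → ℂ)} × Bool) =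
      Fintype.card F - 1 := by
    rw [Nat.card_prod, Nat.card_eq_fintype_card (α := Bool), Fintype.card_bool, mul_comm,
      card_fullCusp hodd]
  have hcardΘ : Nat.card {f : torSL g₀ →* ℂˣ // ∃ c : torSL g₀, f c ^ 2 ≠ 1} ≤
      Fintype.card F - 1 := by
    have hHcard : Fintype.card (torSL g₀ →* ℂˣ) = Fintype.card F + 1 := by
      rw [card_hom_comm hA, card_torSL hodd hg₀]
    have h2dvd : 2 ∣ Fintype.card (torSL g₀ →* ℂˣ) := by
      rw [hHcard]
      obtain ⟨k, hk⟩ := hodd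
      exact ⟨k + 1, by omega⟩
    have : Fact (Nat.Prime 2) := ⟨Nat.prime_two⟩
    obtain ⟨σ, hσ⟩ := exists_prime_orderOf_dvd_card 2 h2dvd
    have hσ1 : σ ≠ 1 := by
      intro h
      rw [h, orderOf_one] at hσ
      omega
    have hσ2 : σ * σ = 1 := by
      have h := pow_orderOf_eq_one σ
      rw [hσ] at h
      exact (pow_two σ).symm.trans h
    rw [Nat.card_eq_fintype_card, Fintype.card_subtype]
    have hsub : Finset.univ.filter (fun f : torSL g₀ →* ℂˣ => ∃ c : torSL g₀, f c ^ 2 ≠ 1) ⊆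
        (Finset.univ.erase (1 : torSL g₀ →* ℂˣ)).erase σ := by
      intro f hf
      rw [Finset.mem_filter] at hf
      obtain ⟨-, c, hc⟩ := hf
      rw [Finset.mem_erase, Finset.mem_erase]
      refine ⟨?_, ?_, Finset.mem_univ _⟩
      · rintro rfl
        apply hc
        have h := congrArg (fun f : torSL g₀ →* ℂˣ => f c) hσ2
        rw [pow_two]
        exact h
      · rintro rfl
        apply hc
        simp
    have hcard2 : ((Finset.univ.erase (1 : torSL g₀ →* ℂˣ)).erase σ).card =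
        Fintype.card F + 1 - 1 - 1 := by
      rw [Finset.card_erase_of_mem (Finset.mem_erase.mpr ⟨hσ1, Finset.mem_univ _⟩),
        Finset.card_erase_of_mem (Finset.mem_univ _), Finset.card_univ, hHcard]
    have h3 := Finset.card_le_card hsub
    omega
  have hbij := hinj.bijective_of_nat_card_le (by rw [hcardX]; exact hcardΘ)
  obtain ⟨⟨χ, b⟩, hχb⟩ := hbij.2 ⟨θ, hθ⟩
  refine ⟨χ.1.1, χ.1.2, χ.2, ?_, ?_⟩
  · intro g
    cases b
    · have hval : (fθ χ)⁻¹ = θ := congrArg Subtype.val hχb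
      rw [← hval, MonoidHom.inv_apply, hz2]
      exact hf2 χ g
    · have hval : fθ χ = θ := congrArg Subtype.val hχb
      rw [← hval]
      exact hf2 χ g
  · intro a ha1 haz
    cases b
    · have hval : (fθ χ)⁻¹ = θ := congrArg Subtype.val hχb
      rw [← hval, MonoidHom.inv_apply, inv_inv, add_comm]
      exact hf3 χ a ha1 haz
    · have hval : fθ χ = θ := congrArg Subtype.val hχb
      rw [← hval]
      exact hf3 χ a ha1 haz

/-- The profile of a cuspidal irreducible character of degree `q - 1`. -/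
theorem fc_uMult {χ : Matrix.SpecialLinearGroup (Fin 2) F → ℂ}
    (hχ : Cfsg.IsIrrCharacter (Matrix.SpecialLinearGroup (Fin 2) F) χ)
    (hc : ∀ α : MulChar F ℂ, Cfsg.classInner (psSL α) χ = 0)
    (hdeg : χ 1 = (Fintype.card F : ℂ) - 1) {ψ : AddChar F ℂ} (hψ : ψ.IsPrimitive) {c : F}
    (hc0 : c ≠ 0) : uMult uSL χ (ψ.mulShift c) = 1 := by
  obtain ⟨b, hb, hb1, -, hd, -⟩ := sl2_profile hχ hψ
  have hb0 := profile_zero_cuspidal hχ hc hb
  have hq1 : 1 < Fintype.card F := Fintype.one_lt_card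
  have hsum : ∑ c : F, b c = b 0 + (Fintype.card F - 1) := by
    rw [hb0, zero_add]
    have h1 : ((∑ c : F, b c : ℕ) : ℂ) = ((Fintype.card F - 1 : ℕ) : ℂ) := by
      rw [← hd, hdeg, Nat.cast_sub (by omega)]
      simp
    exact_mod_cast h1
  rw [hb c, profile_all_one b hb1 hsum c hc0]
  simp

/-- Every irreducible character of degree `q - 1` is given on a torus by a non-real character
of the torus. -/
theorem exists_hom_of_degree (hodd : Odd (Fintype.card F))
    {g₀ : Matrix.SpecialLinearGroup (Fin 2) F} (hg₀ : NoEigen (g₀ : Matrix (Fin 2) (Fin 2) F))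
    {χ : Matrix.SpecialLinearGroup (Fin 2) F → ℂ}
    (hχ : Cfsg.IsIrrCharacter (Matrix.SpecialLinearGroup (Fin 2) F) χ)
    (hdeg : χ 1 = (Fintype.card F : ℂ) - 1) :
    ∃ θ : torSL g₀ →* ℂˣ, (∃ c : torSL g₀, θ c ^ 2 ≠ 1) ∧
      ∀ a : torSL g₀, (a : Matrix.SpecialLinearGroup (Fin 2) F) ≠ 1 →
        (a : Matrix.SpecialLinearGroup (Fin 2) F) ≠ negSL →
        χ a = -(((θ a : ℂˣ) : ℂ) + (((θ a)⁻¹ : ℂˣ) : ℂ)) := by
  classical
  obtain ⟨ψ, hψ⟩ := exists_primitive_addChar (F := F)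
  obtain ⟨ε, hε⟩ := exists_nonsquare_of_odd hodd
  have hε0 : ε ≠ 0 := by
    rintro rfl
    exact hε IsSquare.zero
  obtain ⟨k, hk⟩ := hodd
  have hq1 : 1 < Fintype.card F := Fintype.one_lt_card
  have hk1 : 1 ≤ k := by omega
  have hqc : (Fintype.card F : ℂ) = 2 * (k : ℂ) + 1 := by
    rw [hk]
    push_cast
    ring
  obtain ⟨s, p, m, hs, hp, hm, hd, -, ht⟩ := sl2_odd_types_nat ⟨k, hk⟩ hχ hψ hε hk
  have hdn : s + (p + m) * k = 2 * k := by
    have h1 := hdeg
    rw [hd, hqc] at h1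
    have h2 : ((s + (p + m) * k : ℕ) : ℂ) = ((2 * k : ℕ) : ℂ) := by
      rw [h1]
      push_cast
      ring
    exact Nat.cast_injective h2
  rcases ht with ⟨rfl, rfl, rfl, -⟩ | ⟨rfl, rfl, rfl, -⟩ | ⟨rfl, rfl, rfl, -⟩ |
    ⟨rfl, hpm, η, θ', h1, h2, hθ', hne, hsum⟩ | ⟨rfl, h1, h2, h3, hcusp⟩
  · exfalso
    omega
  · exfalso
    simp at hdn
    omega
  · exfalso
    omega
  · rw [hpm] at hdn
    have hk' : k = 1 := by omega
    have hX : 0 < Nat.card {θ : Cfsg.IrrCharacter (Matrix.SpecialLinearGroup (Fin 2) F) //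
        IsFullCusp (θ : Matrix.SpecialLinearGroup (Fin 2) F → ℂ)} := by
      have := card_fullCusp (F := F) ⟨k, hk⟩
      omega
    obtain ⟨χ₀⟩ := (Nat.card_pos_iff.mp hX).1
    obtain ⟨f, hf1, hf2, hf3⟩ := full_cusp_torus ⟨k, hk⟩ hg₀ χ₀.1.2 χ₀.2.1 χ₀.2.2
    refine ⟨f, hf1, ?_⟩
    intro a ha1 haz
    have hae : NoEigen ((a : Matrix.SpecialLinearGroup (Fin 2) F) :
        Matrix (Fin 2) (Fin 2) F) := by
      rcases torSL_cases hg₀ a.2 with h | h | h
      · exact absurd h ha1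
      · exact absurd h haz
      · exact h
    rw [← hf3 a ha1 haz, quad_elliptic ⟨k, hk⟩ h2 hχ hθ' hne hsum a hae]
    symm
    have hcf₀ := Cfsg.Agent.Helper79.isCharacter_isClassFunction
      (Cfsg.Agent.Helper79.isCharacter_of_irr χ₀.1.2)
    have hp₀ := fc_uMult χ₀.1.2 χ₀.2.1 χ₀.2.2 hψ (one_ne_zero (α := F))
    rw [AddChar.mulShift_one] at hp₀
    apply corner_elliptic ⟨k, hk⟩ (by omega) χ₀.1.2 hψ hε
      (uMult_one_eq_zero_of_cuspidal hcf₀ χ₀.2.1) hp₀
      (fc_uMult χ₀.1.2 χ₀.2.1 χ₀.2.2 hψ hε0) _ a hae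
    rw [χ₀.2.2, hqc, hk']
    norm_num
  · obtain ⟨f, hf1, -, hf3⟩ := full_cusp_torus ⟨k, hk⟩ hg₀ hχ hcusp hdeg
    exact ⟨f, hf1, hf3⟩

/-- The irreducible characters of degree `q - 1` of `SL₂(q)`, `q` odd, and the characters of a
non-split torus. -/
theorem sl2_cuspidal_main (hodd : Odd (Fintype.card F))
    {g₀ : Matrix.SpecialLinearGroup (Fin 2) F} (hg₀ : NoEigen (g₀ : Matrix (Fin 2) (Fin 2) F)) :
    (∀ θ : torSL g₀ →* ℂˣ, (∃ c : torSL g₀, θ c ^ 2 ≠ 1) →
      ∃ χ : Matrix.SpecialLinearGroup (Fin 2) F → ℂ,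
        Cfsg.IsIrrCharacter (Matrix.SpecialLinearGroup (Fin 2) F) χ ∧
        χ 1 = (Fintype.card F : ℂ) - 1 ∧
        (∀ c : torSL g₀, (c : Matrix.SpecialLinearGroup (Fin 2) F) ∉
            Subgroup.center (Matrix.SpecialLinearGroup (Fin 2) F) →
          χ c = -((θ c).val + (θ c)⁻¹.val)) ∧
        (∀ c : torSL g₀, (c : Matrix.SpecialLinearGroup (Fin 2) F) ∈
            Subgroup.center (Matrix.SpecialLinearGroup (Fin 2) F) →
          ∀ g : Matrix.SpecialLinearGroup (Fin 2) F,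
            χ ((c : Matrix.SpecialLinearGroup (Fin 2) F) * g) = (θ c).val * χ g) ∧
        (∀ g : Matrix.SpecialLinearGroup (Fin 2) F, (g : Matrix (Fin 2) (Fin 2) F) 0 1 = 0 →
          (g : Matrix (Fin 2) (Fin 2) F) 1 0 = 0 → (g : Matrix (Fin 2) (Fin 2) F) 0 0 ^ 2 ≠ 1 →
          χ g = 0) ∧
        (∀ g : Matrix.SpecialLinearGroup (Fin 2) F, (g : Matrix (Fin 2) (Fin 2) F) 1 0 = 0 →
          (g : Matrix (Fin 2) (Fin 2) F) 0 0 = 1 → (g : Matrix (Fin 2) (Fin 2) F) 1 1 = 1 →
          (g : Matrix (Fin 2) (Fin 2) F) 0 1 ≠ 0 → χ g = -1)) ∧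
    (∀ χ : Matrix.SpecialLinearGroup (Fin 2) F → ℂ,
      Cfsg.IsIrrCharacter (Matrix.SpecialLinearGroup (Fin 2) F) χ →
      χ 1 = (Fintype.card F : ℂ) - 1 →
      ∃ θ : torSL g₀ →* ℂˣ, (∃ c : torSL g₀, θ c ^ 2 ≠ 1) ∧
        ∀ c : torSL g₀, (c : Matrix.SpecialLinearGroup (Fin 2) F) ∉
            Subgroup.center (Matrix.SpecialLinearGroup (Fin 2) F) →
          χ c = -((θ c).val + (θ c)⁻¹.val)) := by
  constructor
  · intro θ hθ
    obtain ⟨χ, hχ, hfc, hsign, hval⟩ := exists_fullCusp_of_hom hodd hg₀ θ hθ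
    have hcf := Cfsg.Agent.Helper79.isCharacter_isClassFunction
      (Cfsg.Agent.Helper79.isCharacter_of_irr hχ)
    refine ⟨χ, hχ, hfc.2, ?_, ?_, ?_, ?_⟩
    · intro c hc
      apply hval c
      · intro h
        apply hc
        rw [h]
        exact Subgroup.one_mem _
      · intro h
        apply hc
        rw [h]
        exact negSL_mem_center
    · intro c hc g
      rcases mem_center_sl2 hc with h | h
      · have hc1 : c = 1 := Subtype.ext h
        rw [hc1, map_one, Units.val_one, one_mul, Subgroup.coe_one, one_mul]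
      · have hcz : c = ⟨negSL, negSL_mem_torSL g₀⟩ := Subtype.ext h
        rw [hcz]
        exact hsign g
    · intro g h01 h10 hsq
      obtain ⟨a, ha, -, hga⟩ := eq_triSL_of_upper g h10
      rw [h01] at hga
      rw [hga]
      exact cuspidal_triSL hcf hfc.1 (by rw [ha]; exact hsq)
    · intro g h10 h00 h11 h01
      have hg : g = uSL ((g : Matrix (Fin 2) (Fin 2) F) 0 1) := by
        apply Subtype.ext
        rw [uSL_coe]
        ext i j
        fin_cases i <;> fin_cases j <;> simp [h10, h00, h11]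
      rw [hg]
      exact fc_value_uSL hχ hfc.1 hfc.2 h01
  · intro χ hχ hdeg
    obtain ⟨θ, hθ, hval⟩ := exists_hom_of_degree hodd hg₀ hχ hdeg
    refine ⟨θ, hθ, ?_⟩
    intro c hc
    apply hval c
    · intro h
      apply hc
      rw [h]
      exact Subgroup.one_mem _
    · intro h
      apply hc
      rw [h]
      exact negSL_mem_center

end CuspCount

end Cfsg.Agent.Helper39
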