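import Cfsg.Agent.Helper16.D8Core

/-!
# S3716 piece SU1a: `|N| = 72` and two involutions generating a dihedral group of order 8
-/

set_option autoImplicit false

open Cfsg Cfsg.Agent.Helper16 DihedralGroup

namespace Cfsg.Agent.Helper39

/-- An element of prime order `p ∉ {2, 3}` normalizing a subgroup of order 9 centralizes it. -/
theorem d8_prime_normalizer_aux {G : Type*} [Group G] [Finite G] (M : Subgroup G)
    (hM9 : Nat.card M = 9) (x : G) (hx : x ∈ Subgroup.normalizer (M : Set G))
    (p : ℕ) (hp : p.Prime) (hxp : x ^ p = 1) (hp2 : p ≠ 2) (hp3 : p ≠ 3) :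
    ∀ m ∈ M, x * m * x⁻¹ = m := by
  classical
  have : Fact p.Prime := ⟨hp⟩
  have : Fintype ↥M := Fintype.ofFinite _
  have hx' : ∀ m, m ∈ M ↔ x * m * x⁻¹ ∈ M := Subgroup.mem_normalizer_iff.mp hx
  obtain ⟨f, hf0⟩ : ∃ f : Function.End ↥M, ∀ m : ↥M, ((f m : ↥M) : G) = x * m * x⁻¹ :=
    ⟨fun m => ⟨x * m * x⁻¹, (hx' m).mp m.2⟩, fun m => rfl⟩
  have hf : ∀ k : ℕ, ∀ m : ↥M, (((f ^ k) m : ↥M) : G) = x ^ k * m * (x ^ k)⁻¹ := by
    intro k
    induction k with
    | zero => intro m; simp [Function.End.one_def]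
    | succ k ih =>
      intro m
      rw [pow_succ]
      show (((f ^ k) (f m) : ↥M) : G) = _
      rw [ih, hf0, pow_succ]
      group
  have hfp : f ^ p ^ 1 = 1 := by
    funext m
    apply Subtype.ext
    rw [hf, pow_one, hxp]
    simp [Function.End.one_def]
  have key := Equiv.Perm.card_fixedPoints_modEq (f := f) (p := p) (n := 1) hfp
  obtain ⟨H, hH⟩ : ∃ H : Subgroup ↥M, ∀ m : ↥M, m ∈ H ↔ f m = m := by
    refine ⟨{ carrier := {m | f m = m}, mul_mem' := ?_, one_mem' := ?_, inv_mem' := ?_ },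
      fun m => Iff.rfl⟩
    · intro a b ha hb
      simp only [Set.mem_ofPred_eq] at ha hb ⊢
      apply Subtype.ext
      have ha' := congrArg Subtype.val ha
      have hb' := congrArg Subtype.val hb
      rw [hf0] at ha' hb' ⊢
      rw [Subgroup.coe_mul]
      calc x * ((a : G) * b) * x⁻¹ = (x * a * x⁻¹) * (x * b * x⁻¹) := by group
        _ = a * b := by rw [ha', hb']
    · simp only [Set.mem_ofPred_eq]
      apply Subtype.ext
      rw [hf0]
      simp
    · intro a ha
      simp only [Set.mem_ofPred_eq] at ha ⊢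
      apply Subtype.ext
      have ha' := congrArg Subtype.val ha
      rw [hf0] at ha' ⊢
      rw [Subgroup.coe_inv]
      calc x * (a : G)⁻¹ * x⁻¹ = (x * a * x⁻¹)⁻¹ := by group
        _ = (a : G)⁻¹ := by rw [ha']
  rw [Fintype.card_eq_nat_card, Fintype.card_eq_nat_card] at key
  have hcard : Nat.card ↥(Function.fixedPoints f) = Nat.card H := by
    apply Nat.card_congr
    refine ⟨fun m => ⟨m.1, (hH _).mpr m.2⟩, fun m => ⟨m.1, (hH _).mp m.2⟩, fun m => rfl,
      fun m => rfl⟩
  rw [hcard, hM9] at key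
  have hdvd : Nat.card H ∣ 3 ^ 2 := by
    have := Subgroup.card_subgroup_dvd_card H
    rwa [hM9] at this
  obtain ⟨i, hi, hci⟩ := (Nat.dvd_prime_pow Nat.prime_three).mp hdvd
  have hi' : i = 0 ∨ i = 1 ∨ i = 2 := by omega
  rcases hi' with rfl | rfl | rfl
  · exfalso
    rw [hci] at key
    have h1 : p ∣ 9 - 3 ^ 0 := (Nat.modEq_iff_dvd' (by norm_num)).mp key.symm
    have h2 : p ∣ 2 ^ 3 := by norm_num at h1 ⊢; exact h1
    exact hp2 ((Nat.prime_dvd_prime_iff_eq hp Nat.prime_two).mp (hp.dvd_of_dvd_pow h2))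
  · exfalso
    rw [hci] at key
    have h1 : p ∣ 9 - 3 ^ 1 := (Nat.modEq_iff_dvd' (by norm_num)).mp key.symm
    have h2 : p ∣ 2 * 3 := by norm_num at h1 ⊢; exact h1
    rcases (Nat.Prime.dvd_mul hp).mp h2 with h3 | h3
    · exact hp2 ((Nat.prime_dvd_prime_iff_eq hp Nat.prime_two).mp h3)
    · exact hp3 ((Nat.prime_dvd_prime_iff_eq hp Nat.prime_three).mp h3)
  · have htop : H = ⊤ := by
      rw [← Subgroup.card_eq_iff_eq_top, hci, hM9]
      norm_num
    intro m hm
    have h1 : (⟨m, hm⟩ : ↥M) ∈ H := by rw [htop]; exact Subgroup.mem_top _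
    have h2 := congrArg Subtype.val ((hH _).mp h1)
    rw [hf0] at h2
    exact h2

theorem d8_sylow_two {G : Type*} [Group G] [Finite G] (M : Sylow 3 G)
    (hM9 : Nat.card ↥(M : Subgroup G) = 9)
    (hCM : Subgroup.centralizer ((M : Subgroup G) : Set G) = (M : Subgroup G))
    (N : Subgroup G) (hN : N = Subgroup.normalizer ((M : Subgroup G) : Set G))
    (hS : ∀ S : Sylow 2 ↥N, Nonempty (↥(S : Subgroup ↥N) ≃* DihedralGroup 4)) :
    Nat.card N = 72 ∧ ∃ a τ : G, a ∈ N ∧ τ ∈ N ∧ a ^ 2 = 1 ∧ τ ^ 2 = 1 ∧ a ≠ 1 ∧ τ ≠ 1 ∧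
      (a * τ) ^ 2 ≠ 1 ∧ (a * τ) ^ 4 = 1 := by
  classical
  have hp2 : Fact (Nat.Prime 2) := ⟨Nat.prime_two⟩
  have hp3 : Fact (Nat.Prime 3) := ⟨Nat.prime_three⟩
  obtain ⟨S⟩ : Nonempty (Sylow 2 ↥N) := inferInstance
  obtain ⟨e⟩ := hS S
  constructor
  · -- `|N| = 72`
    have hn0 : Nat.card N ≠ 0 := Nat.card_pos.ne'
    have h2 : (Nat.card N).factorization 2 = 3 := by
      have h1 := S.card_eq_multiplicity
      rw [Nat.card_congr e.toEquiv, DihedralGroup.nat_card] at h1
      have h1' : 2 ^ 3 = 2 ^ (Nat.card N).factorization 2 := by rw [← h1]; norm_num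
      exact (Nat.pow_right_injective (le_refl 2) h1').symm
    have h3 : (Nat.card N).factorization 3 = 2 := by
      have hMN : (M : Subgroup G) ≤ N := by rw [hN]; exact Subgroup.le_normalizer
      have h1 : 3 ^ 2 ∣ Nat.card N := by
        have := Subgroup.card_dvd_of_le hMN
        rwa [hM9] at this
      have h2' : 2 ≤ (Nat.card N).factorization 3 :=
        (Nat.Prime.pow_dvd_iff_le_factorization Nat.prime_three hn0).mp h1
      have h3' : Nat.card N ∣ Nat.card G := Subgroup.card_subgroup_dvd_card N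
      have h4 : (Nat.card G).factorization 3 = 2 := by
        have h5 := M.card_eq_multiplicity
        rw [hM9] at h5
        have h5' : 3 ^ 2 = 3 ^ (Nat.card G).factorization 3 := by rw [← h5]; norm_num
        exact (Nat.pow_right_injective (by norm_num : 2 ≤ 3) h5').symm
      have h6 : (Nat.card N).factorization 3 ≤ (Nat.card G).factorization 3 :=
        (Nat.Prime.pow_dvd_iff_le_factorization Nat.prime_three Nat.card_pos.ne').mp
          ((Nat.ordProj_dvd _ _).trans h3')
      omega
    have hsupp : (Nat.card N).factorization.support ⊆ {2, 3} := by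
      intro p hp
      rw [Nat.support_factorization, Nat.mem_primeFactors] at hp
      obtain ⟨hpp, hpd, -⟩ := hp
      by_contra hne
      simp only [Finset.mem_insert, Finset.mem_singleton, not_or] at hne
      have : Fact p.Prime := ⟨hpp⟩
      obtain ⟨x, hx⟩ := exists_prime_orderOf_dvd_card' p hpd
      have hxN : (x : G) ∈ Subgroup.normalizer ((M : Subgroup G) : Set G) := by
        rw [← hN]; exact x.2
      have hxp : (x : G) ^ p = 1 := by
        rw [← Subgroup.coe_pow, ← hx, pow_orderOf_eq_one]; rfl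
      have hcent := d8_prime_normalizer_aux (M : Subgroup G) hM9 (x : G) hxN p hpp hxp
        hne.1 hne.2
      have hxM : (x : G) ∈ (M : Subgroup G) := by
        rw [← hCM, Subgroup.mem_centralizer_iff]
        intro m hm
        have := hcent m hm
        calc m * (x : G) = (x * m * (x : G)⁻¹) * x := by rw [this]
          _ = x * m := by group
      have h1 : orderOf (⟨(x : G), hxM⟩ : ↥(M : Subgroup G)) ∣ 9 := by
        rw [← hM9]; exact orderOf_dvd_natCard _
      rw [Subgroup.orderOf_mk, Subgroup.orderOf_coe, hx] at h1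
      have h9 : p ∣ 3 ^ 2 := by norm_num at h1 ⊢; exact h1
      exact hne.2 ((Nat.prime_dvd_prime_iff_eq hpp Nat.prime_three).mp
        (hpp.dvd_of_dvd_pow h9))
    have key := Nat.prod_factorization_pow_eq_self hn0
    rw [Finsupp.prod_of_support_subset _ hsupp _ (by simp)] at key
    rw [Finset.prod_pair (by norm_num), h2, h3] at key
    rw [← key]
    norm_num
  · -- the elements
    obtain ⟨ψ, hψ⟩ : ∃ ψ : DihedralGroup 4 →* G, Function.Injective ψ ∧ ∀ x, ψ x ∈ N := by
      refine ⟨N.subtype.comp ((S : Subgroup ↥N).subtype.comp e.symm.toMonoidHom), ?_, ?_⟩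
      · intro x y hxy
        simp only [MonoidHom.coe_comp, Function.comp_apply] at hxy
        exact e.symm.injective (Subtype.ext (Subtype.ext hxy))
      · intro x
        simp only [MonoidHom.coe_comp, Function.comp_apply]
        exact SetLike.coe_mem _
    obtain ⟨hinj, hmem⟩ := hψ
    refine ⟨ψ (sr 0), ψ (sr 1), hmem _, hmem _, ?_, ?_, ?_, ?_, ?_, ?_⟩
    · rw [← map_pow]
      have : (sr 0 : DihedralGroup 4) ^ 2 = 1 := by decide
      rw [this, map_one]
    · rw [← map_pow]
      have : (sr 1 : DihedralGroup 4) ^ 2 = 1 := by decide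
      rw [this, map_one]
    · intro h1
      rw [← map_one ψ] at h1
      exact absurd (hinj h1) (by decide)
    · intro h1
      rw [← map_one ψ] at h1
      exact absurd (hinj h1) (by decide)
    · intro h1
      rw [← map_mul, ← map_pow, ← map_one ψ] at h1
      exact absurd (hinj h1) (by decide)
    · rw [← map_mul, ← map_pow]
      have : ((sr 0 : DihedralGroup 4) * sr 1) ^ 4 = 1 := by decide
      rw [this, map_one]

end Cfsg.Agent.Helper39
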