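import Mathlib
import Cfsg.Prelude.Def_Characters
import Cfsg.Prelude.Def_Blocks
import Cfsg.Agent.Helper79.Quotient
import Cfsg.Agent.Helper79.Abelian
import Cfsg.Agent.Helper80.CharOrtho
import Cfsg.Agent.Helper80.LinChar
import Cfsg.Agent.Helper81.CharBasic
import Cfsg.Agent.Helper75.Ito

/-!
# Counting irreducible characters of degree prime to `ℓ` (helper39)

Generic tools for the McKay equality: transport along isomorphisms, groups with an abelian
subgroup of index two inverted by the outside elements, groups of order `24`.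
-/

set_option autoImplicit false

namespace Cfsg.Agent.Helper39

universe u v

/-- The number of irreducible characters of degree prime to `ℓ`. -/
noncomputable def pdegCount (ℓ : ℕ) (H : Type u) [Group H] : ℕ :=
  Nat.card {χ : Cfsg.IrrCharacter H // ¬ ℓ ∣ Cfsg.charDegree (χ : H → ℂ)}

theorem charDegree_comp_mulEquiv {H : Type u} {K : Type v} [Group H] [Group K] (e : K ≃* H)
    (χ : H → ℂ) : Cfsg.charDegree (fun x => χ (e x)) = Cfsg.charDegree χ := by
  unfold Cfsg.charDegree
  show ⌊(χ (e 1)).re⌋₊ = ⌊(χ 1).re⌋₊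
  rw [map_one]

theorem pdegCount_congr (ℓ : ℕ) {H : Type u} {K : Type v} [Group H] [Group K] (e : H ≃* K) :
    pdegCount ℓ H = pdegCount ℓ K := by
  unfold pdegCount
  refine Nat.card_congr
    ⟨fun χ => ⟨⟨fun x => (χ.1 : H → ℂ) (e.symm x),
        (Cfsg.Agent.Helper79.isIrrCharacter_mulEquiv e.symm).mpr χ.1.2⟩, ?_⟩,
      fun χ => ⟨⟨fun x => (χ.1 : K → ℂ) (e x),
        (Cfsg.Agent.Helper79.isIrrCharacter_mulEquiv e).mpr χ.1.2⟩, ?_⟩, ?_, ?_⟩
  · show ¬ ℓ ∣ Cfsg.charDegree (fun x => (χ.1 : H → ℂ) (e.symm x))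
    rw [charDegree_comp_mulEquiv]
    exact χ.2
  · show ¬ ℓ ∣ Cfsg.charDegree (fun x => (χ.1 : K → ℂ) (e x))
    rw [charDegree_comp_mulEquiv]
    exact χ.2
  · intro χ
    apply Subtype.ext
    apply Subtype.ext
    funext x
    show (χ.1 : H → ℂ) (e.symm (e x)) = _
    rw [e.symm_apply_apply]
  · intro χ
    apply Subtype.ext
    apply Subtype.ext
    funext x
    show (χ.1 : K → ℂ) (e (e.symm x)) = _
    rw [e.apply_symm_apply]

theorem pdegCount_eq_card_conjClasses (ℓ : ℕ) {H : Type u} [Group H] [Finite H]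
    (h : ∀ χ : Cfsg.IrrCharacter H, ¬ ℓ ∣ Cfsg.charDegree (χ : H → ℂ)) :
    pdegCount ℓ H = Nat.card (ConjClasses H) := by
  unfold pdegCount
  rw [← Cfsg.Agent.Helper80.natCard_irr_eq_card_conjClasses]
  exact Nat.card_congr (Equiv.subtypeUnivEquiv h)

/-- Itô: if `U` is an abelian normal subgroup of index prime to `ℓ`, all irreducible characters
have degree prime to `ℓ`. -/
theorem pdegCount_of_abelian_normal (ℓ : ℕ) {H : Type u} [Group H] [Finite H] (U : Subgroup H)
    [U.Normal] (hU : ∀ a ∈ U, ∀ b ∈ U, a * b = b * a) (hℓ : ¬ ℓ ∣ U.index) :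
    pdegCount ℓ H = Nat.card (ConjClasses H) := by
  apply pdegCount_eq_card_conjClasses
  intro χ hd
  exact hℓ (hd.trans (Cfsg.Agent.Helper75.ito_character χ.2 U hU))

/-- Splitting the count by the degrees. -/
theorem pdegCount_eq_sum (ℓ : ℕ) {H : Type u} [Group H] [Finite H] (D : Finset ℕ)
    (hD : ∀ χ : Cfsg.IrrCharacter H, Cfsg.charDegree (χ : H → ℂ) ∈ D) :
    pdegCount ℓ H = ∑ d ∈ D, if ℓ ∣ d then 0 else
      Nat.card {χ : Cfsg.IrrCharacter H // Cfsg.charDegree (χ : H → ℂ) = d} := by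
  classical
  unfold pdegCount
  have := Fintype.ofFinite (Cfsg.IrrCharacter H)
  rw [Nat.card_eq_fintype_card, Fintype.card_subtype,
    Finset.card_eq_sum_card_fiberwise (f := fun χ : Cfsg.IrrCharacter H =>
      Cfsg.charDegree (χ : H → ℂ)) (t := D) (fun a _ => hD a)]
  apply Finset.sum_congr rfl
  intro d _
  split_ifs with hd
  · rw [Finset.card_eq_zero, Finset.filter_eq_empty_iff]
    intro χ hχ hχd
    rw [Finset.mem_filter] at hχ
    exact hχ.2 (hχd ▸ hd)
  · rw [Nat.card_eq_fintype_card, Fintype.card_subtype]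
    congr 1
    ext χ
    simp only [Finset.mem_filter, Finset.mem_univ, true_and]
    constructor
    · exact fun h => h.2
    · exact fun h => ⟨h ▸ hd, h⟩

/-- A finite subgroup is normalized by an element conjugating it into itself. -/
theorem mem_normalizer_of_conj_mem {G : Type u} [Group G] (H : Subgroup G) [Finite H] {g : G}
    (h : ∀ x ∈ H, g * x * g⁻¹ ∈ H) : g ∈ Subgroup.normalizer (H : Set G) := by
  rw [Subgroup.mem_normalizer_iff_map_conj_eq]
  have hle : H.map (MulAut.conj g).toMonoidHom ≤ H := by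
    rintro _ ⟨x, hx, rfl⟩
    exact h x hx
  apply Subgroup.eq_of_le_of_card_ge hle
  rw [Subgroup.card_map_of_injective (MulAut.conj g).injective]

end Cfsg.Agent.Helper39
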