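import Mathlib
import Cfsg.Agent.Helper39.McKayGen

/-!
# Groups with an abelian subgroup of index two inverted by the outside elements (helper39)
-/

set_option autoImplicit false

namespace Cfsg.Agent.Helper39

universe u

section Dic

variable {N : Type u} [Group N] [Finite N] (A : Subgroup N) (z : N)

/-- The number of conjugacy classes of a "dicyclic type" group. -/
theorem dic_card_conjClasses
    (hcomm : ∀ a ∈ A, ∀ b ∈ A, a * b = b * a)
    (hinv : ∀ x, x ∉ A → ∀ a ∈ A, x * a * x⁻¹ = a⁻¹)
    (hidx : A.index = 2) (hz : z ∈ A) (hz1 : z ≠ 1) (hzz : z * z = 1)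
    (hsq : ∀ a ∈ A, a * a = 1 → a = 1 ∨ a = z) :
    2 * Nat.card (ConjClasses N) = Nat.card A + 6 := by
  classical
  have : Fintype N := Fintype.ofFinite N
  set n := Nat.card A with hn
  have hN : Nat.card N = 2 * n := by rw [← A.card_mul_index, hidx, mul_comm]
  have hnpos : 0 < n := Nat.card_pos
  have hzinv : z⁻¹ = z := inv_eq_of_mul_eq_one_left hzz
  have hcardA : (Finset.univ.filter (fun y : N => y ∈ A)).card = n := by
    rw [hn, Nat.card_eq_fintype_card, Fintype.card_subtype]
  -- an element of `A` commuting with an outside element has square one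
  have hfix : ∀ x, x ∉ A → ∀ a ∈ A, x * a = a * x → a = 1 ∨ a = z := by
    intro x hx a ha hxa
    have h1 := hinv x hx a ha
    have h2 : x * a * x⁻¹ = a := by rw [hxa, mul_inv_cancel_right]
    rw [h2] at h1
    exact hsq a ha (mul_eq_one_iff_eq_inv.mpr h1)
  have hout : ∀ x : N, x ∉ A → (Finset.univ.filter (fun y => x * y = y * x)).card = 4 := by
    intro x hx
    have hxz : x * z = z * x := by
      have h1 := hinv x hx z hz
      rw [hzinv, mul_inv_eq_iff_eq_mul] at h1
      exact h1
    have hset : Finset.univ.filter (fun y => x * y = y * x) = {1, z, x, x * z} := by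
      ext y
      simp only [Finset.mem_filter, Finset.mem_univ, true_and, Finset.mem_insert,
        Finset.mem_singleton]
      constructor
      · intro hy
        by_cases hyA : y ∈ A
        · rcases hfix x hx y hyA hy with h | h
          · left; exact h
          · right; left; exact h
        · have haA : x⁻¹ * y ∈ A := by
            rw [Subgroup.mul_mem_iff_of_index_two hidx, inv_mem_iff]
            exact ⟨fun h => absurd h hx, fun h => absurd h hyA⟩
          have hcomm' : x * (x⁻¹ * y) = (x⁻¹ * y) * x := by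
            rw [mul_inv_cancel_left, mul_assoc, ← hy, inv_mul_cancel_left]
          rcases hfix x hx _ haA hcomm' with h | h
          · right; right; left
            rw [inv_mul_eq_one] at h
            exact h.symm
          · right; right; right
            rw [← h, mul_inv_cancel_left]
      · rintro (rfl | rfl | rfl | rfl)
        · rw [mul_one, one_mul]
        · exact hxz
        · rfl
        · rw [mul_assoc, ← hxz]
    rw [hset]
    have h1 : (1 : N) ≠ z := fun h => hz1 h.symm
    have h2 : (1 : N) ≠ x := fun h => hx (h ▸ A.one_mem)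
    have h3 : (1 : N) ≠ x * z := by
      intro h
      apply hx
      have : x = z⁻¹ := eq_inv_of_mul_eq_one_left h.symm
      rw [this]
      exact A.inv_mem hz
    have h4 : z ≠ x := fun h => hx (h ▸ hz)
    have h5 : z ≠ x * z := by
      intro h
      apply hx
      have : x = 1 := by
        have h' : 1 * z = x * z := by rw [one_mul]; exact h
        exact (mul_right_cancel h').symm
      rw [this]
      exact A.one_mem
    have h6 : x ≠ x * z := by
      intro h
      apply hz1
      have h' : x * 1 = x * z := by rw [mul_one]; exact h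
      exact (mul_left_cancel h').symm
    rw [Finset.card_insert_of_notMem, Finset.card_insert_of_notMem, Finset.card_insert_of_notMem,
      Finset.card_singleton]
    · simp only [Finset.mem_singleton]; exact h6
    · simp only [Finset.mem_insert, Finset.mem_singleton]
      rintro (h | h)
      · exact h4 h
      · exact h5 h
    · simp only [Finset.mem_insert, Finset.mem_singleton]
      rintro (h | h | h)
      · exact h1 h
      · exact h2 h
      · exact h3 h
  have hin : ∀ x : N, x ∈ A → (Finset.univ.filter (fun y => x * y = y * x)).card =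
      if x * x = 1 then 2 * n else n := by
    intro x hx
    split_ifs with hxx
    · have hset : Finset.univ.filter (fun y => x * y = y * x) = Finset.univ := by
        ext y
        simp only [Finset.mem_filter, Finset.mem_univ, true_and, iff_true]
        by_cases hy : y ∈ A
        · exact hcomm x hx y hy
        · have h1 := hinv y hy x hx
          have h2 : x⁻¹ = x := inv_eq_of_mul_eq_one_left hxx
          rw [h2, mul_inv_eq_iff_eq_mul] at h1
          exact h1.symm
      rw [hset, Finset.card_univ, ← Nat.card_eq_fintype_card, hN]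
    · have hset : Finset.univ.filter (fun y => x * y = y * x) =
          Finset.univ.filter (fun y : N => y ∈ A) := by
        ext y
        simp only [Finset.mem_filter, Finset.mem_univ, true_and]
        constructor
        · intro hy
          by_contra hyA
          rcases hfix y hyA x hx hy.symm with h | h
          · apply hxx; rw [h, mul_one]
          · apply hxx; rw [h, hzz]
        · intro hy
          exact hcomm x hx y hy
      rw [hset, hcardA]
  have hcardsq : ((Finset.univ.filter (fun y : N => y ∈ A)).filter (fun x => x * x = 1)).card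
      = 2 := by
    have hset : (Finset.univ.filter (fun y : N => y ∈ A)).filter (fun x => x * x = 1) = {1, z} := by
      ext y
      simp only [Finset.mem_filter, Finset.mem_univ, true_and, Finset.mem_insert,
        Finset.mem_singleton]
      constructor
      · rintro ⟨hy, hyy⟩
        exact hsq y hy hyy
      · rintro (rfl | rfl)
        · exact ⟨A.one_mem, mul_one 1⟩
        · exact ⟨hz, hzz⟩
    rw [hset, Finset.card_insert_of_notMem, Finset.card_singleton]
    simp only [Finset.mem_singleton]
    exact fun h => hz1 h.symm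
  have hsum : ∑ x : N, (Finset.univ.filter (fun y => x * y = y * x)).card = n * n + 6 * n := by
    have h1 : ∀ x : N, (Finset.univ.filter (fun y => x * y = y * x)).card =
        if x ∈ A then (if x * x = 1 then 2 * n else n) else 4 := by
      intro x
      split_ifs with hx hxx
      · rw [hin x hx, if_pos hxx]
      · rw [hin x hx, if_neg hxx]
      · exact hout x hx
    rw [Finset.sum_congr rfl (fun x _ => h1 x), Finset.sum_ite, Finset.sum_ite,
      Finset.sum_const, Finset.sum_const, Finset.sum_const, hcardsq]
    have h2 := Finset.card_filter_add_card_filter_not (s := Finset.univ.filter (fun y : N => y ∈ A))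
      (fun x => x * x = 1)
    have h3 := Finset.card_filter_add_card_filter_not (s := (Finset.univ : Finset N))
      (fun y : N => y ∈ A)
    rw [hcardsq, hcardA] at h2
    rw [hcardA, Finset.card_univ, ← Nat.card_eq_fintype_card, hN] at h3
    have h4 : (Finset.univ.filter (fun y : N => ¬ y ∈ A)).card = n := by omega
    rw [h4]
    simp only [smul_eq_mul]
    have h5 : ((Finset.univ.filter (fun y : N => y ∈ A)).filter (fun x => ¬ x * x = 1)).card
        = n - 2 := by omega
    rw [h5]
    have h6 : 2 ≤ n := by omega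
    obtain ⟨m, hm⟩ : ∃ m, n = m + 2 := ⟨n - 2, by omega⟩
    rw [hm]
    simp only [Nat.add_sub_cancel]
    ring
  have hpairs : Nat.card {p : N × N // Commute p.1 p.2} = n * n + 6 * n := by
    rw [Nat.card_congr (Equiv.subtypeProdEquivSigmaSubtype (fun x y : N => Commute x y)),
      Nat.card_sigma, ← hsum]
    apply Finset.sum_congr rfl
    intro x _
    rw [Nat.card_eq_fintype_card, ← Fintype.card_subtype]
    rfl
  have hk := card_comm_eq_card_conjClasses_mul_card N
  rw [hpairs, hN] at hk
  have : (2 * Nat.card (ConjClasses N)) * n = (n + 6) * n := by linarith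
  exact Nat.eq_of_mul_eq_mul_right hnpos this

theorem dic_degree (hcomm : ∀ a ∈ A, ∀ b ∈ A, a * b = b * a) (hidx : A.index = 2)
    (χ : Cfsg.IrrCharacter N) :
    Cfsg.charDegree (χ : N → ℂ) = 1 ∨ Cfsg.charDegree (χ : N → ℂ) = 2 := by
  have h1 := Cfsg.Agent.Helper79.irr_card_abelian_mul_degree_le χ A hcomm
  have h2 := A.card_mul_index
  rw [hidx] at h2
  have h3 := Cfsg.Agent.Helper81.charDegree_pos χ
  have h4 : 0 < Nat.card A := Nat.card_pos
  have h5 : Cfsg.charDegree (χ : N → ℂ) ≤ 2 := by
    rw [← h2] at h1
    exact Nat.le_of_mul_le_mul_left h1 h4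
  omega

/-- For an odd prime all characters of a dicyclic type group count. -/
theorem dic_pdegCount_odd {ℓ : ℕ} (hℓ : 3 ≤ ℓ)
    (hcomm : ∀ a ∈ A, ∀ b ∈ A, a * b = b * a)
    (hinv : ∀ x, x ∉ A → ∀ a ∈ A, x * a * x⁻¹ = a⁻¹)
    (hidx : A.index = 2) (hz : z ∈ A) (hz1 : z ≠ 1) (hzz : z * z = 1)
    (hsq : ∀ a ∈ A, a * a = 1 → a = 1 ∨ a = z) :
    2 * pdegCount ℓ N = Nat.card A + 6 := by
  rw [pdegCount_eq_card_conjClasses, dic_card_conjClasses A z hcomm hinv hidx hz hz1 hzz hsq]
  intro χ hd
  have h1 := Nat.le_of_dvd (Cfsg.Agent.Helper81.charDegree_pos χ) hd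
  rcases dic_degree A hcomm hidx χ with h | h <;> omega

/-- A dicyclic type group has exactly four irreducible characters of odd degree. -/
theorem dic_pdegCount_two
    (hcomm : ∀ a ∈ A, ∀ b ∈ A, a * b = b * a)
    (hinv : ∀ x, x ∉ A → ∀ a ∈ A, x * a * x⁻¹ = a⁻¹)
    (hidx : A.index = 2) (hz : z ∈ A) (hz1 : z ≠ 1) (hzz : z * z = 1)
    (hsq : ∀ a ∈ A, a * a = 1 → a = 1 ∨ a = z) :
    pdegCount 2 N = 4 := by
  classical
  have : Fintype N := Fintype.ofFinite N
  have : Fintype (Cfsg.IrrCharacter N) := Fintype.ofFinite _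
  have hk := dic_card_conjClasses A z hcomm hinv hidx hz hz1 hzz hsq
  rw [← Cfsg.Agent.Helper80.natCard_irr_eq_card_conjClasses, Nat.card_eq_fintype_card,
    ← Finset.card_univ] at hk
  have hsq' := Cfsg.Agent.Helper80.irr_sum_charDegree_sq (G := N)
  have hN : Fintype.card N = 2 * Nat.card A := by
    rw [← Nat.card_eq_fintype_card, ← A.card_mul_index, hidx, mul_comm]
  have h1 : ∀ χ : Cfsg.IrrCharacter N, Cfsg.charDegree (χ : N → ℂ) ^ 2 =
      if Cfsg.charDegree (χ : N → ℂ) = 1 then 1 else 4 := by
    intro χ
    rcases dic_degree A hcomm hidx χ with h | h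
    · rw [h, if_pos rfl]; rfl
    · rw [h, if_neg (by norm_num)]; rfl
  rw [Finset.sum_congr rfl (fun χ _ => h1 χ), Finset.sum_ite, Finset.sum_const, Finset.sum_const,
    hN] at hsq'
  simp only [smul_eq_mul, mul_one] at hsq'
  have h2 := Finset.card_filter_add_card_filter_not (s := (Finset.univ : Finset (Cfsg.IrrCharacter N)))
    (fun χ => Cfsg.charDegree (χ : N → ℂ) = 1)
  unfold pdegCount
  rw [Nat.card_eq_fintype_card, Fintype.card_subtype]
  have h3 : Finset.univ.filter (fun χ : Cfsg.IrrCharacter N => ¬ 2 ∣ Cfsg.charDegree (χ : N → ℂ))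
      = Finset.univ.filter (fun χ : Cfsg.IrrCharacter N => Cfsg.charDegree (χ : N → ℂ) = 1) := by
    ext χ
    simp only [Finset.mem_filter, Finset.mem_univ, true_and]
    rcases dic_degree A hcomm hidx χ with h | h
    · rw [h]; simp
    · rw [h]; simp
  rw [h3]
  omega

end Dic

section TwentyFour

variable {N : Type u} [Group N] [Finite N]

/-- The number of linear characters is the index of the commutator subgroup. -/
theorem natCard_linear :
    Nat.card {χ : Cfsg.IrrCharacter N // Cfsg.charDegree (χ : N → ℂ) = 1} = (commutator N).index := by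
  rw [← Cfsg.Agent.Helper80.card_hom]
  symm
  apply Nat.card_congr
  refine Equiv.ofBijective (fun f => ⟨Cfsg.Agent.Helper80.homIrr f,
    Cfsg.Agent.Helper80.charDegree_homIrr f⟩) ⟨?_, ?_⟩
  · intro f f' h
    exact Cfsg.Agent.Helper80.homIrr_injective (congrArg Subtype.val h)
  · rintro ⟨χ, hχ⟩
    obtain ⟨f, hf⟩ := Cfsg.Agent.Helper80.exists_hom_of_linear χ hχ
    exact ⟨f, Subtype.ext hf⟩

/-- A group of order `24` with at most three linear characters has exactly four irreducible
characters of odd degree. -/
theorem pdegCount_two_of_card_24 (h24 : Nat.card N = 24) (hlin : (commutator N).index ≤ 3) :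
    pdegCount 2 N = 4 := by
  classical
  have : Fintype N := Fintype.ofFinite N
  have : Fintype (Cfsg.IrrCharacter N) := Fintype.ofFinite _
  have hsq := Cfsg.Agent.Helper80.irr_sum_charDegree_sq (G := N)
  rw [← Nat.card_eq_fintype_card, h24] at hsq
  have hlin' := natCard_linear (N := N)
  rw [Nat.card_eq_fintype_card, Fintype.card_subtype] at hlin'
  unfold pdegCount
  rw [Nat.card_eq_fintype_card, Fintype.card_subtype]
  set O := Finset.univ.filter (fun χ : Cfsg.IrrCharacter N => ¬ 2 ∣ Cfsg.charDegree (χ : N → ℂ))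
    with hO
  set O1 := Finset.univ.filter (fun χ : Cfsg.IrrCharacter N => Cfsg.charDegree (χ : N → ℂ) = 1)
    with hO1
  set O3 := O.filter (fun χ : Cfsg.IrrCharacter N => ¬ Cfsg.charDegree (χ : N → ℂ) = 1) with hO3
  have hO1' : O.filter (fun χ : Cfsg.IrrCharacter N => Cfsg.charDegree (χ : N → ℂ) = 1) = O1 := by
    ext χ
    simp only [hO, hO1, Finset.mem_filter, Finset.mem_univ, true_and]
    constructor
    · exact fun h => h.2
    · intro h
      exact ⟨by rw [h]; norm_num, h⟩
  have hsplit := Finset.card_filter_add_card_filter_not (s := O)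
    (fun χ : Cfsg.IrrCharacter N => Cfsg.charDegree (χ : N → ℂ) = 1)
  rw [hO1'] at hsplit
  -- the trivial character
  have htriv : 1 ≤ O1.card := by
    apply Finset.card_pos.mpr
    exact ⟨Cfsg.Agent.Helper80.homIrr 1, by
      simp only [hO1, Finset.mem_filter, Finset.mem_univ, true_and]
      exact Cfsg.Agent.Helper80.charDegree_homIrr 1⟩
  -- splitting the sum of squares
  have hsum := Finset.sum_filter_add_sum_filter_not (Finset.univ : Finset (Cfsg.IrrCharacter N))
    (fun χ : Cfsg.IrrCharacter N => ¬ 2 ∣ Cfsg.charDegree (χ : N → ℂ))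
    (fun χ => Cfsg.charDegree (χ : N → ℂ) ^ 2)
  rw [hsq] at hsum
  -- even part divisible by four
  have heven : 4 ∣ ∑ χ ∈ Finset.univ.filter
      (fun χ : Cfsg.IrrCharacter N => ¬ ¬ 2 ∣ Cfsg.charDegree (χ : N → ℂ)),
      Cfsg.charDegree (χ : N → ℂ) ^ 2 := by
    apply Finset.dvd_sum
    intro χ hχ
    simp only [Finset.mem_filter, Finset.mem_univ, true_and, not_not] at hχ
    obtain ⟨m, hm⟩ := hχ
    rw [hm]
    exact ⟨m ^ 2, by ring⟩
  -- odd part congruent to the number of odd characters
  have hodd : ∃ m, ∑ χ ∈ O, Cfsg.charDegree (χ : N → ℂ) ^ 2 = O.card + 4 * m := by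
    have : ∀ χ ∈ O, ∃ r, Cfsg.charDegree (χ : N → ℂ) ^ 2 = 1 + 4 * r := by
      intro χ hχ
      simp only [hO, Finset.mem_filter, Finset.mem_univ, true_and] at hχ
      have hodd : Cfsg.charDegree (χ : N → ℂ) % 2 = 1 := by omega
      obtain ⟨m, hm⟩ : ∃ m, Cfsg.charDegree (χ : N → ℂ) = 2 * m + 1 :=
        ⟨Cfsg.charDegree (χ : N → ℂ) / 2, by omega⟩
      rw [hm]
      exact ⟨m ^ 2 + m, by ring⟩
    choose! r hr using this
    refine ⟨∑ χ ∈ O, r χ, ?_⟩
    rw [Finset.sum_congr rfl hr, Finset.sum_add_distrib, Finset.sum_const, Finset.mul_sum]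
    simp
  -- the characters of odd degree at least three
  have hO3le : 9 * O3.card ≤ ∑ χ ∈ O, Cfsg.charDegree (χ : N → ℂ) ^ 2 := by
    have h1 : ∑ χ ∈ O3, Cfsg.charDegree (χ : N → ℂ) ^ 2 ≤
        ∑ χ ∈ O, Cfsg.charDegree (χ : N → ℂ) ^ 2 :=
      Finset.sum_le_sum_of_subset (Finset.filter_subset _ _)
    have h2 : ∑ χ ∈ O3, 9 ≤ ∑ χ ∈ O3, Cfsg.charDegree (χ : N → ℂ) ^ 2 := by
      apply Finset.sum_le_sum
      intro χ hχ
      simp only [hO3, hO, Finset.mem_filter, Finset.mem_univ, true_and] at hχ
      have hpos := Cfsg.Agent.Helper81.charDegree_pos χ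
      have h3 : 3 ≤ Cfsg.charDegree (χ : N → ℂ) := by omega
      nlinarith
    rw [Finset.sum_const, smul_eq_mul, mul_comm] at h2
    exact h2.trans h1
  obtain ⟨m, hm⟩ := hodd
  obtain ⟨m', hm'⟩ := heven
  rw [hm, hm'] at hsum
  rw [hm] at hO3le
  rw [hlin'] at hsplit
  have hsplit' : (commutator N).index + O3.card = O.card := hsplit
  omega

end TwentyFour

end Cfsg.Agent.Helper39
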