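import Mathlib
import Cfsg.Agent.Helper39.McKayDic

/-!
# Normalizers of Sylow subgroups inside a torus (helper39)

Abstract setting: a finite group `G` whose only involution `z` is central, with an abelian
subgroup `T` ("torus") which is the centralizer of each of its non-central elements, inverted by
an element `w`, and controlling fusion of its elements up to inversion.
-/

set_option autoImplicit false

namespace Cfsg.Agent.Helper39

universe u

/-- The abstract torus setting. -/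
structure TorusLike {G : Type u} [Group G] (z : G) (T : Subgroup G) (w : G) : Prop where
  z_ne : z ≠ 1
  z_sq : z * z = 1
  z_comm : ∀ g : G, g * z = z * g
  sq_one : ∀ x : G, x * x = 1 → x = 1 ∨ x = z
  comm : ∀ s ∈ T, ∀ t ∈ T, s * t = t * s
  cent : ∀ t ∈ T, t ≠ 1 → t ≠ z → ∀ g, g * t = t * g → g ∈ T
  inv : ∀ t ∈ T, w * t * w⁻¹ = t⁻¹
  fus : ∀ t ∈ T, ∀ g, g * t * g⁻¹ ∈ T → g * t * g⁻¹ = t ∨ g * t * g⁻¹ = t⁻¹
  z_mem : z ∈ T

namespace TorusLike

variable {G : Type u} [Group G] {z : G} {T : Subgroup G} {w : G}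

theorem inv' (h : TorusLike z T w) {t : G} (ht : t ∈ T) : w * t = t⁻¹ * w := by
  have := h.inv t ht
  rwa [mul_inv_eq_iff_eq_mul] at this

theorem z_inv (h : TorusLike z T w) : z⁻¹ = z := inv_eq_of_mul_eq_one_left h.z_sq

section NonCentral

variable (h : TorusLike z T w) {s : G} (hs : s ∈ T) (hs1 : s ≠ 1) (hsz : s ≠ z)
include h hs hs1 hsz

theorem w_not_mem : w ∉ T := by
  intro hw
  have h1 := h.inv s hs
  rw [h.comm w hw s hs, mul_inv_cancel_right] at h1
  rcases h.sq_one s (mul_eq_one_iff_eq_inv.mpr h1) with h2 | h2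
  · exact hs1 h2
  · exact hsz h2

theorem w_sq_mem : w * w ∈ T := by
  apply h.cent s hs hs1 hsz
  have h1 := h.inv' hs
  have h2 : w * s⁻¹ = s * w := by
    have := h.inv' (T.inv_mem hs)
    rwa [inv_inv] at this
  calc w * w * s = w * (w * s) := mul_assoc _ _ _
    _ = w * (s⁻¹ * w) := by rw [h1]
    _ = (w * s⁻¹) * w := (mul_assoc _ _ _).symm
    _ = s * w * w := by rw [h2]
    _ = s * (w * w) := mul_assoc _ _ _

theorem w_four : (w * w) * (w * w) = 1 := by
  have hww := h.w_sq_mem hs hs1 hsz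
  have h1 := h.inv' hww
  have h2 : w * (w * w) = (w * w) * w := (mul_assoc _ _ _).symm
  rw [h2] at h1
  have h3 := mul_right_cancel h1
  exact mul_eq_one_iff_eq_inv.mpr h3

theorem mem_or_of_conj {g : G} (hg : g * s * g⁻¹ ∈ T) : g ∈ T ∨ w⁻¹ * g ∈ T := by
  rcases h.fus s hs g hg with h1 | h1
  · left
    apply h.cent s hs hs1 hsz
    rwa [mul_inv_eq_iff_eq_mul] at h1
  · right
    apply h.cent s hs hs1 hsz
    have h2 : g * s = s⁻¹ * g := by rwa [mul_inv_eq_iff_eq_mul] at h1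
    have h3 : w⁻¹ * s⁻¹ = s * w⁻¹ := by
      have := h.inv' hs
      calc w⁻¹ * s⁻¹ = w⁻¹ * (s⁻¹ * w) * w⁻¹ := by group
        _ = w⁻¹ * (w * s) * w⁻¹ := by rw [this]
        _ = s * w⁻¹ := by group
    calc w⁻¹ * g * s = w⁻¹ * (g * s) := mul_assoc _ _ _
      _ = w⁻¹ * (s⁻¹ * g) := by rw [h2]
      _ = (w⁻¹ * s⁻¹) * g := (mul_assoc _ _ _).symm
      _ = s * w⁻¹ * g := by rw [h3]
      _ = s * (w⁻¹ * g) := mul_assoc _ _ _

theorem coset_sq {x : G} (hx : w⁻¹ * x ∈ T) : x * x = w * w := by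
  have hww := h.w_sq_mem hs hs1 hsz
  obtain ⟨t, ht, rfl⟩ : ∃ t ∈ T, x = w * t := ⟨w⁻¹ * x, hx, by group⟩
  calc w * t * (w * t) = (w * t * w⁻¹) * (w * w) * t := by group
    _ = t⁻¹ * (w * w) * t := by rw [h.inv t ht]
    _ = (w * w) * t⁻¹ * t := by rw [h.comm t⁻¹ (T.inv_mem ht) (w * w) hww]
    _ = w * w := by group

theorem coset_mul_w {x : G} (hx : w⁻¹ * x ∈ T) : x * w ∈ T := by
  have hww := h.w_sq_mem hs hs1 hsz
  obtain ⟨t, ht, rfl⟩ : ∃ t ∈ T, x = w * t := ⟨w⁻¹ * x, hx, by group⟩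
  have : w * t * w = (w * t * w⁻¹) * (w * w) := by group
  rw [this, h.inv t ht]
  exact T.mul_mem (T.inv_mem ht) hww

theorem coset_not_mem {x : G} (hx : w⁻¹ * x ∈ T) : x ∉ T := by
  intro hxT
  apply h.w_not_mem hs hs1 hsz
  have : w = x * (w⁻¹ * x)⁻¹ := by group
  rw [this]
  exact T.mul_mem hxT (T.inv_mem hx)

theorem coset_four {x : G} (hx : w⁻¹ * x ∈ T) : (x * x) * (x * x) = 1 := by
  rw [h.coset_sq hs hs1 hsz hx]
  exact h.w_four hs hs1 hsz

end NonCentral

theorem coset_inv (h : TorusLike z T w) {x : G} (hx : w⁻¹ * x ∈ T) {a : G} (ha : a ∈ T) :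
    x * a * x⁻¹ = a⁻¹ := by
  obtain ⟨t, ht, rfl⟩ : ∃ t ∈ T, x = w * t := ⟨w⁻¹ * x, hx, by group⟩
  calc w * t * a * (w * t)⁻¹ = w * (t * a * t⁻¹) * w⁻¹ := by group
    _ = w * a * w⁻¹ := by rw [h.comm t ht a ha, mul_inv_cancel_right]
    _ = a⁻¹ := h.inv a ha

theorem coset_inv_mul (_h : TorusLike z T w) {x y : G} (hx : w⁻¹ * x ∈ T) (hy : w⁻¹ * y ∈ T) :
    x⁻¹ * y ∈ T := by
  have : x⁻¹ * y = (w⁻¹ * x)⁻¹ * (w⁻¹ * y) := by group
  rw [this]
  exact T.mul_mem (T.inv_mem hx) hy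

/-- The McKay count for the normalizer of a Sylow `ℓ`-subgroup inside the torus, `ℓ` odd. -/
theorem pdegCount_odd [Finite G] (h : TorusLike z T w) {ℓ : ℕ} [Fact ℓ.Prime] (hℓ : ℓ ≠ 2)
    (S : Sylow ℓ G) (hST : (S : Subgroup G) ≤ T) (hS : (S : Subgroup G) ≠ ⊥) :
    2 * pdegCount ℓ ↥(Subgroup.normalizer ((S : Subgroup G) : Set G)) = Nat.card T + 6 := by
  classical
  have hℓ3 : 3 ≤ ℓ := by
    have := (Fact.out : ℓ.Prime).two_le
    omega
  obtain ⟨s, hsS, hs1⟩ : ∃ s ∈ (S : Subgroup G), s ≠ 1 := by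
    by_contra hcon
    push Not at hcon
    exact hS ((Subgroup.eq_bot_iff_forall _).mpr hcon)
  have hs := hST hsS
  have hsz : s ≠ z := by
    rintro rfl
    obtain ⟨k, hk⟩ := S.isPGroup' ⟨s, hsS⟩
    have hk' : s ^ ℓ ^ k = 1 := by
      have := congrArg Subtype.val hk
      simpa using this
    have hodd : Odd (ℓ ^ k) := ((Fact.out : ℓ.Prime).odd_of_ne_two hℓ).pow
    obtain ⟨m, hm⟩ := hodd
    rw [hm, pow_succ, pow_mul, pow_two, h.z_sq, one_pow, one_mul] at hk'
    exact hs1 hk'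
  set N := Subgroup.normalizer ((S : Subgroup G) : Set G) with hN
  have hTN : T ≤ N := by
    intro t ht
    apply mem_normalizer_of_conj_mem
    intro x hx
    have : t * x * t⁻¹ = x := by rw [h.comm t ht x (hST hx), mul_inv_cancel_right]
    rw [this]
    exact hx
  have hwN : w ∈ N := by
    apply mem_normalizer_of_conj_mem
    intro x hx
    rw [h.inv x (hST hx)]
    exact inv_mem hx
  have hNcases : ∀ g ∈ N, g ∈ T ∨ w⁻¹ * g ∈ T := by
    intro g hg
    have h1 : g * s * g⁻¹ ∈ (S : Subgroup G) := (Subgroup.mem_normalizer_iff.mp hg s).mp hsS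
    exact h.mem_or_of_conj hs hs1 hsz (hST h1)
  have hdic := dic_pdegCount_odd (N := ↥N) (T.subgroupOf N) ⟨z, hTN h.z_mem⟩ hℓ3
    (fun a ha b hb => Subtype.ext (h.comm _ ha _ hb))
    (fun x hx a ha => by
      have hx' : w⁻¹ * (x : G) ∈ T := by
        rcases hNcases x x.2 with h1 | h1
        · exact absurd h1 hx
        · exact h1
      exact Subtype.ext (h.coset_inv hx' ha))
    (by
      rw [Subgroup.index_eq_two_iff]
      refine ⟨⟨w, hwN⟩, fun b => ?_⟩
      by_cases hb : (b : G) ∈ T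
      · right
        refine ⟨hb, fun hbw => ?_⟩
        apply h.w_not_mem hs hs1 hsz
        have hbw' : (b : G) * w ∈ T := hbw
        have : w = (b : G)⁻¹ * ((b : G) * w) := by group
        rw [this]
        exact T.mul_mem (T.inv_mem hb) hbw'
      · left
        have hb' : w⁻¹ * (b : G) ∈ T := by
          rcases hNcases b b.2 with h1 | h1
          · exact absurd h1 hb
          · exact h1
        exact ⟨h.coset_mul_w hs hs1 hsz hb', hb⟩)
    h.z_mem (fun hz => h.z_ne (congrArg Subtype.val hz)) (Subtype.ext h.z_sq)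
    (fun a _ haa => by
      rcases h.sq_one (a : G) (congrArg Subtype.val haa) with h1 | h1
      · left; exact Subtype.ext h1
      · right; exact Subtype.ext h1)
  rw [hdic]
  congr 1
  exact Nat.card_congr (Subgroup.subgroupOfEquivOfLe hTN).toEquiv

end TorusLike

end Cfsg.Agent.Helper39
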