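import Mathlib
import Cfsg.Agent.Helper39.McKayTorus

/-!
# The normalizer of a Sylow `2`-subgroup in the abstract torus setting (helper39)
-/

set_option autoImplicit false

namespace Cfsg.Agent.Helper39

universe u

/-- A `p`-element normalizing a Sylow `p`-subgroup lies in it. -/
theorem sylow_mem_of_pow {G : Type u} [Group G] {p : ℕ} [Fact p.Prime] (P : Sylow p G) {g : G}
    (hg : g ∈ Subgroup.normalizer ((P : Subgroup G) : Set G)) {k : ℕ} (hk : g ^ p ^ k = 1) :
    g ∈ (P : Subgroup G) := by
  have hz : IsPGroup p (Subgroup.zpowers g) := by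
    rintro ⟨x, hx⟩
    obtain ⟨m, rfl⟩ := Subgroup.mem_zpowers_iff.mp hx
    refine ⟨k, Subtype.ext ?_⟩
    show (g ^ m) ^ p ^ k = 1
    rw [← zpow_natCast, ← zpow_mul, mul_comm, zpow_mul, zpow_natCast, hk, one_zpow]
  have h1 := hz.inf_normalizer_sylow P
  have h2 : g ∈ Subgroup.zpowers g ⊓ (P : Subgroup G) := by
    rw [← h1]
    exact ⟨Subgroup.mem_zpowers g, hg⟩
  exact h2.2

namespace TorusLike

variable {G : Type u} [Group G] [Finite G] {z : G} {T : Subgroup G} {w : G}

/-- The McKay count for the normalizer of a Sylow `2`-subgroup meeting the torus in a subgroup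
of index two. -/
theorem pdegCount_two (h : TorusLike z T w)
    (hq8 : ∀ i j : G, i * i = z → j * j = z → j * i * j⁻¹ = i⁻¹ →
      ∃ x : G, x * i * x⁻¹ = j ∧ x * j * x⁻¹ = i * j)
    (P : Sylow 2 G) (hidx : Nat.card (P : Subgroup G) = 2 * Nat.card ↥((P : Subgroup G) ⊓ T))
    (h4 : 4 ≤ Nat.card ↥((P : Subgroup G) ⊓ T)) :
    pdegCount 2 ↥(Subgroup.normalizer ((P : Subgroup G) : Set G)) = 4 := by
  classical
  have hApos : 0 < Nat.card ↥((P : Subgroup G) ⊓ T) := Nat.card_pos
  -- a non-central element of `A`
  obtain ⟨s, hsA, hs1, hsz⟩ : ∃ s ∈ (P : Subgroup G) ⊓ T, s ≠ 1 ∧ s ≠ z := by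
    by_contra hcon
    push Not at hcon
    have h2 := Nat.card_le_card_of_injective
      (fun a : ↥((P : Subgroup G) ⊓ T) => decide ((a : G) = 1)) (by
        intro a b hab
        simp only [decide_eq_decide] at hab
        apply Subtype.ext
        by_cases ha : (a : G) = 1
        · rw [ha, hab.mp ha]
        · have hb : (b : G) ≠ 1 := fun hb => ha (hab.mpr hb)
          rw [hcon a a.2 ha, hcon b b.2 hb])
    rw [Nat.card_eq_fintype_card (α := Bool), Fintype.card_bool] at h2
    omega
  have hsT : s ∈ T := hsA.2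
  have hsP : s ∈ (P : Subgroup G) := hsA.1
  -- `z ∈ A`
  have hzA : z ∈ (P : Subgroup G) ⊓ T := by
    have hPA : IsPGroup 2 ↥((P : Subgroup G) ⊓ T) := P.isPGroup'.to_le inf_le_left
    obtain ⟨n, hn⟩ := hPA.exists_card_eq
    have h2A : 2 ∣ Nat.card ↥((P : Subgroup G) ⊓ T) := by
      rw [hn]
      apply dvd_pow_self
      rintro rfl
      rw [hn] at h4
      norm_num at h4
    obtain ⟨x, hx⟩ := exists_prime_orderOf_dvd_card' 2 h2A
    have hx2 : (x : G) * (x : G) = 1 := by
      have := pow_orderOf_eq_one x
      rw [hx, pow_two] at this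
      exact congrArg Subtype.val this
    rcases h.sq_one _ hx2 with h1 | h1
    · exfalso
      have : x = 1 := Subtype.ext h1
      rw [this, orderOf_one] at hx
      norm_num at hx
    · rw [← h1]
      exact x.2
  have hzP : z ∈ (P : Subgroup G) := hzA.1
  -- index two
  have hidx2 : (T.subgroupOf (P : Subgroup G)).index = 2 := by
    have h1 := (T.subgroupOf (P : Subgroup G)).card_mul_index
    have h2 : Nat.card (T.subgroupOf (P : Subgroup G)) = Nat.card ↥((P : Subgroup G) ⊓ T) := by
      rw [← Subgroup.inf_subgroupOf_left]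
      exact Nat.card_congr (Subgroup.subgroupOfEquivOfLe inf_le_left).toEquiv
    rw [h2, hidx, mul_comm] at h1
    exact Nat.eq_of_mul_eq_mul_right hApos h1
  have hPcases : ∀ g ∈ (P : Subgroup G), g ∈ T ∨ w⁻¹ * g ∈ T := by
    intro g hg
    have hnorm := Subgroup.normal_of_index_eq_two hidx2
    have h1 := hnorm.conj_mem ⟨s, hsP⟩ hsT ⟨g, hg⟩
    exact h.mem_or_of_conj hsT hs1 hsz h1
  -- the Sylow subgroup itself
  have hP4 : pdegCount 2 ↥(P : Subgroup G) = 4 := by
    refine dic_pdegCount_two (N := ↥(P : Subgroup G)) (T.subgroupOf (P : Subgroup G)) ⟨z, hzP⟩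
      (fun a ha b hb => Subtype.ext (h.comm _ ha _ hb))
      (fun x hx a ha => ?_) hidx2 hzA.2 (fun hz => h.z_ne (congrArg Subtype.val hz))
      (Subtype.ext h.z_sq) (fun a _ haa => ?_)
    · have hx' : w⁻¹ * (x : G) ∈ T := by
        rcases hPcases x x.2 with h1 | h1
        · exact absurd h1 hx
        · exact h1
      exact Subtype.ext (h.coset_inv hx' ha)
    · rcases h.sq_one (a : G) (congrArg Subtype.val haa) with h1 | h1
      · left; exact Subtype.ext h1
      · right; exact Subtype.ext h1
  -- an element outside the torus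
  obtain ⟨j, hjP, hjT⟩ : ∃ j ∈ (P : Subgroup G), j ∉ T := by
    by_contra hcon
    push Not at hcon
    have h1 : (P : Subgroup G) ⊓ T = P := inf_eq_left.mpr hcon
    have h2 : Nat.card ↥((P : Subgroup G) ⊓ T) = Nat.card (P : Subgroup G) := by rw [h1]
    omega
  have hjw : w⁻¹ * j ∈ T := by
    rcases hPcases j hjP with h1 | h1
    · exact absurd h1 hjT
    · exact h1
  set N := Subgroup.normalizer ((P : Subgroup G) : Set G) with hN
  have hPN : (P : Subgroup G) ≤ N := Subgroup.le_normalizer
  -- elements of the normalizer in the torus or its coset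
  have hNT : ∀ g ∈ N, g ∈ T → g ∈ (P : Subgroup G) := by
    intro g hg hgT
    have h1 : g * j * g⁻¹ ∈ (P : Subgroup G) := (Subgroup.mem_normalizer_iff.mp hg j).mp hjP
    have h2 : j * g⁻¹ * j⁻¹ = g := by
      have := h.coset_inv hjw (T.inv_mem hgT)
      rwa [inv_inv] at this
    have h3 : g * g ∈ (P : Subgroup G) := by
      have : g * g = (g * j * g⁻¹) * j⁻¹ := by
        calc g * g = g * (j * g⁻¹ * j⁻¹) := by rw [h2]
          _ = (g * j * g⁻¹) * j⁻¹ := by group
      rw [this]
      exact (P : Subgroup G).mul_mem h1 ((P : Subgroup G).inv_mem hjP)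
    obtain ⟨k, hk⟩ := P.isPGroup' ⟨g * g, h3⟩
    have hk' : (g * g) ^ 2 ^ k = 1 := by
      have := congrArg Subtype.val hk
      simpa using this
    apply sylow_mem_of_pow P hg (k := k + 1)
    rw [pow_succ, mul_comm, pow_mul, pow_two]
    exact hk'
  have hNw : ∀ g ∈ N, w⁻¹ * g ∈ T → g ∈ (P : Subgroup G) := by
    intro g hg hgw
    apply sylow_mem_of_pow P hg (k := 2)
    have := h.coset_four hsT hs1 hsz hgw
    calc g ^ 2 ^ 2 = g ^ (2 * 2) := by norm_num
      _ = (g * g) * (g * g) := by rw [pow_mul, pow_two, pow_two]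
      _ = 1 := this
  by_cases hbig : ∃ a ∈ (P : Subgroup G) ⊓ T, (a * a) * (a * a) ≠ 1
  · -- the normalizer is `P`
    obtain ⟨a, haA, ha4⟩ := hbig
    have ha1 : a ≠ 1 := by
      rintro rfl
      apply ha4
      group
    have haz : a ≠ z := by
      rintro rfl
      apply ha4
      rw [h.z_sq, one_mul]
    have hNP : N = (P : Subgroup G) := by
      apply le_antisymm _ hPN
      intro g hg
      have h1 : g * a * g⁻¹ ∈ (P : Subgroup G) := (Subgroup.mem_normalizer_iff.mp hg a).mp haA.1
      have h2 : g * a * g⁻¹ ∈ T := by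
        rcases hPcases _ h1 with h3 | h3
        · exact h3
        · exfalso
          have h5 := h.coset_four hsT hs1 hsz h3
          apply ha4
          have h6 : (a * a) * (a * a) =
              g⁻¹ * (((g * a * g⁻¹) * (g * a * g⁻¹)) * ((g * a * g⁻¹) * (g * a * g⁻¹))) * g := by
            group
          rw [h6, h5]
          group
      rcases h.mem_or_of_conj haA.2 ha1 haz h2 with h3 | h3
      · exact hNT g hg h3
      · exact hNw g hg h3
    rw [pdegCount_congr 2 (MulEquiv.subgroupCongr hNP)]
    exact hP4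
  · -- the normalizer has order `24`
    push Not at hbig
    have hii : s * s = z := by
      rcases h.sq_one _ (hbig s hsA) with h1 | h1
      · rcases h.sq_one _ h1 with h2 | h2
        · exact absurd h2 hs1
        · exact absurd h2 hsz
      · exact h1
    have hjj : j * j = z := by
      rcases h.sq_one _ (h.coset_four hsT hs1 hsz hjw) with h1 | h1
      · exfalso
        rcases h.sq_one _ h1 with h2 | h2
        · exact hjT (h2 ▸ T.one_mem)
        · exact hjT (h2 ▸ h.z_mem)
      · exact h1
    have hji : j * s * j⁻¹ = s⁻¹ := h.coset_inv hjw hsT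
    obtain ⟨x, hxi, hxj⟩ := hq8 s j hii hjj hji
    -- the elements of `A`
    have hS1 : ∀ a ∈ (P : Subgroup G) ⊓ T, a = 1 ∨ a = z ∨ a = s ∨ a = z * s := by
      intro a ha
      by_cases haa : a * a = 1
      · rcases h.sq_one _ haa with h1 | h1
        · left; exact h1
        · right; left; exact h1
      · have haz : a * a = z := by
          rcases h.sq_one _ (hbig a ha) with h1 | h1
          · exact absurd h1 haa
          · exact h1
        have h1 : (a * s⁻¹) * (a * s⁻¹) = 1 := by
          calc (a * s⁻¹) * (a * s⁻¹) = a * (s⁻¹ * a) * s⁻¹ := by group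
            _ = a * (a * s⁻¹) * s⁻¹ := by rw [h.comm s⁻¹ (T.inv_mem hsT) a ha.2]
            _ = (a * a) * (s * s)⁻¹ := by group
            _ = 1 := by rw [haz, hii, mul_inv_cancel]
        rcases h.sq_one _ h1 with h2 | h2
        · right; right; left
          exact mul_inv_eq_one.mp h2
        · right; right; right
          exact mul_inv_eq_iff_eq_mul.mp h2
    have hS2 : ∀ g ∈ (P : Subgroup G), g ∉ T → j⁻¹ * g ∈ (P : Subgroup G) ⊓ T := by
      intro g hg hgT
      have hgw : w⁻¹ * g ∈ T := by
        rcases hPcases g hg with h1 | h1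
        · exact absurd h1 hgT
        · exact h1
      exact ⟨(P : Subgroup G).mul_mem ((P : Subgroup G).inv_mem hjP) hg, h.coset_inv_mul hjw hgw⟩
    have hxz : x * z * x⁻¹ = z := by rw [h.z_comm x, mul_inv_cancel_right]
    have hconj : ∀ a b : G, x * (a * b) * x⁻¹ = (x * a * x⁻¹) * (x * b * x⁻¹) := by
      intro a b
      group
    have hxA : ∀ a ∈ (P : Subgroup G) ⊓ T, x * a * x⁻¹ ∈ (P : Subgroup G) := by
      intro a ha
      rcases hS1 a ha with rfl | rfl | rfl | rfl
      · have : x * 1 * x⁻¹ = 1 := by group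
        rw [this]
        exact one_mem _
      · rw [hxz]; exact hzP
      · rw [hxi]; exact hjP
      · rw [hconj, hxz, hxi]
        exact mul_mem hzP hjP
    have hxP : ∀ g ∈ (P : Subgroup G), x * g * x⁻¹ ∈ (P : Subgroup G) := by
      intro g hg
      by_cases hgT : g ∈ T
      · exact hxA g ⟨hg, hgT⟩
      · have h1 : g = j * (j⁻¹ * g) := by group
        rw [h1, hconj, hxj]
        exact mul_mem (mul_mem hsP hjP) (hxA _ (hS2 g hg hgT))
    have hxN : x ∈ N := mem_normalizer_of_conj_mem _ hxP
    have hxnP : x ∉ (P : Subgroup G) := by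
      intro hx
      rcases hPcases x hx with h1 | h1
      · apply hjT
        rw [← hxi, h.comm x h1 s hsT, mul_inv_cancel_right]
        exact hsT
      · apply hjT
        rw [← hxi, h.coset_inv h1 hsT]
        exact T.inv_mem hsT
    -- cardinalities
    have : Fintype G := Fintype.ofFinite G
    have hA4 : Nat.card ↥((P : Subgroup G) ⊓ T) = 4 := by
      apply le_antisymm _ h4
      rw [Nat.card_eq_fintype_card, Fintype.card_subtype]
      refine le_trans (Finset.card_le_card (t := {1, z, s, z * s}) ?_) Finset.card_le_four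
      intro a ha
      simp only [Finset.mem_filter, Finset.mem_univ, true_and] at ha
      simp only [Finset.mem_insert, Finset.mem_singleton]
      exact hS1 a ha
    have hP8 : Nat.card (P : Subgroup G) = 8 := by rw [hidx, hA4]
    have hdvd8 : 8 ∣ Nat.card N := by
      rw [← hP8]
      exact Subgroup.card_dvd_of_le hPN
    have hne8 : Nat.card N ≠ 8 := by
      intro h8
      apply hxnP
      have : (P : Subgroup G) = N := Subgroup.eq_of_le_of_card_ge hPN (by rw [h8, hP8])
      rw [this]
      exact hxN
    have h16 : ¬ 16 ∣ Nat.card N := by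
      intro h16
      have h1 : 2 ^ 4 ∣ Nat.card G := by
        exact dvd_trans h16 (Subgroup.card_subgroup_dvd_card N)
      have h2 := (Nat.Prime.pow_dvd_iff_le_factorization Nat.prime_two
        (Nat.card_pos (α := G)).ne').mp h1
      have h3 := P.card_eq_multiplicity
      have h3' : Nat.card (P : Subgroup G) = 2 ^ (Nat.card G).factorization 2 := h3
      rw [hP8] at h3'
      have h4' : 2 ^ 4 ≤ 2 ^ (Nat.card G).factorization 2 := Nat.pow_le_pow_right (by norm_num) h2
      omega
    have hle24 : Nat.card N ≤ 24 := by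
      have hNf : (Finset.univ.filter (fun g : G => g ∈ N)).card = Nat.card N := by
        rw [Nat.card_eq_fintype_card, Fintype.card_subtype]
      have hPf : (Finset.univ.filter (fun g : G => g ∈ (P : Subgroup G))).card = 8 := by
        rw [← hP8, Nat.card_eq_fintype_card, Fintype.card_subtype]
      have hAf : (Finset.univ.filter (fun g : G => g ∈ (P : Subgroup G) ⊓ T)).card = 4 := by
        rw [← hA4, Nat.card_eq_fintype_card, Fintype.card_subtype]
      have himg : (Finset.univ.filter (fun g : G => g ∈ N)).image (fun n => n * s * n⁻¹) ⊆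
          Finset.univ.filter (fun g : G => g ∈ (P : Subgroup G)) \ {1, z} := by
        intro a ha
        obtain ⟨n, hn, rfl⟩ := Finset.mem_image.mp ha
        have hnN : n ∈ N := (Finset.mem_filter.mp hn).2
        rw [Finset.mem_sdiff, Finset.mem_filter, Finset.mem_insert, Finset.mem_singleton]
        refine ⟨⟨Finset.mem_univ _, (Subgroup.mem_normalizer_iff.mp hnN s).mp hsP⟩, ?_⟩
        have e : s = n⁻¹ * (n * s * n⁻¹) * n := by group
        rintro (h1 | h1)
        · apply hs1
          rw [e, h1]
          group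
        · apply hsz
          rw [e, h1, mul_assoc, ← h.z_comm n, inv_mul_cancel_left]
      have hcard6 : (Finset.univ.filter (fun g : G => g ∈ (P : Subgroup G)) \ {1, z}).card = 6 := by
        rw [Finset.card_sdiff_of_subset, hPf, Finset.card_pair (Ne.symm h.z_ne)]
        intro a ha
        rw [Finset.mem_insert, Finset.mem_singleton] at ha
        rw [Finset.mem_filter]
        rcases ha with rfl | rfl
        · exact ⟨Finset.mem_univ _, one_mem _⟩
        · exact ⟨Finset.mem_univ _, hzP⟩
      have hfib : ∀ a ∈ (Finset.univ.filter (fun g : G => g ∈ N)).image (fun n => n * s * n⁻¹),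
          ((Finset.univ.filter (fun g : G => g ∈ N)).filter (fun n => n * s * n⁻¹ = a)).card
            ≤ 4 := by
        intro a ha
        obtain ⟨n₁, hn₁, rfl⟩ := Finset.mem_image.mp ha
        have hn₁N : n₁ ∈ N := (Finset.mem_filter.mp hn₁).2
        rw [← hAf]
        apply Finset.card_le_card_of_injOn (fun n => n₁⁻¹ * n)
        · intro n hn
          have hn' := Finset.mem_filter.mp hn
          have hnN : n ∈ N := (Finset.mem_filter.mp hn'.1).2
          have hmN : n₁⁻¹ * n ∈ N := N.mul_mem (N.inv_mem hn₁N) hnN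
          have hcomm : (n₁⁻¹ * n) * s = s * (n₁⁻¹ * n) := by
            have h1 : n * s = n₁ * s * n₁⁻¹ * n := by
              rw [← hn'.2]
              group
            calc n₁⁻¹ * n * s = n₁⁻¹ * (n * s) := mul_assoc _ _ _
              _ = n₁⁻¹ * (n₁ * s * n₁⁻¹ * n) := by rw [h1]
              _ = s * (n₁⁻¹ * n) := by group
          have hmT : n₁⁻¹ * n ∈ T := h.cent s hsT hs1 hsz _ hcomm
          exact Finset.mem_coe.mpr (Finset.mem_filter.mpr
            ⟨Finset.mem_univ _, ⟨hNT _ hmN hmT, hmT⟩⟩)
        · intro a _ b _ hab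
          exact mul_left_cancel hab
      have h1 := Finset.card_le_mul_card_image (f := fun n => n * s * n⁻¹)
        (Finset.univ.filter (fun g : G => g ∈ N)) 4 hfib
      have h6 := Finset.card_le_card himg
      rw [hcard6] at h6
      rw [hNf] at h1
      omega
    have hNpos : 0 < Nat.card N := Nat.card_pos
    have hN24 : Nat.card N = 24 := by omega
    -- the commutator subgroup
    have hK := Subgroup.map_subtype_commutator N
    have hsK : s ∈ ⁅N, N⁆ := by
      have h1 := Subgroup.commutator_mem_commutator hxN (hPN hjP)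
      rw [commutatorElement_def, hxj, mul_inv_cancel_right] at h1
      exact h1
    have hjK : j ∈ ⁅N, N⁆ := by
      have h1 := Subgroup.commutator_mem_commutator hxN (hPN hsP)
      rw [commutatorElement_def, hxi] at h1
      have h2 := mul_mem h1 hsK
      rwa [inv_mul_cancel_right] at h2
    have hAK : ∀ a ∈ (P : Subgroup G) ⊓ T, a ∈ ⁅N, N⁆ := by
      intro a ha
      have hzK : z ∈ ⁅N, N⁆ := by
        rw [← hii]
        exact mul_mem hsK hsK
      rcases hS1 a ha with rfl | rfl | rfl | rfl
      · exact one_mem _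
      · exact hzK
      · exact hsK
      · exact mul_mem hzK hsK
    have hPK : (P : Subgroup G) ≤ ⁅N, N⁆ := by
      intro g hg
      by_cases hgT : g ∈ T
      · exact hAK g ⟨hg, hgT⟩
      · have h1 : g = j * (j⁻¹ * g) := by group
        rw [h1]
        exact mul_mem hjK (hAK _ (hS2 g hg hgT))
    have hle : (P : Subgroup G).subgroupOf N ≤ commutator ↥N := by
      intro y hy
      have h1 : (y : G) ∈ (commutator ↥N).map N.subtype := by
        rw [hK]
        exact hPK hy
      obtain ⟨c, hc, hcy⟩ := Subgroup.mem_map.mp h1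
      have : c = y := Subtype.ext hcy
      rw [← this]
      exact hc
    have hidx3 : ((P : Subgroup G).subgroupOf N).index = 3 := by
      have h1 := ((P : Subgroup G).subgroupOf N).card_mul_index
      have h2 : Nat.card ((P : Subgroup G).subgroupOf N) = 8 := by
        rw [← hP8]
        exact Nat.card_congr (Subgroup.subgroupOfEquivOfLe hPN).toEquiv
      rw [h2, hN24] at h1
      omega
    have hlin : (commutator ↥N).index ≤ 3 := by
      have h1 := Subgroup.index_dvd_of_le hle
      rw [hidx3] at h1
      exact Nat.le_of_dvd (by norm_num) h1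
    exact pdegCount_two_of_card_24 hN24 hlin

end TorusLike

end Cfsg.Agent.Helper39
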