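import Mathlib
import Cfsg.Agent.Helper39.McKayTwo
import Cfsg.Agent.Helper39.EllCyclic

/-!
# The tori of `SL₂(q)`, `q` odd, fit the abstract torus setting (helper39)
-/

set_option autoImplicit false

namespace Cfsg.Agent.Helper39

section Basic

variable {F : Type*} [Field F]

theorem negSL_coe_eq_neg_one :
    ((negSL : Matrix.SpecialLinearGroup (Fin 2) F) : Matrix (Fin 2) (Fin 2) F) = -1 := by
  rw [negSL_coe]
  ext i j
  fin_cases i <;> fin_cases j <;> simp

theorem negSL_mul_self_mk : (negSL : Matrix.SpecialLinearGroup (Fin 2) F) * negSL = 1 := by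
  apply Subtype.ext
  rw [Matrix.SpecialLinearGroup.coe_mul, negSL_coe_eq_neg_one, Matrix.SpecialLinearGroup.coe_one]
  simp

theorem negSL_ne_one_of_two (h2 : (2 : F) ≠ 0) :
    (negSL : Matrix.SpecialLinearGroup (Fin 2) F) ≠ 1 := by
  intro h
  have h1 := congrArg (fun x : Matrix.SpecialLinearGroup (Fin 2) F =>
    (x : Matrix (Fin 2) (Fin 2) F) 0 0) h
  simp only [negSL_coe, Matrix.SpecialLinearGroup.coe_one] at h1
  simp at h1
  apply h2
  linear_combination -h1

theorem negSL_comm (g : Matrix.SpecialLinearGroup (Fin 2) F) : g * negSL = negSL * g :=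
  Subgroup.mem_center_iff.mp negSL_mem_center g

/-- In odd characteristic the only involution of `SL₂` is `-1`. -/
theorem sl2_sq_eq_one (h2 : (2 : F) ≠ 0) {x : Matrix.SpecialLinearGroup (Fin 2) F}
    (hx : x * x = 1) : x = 1 ∨ x = negSL := by
  have hm : (x : Matrix (Fin 2) (Fin 2) F) * (x : Matrix (Fin 2) (Fin 2) F) = 1 := by
    rw [← Matrix.SpecialLinearGroup.coe_mul, hx, Matrix.SpecialLinearGroup.coe_one]
  have hdet := x.det_coe
  rw [Matrix.det_fin_two] at hdet
  have e00 := congrFun (congrFun hm 0) 0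
  have e01 := congrFun (congrFun hm 0) 1
  have e10 := congrFun (congrFun hm 1) 0
  simp only [Matrix.mul_apply, Fin.sum_univ_two, Matrix.one_apply_eq] at e00
  simp only [Matrix.mul_apply, Fin.sum_univ_two] at e01 e10
  rw [Matrix.one_apply_ne (by decide)] at e01 e10
  set X := (x : Matrix (Fin 2) (Fin 2) F) with hX
  have hs : X 0 0 * (X 0 0 + X 1 1) = 2 := by linear_combination e00 + hdet
  have hs0 : X 0 0 + X 1 1 ≠ 0 := by
    intro h0
    rw [h0, mul_zero] at hs
    exact h2 hs.symm
  have hb : X 0 1 = 0 := by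
    have : X 0 1 * (X 0 0 + X 1 1) = 0 := by linear_combination e01
    exact (mul_eq_zero.mp this).resolve_right hs0
  have hc : X 1 0 = 0 := by
    have : X 1 0 * (X 0 0 + X 1 1) = 0 := by linear_combination e10
    exact (mul_eq_zero.mp this).resolve_right hs0
  have ha2 : X 0 0 * X 0 0 = 1 := by
    rw [hb] at e00
    linear_combination e00
  have had : X 0 0 * X 1 1 = 1 := by
    rw [hb] at hdet
    linear_combination hdet
  have ha0 : X 0 0 ≠ 0 := left_ne_zero_of_mul_eq_one ha2
  have hda : X 1 1 = X 0 0 := by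
    apply mul_left_cancel₀ ha0
    rw [had, ha2]
  have hcases : X 0 0 = 1 ∨ X 0 0 = -1 := by
    have : (X 0 0 - 1) * (X 0 0 + 1) = 0 := by linear_combination ha2
    rcases mul_eq_zero.mp this with h | h
    · left; linear_combination h
    · right; linear_combination h
  rcases hcases with h | h
  · left
    apply Subtype.ext
    show X = ((1 : Matrix.SpecialLinearGroup (Fin 2) F) : Matrix (Fin 2) (Fin 2) F)
    rw [Matrix.SpecialLinearGroup.coe_one]
    ext i j
    fin_cases i <;> fin_cases j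
    · simpa using h
    · simpa using hb
    · simpa using hc
    · simpa using hda.trans h
  · right
    apply Subtype.ext
    show X = ((negSL : Matrix.SpecialLinearGroup (Fin 2) F) : Matrix (Fin 2) (Fin 2) F)
    rw [negSL_coe]
    ext i j
    fin_cases i <;> fin_cases j
    · simpa using h
    · simpa using hb
    · simpa using hc
    · simpa using hda.trans h

end Basic

section Quat

theorem quat_rel1 {R : Type*} [Ring R] {I J : R} (hI : I * I = -1) (hJ : J * J = -1)
    (hJI : J * I = -(I * J)) : (1 + I) * (1 + J) * I = J * ((1 + I) * (1 + J)) := by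
  have e1 : I * J * I = J := by
    rw [mul_assoc, hJI, mul_neg, ← mul_assoc, hI]
    simp
  have e2 : J * I * J = I := by
    rw [hJI, neg_mul, mul_assoc, hJ]
    simp
  calc (1 + I) * (1 + J) * I = I + I * I + J * I + I * J * I := by noncomm_ring
    _ = I + -1 + -(I * J) + J := by rw [e1, hI, hJI]
    _ = J + -(I * J) + -1 + I := by abel
    _ = J + J * I + J * J + J * I * J := by rw [e2, hJ, hJI]
    _ = J * ((1 + I) * (1 + J)) := by noncomm_ring

theorem quat_rel2 {R : Type*} [Ring R] {I J : R} (hI : I * I = -1) (hJ : J * J = -1)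
    (hJI : J * I = -(I * J)) : (1 + I) * (1 + J) * J = I * J * ((1 + I) * (1 + J)) := by
  have e1 : I * J * I = J := by
    rw [mul_assoc, hJI, mul_neg, ← mul_assoc, hI]
    simp
  have e3 : I * J * J = -I := by
    rw [mul_assoc, hJ]
    simp
  calc (1 + I) * (1 + J) * J = J + I * J + J * J + I * J * J := by noncomm_ring
    _ = J + I * J + -1 + -I := by rw [e3, hJ]
    _ = I * J + J + -I + -1 := by abel
    _ = I * J + I * J * I + I * J * J + I * J * I * J := by rw [e1, e3, hJ]
    _ = I * J * ((1 + I) * (1 + J)) := by noncomm_ring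

variable {F : Type*} [Field F]

theorem sl2_trace_zero_of_sq {M : Matrix.SpecialLinearGroup (Fin 2) F} (h : M * M = negSL) :
    (M : Matrix (Fin 2) (Fin 2) F) 0 0 + (M : Matrix (Fin 2) (Fin 2) F) 1 1 = 0 := by
  have hm : (M : Matrix (Fin 2) (Fin 2) F) * (M : Matrix (Fin 2) (Fin 2) F) = !![-1, 0; 0, -1] := by
    rw [← Matrix.SpecialLinearGroup.coe_mul, h, negSL_coe]
  have hdet := M.det_coe
  rw [Matrix.det_fin_two] at hdet
  have e00 := congrFun (congrFun hm 0) 0
  have e11 := congrFun (congrFun hm 1) 1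
  simp only [Matrix.mul_apply, Fin.sum_univ_two] at e00 e11
  simp at e00 e11
  have : ((M : Matrix (Fin 2) (Fin 2) F) 0 0 + (M : Matrix (Fin 2) (Fin 2) F) 1 1) ^ 2 = 0 := by
    linear_combination e00 + e11 + 2 * hdet
  exact pow_eq_zero_iff (by norm_num) |>.mp this

theorem sl2_det_one_add_of_sq {M : Matrix.SpecialLinearGroup (Fin 2) F} (h : M * M = negSL) :
    (1 + (M : Matrix (Fin 2) (Fin 2) F)).det = 2 := by
  have htr := sl2_trace_zero_of_sq h
  have hdet := M.det_coe
  rw [Matrix.det_fin_two] at hdet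
  rw [Matrix.det_fin_two]
  simp only [Matrix.add_apply, Matrix.one_apply_eq]
  rw [Matrix.one_apply_ne (by decide : (0 : Fin 2) ≠ 1),
    Matrix.one_apply_ne (by decide : (1 : Fin 2) ≠ 0)]
  linear_combination htr + hdet

/-- An element of `SL₂` normalizing a quaternion subgroup and permuting its generators. -/
theorem exists_q8_conj (h2 : (2 : F) ≠ 0) (i j : Matrix.SpecialLinearGroup (Fin 2) F)
    (hi : i * i = negSL) (hj : j * j = negSL) (hij : j * i * j⁻¹ = i⁻¹) :
    ∃ x : Matrix.SpecialLinearGroup (Fin 2) F, x * i * x⁻¹ = j ∧ x * j * x⁻¹ = i * j := by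
  set I := (i : Matrix (Fin 2) (Fin 2) F) with hIdef
  set J := (j : Matrix (Fin 2) (Fin 2) F) with hJdef
  have hI : I * I = -1 := by
    rw [hIdef, ← Matrix.SpecialLinearGroup.coe_mul, hi, negSL_coe_eq_neg_one]
  have hJ : J * J = -1 := by
    rw [hJdef, ← Matrix.SpecialLinearGroup.coe_mul, hj, negSL_coe_eq_neg_one]
  have hinv : i⁻¹ = negSL * i := by
    symm
    apply eq_inv_of_mul_eq_one_left
    rw [mul_assoc, hi, negSL_mul_self_mk]
  have hJI : J * I = -(I * J) := by
    have h1 : j * i = negSL * (i * j) := by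
      rw [mul_inv_eq_iff_eq_mul, hinv] at hij
      rw [hij, mul_assoc]
    have h3 := congrArg (fun y : Matrix.SpecialLinearGroup (Fin 2) F =>
      (y : Matrix (Fin 2) (Fin 2) F)) h1
    simp only [Matrix.SpecialLinearGroup.coe_mul] at h3
    rw [negSL_coe_eq_neg_one, neg_mul, one_mul] at h3
    exact h3
  have hdet : ((1 / 2 : F) • ((1 + I) * (1 + J))).det = 1 := by
    rw [Matrix.det_smul, Matrix.det_mul, hIdef, hJdef, sl2_det_one_add_of_sq hi,
      sl2_det_one_add_of_sq hj, Fintype.card_fin]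
    field_simp
  obtain ⟨x, hx⟩ : ∃ x : Matrix.SpecialLinearGroup (Fin 2) F,
      (x : Matrix (Fin 2) (Fin 2) F) = (1 / 2 : F) • ((1 + I) * (1 + J)) := ⟨⟨_, hdet⟩, rfl⟩
  refine ⟨x, ?_, ?_⟩
  · rw [mul_inv_eq_iff_eq_mul]
    apply Subtype.ext
    rw [Matrix.SpecialLinearGroup.coe_mul, Matrix.SpecialLinearGroup.coe_mul, hx]
    show (1 / 2 : F) • ((1 + I) * (1 + J)) * I = J * ((1 / 2 : F) • ((1 + I) * (1 + J)))
    rw [Matrix.smul_mul, Matrix.mul_smul, quat_rel1 hI hJ hJI]
  · rw [mul_inv_eq_iff_eq_mul]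
    apply Subtype.ext
    rw [Matrix.SpecialLinearGroup.coe_mul, Matrix.SpecialLinearGroup.coe_mul,
      Matrix.SpecialLinearGroup.coe_mul, hx]
    show (1 / 2 : F) • ((1 + I) * (1 + J)) * J = I * J * ((1 / 2 : F) • ((1 + I) * (1 + J)))
    rw [Matrix.smul_mul, Matrix.mul_smul, quat_rel2 hI hJ hJI]

end Quat

end Cfsg.Agent.Helper39
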