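import Mathlib
import Cfsg.Agent.Helper39.McKaySL

/-!
# The split and non-split tori of `SL₂(q)` as abstract tori; Sylow subgroups in tori (helper39)
-/

set_option autoImplicit false

namespace Cfsg.Agent.Helper39

universe u

section SylowGen

variable {G : Type u} [Group G] [Finite G]

/-- If the `p`-parts of `|G|` and `|T|` agree, some Sylow `p`-subgroup of `G` lies in `T`. -/
theorem exists_sylow_le (T : Subgroup G) (p : ℕ) [Fact p.Prime]
    (hfac : (Nat.card G).factorization p = (Nat.card T).factorization p) :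
    ∃ S : Sylow p G, (S : Subgroup G) ≤ T := by
  obtain ⟨Q⟩ : Nonempty (Sylow p T) := inferInstance
  have hcard : Nat.card ((Q : Subgroup T).map T.subtype) = p ^ (Nat.card G).factorization p := by
    rw [Subgroup.card_map_of_injective T.subtype_injective, hfac]
    exact Q.card_eq_multiplicity
  refine ⟨Sylow.ofCard _ hcard, ?_⟩
  rw [Sylow.coe_ofCard]
  exact Subgroup.map_subtype_le _

/-- If the `p`-part of `|G|` is `p` times that of `|T|`, some Sylow `p`-subgroup of `G` meets `T`
in a Sylow `p`-subgroup of `T`, of index `p`. -/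
theorem exists_sylow_inf (T : Subgroup G) (p : ℕ) [Fact p.Prime]
    (hfac : (Nat.card G).factorization p = (Nat.card T).factorization p + 1) :
    ∃ P : Sylow p G, Nat.card (P : Subgroup G) = p * Nat.card ↥((P : Subgroup G) ⊓ T) ∧
      Nat.card ↥((P : Subgroup G) ⊓ T) = p ^ (Nat.card T).factorization p := by
  have hp : p.Prime := Fact.out
  obtain ⟨Q⟩ : Nonempty (Sylow p T) := inferInstance
  have hA₀ : IsPGroup p ((Q : Subgroup T).map T.subtype) := Q.isPGroup'.map T.subtype
  have hcard₀ : Nat.card ((Q : Subgroup T).map T.subtype) = p ^ (Nat.card T).factorization p := by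
    rw [Subgroup.card_map_of_injective T.subtype_injective]
    exact Q.card_eq_multiplicity
  obtain ⟨P, hP⟩ := hA₀.exists_le_sylow
  have hPcard : Nat.card (P : Subgroup G) = p ^ ((Nat.card T).factorization p + 1) := by
    rw [← hfac]
    exact P.card_eq_multiplicity
  have hle : (Q : Subgroup T).map T.subtype ≤ (P : Subgroup G) ⊓ T :=
    le_inf hP (Subgroup.map_subtype_le _)
  have hB : IsPGroup p ↥((P : Subgroup G) ⊓ T) := P.isPGroup'.to_le inf_le_left
  obtain ⟨b, hb⟩ := hB.exists_card_eq
  have h1 : p ^ b ∣ Nat.card T := by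
    rw [← hb]
    exact Subgroup.card_dvd_of_le inf_le_right
  have h2 : b ≤ (Nat.card T).factorization p :=
    (hp.pow_dvd_iff_le_factorization (Nat.card_pos (α := T)).ne').mp h1
  have h3 : p ^ (Nat.card T).factorization p ∣ p ^ b := by
    rw [← hb, ← hcard₀]
    exact Subgroup.card_dvd_of_le hle
  have h4 : (Nat.card T).factorization p ≤ b := (Nat.pow_dvd_pow_iff_le_right hp.one_lt).mp h3
  have h5 : b = (Nat.card T).factorization p := le_antisymm h2 h4
  refine ⟨P, ?_, ?_⟩
  · rw [hPcard, hb, h5, pow_succ, mul_comm]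
  · rw [hb, h5]

end SylowGen

section Split

variable {F : Type*} [Field F]

/-- The diagonal torus of `SL₂`. -/
def splitT (F : Type*) [Field F] : Subgroup (Matrix.SpecialLinearGroup (Fin 2) F) where
  carrier := {g | (g : Matrix (Fin 2) (Fin 2) F) 0 1 = 0 ∧ (g : Matrix (Fin 2) (Fin 2) F) 1 0 = 0}
  mul_mem' := by
    intro a b ha hb
    simp only [Set.mem_ofPred_eq] at ha hb ⊢
    rw [Matrix.SpecialLinearGroup.coe_mul]
    simp [Matrix.mul_apply, Fin.sum_univ_two, ha.1, ha.2, hb.1, hb.2]
  one_mem' := by simp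
  inv_mem' := by
    intro a ha
    simp only [Set.mem_ofPred_eq] at ha ⊢
    rw [Matrix.SpecialLinearGroup.coe_inv, Matrix.adjugate_fin_two]
    simp [ha.1, ha.2]

theorem mem_splitT_iff {g : Matrix.SpecialLinearGroup (Fin 2) F} :
    g ∈ splitT F ↔ (g : Matrix (Fin 2) (Fin 2) F) 0 1 = 0 ∧
      (g : Matrix (Fin 2) (Fin 2) F) 1 0 = 0 := Iff.rfl

/-- The Weyl element of `SL₂`. -/
def wSL : Matrix.SpecialLinearGroup (Fin 2) F :=
  ⟨!![0, 1; -1, 0], by simp [Matrix.det_fin_two]⟩

theorem wSL_coe :
    ((wSL : Matrix.SpecialLinearGroup (Fin 2) F) : Matrix (Fin 2) (Fin 2) F) = !![0, 1; -1, 0] :=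
  rfl

theorem splitT_det {t : Matrix.SpecialLinearGroup (Fin 2) F} (ht : t ∈ splitT F) :
    (t : Matrix (Fin 2) (Fin 2) F) 0 0 * (t : Matrix (Fin 2) (Fin 2) F) 1 1 = 1 := by
  have hdet := t.det_coe
  rw [Matrix.det_fin_two, ht.1, zero_mul, sub_zero] at hdet
  exact hdet

theorem torusLike_split (h2 : (2 : F) ≠ 0) :
    TorusLike (negSL : Matrix.SpecialLinearGroup (Fin 2) F) (splitT F) wSL where
  z_ne := negSL_ne_one_of_two h2
  z_sq := negSL_mul_self_mk
  z_comm := negSL_comm
  sq_one := fun _ hx => sl2_sq_eq_one h2 hx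
  comm := by
    intro s hs t ht
    apply Subtype.ext
    rw [Matrix.SpecialLinearGroup.coe_mul, Matrix.SpecialLinearGroup.coe_mul]
    ext i j
    fin_cases i <;> fin_cases j <;>
      simp [Matrix.mul_apply, Fin.sum_univ_two, hs.1, hs.2, ht.1, ht.2, mul_comm]
  cent := by
    intro t ht ht1 htz g hg
    have hdet := splitT_det ht
    have hm := congrArg (fun y : Matrix.SpecialLinearGroup (Fin 2) F =>
      (y : Matrix (Fin 2) (Fin 2) F)) hg
    simp only [Matrix.SpecialLinearGroup.coe_mul] at hm
    have e01 := congrFun (congrFun hm 0) 1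
    have e10 := congrFun (congrFun hm 1) 0
    simp only [Matrix.mul_apply, Fin.sum_univ_two, ht.1, ht.2, mul_zero, zero_mul, zero_add,
      add_zero] at e01 e10
    have hne : (t : Matrix (Fin 2) (Fin 2) F) 0 0 ≠ (t : Matrix (Fin 2) (Fin 2) F) 1 1 := by
      intro heq
      rw [← heq] at hdet
      have hcases : (t : Matrix (Fin 2) (Fin 2) F) 0 0 = 1 ∨
          (t : Matrix (Fin 2) (Fin 2) F) 0 0 = -1 := by
        have : ((t : Matrix (Fin 2) (Fin 2) F) 0 0 - 1) *
            ((t : Matrix (Fin 2) (Fin 2) F) 0 0 + 1) = 0 := by linear_combination hdet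
        rcases mul_eq_zero.mp this with h | h
        · left; linear_combination h
        · right; linear_combination h
      rcases hcases with h | h
      · apply ht1
        apply Subtype.ext
        rw [Matrix.SpecialLinearGroup.coe_one]
        ext i j
        fin_cases i <;> fin_cases j
        · simpa using h
        · simpa using ht.1
        · simpa using ht.2
        · simpa using heq.symm.trans h
      · apply htz
        apply Subtype.ext
        rw [negSL_coe]
        ext i j
        fin_cases i <;> fin_cases j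
        · simpa using h
        · simpa using ht.1
        · simpa using ht.2
        · simpa using heq.symm.trans h
    constructor
    · have : (g : Matrix (Fin 2) (Fin 2) F) 0 1 *
          ((t : Matrix (Fin 2) (Fin 2) F) 1 1 - (t : Matrix (Fin 2) (Fin 2) F) 0 0) = 0 := by
        linear_combination e01
      exact (mul_eq_zero.mp this).resolve_right (sub_ne_zero.mpr (Ne.symm hne))
    · have : (g : Matrix (Fin 2) (Fin 2) F) 1 0 *
          ((t : Matrix (Fin 2) (Fin 2) F) 0 0 - (t : Matrix (Fin 2) (Fin 2) F) 1 1) = 0 := by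
        linear_combination e10
      exact (mul_eq_zero.mp this).resolve_right (sub_ne_zero.mpr hne)
  inv := by
    intro t ht
    rw [mul_inv_eq_iff_eq_mul]
    apply Subtype.ext
    rw [Matrix.SpecialLinearGroup.coe_mul, Matrix.SpecialLinearGroup.coe_mul,
      Matrix.SpecialLinearGroup.coe_inv, Matrix.adjugate_fin_two, wSL_coe]
    ext i j
    fin_cases i <;> fin_cases j <;> simp [Matrix.mul_apply, Fin.sum_univ_two, ht.1, ht.2]
  fus := by
    intro t ht g hu
    have htr := sl2_isConj_trace_eq (isConj_iff.mpr ⟨g, rfl⟩ : IsConj t (g * t * g⁻¹))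
    generalize g * t * g⁻¹ = u at hu htr ⊢
    rw [Matrix.trace_fin_two, Matrix.trace_fin_two] at htr
    have hdt := splitT_det ht
    have hdu := splitT_det hu
    have hprod : ((u : Matrix (Fin 2) (Fin 2) F) 0 0 - (t : Matrix (Fin 2) (Fin 2) F) 0 0) *
        ((u : Matrix (Fin 2) (Fin 2) F) 0 0 - (t : Matrix (Fin 2) (Fin 2) F) 1 1) = 0 := by
      linear_combination (-(u : Matrix (Fin 2) (Fin 2) F) 0 0) * htr + hdt - hdu
    rcases mul_eq_zero.mp hprod with h | h
    · left
      have h00 : (u : Matrix (Fin 2) (Fin 2) F) 0 0 = (t : Matrix (Fin 2) (Fin 2) F) 0 0 := by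
        linear_combination h
      have h11 : (u : Matrix (Fin 2) (Fin 2) F) 1 1 = (t : Matrix (Fin 2) (Fin 2) F) 1 1 := by
        linear_combination -htr - h
      apply Subtype.ext
      ext i j
      fin_cases i <;> fin_cases j
      · simpa using h00
      · simpa using hu.1.trans ht.1.symm
      · simpa using hu.2.trans ht.2.symm
      · simpa using h11
    · right
      have h00 : (u : Matrix (Fin 2) (Fin 2) F) 0 0 = (t : Matrix (Fin 2) (Fin 2) F) 1 1 := by
        linear_combination h
      have h11 : (u : Matrix (Fin 2) (Fin 2) F) 1 1 = (t : Matrix (Fin 2) (Fin 2) F) 0 0 := by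
        linear_combination -htr - h
      apply Subtype.ext
      rw [Matrix.SpecialLinearGroup.coe_inv, Matrix.adjugate_fin_two]
      ext i j
      fin_cases i <;> fin_cases j
      · simpa using h00
      · simpa [ht.1] using hu.1
      · simpa [ht.2] using hu.2
      · simpa using h11
  z_mem := by
    rw [mem_splitT_iff, negSL_coe]
    simp

theorem card_splitT [Fintype F] : Nat.card (splitT F) = Fintype.card F - 1 := by
  classical
  rw [← Fintype.card_units, ← Nat.card_eq_fintype_card]
  symm
  apply Nat.card_congr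
  refine Equiv.ofBijective (fun a : Fˣ => (⟨triSL a 0, by
    rw [mem_splitT_iff, triSL_coe]; simp⟩ : splitT F)) ⟨?_, ?_⟩
  · intro a b hab
    have h1 := congrArg (fun x : splitT F =>
      ((x : Matrix.SpecialLinearGroup (Fin 2) F) : Matrix (Fin 2) (Fin 2) F) 0 0) hab
    simp only [triSL_coe] at h1
    apply Units.ext
    simpa using h1
  · rintro ⟨g, hg⟩
    have hdet := splitT_det hg
    refine ⟨Units.mkOfMulEqOne _ _ hdet, Subtype.ext (Subtype.ext ?_)⟩
    show ((triSL (Units.mkOfMulEqOne _ _ hdet) 0 : Matrix.SpecialLinearGroup (Fin 2) F) :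
      Matrix (Fin 2) (Fin 2) F) = (g : Matrix (Fin 2) (Fin 2) F)
    rw [triSL_coe]
    ext i j
    fin_cases i <;> fin_cases j
    · rfl
    · simpa using hg.1.symm
    · simpa using hg.2.symm
    · rfl

end Split

section NonSplit

variable {F : Type*} [Field F] [Fintype F] [DecidableEq F]

omit [DecidableEq F] in
/-- In odd characteristic `SL₂(q)` has an element without eigenvector. -/
theorem exists_noEigen (hodd : Odd (Fintype.card F)) :
    ∃ g₀ : Matrix.SpecialLinearGroup (Fin 2) F, NoEigen (g₀ : Matrix (Fin 2) (Fin 2) F) := by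
  have hF := ringChar_ne_two_of_odd hodd
  have h2 : (2 : F) ≠ 0 := Ring.two_ne_zero hF
  obtain ⟨ε, hε⟩ := exists_nonsquare_of_odd hodd
  have hε1 : 1 - ε ≠ 0 := by
    intro h
    apply hε
    have : ε = 1 := by linear_combination -h
    rw [this]
    exact IsSquare.one
  have hdet : (!![(1 + ε) / (1 - ε), ε * (2 / (1 - ε)); 2 / (1 - ε), (1 + ε) / (1 - ε)] :
      Matrix (Fin 2) (Fin 2) F).det = 1 := by
    rw [Matrix.det_fin_two_of]
    field_simp
    ring
  obtain ⟨g₀, hg₀⟩ : ∃ g₀ : Matrix.SpecialLinearGroup (Fin 2) F,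
      (g₀ : Matrix (Fin 2) (Fin 2) F) =
        !![(1 + ε) / (1 - ε), ε * (2 / (1 - ε)); 2 / (1 - ε), (1 + ε) / (1 - ε)] :=
    ⟨⟨_, hdet⟩, rfl⟩
  refine ⟨g₀, ?_⟩
  intro c v hv heq
  rw [hg₀] at heq
  have e0 := congrFun heq 0
  have e1 := congrFun heq 1
  simp [Matrix.mulVec, dotProduct, Fin.sum_univ_two] at e0 e1
  have hb : (2 : F) / (1 - ε) ≠ 0 := div_ne_zero h2 hε1
  have hv1 : v 1 ≠ 0 := by
    intro h1
    have h0 : (2 / (1 - ε)) * v 0 = 0 := by
      linear_combination e1 + (c - (1 + ε) / (1 - ε)) * h1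
    apply hv
    funext i
    fin_cases i
    · exact (mul_eq_zero.mp h0).resolve_left hb
    · exact h1
  have key : (2 / (1 - ε)) * (ε * v 1 ^ 2 - v 0 ^ 2) = 0 := by
    linear_combination v 1 * e0 - v 0 * e1
  have h3 : ε * v 1 ^ 2 - v 0 ^ 2 = 0 := (mul_eq_zero.mp key).resolve_left hb
  apply hε
  refine ⟨v 0 / v 1, ?_⟩
  field_simp
  linear_combination h3

/-- The non-split torus fits the abstract torus setting. -/
theorem torusLike_nonsplit (hodd : Odd (Fintype.card F))
    {g₀ : Matrix.SpecialLinearGroup (Fin 2) F} (hg₀ : NoEigen (g₀ : Matrix (Fin 2) (Fin 2) F)) :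
    ∃ w : Matrix.SpecialLinearGroup (Fin 2) F,
      TorusLike (negSL : Matrix.SpecialLinearGroup (Fin 2) F) (torSL g₀) w := by
  have hF := ringChar_ne_two_of_odd hodd
  have h2 : (2 : F) ≠ 0 := Ring.two_ne_zero hF
  obtain ⟨c₀, hgen, hord⟩ := exists_gen_torSL hodd hg₀
  have hq1 : 1 < Fintype.card F := Fintype.one_lt_card
  have hc1 : (c₀ : Matrix.SpecialLinearGroup (Fin 2) F) ≠ 1 := by
    intro h
    have : c₀ = 1 := Subtype.ext h
    rw [this, orderOf_one] at hord
    omega
  have hcneg : (c₀ : Matrix.SpecialLinearGroup (Fin 2) F) ≠ negSL := by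
    intro h
    have h1 : c₀ ^ 2 = 1 := by
      apply Subtype.ext
      show (c₀ : Matrix.SpecialLinearGroup (Fin 2) F) ^ 2 = 1
      rw [h, pow_two, negSL_mul_self_mk]
    have h3 := orderOf_dvd_of_pow_eq_one h1
    rw [hord] at h3
    have := Nat.le_of_dvd (by norm_num) h3
    omega
  have hce : NoEigen ((c₀ : Matrix.SpecialLinearGroup (Fin 2) F) : Matrix (Fin 2) (Fin 2) F) := by
    rcases torSL_cases hg₀ c₀.2 with h | h | h
    · exact absurd h hc1
    · exact absurd h hcneg
    · exact h
  obtain ⟨w, hw⟩ := isConj_iff.mp (isConj_inv_of_noEigen hodd hce)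
  refine ⟨w, ?_⟩
  exact
  { z_ne := negSL_ne_one_of_two h2
    z_sq := negSL_mul_self_mk
    z_comm := negSL_comm
    sq_one := fun _ hx => sl2_sq_eq_one h2 hx
    comm := fun s hs t ht => torSL_comm hg₀ hs ht
    cent := by
      intro t ht ht1 htz g hg
      have hte : NoEigen (t : Matrix (Fin 2) (Fin 2) F) := by
        rcases torSL_cases hg₀ ht with h | h | h
        · exact absurd h ht1
        · exact absurd h htz
        · exact h
      exact mem_torSL_of_commute hg₀ ht hte hg
    inv := by
      intro t ht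
      obtain ⟨k, hk⟩ := Subgroup.mem_zpowers_iff.mp (hgen ⟨t, ht⟩)
      have hk' : (c₀ : Matrix.SpecialLinearGroup (Fin 2) F) ^ k = t := by
        have := congrArg (Subtype.val : torSL g₀ → Matrix.SpecialLinearGroup (Fin 2) F) hk
        simpa using this
      rw [← hk', ← conj_zpow, hw, inv_zpow]
    fus := by
      intro t ht g hu
      have htr := sl2_isConj_trace_eq (isConj_iff.mpr ⟨g, rfl⟩ : IsConj t (g * t * g⁻¹))
      exact torSL_trace h2 hg₀ ht hu htr
    z_mem := negSL_mem_torSL g₀ }

end NonSplit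

end Cfsg.Agent.Helper39
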