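import Cfsg.Agent.Helper39.McLPlane
import Cfsg.Agent.Helper80.McLG
import Cfsg.Agent.Helper80.McLH

/-!
# PIECE I ("club") of CALL S5075 (helper71) — helper39

In a thin symmetric transvection system, the sums `x + y` of a non-zero vector `x` of a
hyperbolic plane `P` and a centre `y` of its complement `K` are centres, unless `P = W`.
-/

set_option autoImplicit false
open Module Cfsg.Agent.Helper71.McL

namespace Cfsg.Agent.Helper39.McL

variable {F V : Type*} [Field F] [AddCommGroup V] [Module F V]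

/-- (F2) A functional of a non-zero vector `y` of `K` vanishes on `P`. -/
theorem club_F2 (S : TSys F V) (hT : S.Thin) (hsym : S.Sym) {φ ψ : Dual F V} {v w : V}
    (h1 : S.Θ φ v) (hw : S.Θ ψ w) (hφw : φ w ≠ 0) (hψv : ψ v ≠ 0) {y : V}
    (hy : y ∈ LinearMap.ker φ ⊓ LinearMap.ker ψ) (hy0 : y ≠ 0) {χ : Dual F V} (hχ : S.Θ χ y)
    {q : V} (hq : q ∈ Submodule.span F {v, w}) : χ q = 0 := by
  by_contra hne
  have hχ0 : χ ≠ 0 := by
    rintro rfl
    exact hne rfl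
  have hq0 : q ≠ 0 := by
    rintro rfl
    exact hne (map_zero χ)
  have hyc : S.IsCenter y := ⟨hy0, χ, hχ0, hχ⟩
  have hqc : S.IsCenter q := plane_isCenter S h1 hw hφw hψv hq hq0
  obtain ⟨χ', hχ', hχ'y⟩ := hsym y q hyc hqc ⟨χ, hχ, hne⟩
  exact hχ'y ((((Helper80.McL.plane_struct S hT h1 hw hφw hψv).2 q hq hq0 χ').mp hχ').2 y hy)

/-- (F3) If `x + y` is a centre (`x ∈ P`, `y ∈ K` non-zero) then `y` is a centre. -/
theorem club_F3 (S : TSys F V) (h2 : (2 : F) ≠ 0) (hT : S.Thin) (hsym : S.Sym)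
    {φ ψ : Dual F V} {v w : V} (h1 : S.Θ φ v) (hw : S.Θ ψ w) (hφw : φ w ≠ 0) (hψv : ψ v ≠ 0)
    {x y : V} (hx : x ∈ Submodule.span F {v, w}) (hx0 : x ≠ 0)
    (hy : y ∈ LinearMap.ker φ ⊓ LinearMap.ker ψ) (hy0 : y ≠ 0) (hc : S.IsCenter (x + y)) :
    S.IsCenter y := by
  obtain ⟨-, χ, hχ0, hχ⟩ := hc
  obtain ⟨χP, χK, hsum, hP, hK, -, -⟩ :=
    Helper80.McL.spade S h2 hT hsym h1 hw hφw hψv hx hx0 hy hy0 χ hχ
  by_cases hK0 : χK = 0
  · rw [hK0, add_zero] at hsum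
    rw [← hsum] at hP
    refine ⟨hy0, χ, hχ0, ?_⟩
    have h3 := S.add_right hχ (S.smul_right (-1) hP)
    have e : x + y + (-1 : F) • x = y := by module
    rwa [e] at h3
  · exact ⟨hy0, χK, hK0, hK⟩

/-- One step of (i). -/
theorem club_step (S : TSys F V) {φ ψ : Dual F V} {v w : V} (h1 : S.Θ φ v) (hw : S.Θ ψ w)
    (hφw : φ w ≠ 0) (hψv : ψ v ≠ 0) {x₀ x y : V} (hx₀ : x₀ ∈ Submodule.span F {v, w})
    (hx : x ∈ Submodule.span F {v, w}) (hy : y ∈ LinearMap.ker φ ⊓ LinearMap.ker ψ)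
    (hc : S.IsCenter (x₀ + y)) (hne : ψ x * φ x₀ - φ x * ψ x₀ ≠ 0) : S.IsCenter (x + y) := by
  have hw' : x - x₀ ∈ Submodule.span F {v, w} := Submodule.sub_mem _ hx hx₀
  have hθ := plane_theta S h1 hw hφw hψv hw'
  obtain ⟨hφy, hψy⟩ := mem_K.mp hy
  have hval : (ψ (x - x₀) • φ - φ (x - x₀) • ψ) (x₀ + y) = ψ x * φ x₀ - φ x * ψ x₀ := by
    simp only [LinearMap.sub_apply, LinearMap.smul_apply, smul_eq_mul, map_add, map_sub, hφy,
      hψy]
    ring
  have hθ' := S.smul_left (ψ x * φ x₀ - φ x * ψ x₀)⁻¹ hθ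
  have h3 := isCenter_conj S hc hθ'
  have e : x₀ + y + ((ψ x * φ x₀ - φ x * ψ x₀)⁻¹ • (ψ (x - x₀) • φ - φ (x - x₀) • ψ)) (x₀ + y)
      • (x - x₀) = x + y := by
    rw [LinearMap.smul_apply, hval, smul_eq_mul, inv_mul_cancel₀ hne, one_smul]
    abel
  rwa [e] at h3

/-- (i) If `x₀ + y` is a centre for one non-zero `x₀ ∈ P` then `x + y` is a centre for every
non-zero `x ∈ P`. -/
theorem club_all (S : TSys F V) {φ ψ : Dual F V} {v w : V} (h1 : S.Θ φ v) (hw : S.Θ ψ w)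
    (hφw : φ w ≠ 0) (hψv : ψ v ≠ 0) {x₀ x y : V} (hx₀ : x₀ ∈ Submodule.span F {v, w})
    (hx₀0 : x₀ ≠ 0) (hx : x ∈ Submodule.span F {v, w}) (hx0 : x ≠ 0)
    (hy : y ∈ LinearMap.ker φ ⊓ LinearMap.ker ψ) (hc : S.IsCenter (x₀ + y)) :
    S.IsCenter (x + y) := by
  by_cases hne : ψ x * φ x₀ - φ x * ψ x₀ = 0
  · obtain ⟨x₁, hx₁, hx₁ne⟩ := plane_exists_indep S h1 hw hφw hψv hx₀ hx₀0
    have hc₁ := club_step S h1 hw hφw hψv hx₀ hx₁ hy hc hx₁ne
    obtain ⟨c, rfl⟩ := plane_dep S h1 hw hφw hψv hx hx₀ hx₀0 hne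
    have hc0 : c ≠ 0 := by
      rintro rfl
      exact hx0 (zero_smul F x₀)
    refine club_step S h1 hw hφw hψv hx₁ hx hy hc₁ ?_
    have e : ψ (c • x₀) * φ x₁ - φ (c • x₀) * ψ x₁ = -c * (ψ x₁ * φ x₀ - φ x₁ * ψ x₀) := by
      simp only [map_smul, smul_eq_mul]
      ring
    rw [e]
    exact mul_ne_zero (neg_ne_zero.mpr hc0) hx₁ne
  · exact club_step S h1 hw hφw hψv hx₀ hx hy hc hne

/-- (iii), first half. -/
theorem club_half (S : TSys F V) (hT : S.Thin) (hsym : S.Sym) {φ ψ : Dual F V} {v w : V}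
    (h1 : S.Θ φ v) (hw : S.Θ ψ w) (hφw : φ w ≠ 0) (hψv : ψ v ≠ 0) {y y' : V}
    (hy : y ∈ LinearMap.ker φ ⊓ LinearMap.ker ψ) (hy' : y' ∈ LinearMap.ker φ ⊓ LinearMap.ker ψ)
    (hyc : S.IsCenter y) (hy'c : S.IsCenter y') (hopp : S.Opp y y')
    (hY : ∀ x ∈ Submodule.span F {v, w}, x ≠ 0 → S.IsCenter (x + y)) {x : V}
    (hx : x ∈ Submodule.span F {v, w}) (hx0 : x ≠ 0) :
    S.IsCenter (x + (y + y')) ∧ S.IsCenter (x + (y - y')) := by
  obtain ⟨χ', hχ', hχ'y⟩ := hsym y y' hyc hy'c hopp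
  have hχ'x : χ' x = 0 := club_F2 S hT hsym h1 hw hφw hψv hy' hy'c.1 hχ' hx
  have hxy := hY x hx hx0
  have hχ'xy : χ' (x + y) ≠ 0 := by
    rw [map_add, hχ'x, zero_add]
    exact hχ'y
  obtain ⟨ξ, hξ, hξy'⟩ := hsym y' (x + y) hy'c hxy ⟨χ', hχ', hχ'xy⟩
  have hne : ∀ z ∈ LinearMap.ker φ ⊓ LinearMap.ker ψ, x + z ≠ 0 := by
    intro z hz h0
    obtain ⟨hφz, hψz⟩ := mem_K.mp hz
    have hxz : x = -z := eq_neg_of_add_eq_zero_left h0
    exact hx0 (plane_disj S h1 hw hφw hψv hx (by rw [hxz, map_neg, hφz, neg_zero])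
      (by rw [hxz, map_neg, hψz, neg_zero]))
  constructor
  · have hmem : x + (y + y') ∈ Submodule.span F {x + y, y'} := by
      have e : x + (y + y') = (x + y) + y' := by abel
      rw [e]
      exact Submodule.add_mem _ plane_v_mem plane_w_mem
    exact plane_isCenter S hξ hχ' hξy' hχ'xy hmem (hne _ (Submodule.add_mem _ hy hy'))
  · have hmem : x + (y - y') ∈ Submodule.span F {x + y, y'} := by
      have e : x + (y - y') = (x + y) - y' := by abel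
      rw [e]
      exact Submodule.sub_mem _ plane_v_mem plane_w_mem
    exact plane_isCenter S hξ hχ' hξy' hχ'xy hmem (hne _ (Submodule.sub_mem _ hy hy'))

/-- (iii), the vectors `y + y'` and `y - y'` of a hyperbolic plane. -/
theorem club_pm (S : TSys F V) (h2 : (2 : F) ≠ 0) (hsym : S.Sym) {y y' : V}
    (hyc : S.IsCenter y) (hy'c : S.IsCenter y') (hopp : S.Opp y y') :
    y + y' ≠ 0 ∧ S.IsCenter (y - y') ∧ S.Opp (y + y') (y - y') := by
  obtain ⟨η, hη, hηy'⟩ := hopp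
  obtain ⟨χ', hχ', hχ'y⟩ := hsym y y' hyc hy'c ⟨η, hη, hηy'⟩
  have hηy := S.vanish hη
  have hχ'y' := S.vanish hχ'
  have h1ne : y + y' ≠ 0 := by
    intro h
    have h3 := congrArg η h
    rw [map_add, hηy, zero_add, map_zero] at h3
    exact hηy' h3
  have h2ne : y - y' ≠ 0 := by
    intro h
    have h3 := congrArg η h
    rw [map_sub, hηy, zero_sub, map_zero, neg_eq_zero] at h3
    exact hηy' h3
  have hm1 : y + y' ∈ Submodule.span F {y, y'} := Submodule.add_mem _ plane_v_mem plane_w_mem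
  have hm2 : y - y' ∈ Submodule.span F {y, y'} := Submodule.sub_mem _ plane_v_mem plane_w_mem
  refine ⟨h1ne, plane_isCenter S hη hχ' hηy' hχ'y hm2 h2ne, ?_⟩
  refine ⟨_, plane_theta S hη hχ' hηy' hχ'y hm1, ?_⟩
  have e : (χ' (y + y') • η - η (y + y') • χ') (y - y') = -(2 * (χ' y * η y')) := by
    simp only [LinearMap.sub_apply, LinearMap.smul_apply, smul_eq_mul, map_add, map_sub, hηy,
      hχ'y']
    ring
  rw [e]
  exact neg_ne_zero.mpr (mul_ne_zero h2 (mul_ne_zero hχ'y hηy'))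

/-- (iii) The set `Y` is closed under opposition. -/
theorem club_Y (S : TSys F V) (h2 : (2 : F) ≠ 0) (hT : S.Thin) (hsym : S.Sym)
    {φ ψ : Dual F V} {v w : V} (h1 : S.Θ φ v) (hw : S.Θ ψ w) (hφw : φ w ≠ 0) (hψv : ψ v ≠ 0)
    {y y' : V} (hy : y ∈ LinearMap.ker φ ⊓ LinearMap.ker ψ) (hy0 : y ≠ 0)
    (hy' : y' ∈ LinearMap.ker φ ⊓ LinearMap.ker ψ) (hy'c : S.IsCenter y') (hopp : S.Opp y y')
    (hY : ∀ x ∈ Submodule.span F {v, w}, x ≠ 0 → S.IsCenter (x + y)) :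
    ∀ x ∈ Submodule.span F {v, w}, x ≠ 0 → S.IsCenter (x + y') := by
  have hv0 : v ≠ 0 := by
    rintro rfl
    exact hψv (map_zero ψ)
  have hyc : S.IsCenter y :=
    club_F3 S h2 hT hsym h1 hw hφw hψv plane_v_mem hv0 hy hy0 (hY v plane_v_mem hv0)
  obtain ⟨h1ne, h2c, hopp12⟩ := club_pm S h2 hsym hyc hy'c hopp
  have hY1 : ∀ x ∈ Submodule.span F {v, w}, x ≠ 0 → S.IsCenter (x + (y + y')) :=
    fun x hx hx0 => (club_half S hT hsym h1 hw hφw hψv hy hy' hyc hy'c hopp hY hx hx0).1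
  have hy1 : y + y' ∈ LinearMap.ker φ ⊓ LinearMap.ker ψ := Submodule.add_mem _ hy hy'
  have hy2 : y - y' ∈ LinearMap.ker φ ⊓ LinearMap.ker ψ := Submodule.sub_mem _ hy hy'
  have hy1c : S.IsCenter (y + y') :=
    club_F3 S h2 hT hsym h1 hw hφw hψv plane_v_mem hv0 hy1 h1ne (hY1 v plane_v_mem hv0)
  intro x hx hx0
  have hx2 : (2 : F) • x ∈ Submodule.span F {v, w} := Submodule.smul_mem _ _ hx
  have hx20 : (2 : F) • x ≠ 0 := smul_ne_zero h2 hx0
  have h3 := (club_half S hT hsym h1 hw hφw hψv hy1 hy2 hy1c h2c hopp12 hY1 hx2 hx20).2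
  have e : (2 : F) • x + (y + y' - (y - y')) = (2 : F) • (x + y') := by module
  rw [e] at h3
  exact isCenter_of_smul S h3

theorem club [Module.Finite F V] (S : TSys F V) (h2 : (2 : F) ≠ 0) (W : Submodule F V) (hG : S.Good W) (hT : S.Thin) (hsym : S.Sym) {φ ψ : Dual F V} {v w : V} (h1 : S.Θ φ v) (hw : S.Θ ψ w) (hφw : φ w ≠ 0) (hψv : ψ v ≠ 0) : Submodule.span F {v, w} = W ∨ ∀ y ∈ LinearMap.ker φ ⊓ LinearMap.ker ψ, S.IsCenter y → ∀ x ∈ Submodule.span F {v, w}, x ≠ 0 → S.IsCenter (x + y) := by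
  classical
  have hcompl := (Helper80.McL.plane_struct S hT h1 hw hφw hψv).1
  have hv0 : v ≠ 0 := by
    rintro rfl
    exact hψv (map_zero ψ)
  have hw0 : w ≠ 0 := by
    rintro rfl
    exact hφw (map_zero φ)
  have hφ0 : φ ≠ 0 := by
    rintro rfl
    exact hφw rfl
  have hψ0 : ψ ≠ 0 := by
    rintro rfl
    exact hψv rfl
  have hPW : Submodule.span F {v, w} ≤ W := by
    rw [Submodule.span_le]
    intro z hz
    rcases hz with rfl | hz
    · exact hG.center_mem φ z h1 hφ0 hv0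
    · rw [Set.mem_singleton_iff] at hz
      subst hz
      exact hG.center_mem ψ z hw hψ0 hw0
  have hvFix : v ∉ S.Fix := hG.nc φ v h1 hφ0 hv0
  have hdec : ∀ u : V, ∃ x ∈ Submodule.span F {v, w},
      ∃ y ∈ LinearMap.ker φ ⊓ LinearMap.ker ψ, u = x + y := by
    intro u
    have hu : u ∈ Submodule.span F {v, w} ⊔ (LinearMap.ker φ ⊓ LinearMap.ker ψ) := by
      rw [hcompl.sup_eq_top]
      trivial
    obtain ⟨x, hx, y, hy, rfl⟩ := Submodule.mem_sup.mp hu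
    exact ⟨x, hx, y, hy, rfl⟩
  by_cases hA : ∀ u : V, S.IsCenter u →
      u ∈ Submodule.span F {v, w} ∨ u ∈ LinearMap.ker φ ⊓ LinearMap.ker ψ
  · left
    have hInv : S.Inv (Submodule.span F {v, w}) := by
      intro ψ' w' hθ x hx
      by_cases hz : ψ' x = 0
      · rw [hz, zero_smul, add_zero]
        exact hx
      have hψ'0 : ψ' ≠ 0 := by
        rintro rfl
        exact hz rfl
      by_cases hw'0 : w' = 0
      · rw [hw'0, smul_zero, add_zero]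
        exact hx
      rcases hA w' ⟨hw'0, ψ', hψ'0, hθ⟩ with h | h
      · exact Submodule.add_mem _ hx (Submodule.smul_mem _ _ h)
      · exact absurd (club_F2 S hT hsym h1 hw hφw hψv h hw'0 hθ hx) hz
    rcases hG.min _ hPW hInv with h | h
    · exact h
    · exact absurd (h plane_v_mem) hvFix
  · right
    push Not at hA
    obtain ⟨u, huc, huP, huK⟩ := hA
    obtain ⟨x₀, hx₀, y₀, hy₀, rfl⟩ := hdec u
    have hx₀0 : x₀ ≠ 0 := by
      rintro rfl
      rw [zero_add] at huK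
      exact huK hy₀
    have hy₀0 : y₀ ≠ 0 := by
      rintro rfl
      rw [add_zero] at huP
      exact huP hx₀
    have hYc : ∀ y : V, (y ∈ LinearMap.ker φ ⊓ LinearMap.ker ψ ∧ y ≠ 0 ∧
        ∀ x ∈ Submodule.span F {v, w}, x ≠ 0 → S.IsCenter (x + y)) → S.IsCenter y :=
      fun y hy => club_F3 S h2 hT hsym h1 hw hφw hψv plane_v_mem hv0 hy.1 hy.2.1
        (hy.2.2 v plane_v_mem hv0)
    have hclos : ∀ y : V, (y ∈ LinearMap.ker φ ⊓ LinearMap.ker ψ ∧ y ≠ 0 ∧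
        ∀ x ∈ Submodule.span F {v, w}, x ≠ 0 → S.IsCenter (x + y)) →
        ∀ y' ∈ LinearMap.ker φ ⊓ LinearMap.ker ψ, S.IsCenter y' → S.Opp y' y →
        (y' ∈ LinearMap.ker φ ⊓ LinearMap.ker ψ ∧ y' ≠ 0 ∧
          ∀ x ∈ Submodule.span F {v, w}, x ≠ 0 → S.IsCenter (x + y')) := by
      intro y hy y' hy' hy'c hopp
      have hopp' := hsym y' y hy'c (hYc y hy) hopp
      exact ⟨hy', hy'c.1,
        club_Y S h2 hT hsym h1 hw hφw hψv hy.1 hy.2.1 hy' hy'c hopp' hy.2.2⟩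
    have hvan : ∀ y' ∈ LinearMap.ker φ ⊓ LinearMap.ker ψ, y' ≠ 0 →
        ¬ (y' ∈ LinearMap.ker φ ⊓ LinearMap.ker ψ ∧ y' ≠ 0 ∧
          ∀ x ∈ Submodule.span F {v, w}, x ≠ 0 → S.IsCenter (x + y')) →
        ∀ χ : Dual F V, S.Θ χ y' →
        ∀ z ∈ Submodule.span F {v, w} ⊔ Submodule.span F {y : V |
          y ∈ LinearMap.ker φ ⊓ LinearMap.ker ψ ∧ y ≠ 0 ∧
          ∀ x ∈ Submodule.span F {v, w}, x ≠ 0 → S.IsCenter (x + y)}, χ z = 0 := by
      intro y' hy' hy'0 hy'Y χ hχ z hz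
      by_cases hχ0 : χ = 0
      · rw [hχ0]
        rfl
      have hy'c : S.IsCenter y' := ⟨hy'0, χ, hχ0, hχ⟩
      have hle : Submodule.span F {v, w} ⊔ Submodule.span F {y : V |
          y ∈ LinearMap.ker φ ⊓ LinearMap.ker ψ ∧ y ≠ 0 ∧
          ∀ x ∈ Submodule.span F {v, w}, x ≠ 0 → S.IsCenter (x + y)} ≤ LinearMap.ker χ := by
        refine sup_le ?_ (Submodule.span_le.mpr ?_)
        · intro q hq
          exact LinearMap.mem_ker.mpr (club_F2 S hT hsym h1 hw hφw hψv hy' hy'0 hχ hq)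
        · intro y hy
          by_contra hne
          exact hy'Y (hclos y hy y' hy' hy'c ⟨χ, hχ, fun h => hne (LinearMap.mem_ker.mpr h)⟩)
      exact LinearMap.mem_ker.mp (hle hz)
    have hW'W : Submodule.span F {v, w} ⊔ Submodule.span F {y : V |
        y ∈ LinearMap.ker φ ⊓ LinearMap.ker ψ ∧ y ≠ 0 ∧
        ∀ x ∈ Submodule.span F {v, w}, x ≠ 0 → S.IsCenter (x + y)} ≤ W := by
      refine sup_le hPW (Submodule.span_le.mpr ?_)
      intro y hy
      obtain ⟨hy0, χ, hχ0, hχ⟩ := hYc y hy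
      exact hG.center_mem χ y hχ hχ0 hy0
    have hInv : S.Inv (Submodule.span F {v, w} ⊔ Submodule.span F {y : V |
        y ∈ LinearMap.ker φ ⊓ LinearMap.ker ψ ∧ y ≠ 0 ∧
        ∀ x ∈ Submodule.span F {v, w}, x ≠ 0 → S.IsCenter (x + y)}) := by
      intro ψ' w' hθ z hz
      by_cases hzz : ψ' z = 0
      · rw [hzz, zero_smul, add_zero]
        exact hz
      have hψ'0 : ψ' ≠ 0 := by
        rintro rfl
        exact hzz rfl
      by_cases hw'0 : w' = 0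
      · rw [hw'0, smul_zero, add_zero]
        exact hz
      have hw'c : S.IsCenter w' := ⟨hw'0, ψ', hψ'0, hθ⟩
      refine Submodule.add_mem _ hz (Submodule.smul_mem _ _ ?_)
      obtain ⟨x, hx, y, hy, rfl⟩ := hdec w'
      by_cases hy0 : y = 0
      · rw [hy0, add_zero]
        exact Submodule.mem_sup_left hx
      by_cases hx0 : x = 0
      · rw [hx0, zero_add] at hθ ⊢
        by_cases hyY : (y ∈ LinearMap.ker φ ⊓ LinearMap.ker ψ ∧ y ≠ 0 ∧
            ∀ x ∈ Submodule.span F {v, w}, x ≠ 0 → S.IsCenter (x + y))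
        · exact Submodule.mem_sup_right (Submodule.subset_span hyY)
        · exact absurd (hvan y hy hy0 hyY ψ' hθ z hz) hzz
      · have hyY : (y ∈ LinearMap.ker φ ⊓ LinearMap.ker ψ ∧ y ≠ 0 ∧
            ∀ x ∈ Submodule.span F {v, w}, x ≠ 0 → S.IsCenter (x + y)) :=
          ⟨hy, hy0, fun x' hx' hx'0 => club_all S h1 hw hφw hψv hx hx0 hx' hx'0 hy hw'c⟩
        exact Submodule.add_mem _ (Submodule.mem_sup_left hx)
          (Submodule.mem_sup_right (Submodule.subset_span hyY))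
    have hW' : Submodule.span F {v, w} ⊔ Submodule.span F {y : V |
        y ∈ LinearMap.ker φ ⊓ LinearMap.ker ψ ∧ y ≠ 0 ∧
        ∀ x ∈ Submodule.span F {v, w}, x ≠ 0 → S.IsCenter (x + y)} = W := by
      rcases hG.min _ hW'W hInv with h | h
      · exact h
      · exact absurd (h (Submodule.mem_sup_left plane_v_mem)) hvFix
    intro y' hy' hy'c x hx hx0
    have hy'Y : (y' ∈ LinearMap.ker φ ⊓ LinearMap.ker ψ ∧ y' ≠ 0 ∧
        ∀ x ∈ Submodule.span F {v, w}, x ≠ 0 → S.IsCenter (x + y')) := by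
      by_contra hnot
      obtain ⟨hy'0, χ, hχ0, hχ⟩ := hy'c
      obtain ⟨t, ht, hχt⟩ := hG.not_type2 χ y' hχ hχ0 hy'0
      rw [← hW'] at ht
      exact hχt (hvan y' hy' hy'0 hnot χ hχ t ht)
    exact hy'Y.2.2 x hx hx0

end Cfsg.Agent.Helper39.McL
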