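import Mathlib
import Cfsg.Prelude.Def_SporadicB
import Cfsg.Agent.S0256

/-!
# S2132 piece A8SL: `SL₄(2) ≅ A₈`
-/

set_option autoImplicit false

namespace Cfsg.Agent.Helper39

theorem sl4_two_equiv_alt8 :
    Nonempty (Matrix.SpecialLinearGroup (Fin 4) (ZMod 2) ≃* ↥(alternatingGroup (Fin 8))) := by
  have : Fact (Nat.Prime 2) := ⟨Nat.prime_two⟩
  have hF : Fintype.card (ZMod 2) = 2 := ZMod.card 2
  obtain ⟨e⟩ := Cfsg.Agent.S0256.result (F := ZMod 2) hF
  have hc : Subgroup.center (Matrix.SpecialLinearGroup (Fin 4) (ZMod 2)) = ⊥ := by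
    rw [eq_bot_iff]
    intro A hA
    rw [Matrix.SpecialLinearGroup.mem_center_iff] at hA
    obtain ⟨r, hr, hrA⟩ := hA
    have hr0 : r ≠ 0 := by
      rintro rfl
      simp at hr
    have hr1 : r = 1 := by
      have := FiniteField.pow_card_sub_one_eq_one r hr0
      rw [hF] at this
      simpa using this
    rw [Subgroup.mem_bot]
    apply Subtype.ext
    rw [← hrA, hr1]
    simp
  exact ⟨(QuotientGroup.quotientBot.symm.trans (QuotientGroup.quotientMulEquivOfEq hc.symm)).trans e⟩

end Cfsg.Agent.Helper39
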