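import Mathlib

/-!
# S2132 piece CARD: a group with a surjection onto `A₈` with kernel `{1, z}` has order `40320`
-/

set_option autoImplicit false

namespace Cfsg.Agent.Helper39

theorem card_of_ker_pair {C : Type*} [Group C] [Finite C] (z : C) (hz : z ≠ 1)
    (φ : C →* ↥(alternatingGroup (Fin 8))) (hφ : Function.Surjective φ)
    (hker : ∀ g : C, φ g = 1 ↔ g = 1 ∨ g = z) : Nat.card C = 40320 := by
  have h1 : Nat.card C = Nat.card (C ⧸ φ.ker) * Nat.card φ.ker :=
    Subgroup.card_eq_card_quotient_mul_card_subgroup φ.ker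
  have h2 : Nat.card (C ⧸ φ.ker) = Nat.card ↥(alternatingGroup (Fin 8)) :=
    Nat.card_congr (QuotientGroup.quotientKerEquivOfSurjective φ hφ).toEquiv
  have h3 : Nat.card ↥(alternatingGroup (Fin 8)) = 20160 := by
    rw [nat_card_alternatingGroup, Nat.card_eq_fintype_card, Fintype.card_fin]
    decide
  have h4 : Nat.card φ.ker = 2 := by
    have h5 : (φ.ker : Set C) = {1, z} := by
      ext g
      simp only [SetLike.mem_coe, MonoidHom.mem_ker, hker, Set.mem_insert_iff,
        Set.mem_singleton_iff]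
    have h6 : Nat.card φ.ker = (φ.ker : Set C).ncard := (Nat.card_coe_set_eq _)
    rw [h6, h5, Set.ncard_pair (Ne.symm hz)]
  rw [h1, h2, h3, h4]

end Cfsg.Agent.Helper39
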