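import Cfsg.Agent.Helper39.McLPlane
import Cfsg.Agent.Helper80.McLG
import Cfsg.Agent.Helper80.McLG2
import Cfsg.Agent.Helper80.McLH

/-!
# PIECE K1 ("mixed line") of CALL S5075 (helper71) — helper39

The lines `L (x + y)` for `x` in a hyperbolic plane and `y` in a subspace `U'` of its
complement on which the lines `L y` are parametrised linearly by `γ`.
-/

set_option autoImplicit false
open Module Cfsg.Agent.Helper71.McL

namespace Cfsg.Agent.Helper39.McL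

variable {F V : Type*} [Field F] [AddCommGroup V] [Module F V]

section Mixed

variable [Module.Finite F V] (S : TSys F V) (h2 : (2 : F) ≠ 0) (W : Submodule F V)
  (hG : S.Good W) (hT : S.Thin) (hsym : S.Sym) (hall : ∀ x ∈ W, x ≠ 0 → S.IsCenter x)
  (hadd : ∀ u v : V, u ∈ W → v ∈ W → u + v ≠ 0 → ∀ χ : Dual F V, S.Θ χ (u + v) →
    ∃ φ ψ : Dual F V, S.Θ φ u ∧ S.Θ ψ v ∧ χ = φ + ψ)
  {φ ψ : Dual F V} {e f : V} (h1 : S.Θ φ e) (hf : S.Θ ψ f) (hφf : φ f ≠ 0) (hψe : ψ e ≠ 0)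
  (γ : V →ₗ[F] Dual F V) (U' : Submodule F V)
  (hU'K : U' ≤ LinearMap.ker φ ⊓ LinearMap.ker ψ) (hU'W : U' ≤ W)
  (hγ : ∀ y ∈ U', y ≠ 0 → ∀ χ : Dual F V, (S.Θ χ y ↔ ∃ c : F, χ = c • γ y))

include hG h1 hf hφf hψe in
theorem mix_P_le : Submodule.span F {e, f} ≤ W := by
  have he0 : e ≠ 0 := by
    rintro rfl
    exact hψe (map_zero ψ)
  have hf0 : f ≠ 0 := by
    rintro rfl
    exact hφf (map_zero φ)
  have hφ0 : φ ≠ 0 := by
    rintro rfl
    exact hφf rfl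
  have hψ0 : ψ ≠ 0 := by
    rintro rfl
    exact hψe rfl
  rw [Submodule.span_le]
  intro z hz
  rcases hz with rfl | hz
  · exact hG.center_mem φ z h1 hφ0 he0
  · rw [Set.mem_singleton_iff] at hz
    subst hz
    exact hG.center_mem ψ z hf hψ0 hf0

include hT h1 hf hφf hψe in
/-- `L x = F • β x` for a non-zero `x ∈ P`. -/
theorem mix_Lx {x : V} (hx : x ∈ Submodule.span F {e, f}) (hx0 : x ≠ 0) (χ : Dual F V) :
    S.Θ χ x ↔ ∃ c : F, χ = c • planeBeta φ ψ x := by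
  constructor
  · intro hχ
    exact hT x _ χ (plane_theta S h1 hf hφf hψe hx) hχ (plane_beta_ne S h1 hf hφf hψe hx hx0) hx0
  · rintro ⟨c, rfl⟩
    exact S.smul_left c (plane_theta S h1 hf hφf hψe hx)

include hall hU'W hγ in
theorem mix_gamma_ne {y : V} (hy : y ∈ U') (hy0 : y ≠ 0) : γ y ≠ 0 := by
  intro h
  obtain ⟨-, χ, hχ0, hχ⟩ := hall y (hU'W hy) hy0
  obtain ⟨c, rfl⟩ := (hγ y hy hy0 χ).mp hχ
  rw [h, smul_zero] at hχ0
  exact hχ0 rfl

include hT hsym h1 hf hφf hψe hU'K hγ in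
theorem mix_gamma_P {y : V} (hy : y ∈ U') {q : V} (hq : q ∈ Submodule.span F {e, f}) :
    γ y q = 0 := by
  by_cases hy0 : y = 0
  · rw [hy0, map_zero]
    rfl
  have hθ : S.Θ (γ y) y := (hγ y hy hy0 (γ y)).mpr ⟨1, (one_smul F _).symm⟩
  by_contra hne
  have hγ0 : γ y ≠ 0 := by
    intro h
    rw [h] at hne
    exact hne rfl
  have hq0 : q ≠ 0 := by
    rintro rfl
    exact hne (map_zero _)
  have hyc : S.IsCenter y := ⟨hy0, γ y, hγ0, hθ⟩
  have hqc : S.IsCenter q := plane_isCenter S h1 hf hφf hψe hq hq0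
  obtain ⟨χ', hχ', hχ'y⟩ := hsym y q hyc hqc ⟨γ y, hθ, hne⟩
  exact hχ'y ((((Helper80.McL.plane_struct S hT h1 hf hφf hψe).2 q hq hq0 χ').mp hχ').2 y
    (hU'K hy))

include h1 hf hφf hψe in
theorem mix_beta_P {x : V} (hx : x ∈ Submodule.span F {e, f}) (hx0 : x ≠ 0) :
    ∃ q ∈ Submodule.span F {e, f}, planeBeta φ ψ x q ≠ 0 := by
  obtain ⟨q, hq, hne⟩ := plane_exists_indep S h1 hf hφf hψe hx hx0
  refine ⟨q, hq, ?_⟩
  rw [planeBeta_apply]
  intro h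
  apply hne
  linear_combination -h

include hT hsym hall h1 hf hφf hψe hU'K hU'W hγ in
/-- Independence of `β x` and the values of `γ`. -/
theorem mix_ind {x : V} (hx : x ∈ Submodule.span F {e, f}) (hx0 : x ≠ 0) {z : V} (hz : z ∈ U')
    (a : F) (h : a • planeBeta φ ψ x + γ z = 0) : a = 0 ∧ z = 0 := by
  obtain ⟨q, hq, hne⟩ := mix_beta_P S h1 hf hφf hψe hx hx0
  have hzq : γ z q = 0 := mix_gamma_P S hT hsym h1 hf hφf hψe γ U' hU'K hγ hz hq
  have h3 := congrArg (fun χ : Dual F V => χ q) h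
  simp only [LinearMap.add_apply, LinearMap.smul_apply, smul_eq_mul, hzq, add_zero,
    LinearMap.zero_apply] at h3
  have ha : a = 0 := by
    rcases mul_eq_zero.mp h3 with h' | h'
    · exact h'
    · exact absurd h' hne
  refine ⟨ha, ?_⟩
  rw [ha, zero_smul, zero_add] at h
  by_contra hz0
  exact mix_gamma_ne S W hall γ U' hU'W hγ hz hz0 h

include hT hsym hall h1 hf hφf hψe hU'K hU'W hγ in
theorem mix_gen_ne {x : V} (hx : x ∈ Submodule.span F {e, f}) (hx0 : x ≠ 0) {y : V}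
    (hy : y ∈ U') (r : F) : planeBeta φ ψ x + r • γ y ≠ 0 := by
  intro h
  have h' : (1 : F) • planeBeta φ ψ x + γ (r • y) = 0 := by
    rw [one_smul, map_smul]
    exact h
  exact one_ne_zero
    (mix_ind S W hT hsym hall h1 hf hφf hψe γ U' hU'K hU'W hγ hx hx0 (U'.smul_mem r hy) 1 h').1

include h2 hG hT hsym hall h1 hf hφf hψe hU'K hU'W hγ in
/-- Existence of the ratio `r (x, y)`. -/
theorem mix_exists {x : V} (hx : x ∈ Submodule.span F {e, f}) (hx0 : x ≠ 0) {y : V}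
    (hy : y ∈ U') (hy0 : y ≠ 0) :
    ∃ r : F, r ≠ 0 ∧ S.Θ (planeBeta φ ψ x + r • γ y) (x + y) := by
  have hxW : x ∈ W := mix_P_le S W hG h1 hf hφf hψe hx
  have hyK := hU'K hy
  have hxy0 : x + y ≠ 0 := plane_add_ne S h1 hf hφf hψe hx hx0 hyK
  obtain ⟨-, χ₀, hχ₀0, hχ₀⟩ := hall (x + y) (W.add_mem hxW (hU'W hy)) hxy0
  obtain ⟨χP, χK, hsum, hP, hK, -, -⟩ :=
    Helper80.McL.spade S h2 hT hsym h1 hf hφf hψe hx hx0 hyK hy0 χ₀ hχ₀
  obtain ⟨a, rfl⟩ := (mix_Lx S hT h1 hf hφf hψe hx hx0 χP).mp hP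
  obtain ⟨b, rfl⟩ := (hγ y hy hy0 χK).mp hK
  obtain ⟨hφy, hψy⟩ := mem_K.mp hyK
  have ha : a ≠ 0 := by
    rintro rfl
    rw [zero_smul, zero_add] at hsum
    rw [← hsum] at hK
    obtain ⟨c, hc⟩ := Helper80.McL.thin_dual S W hG hT hsym hK hχ₀ hχ₀0 hy0
    have hxe : x = (c - 1) • y := by
      rw [sub_smul, one_smul, ← hc]
      abel
    exact hx0 (plane_disj S h1 hf hφf hψe hx (by rw [hxe, map_smul, hφy, smul_zero])
      (by rw [hxe, map_smul, hψy, smul_zero]))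
  have hb : b ≠ 0 := by
    rintro rfl
    rw [zero_smul, add_zero] at hsum
    rw [← hsum] at hP
    obtain ⟨c, hc⟩ := Helper80.McL.thin_dual S W hG hT hsym hP hχ₀ hχ₀0 hx0
    have hye : y = (c - 1) • x := by
      rw [sub_smul, one_smul, ← hc]
      abel
    have hyP : y ∈ Submodule.span F {e, f} := by
      rw [hye]
      exact Submodule.smul_mem _ _ hx
    exact hy0 (plane_disj S h1 hf hφf hψe hyP hφy hψy)
  refine ⟨b / a, div_ne_zero hb ha, ?_⟩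
  have h3 := S.smul_left a⁻¹ hχ₀
  have e3 : a⁻¹ • χ₀ = planeBeta φ ψ x + (b / a) • γ y := by
    rw [hsum, smul_add, smul_smul, smul_smul, inv_mul_cancel₀ ha, one_smul, div_eq_inv_mul]
  rwa [e3] at h3

include hG hT hsym hall h1 hf hφf hψe hU'K hU'W hγ in
/-- The line `L (x + y)`. -/
theorem mix_line {x : V} (hx : x ∈ Submodule.span F {e, f}) (hx0 : x ≠ 0) {y : V}
    (hy : y ∈ U') {r : F} (hr : S.Θ (planeBeta φ ψ x + r • γ y) (x + y)) (χ : Dual F V) :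
    S.Θ χ (x + y) ↔ ∃ c : F, χ = c • (planeBeta φ ψ x + r • γ y) := by
  constructor
  · intro hχ
    exact hT (x + y) _ χ hr hχ
      (mix_gen_ne S W hT hsym hall h1 hf hφf hψe γ U' hU'K hU'W hγ hx hx0 hy r)
      (plane_add_ne S h1 hf hφf hψe hx hx0 (hU'K hy))
  · rintro ⟨c, rfl⟩
    exact S.smul_left c hr

include hG hT hsym hall hadd h1 hf hφf hψe hU'K hU'W hγ in
/-- One half of the independence of `r` from `x`. -/
theorem mix_x_half {x x' : V} (hx : x ∈ Submodule.span F {e, f})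
    (hx' : x' ∈ Submodule.span F {e, f}) (hne : ψ x * φ x' - φ x * ψ x' ≠ 0) {y : V}
    (hy : y ∈ U') (hy0 : y ≠ 0) {r₂ r₃ : F}
    (hr₂ : S.Θ (planeBeta φ ψ x' + r₂ • γ y) (x' + y))
    (hr₃ : S.Θ (planeBeta φ ψ (x + x') + r₃ • γ y) ((x + x') + y)) : r₃ = r₂ := by
  have hx0 : x ≠ 0 := by
    rintro rfl
    apply hne
    simp only [map_zero, zero_mul, sub_zero]
  have hx'0 : x' ≠ 0 := by
    rintro rfl
    apply hne
    simp only [map_zero, mul_zero, sub_zero]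
  have hPW := mix_P_le S W hG h1 hf hφf hψe
  have hyK := hU'K hy
  have hsum0 : x + (x' + y) ≠ 0 := by
    rw [← add_assoc]
    refine plane_add_ne S h1 hf hφf hψe (Submodule.add_mem _ hx hx') ?_ hyK
    intro h0
    apply hne
    have hxx : x = -x' := eq_neg_of_add_eq_zero_left h0
    rw [hxx]
    simp only [map_neg]
    ring
  rw [add_assoc] at hr₃
  obtain ⟨φ₁, ψ₁, hφ₁, hψ₁, hsum⟩ := hadd x (x' + y) (hPW hx) (W.add_mem (hPW hx') (hU'W hy))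
    hsum0 _ hr₃
  obtain ⟨a, rfl⟩ := (mix_Lx S hT h1 hf hφf hψe hx hx0 φ₁).mp hφ₁
  obtain ⟨b, rfl⟩ := (mix_line S W hG hT hsym hall h1 hf hφf hψe γ U' hU'K hU'W hγ hx' hx'0 hy
    hr₂ ψ₁).mp hψ₁
  have hγx : γ y x = 0 := mix_gamma_P S hT hsym h1 hf hφf hψe γ U' hU'K hγ hy hx
  -- evaluate at `x`
  have h3 := congrArg (fun χ : Dual F V => χ x) hsum
  simp only [planeBeta_add, LinearMap.add_apply, LinearMap.smul_apply, smul_eq_mul,
    planeBeta_apply, hγx, mul_zero, add_zero] at h3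
  have hb : b = 1 := by
    have h4 : (b - 1) * (ψ x * φ x' - φ x * ψ x') = 0 := by linear_combination h3
    rcases mul_eq_zero.mp h4 with h5 | h5
    · linear_combination h5
    · exact absurd h5 hne
  rw [hb, one_smul] at hsum
  -- compare
  have h6 : (a - 1) • planeBeta φ ψ x + γ ((r₂ - r₃) • y) = 0 := by
    rw [map_smul]
    rw [planeBeta_add] at hsum
    linear_combination (norm := module) -hsum
  have h8 := (mix_ind S W hT hsym hall h1 hf hφf hψe γ U' hU'K hU'W hγ hx hx0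
    (U'.smul_mem _ hy) _ h6).2
  rcases smul_eq_zero.mp h8 with h9 | h9
  · linear_combination -h9
  · exact absurd h9 hy0

include h2 hG hT hsym hall hadd h1 hf hφf hψe hU'K hU'W hγ in
/-- `r` does not depend on `x`, independent case. -/
theorem mix_x_indep {x x' : V} (hx : x ∈ Submodule.span F {e, f})
    (hx' : x' ∈ Submodule.span F {e, f}) (hne : ψ x * φ x' - φ x * ψ x' ≠ 0) {y : V}
    (hy : y ∈ U') (hy0 : y ≠ 0) {r₁ r₂ : F}
    (hr₁ : S.Θ (planeBeta φ ψ x + r₁ • γ y) (x + y))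
    (hr₂ : S.Θ (planeBeta φ ψ x' + r₂ • γ y) (x' + y)) : r₁ = r₂ := by
  have hxx' : x + x' ∈ Submodule.span F {e, f} := Submodule.add_mem _ hx hx'
  have hxx'0 : x + x' ≠ 0 := by
    intro h0
    apply hne
    have hxx : x = -x' := eq_neg_of_add_eq_zero_left h0
    rw [hxx]
    simp only [map_neg]
    ring
  obtain ⟨r₃, -, hr₃⟩ := mix_exists S h2 W hG hT hsym hall h1 hf hφf hψe γ U' hU'K hU'W hγ
    hxx' hxx'0 hy hy0
  have e1 : r₃ = r₂ := mix_x_half S W hG hT hsym hall hadd h1 hf hφf hψe γ U' hU'K hU'W hγ hx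
    hx' hne hy hy0 hr₂ hr₃
  have hne' : ψ x' * φ x - φ x' * ψ x ≠ 0 := by
    intro h
    apply hne
    linear_combination -h
  have hr₃' : S.Θ (planeBeta φ ψ (x' + x) + r₃ • γ y) ((x' + x) + y) := by
    rw [add_comm x' x]
    exact hr₃
  have e2 : r₃ = r₁ := mix_x_half S W hG hT hsym hall hadd h1 hf hφf hψe γ U' hU'K hU'W hγ hx'
    hx hne' hy hy0 hr₁ hr₃'
  rw [← e2, e1]

include h2 hG hT hsym hall hadd h1 hf hφf hψe hU'K hU'W hγ in
/-- `r` does not depend on `x`. -/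
theorem mix_x {x x' : V} (hx : x ∈ Submodule.span F {e, f}) (hx0 : x ≠ 0)
    (hx' : x' ∈ Submodule.span F {e, f}) (hx'0 : x' ≠ 0) {y : V}
    (hy : y ∈ U') (hy0 : y ≠ 0) {r₁ r₂ : F}
    (hr₁ : S.Θ (planeBeta φ ψ x + r₁ • γ y) (x + y))
    (hr₂ : S.Θ (planeBeta φ ψ x' + r₂ • γ y) (x' + y)) : r₁ = r₂ := by
  by_cases hne : ψ x * φ x' - φ x * ψ x' = 0
  · obtain ⟨c, rfl⟩ := plane_dep S h1 hf hφf hψe hx hx' hx'0 hne
    have hc0 : c ≠ 0 := by
      rintro rfl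
      exact hx0 (zero_smul F x')
    obtain ⟨x'', hx'', hne''⟩ := plane_exists_indep S h1 hf hφf hψe hx' hx'0
    have hx''0 : x'' ≠ 0 := by
      rintro rfl
      apply hne''
      simp only [map_zero, zero_mul, sub_zero]
    obtain ⟨r'', -, hr''⟩ := mix_exists S h2 W hG hT hsym hall h1 hf hφf hψe γ U' hU'K hU'W hγ
      hx'' hx''0 hy hy0
    have e1 : r'' = r₂ := mix_x_indep S h2 W hG hT hsym hall hadd h1 hf hφf hψe γ U' hU'K hU'W
      hγ hx'' hx' hne'' hy hy0 hr'' hr₂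
    have hne3 : ψ x'' * φ (c • x') - φ x'' * ψ (c • x') ≠ 0 := by
      have e : ψ x'' * φ (c • x') - φ x'' * ψ (c • x') = c * (ψ x'' * φ x' - φ x'' * ψ x') := by
        simp only [map_smul, smul_eq_mul]
        ring
      rw [e]
      exact mul_ne_zero hc0 hne''
    have e2 : r'' = r₁ := mix_x_indep S h2 W hG hT hsym hall hadd h1 hf hφf hψe γ U' hU'K hU'W
      hγ hx'' hx hne3 hy hy0 hr'' hr₁
    rw [← e2, e1]
  · exact mix_x_indep S h2 W hG hT hsym hall hadd h1 hf hφf hψe γ U' hU'K hU'W hγ hx hx' hne hy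
      hy0 hr₁ hr₂

include h2 hG hT hsym hall hadd h1 hf hφf hψe hU'K hU'W hγ in
/-- `r` does not depend on `y`: proportional case. -/
theorem mix_y_smul {x : V} (hx : x ∈ Submodule.span F {e, f}) (hx0 : x ≠ 0) {y : V}
    (hy : y ∈ U') (hy0 : y ≠ 0) {c : F} (hc : c ≠ 0) {r₁ r₂ : F}
    (hr₁ : S.Θ (planeBeta φ ψ x + r₁ • γ y) (x + y))
    (hr₂ : S.Θ (planeBeta φ ψ x + r₂ • γ (c • y)) (x + c • y)) : r₁ = r₂ := by
  have h3 := S.smul_left c⁻¹ (S.smul_right c⁻¹ hr₂)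
  have e1 : c⁻¹ • (x + c • y) = c⁻¹ • x + y := by
    rw [smul_add, smul_smul, inv_mul_cancel₀ hc, one_smul]
  have e2 : c⁻¹ • (planeBeta φ ψ x + r₂ • γ (c • y)) = planeBeta φ ψ (c⁻¹ • x) + r₂ • γ y := by
    rw [planeBeta_smul, map_smul, smul_add, smul_smul, smul_smul, mul_assoc, mul_comm r₂ c,
      ← mul_assoc, inv_mul_cancel₀ hc, one_mul]
  rw [e1, e2] at h3
  exact mix_x S h2 W hG hT hsym hall hadd h1 hf hφf hψe γ U' hU'K hU'W hγ hx hx0
    (Submodule.smul_mem _ _ hx) (smul_ne_zero (inv_ne_zero hc) hx0) hy hy0 hr₁ h3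

include hG hT hsym hall hadd h1 hf hφf hψe hU'K hU'W hγ in
/-- One half of the independence of `r` from `y`. -/
theorem mix_y_half {x : V} (hx : x ∈ Submodule.span F {e, f}) (hx0 : x ≠ 0) {y y' : V}
    (hy : y ∈ U') (hy0 : y ≠ 0) (hy' : y' ∈ U') (hy'0 : y' ≠ 0) (hind : ¬ ∃ c : F, y' = c • y)
    {r₁ r₃ : F} (hr₁ : S.Θ (planeBeta φ ψ x + r₁ • γ y) (x + y))
    (hr₃ : S.Θ (planeBeta φ ψ x + r₃ • γ (y + y')) (x + (y + y'))) : r₃ = r₁ := by
  have hPW := mix_P_le S W hG h1 hf hφf hψe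
  have hsum0 : (x + y) + y' ≠ 0 := by
    rw [add_assoc]
    exact plane_add_ne S h1 hf hφf hψe hx hx0 (hU'K (U'.add_mem hy hy'))
  rw [← add_assoc] at hr₃
  obtain ⟨φ₁, ψ₁, hφ₁, hψ₁, hsum⟩ := hadd (x + y) y' (W.add_mem (hPW hx) (hU'W hy)) (hU'W hy')
    hsum0 _ hr₃
  obtain ⟨a, rfl⟩ := (mix_line S W hG hT hsym hall h1 hf hφf hψe γ U' hU'K hU'W hγ hx hx0 hy
    hr₁ φ₁).mp hφ₁
  obtain ⟨b, rfl⟩ := (hγ y' hy' hy'0 ψ₁).mp hψ₁
  have h6 : (1 - a) • planeBeta φ ψ x + γ ((r₃ - a * r₁) • y + (r₃ - b) • y') = 0 := by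
    rw [map_add, map_smul, map_smul]
    rw [map_add] at hsum
    linear_combination (norm := module) hsum
  obtain ⟨ha, hz⟩ := mix_ind S W hT hsym hall h1 hf hφf hψe γ U' hU'K hU'W hγ hx hx0
    (U'.add_mem (U'.smul_mem _ hy) (U'.smul_mem _ hy')) _ h6
  have ha1 : a = 1 := by linear_combination -ha
  rw [ha1, one_mul] at hz
  have hb : r₃ - b = 0 := by
    by_contra hne
    apply hind
    refine ⟨-((r₃ - r₁) / (r₃ - b)), ?_⟩
    have h8 : (r₃ - b) • y' = -((r₃ - r₁) • y) := eq_neg_of_add_eq_zero_right hz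
    calc y' = (r₃ - b)⁻¹ • ((r₃ - b) • y') := by rw [smul_smul, inv_mul_cancel₀ hne, one_smul]
      _ = -((r₃ - r₁) / (r₃ - b)) • y := by
          rw [h8, smul_neg, smul_smul, neg_smul, div_eq_inv_mul]
  rw [hb, zero_smul, add_zero] at hz
  rcases smul_eq_zero.mp hz with h9 | h9
  · linear_combination h9
  · exact absurd h9 hy0

include h2 hG hT hsym hall hadd h1 hf hφf hψe hU'K hU'W hγ in
/-- `r` does not depend on `y`. -/
theorem mix_y {x : V} (hx : x ∈ Submodule.span F {e, f}) (hx0 : x ≠ 0) {y y' : V}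
    (hy : y ∈ U') (hy0 : y ≠ 0) (hy' : y' ∈ U') (hy'0 : y' ≠ 0) {r₁ r₂ : F}
    (hr₁ : S.Θ (planeBeta φ ψ x + r₁ • γ y) (x + y))
    (hr₂ : S.Θ (planeBeta φ ψ x + r₂ • γ y') (x + y')) : r₁ = r₂ := by
  by_cases hind : ∃ c : F, y' = c • y
  · obtain ⟨c, rfl⟩ := hind
    have hc : c ≠ 0 := by
      rintro rfl
      exact hy'0 (zero_smul F y)
    exact mix_y_smul S h2 W hG hT hsym hall hadd h1 hf hφf hψe γ U' hU'K hU'W hγ hx hx0 hy hy0
      hc hr₁ hr₂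
  · have hyy' : y + y' ∈ U' := U'.add_mem hy hy'
    have hyy'0 : y + y' ≠ 0 := by
      intro h0
      apply hind
      refine ⟨-1, ?_⟩
      rw [neg_smul, one_smul]
      exact eq_neg_of_add_eq_zero_right h0
    obtain ⟨r₃, -, hr₃⟩ := mix_exists S h2 W hG hT hsym hall h1 hf hφf hψe γ U' hU'K hU'W hγ
      hx hx0 hyy' hyy'0
    have e1 : r₃ = r₁ := mix_y_half S W hG hT hsym hall hadd h1 hf hφf hψe γ U' hU'K hU'W hγ hx
      hx0 hy hy0 hy' hy'0 hind hr₁ hr₃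
    have hind' : ¬ ∃ c : F, y = c • y' := by
      rintro ⟨c, hc⟩
      have hc0 : c ≠ 0 := by
        rintro rfl
        exact hy0 (by rw [hc, zero_smul])
      apply hind
      refine ⟨c⁻¹, ?_⟩
      rw [hc, smul_smul, inv_mul_cancel₀ hc0, one_smul]
    have hr₃' : S.Θ (planeBeta φ ψ x + r₃ • γ (y' + y)) (x + (y' + y)) := by
      rw [add_comm y' y]
      exact hr₃
    have e2 : r₃ = r₂ := mix_y_half S W hG hT hsym hall hadd h1 hf hφf hψe γ U' hU'K hU'W hγ hx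
      hx0 hy' hy'0 hy hy0 hind' hr₂ hr₃'
    rw [← e1, e2]

end Mixed

theorem mixed_line [Module.Finite F V] (S : TSys F V) (h2 : (2 : F) ≠ 0) (W : Submodule F V) (hG : S.Good W) (hT : S.Thin) (hsym : S.Sym) (hall : ∀ x ∈ W, x ≠ 0 → S.IsCenter x) (hadd : ∀ u v : V, u ∈ W → v ∈ W → u + v ≠ 0 → ∀ χ : Dual F V, S.Θ χ (u + v) → ∃ φ ψ : Dual F V, S.Θ φ u ∧ S.Θ ψ v ∧ χ = φ + ψ) {φ ψ : Dual F V} {e f : V} (h1 : S.Θ φ e) (hf : S.Θ ψ f) (hφf : φ f ≠ 0) (hψe : ψ e ≠ 0) (γ : V →ₗ[F] Dual F V) (U' : Submodule F V) (hU'K : U' ≤ LinearMap.ker φ ⊓ LinearMap.ker ψ) (hU'W : U' ≤ W) (hγ : ∀ y ∈ U', y ≠ 0 → ∀ χ : Dual F V, (S.Θ χ y ↔ ∃ c : F, χ = c • γ y)) : ∃ r : F, r ≠ 0 ∧ ∀ x ∈ Submodule.span F {e, f}, ∀ y ∈ U', x ≠ 0 → y ≠ 0 → ∀ χ : Dual F V, (S.Θ χ (x + y) ↔ ∃ c : F, χ = c • (ψ x • φ - φ x • ψ + r • γ y)) := by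
  classical
  by_cases hex : ∃ y₀ ∈ U', y₀ ≠ 0
  · obtain ⟨y₀, hy₀, hy₀0⟩ := hex
    have he0 : e ≠ 0 := by
      rintro rfl
      exact hψe (map_zero ψ)
    obtain ⟨r, hr0, hr⟩ := mix_exists S h2 W hG hT hsym hall h1 hf hφf hψe γ U' hU'K hU'W hγ
      (plane_v_mem (v := e) (w := f)) he0 hy₀ hy₀0
    refine ⟨r, hr0, ?_⟩
    intro x hx y hy hx0 hy0 χ
    obtain ⟨r', -, hr'⟩ := mix_exists S h2 W hG hT hsym hall h1 hf hφf hψe γ U' hU'K hU'W hγ
      hx hx0 hy hy0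
    obtain ⟨r'', -, hr''⟩ := mix_exists S h2 W hG hT hsym hall h1 hf hφf hψe γ U' hU'K hU'W hγ
      hx hx0 hy₀ hy₀0
    have e1 : r' = r'' := mix_y S h2 W hG hT hsym hall hadd h1 hf hφf hψe γ U' hU'K hU'W hγ hx
      hx0 hy hy0 hy₀ hy₀0 hr' hr''
    have e2 : r'' = r := mix_x S h2 W hG hT hsym hall hadd h1 hf hφf hψe γ U' hU'K hU'W hγ hx
      hx0 (plane_v_mem (v := e) (w := f)) he0 hy₀ hy₀0 hr'' hr
    rw [e1, e2] at hr'
    exact mix_line S W hG hT hsym hall h1 hf hφf hψe γ U' hU'K hU'W hγ hx hx0 hy hr' χ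
  · refine ⟨1, one_ne_zero, ?_⟩
    intro x _ y hy _ hy0
    exact absurd ⟨y, hy, hy0⟩ hex

end Cfsg.Agent.Helper39.McL
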