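import Cfsg.Agent.Helper71.McLA

/-!
# Hyperbolic planes in an abstract transvection system (helper39, for CALL S5075 of helper71)

Elementary facts on a hyperbolic pair `Θ φ v`, `Θ ψ w`, `φ w ≠ 0`, `ψ v ≠ 0`, its plane
`P = span {v, w}` and the complement `K = ker φ ⊓ ker ψ`; they only need `sl2` of piece A.
-/

set_option autoImplicit false
open Module Cfsg.Agent.Helper71.McL

namespace Cfsg.Agent.Helper39.McL

variable {F V : Type*} [Field F] [AddCommGroup V] [Module F V]

theorem mem_K {φ ψ : Dual F V} {y : V} :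
    y ∈ LinearMap.ker φ ⊓ LinearMap.ker ψ ↔ φ y = 0 ∧ ψ y = 0 := by
  rw [Submodule.mem_inf, LinearMap.mem_ker, LinearMap.mem_ker]

/-- `P ⊓ K = 0`. -/
theorem plane_disj (S : TSys F V) {φ ψ : Dual F V} {v w : V} (h1 : S.Θ φ v) (h2 : S.Θ ψ w)
    (hφw : φ w ≠ 0) (hψv : ψ v ≠ 0) {x : V} (hx : x ∈ Submodule.span F {v, w})
    (hφx : φ x = 0) (hψx : ψ x = 0) : x = 0 := by
  obtain ⟨a, b, rfl⟩ := Submodule.mem_span_pair.mp hx
  have hφv := S.vanish h1
  have hψw := S.vanish h2
  simp only [map_add, map_smul, smul_eq_mul, hφv, hψw, mul_zero, zero_add, add_zero]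
    at hφx hψx
  have hb : b = 0 := by
    rcases mul_eq_zero.mp hφx with h | h
    · exact h
    · exact absurd h hφw
  have ha : a = 0 := by
    rcases mul_eq_zero.mp hψx with h | h
    · exact h
    · exact absurd h hψv
  rw [ha, hb, zero_smul, zero_smul, add_zero]

theorem plane_v_mem {v w : V} : v ∈ Submodule.span F {v, w} :=
  Submodule.subset_span (Set.mem_insert v {w})

theorem plane_w_mem {v w : V} : w ∈ Submodule.span F {v, w} :=
  Submodule.subset_span (Set.mem_insert_of_mem v (Set.mem_singleton w))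

/-- The functional `ψ x • φ - φ x • ψ` belongs to the vector `x` of a hyperbolic plane. -/
theorem plane_theta (S : TSys F V) {φ ψ : Dual F V} {v w : V} (h1 : S.Θ φ v) (h2 : S.Θ ψ w)
    (hφw : φ w ≠ 0) (hψv : ψ v ≠ 0) {x : V} (hx : x ∈ Submodule.span F {v, w}) :
    S.Θ (ψ x • φ - φ x • ψ) x := by
  obtain ⟨a, b, rfl⟩ := Submodule.mem_span_pair.mp hx
  have h := sl2 S h1 h2 hφw hψv (ψ (a • v + b • w)) (-(φ (a • v + b • w))) a b (by
    simp only [LinearMap.add_apply, LinearMap.smul_apply, smul_eq_mul]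
    ring)
  have e : ψ (a • v + b • w) • φ - φ (a • v + b • w) • ψ
      = ψ (a • v + b • w) • φ + (-(φ (a • v + b • w))) • ψ := by
    ext t
    simp only [LinearMap.sub_apply, LinearMap.add_apply, LinearMap.smul_apply, smul_eq_mul]
    ring
  rw [e]
  exact h

theorem plane_beta_ne (S : TSys F V) {φ ψ : Dual F V} {v w : V} (h1 : S.Θ φ v) (h2 : S.Θ ψ w)
    (hφw : φ w ≠ 0) (hψv : ψ v ≠ 0) {x : V} (hx : x ∈ Submodule.span F {v, w}) (hx0 : x ≠ 0) :
    ψ x • φ - φ x • ψ ≠ 0 := by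
  intro h
  have hv := congrArg (fun χ : Dual F V => χ v) h
  have hw := congrArg (fun χ : Dual F V => χ w) h
  simp only [LinearMap.sub_apply, LinearMap.smul_apply, smul_eq_mul, S.vanish h1, S.vanish h2,
    mul_zero, zero_sub, sub_zero, LinearMap.zero_apply, neg_eq_zero] at hv hw
  have hφx : φ x = 0 := by
    rcases mul_eq_zero.mp hv with h' | h'
    · exact h'
    · exact absurd h' hψv
  have hψx : ψ x = 0 := by
    rcases mul_eq_zero.mp hw with h' | h'
    · exact h'
    · exact absurd h' hφw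
  exact hx0 (plane_disj S h1 h2 hφw hψv hx hφx hψx)

/-- Every non-zero vector of a hyperbolic plane is a centre. -/
theorem plane_isCenter (S : TSys F V) {φ ψ : Dual F V} {v w : V} (h1 : S.Θ φ v) (h2 : S.Θ ψ w)
    (hφw : φ w ≠ 0) (hψv : ψ v ≠ 0) {x : V} (hx : x ∈ Submodule.span F {v, w}) (hx0 : x ≠ 0) :
    S.IsCenter x :=
  ⟨hx0, _, plane_beta_ne S h1 h2 hφw hψv hx hx0, plane_theta S h1 h2 hφw hψv hx⟩

/-- Two vectors of a hyperbolic plane on which the form `ψ x * φ x' - φ x * ψ x'` vanishes are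
proportional. -/
theorem plane_dep (S : TSys F V) {φ ψ : Dual F V} {v w : V} (h1 : S.Θ φ v) (h2 : S.Θ ψ w)
    (hφw : φ w ≠ 0) (hψv : ψ v ≠ 0) {x x' : V} (hx : x ∈ Submodule.span F {v, w})
    (hx' : x' ∈ Submodule.span F {v, w}) (hx'0 : x' ≠ 0)
    (h : ψ x * φ x' - φ x * ψ x' = 0) : ∃ c : F, x = c • x' := by
  by_cases hφx' : φ x' = 0
  · have hψx' : ψ x' ≠ 0 := fun h' => hx'0 (plane_disj S h1 h2 hφw hψv hx' hφx' h')
    refine ⟨ψ x / ψ x', ?_⟩
    have hz : ψ x' • x - ψ x • x' = 0 :=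
      plane_disj S h1 h2 hφw hψv
        (Submodule.sub_mem _ (Submodule.smul_mem _ _ hx) (Submodule.smul_mem _ _ hx'))
        (by
          simp only [map_sub, map_smul, smul_eq_mul]
          linear_combination -h)
        (by
          simp only [map_sub, map_smul, smul_eq_mul]
          ring)
    have h3 : ψ x' • x = ψ x • x' := sub_eq_zero.mp hz
    calc x = (ψ x')⁻¹ • (ψ x' • x) := by rw [smul_smul, inv_mul_cancel₀ hψx', one_smul]
      _ = (ψ x / ψ x') • x' := by rw [h3, smul_smul, div_eq_inv_mul]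
  · refine ⟨φ x / φ x', ?_⟩
    have hz : φ x' • x - φ x • x' = 0 :=
      plane_disj S h1 h2 hφw hψv
        (Submodule.sub_mem _ (Submodule.smul_mem _ _ hx) (Submodule.smul_mem _ _ hx'))
        (by
          simp only [map_sub, map_smul, smul_eq_mul]
          ring)
        (by
          simp only [map_sub, map_smul, smul_eq_mul]
          linear_combination h)
    have h3 : φ x' • x = φ x • x' := sub_eq_zero.mp hz
    calc x = (φ x')⁻¹ • (φ x' • x) := by rw [smul_smul, inv_mul_cancel₀ hφx', one_smul]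
      _ = (φ x / φ x') • x' := by rw [h3, smul_smul, div_eq_inv_mul]

/-- One of the two basis vectors of a hyperbolic plane pairs non-trivially with a given
non-zero vector of the plane. -/
theorem plane_exists_indep (S : TSys F V) {φ ψ : Dual F V} {v w : V} (h1 : S.Θ φ v)
    (h2 : S.Θ ψ w) (hφw : φ w ≠ 0) (hψv : ψ v ≠ 0) {x : V}
    (hx : x ∈ Submodule.span F {v, w}) (hx0 : x ≠ 0) :
    ∃ x₁ ∈ Submodule.span F {v, w}, ψ x₁ * φ x - φ x₁ * ψ x ≠ 0 := by
  by_cases hφx : φ x = 0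
  · have hψx : ψ x ≠ 0 := fun h' => hx0 (plane_disj S h1 h2 hφw hψv hx hφx h')
    refine ⟨w, plane_w_mem, ?_⟩
    rw [S.vanish h2, zero_mul, zero_sub, neg_ne_zero]
    exact mul_ne_zero hφw hψx
  · refine ⟨v, plane_v_mem, ?_⟩
    rw [S.vanish h1, zero_mul, sub_zero]
    exact mul_ne_zero hψv hφx

/-- Scaling does not change being a centre. -/
theorem isCenter_of_smul (S : TSys F V) {c : F} {z : V} (h : S.IsCenter (c • z)) :
    S.IsCenter z := by
  obtain ⟨h0, χ, hχ0, hχ⟩ := h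
  have hc : c ≠ 0 := by
    rintro rfl
    exact h0 (zero_smul F z)
  have hz : z ≠ 0 := by
    rintro rfl
    exact h0 (smul_zero c)
  refine ⟨hz, χ, hχ0, ?_⟩
  have h1 := S.smul_right c⁻¹ hχ
  rwa [smul_smul, inv_mul_cancel₀ hc, one_smul] at h1

/-- `x + y ≠ 0` for a non-zero `x ∈ P` and `y ∈ K`. -/
theorem plane_add_ne (S : TSys F V) {φ ψ : Dual F V} {v w : V} (h1 : S.Θ φ v) (h2 : S.Θ ψ w)
    (hφw : φ w ≠ 0) (hψv : ψ v ≠ 0) {x y : V} (hx : x ∈ Submodule.span F {v, w}) (hx0 : x ≠ 0)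
    (hy : y ∈ LinearMap.ker φ ⊓ LinearMap.ker ψ) : x + y ≠ 0 := by
  intro h0
  obtain ⟨hφy, hψy⟩ := mem_K.mp hy
  have hxy : x = -y := eq_neg_of_add_eq_zero_left h0
  exact hx0 (plane_disj S h1 h2 hφw hψv hx (by rw [hxy, map_neg, hφy, neg_zero])
    (by rw [hxy, map_neg, hψy, neg_zero]))

/-- The functional `ψ x • φ - φ x • ψ` attached to `x`. -/
def planeBeta (φ ψ : Dual F V) (x : V) : Dual F V := ψ x • φ - φ x • ψ

theorem planeBeta_apply (φ ψ : Dual F V) (x t : V) :
    planeBeta φ ψ x t = ψ x * φ t - φ x * ψ t := by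
  simp only [planeBeta, LinearMap.sub_apply, LinearMap.smul_apply, smul_eq_mul]

theorem planeBeta_add (φ ψ : Dual F V) (x x' : V) :
    planeBeta φ ψ (x + x') = planeBeta φ ψ x + planeBeta φ ψ x' := by
  ext t
  simp only [planeBeta_apply, LinearMap.add_apply, map_add]
  ring

theorem planeBeta_smul (φ ψ : Dual F V) (c : F) (x : V) :
    planeBeta φ ψ (c • x) = c • planeBeta φ ψ x := by
  ext t
  simp only [planeBeta_apply, LinearMap.smul_apply, map_smul, smul_eq_mul]
  ring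

end Cfsg.Agent.Helper39.McL
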