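import Mathlib

set_option autoImplicit false

/-!
# The affine group `M₂(F) ⋊ (SL₂(F) × {±1})` for the twisted tensor action (helper39)

`SL₂(F) × ℤˣ` acts on `M₂(F)` (char `F` = 3) by `x ↦ ε • (g x (g^{(3)})ᵀ)`; the affine maps
`x ↦ L γ x + v` form a group of permutations of `M₂(F)`.
-/

namespace Cfsg.Agent.Helper39.Mu

open Matrix

variable {F : Type*} [Field F] [CharP F 3]

/-- `2 × 2` matrices. -/
abbrev V2 (F : Type*) := Matrix (Fin 2) (Fin 2) F

/-- The acting group `SL₂(F) × {±1}`. -/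
abbrev Gam (F : Type*) [Field F] := Matrix.SpecialLinearGroup (Fin 2) F × ℤˣ

/-- Frobenius twist followed by transpose. -/
def fr (A : V2 F) : V2 F := (A.map (frobenius F 3))ᵀ

theorem fr_apply (A : V2 F) (i j : Fin 2) : fr A i j = A j i ^ 3 := rfl

theorem fr_mul (A B : V2 F) : fr (A * B) = fr B * fr A := by
  unfold fr
  rw [Matrix.map_mul, Matrix.transpose_mul]

theorem fr_one : fr (1 : V2 F) = 1 := by
  unfold fr
  rw [Matrix.map_one _ (map_zero _) (map_one _), Matrix.transpose_one]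

theorem fr_det (A : V2 F) : (fr A).det = A.det ^ 3 := by
  unfold fr
  rw [Matrix.det_transpose, ← RingHom.mapMatrix_apply, ← RingHom.map_det, frobenius_def]

/-- The sign as an element of `F`. -/
def sg (F : Type*) [Field F] (ε : ℤˣ) : F := ((ε : ℤ) : F)

omit [CharP F 3] in
theorem sg_mul (ε ε' : ℤˣ) : sg F (ε * ε') = sg F ε * sg F ε' := by
  unfold sg
  rw [Units.val_mul, Int.cast_mul]

omit [CharP F 3] in
theorem sg_one : sg F (1 : ℤˣ) = 1 := by
  unfold sg
  rw [Units.val_one, Int.cast_one]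

omit [CharP F 3] in
theorem sg_neg_one : sg F (-1 : ℤˣ) = -1 := by
  unfold sg
  rw [Units.val_neg, Units.val_one, Int.cast_neg, Int.cast_one]

omit [CharP F 3] in
theorem sg_cases (ε : ℤˣ) : sg F ε = 1 ∨ sg F ε = -1 := by
  rcases Int.units_eq_one_or ε with h | h
  · left; rw [h, sg_one]
  · right; rw [h, sg_neg_one]

omit [CharP F 3] in
theorem sg_mul_self (ε : ℤˣ) : sg F ε * sg F ε = 1 := by
  rcases sg_cases (F := F) ε with h | h <;> rw [h] <;> ring

/-- The linear action. -/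
def Lh (γ : Gam F) : V2 F →+ V2 F where
  toFun x := sg F γ.2 • ((γ.1 : Matrix (Fin 2) (Fin 2) F) * x * fr (γ.1 : Matrix (Fin 2) (Fin 2) F))
  map_zero' := by rw [mul_zero, zero_mul, smul_zero]
  map_add' x y := by rw [mul_add, add_mul, smul_add]

theorem Lh_apply (γ : Gam F) (x : V2 F) :
    Lh γ x = sg F γ.2 •
      ((γ.1 : Matrix (Fin 2) (Fin 2) F) * x * fr (γ.1 : Matrix (Fin 2) (Fin 2) F)) := rfl

theorem Lh_mul (γ γ' : Gam F) (x : V2 F) : Lh (γ * γ') x = Lh γ (Lh γ' x) := by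
  rw [Lh_apply, Lh_apply, Lh_apply, Prod.snd_mul, Prod.fst_mul, sg_mul,
    Matrix.SpecialLinearGroup.coe_mul, fr_mul, Matrix.mul_smul, Matrix.smul_mul, smul_smul]
  simp only [mul_assoc]

theorem Lh_one (x : V2 F) : Lh (1 : Gam F) x = x := by
  rw [Lh_apply, Prod.snd_one, Prod.fst_one, sg_one, Matrix.SpecialLinearGroup.coe_one, fr_one,
    one_mul, mul_one, one_smul]

theorem Lh_pow_id (γ : Gam F) (h : ∀ x, Lh γ x = x) (n : ℕ) (x : V2 F) : Lh (γ ^ n) x = x := by
  induction n with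
  | zero => rw [pow_zero, Lh_one]
  | succ n ih => rw [pow_succ, Lh_mul, h, ih]

/-- The affine permutation `x ↦ L γ x + v`. -/
def aff (γ : Gam F) (v : V2 F) : Equiv.Perm (V2 F) where
  toFun x := Lh γ x + v
  invFun y := Lh γ⁻¹ (y - v)
  left_inv x := by
    show Lh γ⁻¹ (Lh γ x + v - v) = x
    rw [add_sub_cancel_right, ← Lh_mul, inv_mul_cancel, Lh_one]
  right_inv y := by
    show Lh γ (Lh γ⁻¹ (y - v)) + v = y
    rw [← Lh_mul, mul_inv_cancel, Lh_one, sub_add_cancel]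

theorem aff_apply (γ : Gam F) (v x : V2 F) : aff γ v x = Lh γ x + v := rfl

theorem aff_mul (γ γ' : Gam F) (v v' : V2 F) :
    aff γ v * aff γ' v' = aff (γ * γ') (Lh γ v' + v) := by
  apply Equiv.ext
  intro x
  rw [Equiv.Perm.mul_apply, aff_apply, aff_apply, aff_apply, map_add, Lh_mul, add_assoc]

theorem aff_eq_one_iff (γ : Gam F) (v : V2 F) : aff γ v = 1 ↔ v = 0 ∧ ∀ x, Lh γ x = x := by
  constructor
  · intro h
    have h0 : v = 0 := by
      have := congrArg (fun f : Equiv.Perm (V2 F) => f 0) h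
      simpa [aff_apply] using this
    refine ⟨h0, fun x => ?_⟩
    have := congrArg (fun f : Equiv.Perm (V2 F) => f x) h
    simpa [aff_apply, h0] using this
  · rintro ⟨h0, h⟩
    apply Equiv.ext
    intro x
    rw [aff_apply, h, h0, add_zero, Equiv.Perm.one_apply]

theorem aff_one : aff (1 : Gam F) 0 = 1 := (aff_eq_one_iff _ _).2 ⟨rfl, Lh_one⟩

theorem aff_congr {γ γ' : Gam F} (h : ∀ x, Lh γ x = Lh γ' x) (v : V2 F) : aff γ v = aff γ' v := by
  apply Equiv.ext
  intro x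
  rw [aff_apply, aff_apply, h]

theorem aff_pow (γ : Gam F) (v : V2 F) (n : ℕ) :
    aff γ v ^ n = aff (γ ^ n) (∑ j ∈ Finset.range n, Lh (γ ^ j) v) := by
  induction n with
  | zero => rw [pow_zero, pow_zero, Finset.range_zero, Finset.sum_empty, aff_one]
  | succ n ih => rw [pow_succ, ih, aff_mul, pow_succ, Finset.sum_range_succ, add_comm]

theorem aff_inv (γ : Gam F) (v : V2 F) : (aff γ v)⁻¹ = aff γ⁻¹ (-Lh γ⁻¹ v) := by
  rw [inv_eq_iff_eq_inv, eq_inv_iff_mul_eq_one, aff_mul, mul_inv_cancel, map_neg, ← Lh_mul,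
    mul_inv_cancel, Lh_one, neg_add_cancel, aff_one]

/-- The affine group. -/
def affGroup (F : Type*) [Field F] [CharP F 3] : Subgroup (Equiv.Perm (V2 F)) where
  carrier := Set.range (fun p : Gam F × V2 F => aff p.1 p.2)
  mul_mem' := by
    rintro _ _ ⟨⟨γ, v⟩, rfl⟩ ⟨⟨γ', v'⟩, rfl⟩
    exact ⟨(γ * γ', Lh γ v' + v), (aff_mul γ γ' v v').symm⟩
  one_mem' := ⟨(1, 0), aff_one⟩
  inv_mem' := by
    rintro _ ⟨⟨γ, v⟩, rfl⟩
    exact ⟨(γ⁻¹, -Lh γ⁻¹ v), (aff_inv γ v).symm⟩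

theorem aff_mem (γ : Gam F) (v : V2 F) : aff γ v ∈ affGroup F := ⟨(γ, v), rfl⟩

theorem three_nsmul (v : V2 F) : v + v + v = 0 := by
  have h3 : (3 : F) = 0 := by
    have := CharP.cast_eq_zero F 3
    exact_mod_cast this
  have : v + v + v = (3 : F) • v := by module
  rw [this, h3, zero_smul]

/-- A translation has order dividing `3`. -/
theorem aff_pow_three_of_id {γ : Gam F} (h : ∀ x, Lh γ x = x) (v : V2 F) : aff γ v ^ 3 = 1 := by
  rw [aff_pow, aff_eq_one_iff]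
  refine ⟨?_, Lh_pow_id γ h 3⟩
  rw [Finset.sum_range_succ, Finset.sum_range_succ, Finset.sum_range_one, Lh_pow_id γ h,
    Lh_pow_id γ h, Lh_pow_id γ h]
  exact three_nsmul v

/-- A point reflection has order dividing `2`. -/
theorem aff_pow_two_of_neg {γ : Gam F} (h : ∀ x, Lh γ x = -x) (v : V2 F) : aff γ v ^ 2 = 1 := by
  rw [aff_pow, aff_eq_one_iff]
  refine ⟨?_, fun x => ?_⟩
  · rw [Finset.sum_range_succ, Finset.sum_range_one, pow_zero, Lh_one, pow_one, h, add_neg_cancel]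
  · rw [pow_two, Lh_mul, h, h, neg_neg]

/-- If `L γ` has no nonzero fixed point and `L (γ ^ n)` is the identity then `aff γ v ^ n = 1`. -/
theorem aff_pow_of_fpf {γ : Gam F} (hfpf : ∀ x, Lh γ x = x → x = 0) {n : ℕ}
    (hn : ∀ x, Lh (γ ^ n) x = x) (v : V2 F) : aff γ v ^ n = 1 := by
  rw [aff_pow, aff_eq_one_iff]
  refine ⟨hfpf _ ?_, hn⟩
  rw [map_sum]
  have h1 : ∀ j ∈ Finset.range n, Lh γ (Lh (γ ^ j) v) = Lh (γ ^ (j + 1)) v := by
    intro j _
    rw [pow_succ', Lh_mul]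
  rw [Finset.sum_congr rfl h1]
  have h2 := Finset.sum_range_succ (fun j => Lh (γ ^ j) v) n
  have h3 := Finset.sum_range_succ' (fun j => Lh (γ ^ j) v) n
  rw [h2] at h3
  simp only [pow_zero, Lh_one, hn] at h3
  exact (add_right_cancel h3).symm

theorem conj_pow_eq_one {G : Type*} [Group G] (a b : G) (n : ℕ) (h : b ^ n = 1) :
    (a * b * a⁻¹) ^ n = 1 := by
  rw [conj_pow, h, mul_one, mul_inv_cancel]

/-- Conjugating the linear part by an element of `SL₂`. -/
theorem aff_conj (k : Gam F) (γ : Gam F) (v : V2 F) :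
    aff (k * γ * k⁻¹) v = aff k 0 * aff γ (Lh k⁻¹ v) * (aff k 0)⁻¹ := by
  rw [aff_inv, aff_mul, aff_mul, map_zero, neg_zero, map_zero, zero_add, add_zero, ← Lh_mul,
    mul_inv_cancel, Lh_one]

end Cfsg.Agent.Helper39.Mu
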