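import Mathlib
import Cfsg.Agent.Helper39.MuAff
import Cfsg.Agent.Helper39.McKayTori
import Cfsg.Agent.Helper39.CuspCount

set_option autoImplicit false

/-!
# Fixed points of the twisted tensor action of `SL₂(F) × {±1}` on `M₂(F)` (helper39)
-/

namespace Cfsg.Agent.Helper39.Mu

open Matrix Cfsg.Agent.Helper39

section gen

variable {F : Type*} [Field F]

/-- Cayley–Hamilton in `SL₂`. -/
theorem sl_sq (g : Matrix.SpecialLinearGroup (Fin 2) F) :
    (g : Matrix (Fin 2) (Fin 2) F) * (g : Matrix (Fin 2) (Fin 2) F) =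
      ((g : Matrix (Fin 2) (Fin 2) F) 0 0 + (g : Matrix (Fin 2) (Fin 2) F) 1 1) •
        (g : Matrix (Fin 2) (Fin 2) F) - 1 := by
  have hdet := g.2
  rw [Matrix.det_fin_two] at hdet
  ext i j
  fin_cases i <;> fin_cases j <;>
    simp [Matrix.mul_apply, Fin.sum_univ_two] <;>
    first | ring1 | linear_combination (-1 : F) * hdet

/-- An element of `SL₂` of order dividing `2` is `±1` (characteristic not `2`). -/
theorem sl_sq_eq_one (h2 : (2 : F) ≠ 0) (g : Matrix.SpecialLinearGroup (Fin 2) F)
    (h : g ^ 2 = 1) : g = 1 ∨ g = negSL := by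
  have hdet := g.2
  rw [Matrix.det_fin_two] at hdet
  have h1 : (g : Matrix (Fin 2) (Fin 2) F) * (g : Matrix (Fin 2) (Fin 2) F) = 1 := by
    have := congrArg (fun x : Matrix.SpecialLinearGroup (Fin 2) F =>
      (x : Matrix (Fin 2) (Fin 2) F)) h
    simpa [pow_two] using this
  rw [sl_sq] at h1
  have e00 := congrFun (congrFun h1 0) 0
  have e01 := congrFun (congrFun h1 0) 1
  have e10 := congrFun (congrFun h1 1) 0
  have e11 := congrFun (congrFun h1 1) 1
  simp only [Matrix.sub_apply, Matrix.smul_apply, Matrix.one_apply_eq, smul_eq_mul,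
    Matrix.one_apply_ne (show (0 : Fin 2) ≠ 1 by decide),
    Matrix.one_apply_ne (show (1 : Fin 2) ≠ 0 by decide), sub_zero] at e00 e01 e10 e11
  obtain ⟨t, ht⟩ : ∃ t : F, t = (g : Matrix (Fin 2) (Fin 2) F) 0 0 +
      (g : Matrix (Fin 2) (Fin 2) F) 1 1 := ⟨_, rfl⟩
  rw [← ht] at e00 e01 e10 e11
  have ht0 : t ≠ 0 := by
    rintro rfl
    apply h2
    linear_combination -e00
  have h01 : (g : Matrix (Fin 2) (Fin 2) F) 0 1 = 0 := by
    rcases mul_eq_zero.1 e01 with h | h
    · exact absurd h ht0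
    · exact h
  have h10 : (g : Matrix (Fin 2) (Fin 2) F) 1 0 = 0 := by
    rcases mul_eq_zero.1 e10 with h | h
    · exact absurd h ht0
    · exact h
  have heq : (g : Matrix (Fin 2) (Fin 2) F) 0 0 = (g : Matrix (Fin 2) (Fin 2) F) 1 1 := by
    apply mul_left_cancel₀ ht0
    linear_combination e00 - e11
  rw [h01, zero_mul, sub_zero, ← heq] at hdet
  have hsq : ((g : Matrix (Fin 2) (Fin 2) F) 0 0 - 1) * ((g : Matrix (Fin 2) (Fin 2) F) 0 0 + 1)
      = 0 := by linear_combination hdet
  rcases mul_eq_zero.1 hsq with h | h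
  · left
    apply Subtype.ext
    ext i j
    fin_cases i <;> fin_cases j
    · simpa using sub_eq_zero.1 h
    · simpa using h01
    · simpa using h10
    · simp only [Fin.mk_one, Fin.isValue, Matrix.SpecialLinearGroup.coe_one, Matrix.one_apply_eq]
      rw [← heq]; exact sub_eq_zero.1 h
  · right
    apply Subtype.ext
    rw [negSL_coe]
    ext i j
    fin_cases i <;> fin_cases j
    · simpa using eq_neg_of_add_eq_zero_left h
    · simpa using h01
    · simpa using h10
    · simp only [Fin.mk_one, Fin.isValue, Matrix.of_apply, Matrix.cons_val', Matrix.cons_val_one,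
        Matrix.cons_val_fin_one]
      rw [← heq]; exact eq_neg_of_add_eq_zero_left h

/-- A singular nonzero matrix `x` with `A x B = c x` (`B` invertible) yields an eigenvector of
`A`. -/
theorem eigen_of_singular {A x B : Matrix (Fin 2) (Fin 2) F} {c : F} (hB : B.det = 1)
    (hx : x ≠ 0) (hdet : x.det = 0) (h : A * x * B = c • x) :
    ∃ (a : F) (u : Fin 2 → F), u ≠ 0 ∧ A.mulVec u = a • u := by
  have h1 : A * x = c • (x * B.adjugate) := by
    have := congrArg (fun M => M * B.adjugate) h
    simp only [mul_assoc, Matrix.mul_adjugate, hB, one_smul, mul_one, Matrix.smul_mul] at this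
    exact this
  rw [Matrix.det_fin_two] at hdet
  obtain ⟨N, hN⟩ : ∃ N, N = B.adjugate := ⟨_, rfl⟩
  rw [← hN] at h1
  have e : ∀ i j, A i 0 * x 0 j + A i 1 * x 1 j = c * (x i 0 * N 0 j + x i 1 * N 1 j) := by
    intro i j
    have := congrFun (congrFun h1 i) j
    simpa [Matrix.mul_apply, Fin.sum_univ_two] using this
  by_cases hc0 : x 0 0 = 0 ∧ x 1 0 = 0
  · -- second column is nonzero
    obtain ⟨h00, h10⟩ := hc0
    refine ⟨c * N 1 1, fun i => x i 1, ?_, ?_⟩
    · intro hu
      apply hx
      ext i j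
      fin_cases i <;> fin_cases j
      · exact h00
      · exact congrFun hu 0
      · exact h10
      · exact congrFun hu 1
    · funext i
      have := e i 1
      simp only [Matrix.mulVec, dotProduct, Fin.sum_univ_two, Pi.smul_apply, smul_eq_mul]
      fin_cases i
      · simp only [Fin.zero_eta, Fin.isValue] at this ⊢
        rw [this, h00]; ring
      · simp only [Fin.mk_one, Fin.isValue] at this ⊢
        rw [this, h10]; ring
  · -- first column is nonzero
    have hu : (fun i => x i 0) ≠ 0 := by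
      intro hu
      exact hc0 ⟨congrFun hu 0, congrFun hu 1⟩
    by_cases h00 : x 0 0 = 0
    · have h10 : x 1 0 ≠ 0 := fun h => hc0 ⟨h00, h⟩
      have h01 : x 0 1 = 0 := by
        rw [h00, zero_mul, zero_sub, neg_eq_zero] at hdet
        rcases mul_eq_zero.1 hdet with h | h
        · exact h
        · exact absurd h h10
      refine ⟨c * (N 0 0 + N 1 0 * (x 1 1 / x 1 0)), fun i => x i 0, hu, ?_⟩
      funext i
      have := e i 0
      simp only [Matrix.mulVec, dotProduct, Fin.sum_univ_two, Pi.smul_apply, smul_eq_mul]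
      fin_cases i
      · simp only [Fin.zero_eta, Fin.isValue] at this ⊢
        rw [this, h00, h01]; ring
      · simp only [Fin.mk_one, Fin.isValue] at this ⊢
        rw [this]; field_simp
    · refine ⟨c * (N 0 0 + N 1 0 * (x 0 1 / x 0 0)), fun i => x i 0, hu, ?_⟩
      funext i
      have := e i 0
      simp only [Matrix.mulVec, dotProduct, Fin.sum_univ_two, Pi.smul_apply, smul_eq_mul]
      fin_cases i
      · simp only [Fin.zero_eta, Fin.isValue] at this ⊢
        rw [this]; field_simp
      · simp only [Fin.mk_one, Fin.isValue] at this ⊢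
        rw [this]; field_simp
        linear_combination (c * N 1 0) * hdet

end gen

section three

variable {F : Type*} [Field F] [CharP F 3]

theorem three_eq_zero : (3 : F) = 0 := by
  have := CharP.cast_eq_zero F 3
  exact_mod_cast this

theorem two_ne_zero_three : (2 : F) ≠ 0 := by
  intro h
  have h3 : (3 : F) = 0 := three_eq_zero
  have : (1 : F) = 0 := by linear_combination h3 - h
  exact one_ne_zero this

theorem fr_neg (A : V2 F) : fr (-A) = -fr A := by
  ext i j
  rw [fr_apply, Matrix.neg_apply, Matrix.neg_apply, fr_apply, Odd.neg_pow (by decide)]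

/-- Scalar elements `±1` of `SL₂` act through the sign only. -/
theorem Lh_scalar (γ : Gam F)
    (h : γ.1 = 1 ∨ γ.1 = negSL) (x : V2 F) : Lh γ x = sg F γ.2 • x := by
  rw [Lh_apply]
  rcases h with h | h
  · rw [h, Matrix.SpecialLinearGroup.coe_one, fr_one, one_mul, mul_one]
  · rw [h, negSL_coe_eq_neg_one, fr_neg, fr_one, neg_one_mul, mul_neg, mul_one, neg_neg]

/-- Fixed points of an element without eigenvector. -/
theorem fp_noEigen (hm1 : ¬ IsSquare (-1 : F)) (g : Matrix.SpecialLinearGroup (Fin 2) F)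
    (hg : NoEigen (g : Matrix (Fin 2) (Fin 2) F)) (ε : ℤˣ) (x : V2 F) (hx : x ≠ 0)
    (hfix : Lh ((g, ε) : Gam F) x = x) : g ^ 2 = negSL ∨ g ^ 3 = 1 ∨ g ^ 3 = negSL := by
  obtain ⟨c, hc⟩ : ∃ c : F, c = sg F ε := ⟨_, rfl⟩
  have hcc : c * c = 1 := by rw [hc]; exact sg_mul_self ε
  have hc1 : c = 1 ∨ c = -1 := by rw [hc]; exact sg_cases ε
  obtain ⟨A, hA⟩ : ∃ A : Matrix (Fin 2) (Fin 2) F, A = (g : Matrix (Fin 2) (Fin 2) F) := ⟨_, rfl⟩
  have hAdet : A.det = 1 := by rw [hA]; exact g.2
  have hBdet : (fr A).det = 1 := by rw [fr_det, hAdet, one_pow]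
  have h1 : A * x * fr A = c • x := by
    have h := hfix
    rw [Lh_apply] at h
    simp only [] at h
    rw [← hA, ← hc] at h
    calc A * x * fr A = (c * c) • (A * x * fr A) := by rw [hcc, one_smul]
      _ = c • (c • (A * x * fr A)) := by rw [smul_smul]
      _ = c • x := by rw [h]
  -- `x` is invertible
  have hdet : x.det ≠ 0 := by
    intro hdet
    obtain ⟨a, u, hu, hAu⟩ := eigen_of_singular hBdet hx hdet h1
    rw [hA] at hAu
    exact hg a u hu hAu
  -- trace identity
  obtain ⟨t, ht⟩ : ∃ t : F, t = A 0 0 + A 1 1 := ⟨_, rfl⟩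
  have h2 : A * x = c • (x * (fr A).adjugate) := by
    have := congrArg (fun M => M * (fr A).adjugate) h1
    simp only [mul_assoc, Matrix.mul_adjugate, hBdet, one_smul, mul_one, Matrix.smul_mul] at this
    exact this
  have htr : x.det * t = c * (x.det * t ^ 3) := by
    have e1 : Matrix.trace (x.adjugate * (A * x)) = x.det * t := by
      rw [Matrix.trace_mul_comm, mul_assoc, Matrix.mul_adjugate, Matrix.mul_smul, mul_one,
        Matrix.trace_smul, Matrix.trace_fin_two, smul_eq_mul, ht]
    have e3 : Matrix.trace ((fr A).adjugate) = t ^ 3 := by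
      rw [Matrix.adjugate_fin_two, Matrix.trace_fin_two, ht, add_pow_char (p := 3) (A 0 0) (A 1 1)]
      simp only [Matrix.of_apply, Matrix.cons_val_zero, Matrix.cons_val_one, Matrix.cons_val',
        Matrix.cons_val_fin_one, fr_apply]
      ring
    have e2 : Matrix.trace (x.adjugate * (c • (x * (fr A).adjugate))) = c * (x.det * t ^ 3) := by
      rw [Matrix.mul_smul, ← mul_assoc, Matrix.adjugate_mul, Matrix.smul_mul, one_mul,
        Matrix.trace_smul, Matrix.trace_smul, e3, smul_eq_mul, smul_eq_mul]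
    rw [← e1, h2, e2]
  have ht3 : t = c * t ^ 3 := by
    apply mul_left_cancel₀ hdet
    linear_combination htr
  -- Cayley-Hamilton
  have hsq : A * A = t • A - 1 := by rw [hA, ht, hA]; exact sl_sq g
  by_cases ht0 : t = 0
  · left
    apply Subtype.ext
    rw [pow_two, Matrix.SpecialLinearGroup.coe_mul, negSL_coe_eq_neg_one, ← hA, hsq, ht0,
      zero_smul, zero_sub]
  · have htt : c * t ^ 2 = 1 := by
      apply mul_left_cancel₀ ht0
      linear_combination -ht3
    have hcube : A * A * A = (-t) • (1 : Matrix (Fin 2) (Fin 2) F) := by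
      have ht2 : t ^ 2 = 1 := by
        rcases hc1 with h | h
        · rw [h, one_mul] at htt; exact htt
        · exfalso
          apply hm1
          refine ⟨t, ?_⟩
          rw [h] at htt
          linear_combination htt
      rw [hsq, sub_mul, Matrix.smul_mul, hsq, one_mul, smul_sub, smul_smul, ← pow_two, ht2,
        one_smul]
      ext i j
      simp only [Matrix.sub_apply, Matrix.smul_apply, smul_eq_mul]
      ring
    have ht2 : t ^ 2 = 1 := by
      rcases hc1 with h | h
      · rw [h, one_mul] at htt; exact htt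
      · exfalso
        apply hm1
        refine ⟨t, ?_⟩
        rw [h] at htt
        linear_combination htt
    have ht1 : t = 1 ∨ t = -1 := by
      have : (t - 1) * (t + 1) = 0 := by linear_combination ht2
      rcases mul_eq_zero.1 this with h | h
      · left; exact sub_eq_zero.1 h
      · right; exact eq_neg_of_add_eq_zero_left h
    right
    rcases ht1 with h | h
    · right
      apply Subtype.ext
      rw [pow_succ, pow_two, Matrix.SpecialLinearGroup.coe_mul, Matrix.SpecialLinearGroup.coe_mul,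
        negSL_coe_eq_neg_one, ← hA, hcube, h, neg_one_smul]
    · left
      apply Subtype.ext
      rw [pow_succ, pow_two, Matrix.SpecialLinearGroup.coe_mul, Matrix.SpecialLinearGroup.coe_mul,
        Matrix.SpecialLinearGroup.coe_one, ← hA, hcube, h, neg_neg, one_smul]

end three

section bound

variable {F : Type*} [Field F] [CharP F 3]

/-- The four-exponent property. -/
def Bd (q : ℕ) (f : Equiv.Perm (V2 F)) : Prop :=
  f ^ 6 = 1 ∨ f ^ 9 = 1 ∨ f ^ (q - 1) = 1 ∨ f ^ ((q + 1) / 2) = 1

omit [Field F] [CharP F 3] in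
theorem Bd.conj {q : ℕ} {f : Equiv.Perm (V2 F)} (h : Bd q f) (a : Equiv.Perm (V2 F)) :
    Bd q (a * f * a⁻¹) := by
  rcases h with h | h | h | h
  · exact Or.inl (conj_pow_eq_one a f _ h)
  · exact Or.inr (Or.inl (conj_pow_eq_one a f _ h))
  · exact Or.inr (Or.inr (Or.inl (conj_pow_eq_one a f _ h)))
  · exact Or.inr (Or.inr (Or.inr (conj_pow_eq_one a f _ h)))

theorem units_pow_even (ε : ℤˣ) {n : ℕ} (hn : Even n) : ε ^ n = 1 := by
  obtain ⟨k, rfl⟩ := hn
  rw [← two_mul, pow_mul, Int.units_sq, one_pow]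

theorem bd_of_cube (q : ℕ) (γ : Gam F) (h : γ.1 ^ 3 = 1 ∨ γ.1 ^ 3 = negSL) (v : V2 F) :
    Bd q (aff γ v) := by
  have hL : ∀ x, Lh (γ ^ 3) x = sg F γ.2 • x := by
    intro x
    rw [Lh_scalar (γ ^ 3) (by rw [Prod.pow_fst]; exact h), Prod.pow_snd]
    have : γ.2 ^ 3 = γ.2 := by rw [pow_succ, Int.units_sq, one_mul]
    rw [this]
  rcases sg_cases (F := F) γ.2 with hs | hs
  · right; left
    have : aff γ v ^ 9 = (aff γ v ^ 3) ^ 3 := by rw [← pow_mul]
    rw [this, aff_pow]
    exact aff_pow_three_of_id (fun x => by rw [hL, hs, one_smul]) _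
  · left
    have : aff γ v ^ 6 = (aff γ v ^ 3) ^ 2 := by rw [← pow_mul]
    rw [this, aff_pow]
    exact aff_pow_two_of_neg (fun x => by rw [hL, hs, neg_one_smul]) _

theorem bd_of_sq (q : ℕ) (γ : Gam F) (h : γ.1 ^ 2 = negSL) (v : V2 F) : Bd q (aff γ v) := by
  left
  have : aff γ v ^ 6 = (aff γ v ^ 2) ^ 3 := by rw [← pow_mul]
  rw [this, aff_pow]
  refine aff_pow_three_of_id (fun x => ?_) _
  rw [Lh_scalar (γ ^ 2) (Or.inr (by rw [Prod.pow_fst]; exact h)), Prod.pow_snd, Int.units_sq,
    sg_one, one_smul]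

omit [CharP F 3] in
theorem triSL_zero_pow (a : Fˣ) (n : ℕ) : triSL a (0 : F) ^ n = triSL (a ^ n) 0 := by
  induction n with
  | zero => rw [pow_zero, pow_zero, triSL_one_eq, uSL_zero]
  | succ n ih => rw [pow_succ, ih, triSL_mul, pow_succ, mul_zero, zero_mul, add_zero]

omit [CharP F 3] in
theorem triSL_neg_one_zero : triSL (-1 : Fˣ) (0 : F) = negSL := by
  apply Subtype.ext
  rw [triSL_coe, negSL_coe]
  simp

theorem triSL_cube {a : Fˣ} (ha : (a : F) ^ 2 = 1) (b : F) : triSL a b ^ 3 = triSL a 0 := by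
  have haa : a * a = 1 := Units.ext (by rw [Units.val_mul, Units.val_one, ← pow_two]; exact ha)
  have hinv : a⁻¹ = a := inv_eq_of_mul_eq_one_right haa
  have h3 : (3 : F) = 0 := three_eq_zero
  rw [pow_succ, pow_two, triSL_mul, triSL_mul, hinv, haa, one_mul]
  congr 1
  rw [Units.val_one]
  linear_combination (2 * b) * ha + b * h3

omit [CharP F 3] in
theorem triSL_conj_diag {a : Fˣ} (ha : (a : F) ^ 2 ≠ 1) (b : F) :
    ∃ s : F, triSL a b = uSL s * triSL a 0 * (uSL s)⁻¹ := by
  have ha0 : (a : F) ≠ 0 := a.ne_zero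
  have hne : ((a⁻¹ : Fˣ) : F) - (a : F) ≠ 0 := by
    rw [Units.val_inv_eq_inv_val]
    intro h
    apply ha
    field_simp at h
    linear_combination -h
  refine ⟨b / (((a⁻¹ : Fˣ) : F) - (a : F)), ?_⟩
  rw [eq_mul_inv_iff_mul_eq, ← triSL_one_eq, triSL_mul, triSL_mul, mul_one, one_mul]
  congr 1
  rw [inv_one, Units.val_one]
  field_simp
  ring

end bound

section fin

variable {F : Type*} [Field F] [CharP F 3] [Fintype F] [DecidableEq F]

omit [CharP F 3] [DecidableEq F] in
theorem card_mod_four (hm1 : ¬ IsSquare (-1 : F)) : Fintype.card F % 4 = 3 := by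
  by_contra h
  exact hm1 (FiniteField.isSquare_neg_one_iff.2 h)

theorem bound_noEigen (hm1 : ¬ IsSquare (-1 : F)) (g : Matrix.SpecialLinearGroup (Fin 2) F)
    (hg : NoEigen (g : Matrix (Fin 2) (Fin 2) F)) (ε : ℤˣ) (v : V2 F) :
    Bd (Fintype.card F) (aff ((g, ε) : Gam F) v) := by
  by_cases h3 : g ^ 3 = 1 ∨ g ^ 3 = negSL
  · exact bd_of_cube (Fintype.card F) ((g, ε) : Gam F) h3 v
  by_cases h2 : g ^ 2 = negSL
  · exact bd_of_sq (Fintype.card F) ((g, ε) : Gam F) h2 v
  right; right; right
  have hq : Fintype.card F % 4 = 3 := card_mod_four hm1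
  have hodd : Odd (Fintype.card F) := Nat.odd_iff.2 (by omega)
  apply aff_pow_of_fpf
  · intro x hx
    by_contra hx0
    rcases fp_noEigen hm1 g hg ε x hx0 hx with h | h
    · exact h2 h
    · exact h3 h
  · intro x
    have hg1 : g ^ (Fintype.card F + 1) = 1 := by
      have hmem : g ∈ torSL g := mem_torSL_iff'.2 rfl
      have h1 := pow_card_eq_one' (G := torSL g) (x := ⟨g, hmem⟩)
      rw [card_torSL hodd hg] at h1
      have h2 := congrArg Subtype.val h1
      simpa using h2
    have hh : (g ^ ((Fintype.card F + 1) / 2)) ^ 2 = 1 := by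
      rw [← pow_mul, Nat.div_mul_cancel (by omega), hg1]
    rw [Lh_scalar _ (by rw [Prod.pow_fst]; exact sl_sq_eq_one two_ne_zero_three _ hh),
      Prod.pow_snd, units_pow_even _ (Nat.even_iff.2 (by omega)), sg_one, one_smul]

omit [Fintype F] [DecidableEq F] in
/-- Entrywise form of the fixed point equation for a diagonal element. -/
theorem diag_fp (a : Fˣ) (c : F) (x : V2 F)
    (h : c • ((triSL a (0 : F) : Matrix (Fin 2) (Fin 2) F) * x *
      fr (triSL a (0 : F) : Matrix (Fin 2) (Fin 2) F)) = x) :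
    c * (a : F) ^ 4 * x 0 0 = x 0 0 ∧ c * x 0 1 = (a : F) ^ 2 * x 0 1 ∧
      c * (a : F) ^ 2 * x 1 0 = x 1 0 ∧ c * x 1 1 = (a : F) ^ 4 * x 1 1 := by
  obtain ⟨w, hw⟩ : ∃ w : F, w = ((a⁻¹ : Fˣ) : F) := ⟨_, rfl⟩
  have haw : (a : F) * w = 1 := by rw [hw, ← Units.val_mul, mul_inv_cancel, Units.val_one]
  have e00 := congrFun (congrFun h 0) 0
  have e01 := congrFun (congrFun h 0) 1
  have e10 := congrFun (congrFun h 1) 0
  have e11 := congrFun (congrFun h 1) 1
  simp only [triSL_coe, Matrix.smul_apply, Matrix.mul_apply, Fin.sum_univ_two, fr_apply,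
    Matrix.of_apply, Matrix.cons_val_zero, Matrix.cons_val_one, Matrix.cons_val',
    Matrix.cons_val_fin_one, smul_eq_mul, ← hw] at e00 e01 e10 e11
  refine ⟨?_, ?_, ?_, ?_⟩
  · linear_combination e00
  · linear_combination ((a : F) ^ 2) * e01 -
      c * x 0 1 * (1 + (a : F) * w + (a : F) ^ 2 * w ^ 2) * haw
  · linear_combination e10 - c * (a : F) ^ 2 * x 1 0 * haw
  · linear_combination ((a : F) ^ 4) * e11 -
      c * x 1 1 * (1 + (a : F) * w + (a : F) ^ 2 * w ^ 2 + (a : F) ^ 3 * w ^ 3) * haw

theorem bound_diag (hm1 : ¬ IsSquare (-1 : F)) (a : Fˣ) (ha : (a : F) ^ 2 ≠ 1) (ε : ℤˣ)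
    (v : V2 F) : Bd (Fintype.card F) (aff ((triSL a (0 : F), ε) : Gam F) v) := by
  right; right; left
  have hq : Fintype.card F % 4 = 3 := card_mod_four hm1
  have ha0 : (a : F) ≠ 0 := a.ne_zero
  have hm2 : (a : F) ^ 2 ≠ -1 := by
    intro h
    exact hm1 ⟨a, by rw [← h]; ring⟩
  have h41 : (a : F) ^ 4 ≠ 1 := by
    intro h
    have : ((a : F) ^ 2 - 1) * ((a : F) ^ 2 + 1) = 0 := by linear_combination h
    rcases mul_eq_zero.1 this with h' | h'
    · exact ha (sub_eq_zero.1 h')
    · exact hm2 (eq_neg_of_add_eq_zero_left h')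
  have h42 : (a : F) ^ 4 ≠ -1 := by
    intro h
    exact hm1 ⟨(a : F) ^ 2, by rw [← h]; ring⟩
  apply aff_pow_of_fpf
  · intro x hx
    rw [Lh_apply] at hx
    obtain ⟨e00, e01, e10, e11⟩ := diag_fp a _ x hx
    simp only [] at e00 e01 e10 e11
    have key : ∀ (w y : F), (sg F ε * w = 1 → False) → sg F ε * w * y = y → y = 0 := by
      intro w y hw hy
      by_contra hy0
      apply hw
      apply mul_right_cancel₀ hy0
      rw [hy, one_mul]
    have key' : ∀ (w y : F), (sg F ε = w → False) → sg F ε * y = w * y → y = 0 := by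
      intro w y hw hy
      by_contra hy0
      apply hw
      exact mul_right_cancel₀ hy0 hy
    have c4 : sg F ε * (a : F) ^ 4 = 1 → False := by
      intro h
      rcases sg_cases (F := F) ε with hs | hs
      · rw [hs, one_mul] at h; exact h41 h
      · rw [hs] at h; exact h42 (by linear_combination -h)
    have c2 : sg F ε * (a : F) ^ 2 = 1 → False := by
      intro h
      rcases sg_cases (F := F) ε with hs | hs
      · rw [hs, one_mul] at h; exact ha h
      · rw [hs] at h; exact hm2 (by linear_combination -h)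
    have c4' : sg F ε = (a : F) ^ 4 → False := by
      intro h
      rcases sg_cases (F := F) ε with hs | hs
      · rw [hs] at h; exact h41 h.symm
      · rw [hs] at h; exact h42 h.symm
    have c2' : sg F ε = (a : F) ^ 2 → False := by
      intro h
      rcases sg_cases (F := F) ε with hs | hs
      · rw [hs] at h; exact ha h.symm
      · rw [hs] at h; exact hm2 h.symm
    ext i j
    fin_cases i <;> fin_cases j
    · exact key _ _ c4 e00
    · exact key' _ _ c2' e01
    · exact key _ _ c2 e10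
    · exact key' _ _ c4' e11
  · intro x
    have h1 : ((triSL a (0 : F), ε) : Gam F) ^ (Fintype.card F - 1) = 1 := by
      apply Prod.ext
      · rw [Prod.pow_fst, Prod.fst_one]
        show triSL a (0 : F) ^ (Fintype.card F - 1) = 1
        rw [triSL_zero_pow]
        have : a ^ (Fintype.card F - 1) = 1 := by
          rw [← Fintype.card_units]
          exact pow_card_eq_one
        rw [this, triSL_one_eq, uSL_zero]
      · rw [Prod.pow_snd, Prod.snd_one]
        exact units_pow_even _ (Nat.even_iff.2 (by omega))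
    rw [h1, Lh_one]

theorem bound_tri (hm1 : ¬ IsSquare (-1 : F)) (a : Fˣ) (b : F) (ε : ℤˣ) (v : V2 F) :
    Bd (Fintype.card F) (aff ((triSL a b, ε) : Gam F) v) := by
  by_cases ha : (a : F) ^ 2 = 1
  · apply bd_of_cube
    show triSL a b ^ 3 = 1 ∨ triSL a b ^ 3 = negSL
    rw [triSL_cube ha]
    have h1 : a = 1 ∨ a = -1 := by
      have : ((a : F) - 1) * ((a : F) + 1) = 0 := by linear_combination ha
      rcases mul_eq_zero.1 this with h | h
      · left; exact Units.ext (by rw [Units.val_one]; exact sub_eq_zero.1 h)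
      · right
        exact Units.ext (by rw [Units.val_neg, Units.val_one]; exact eq_neg_of_add_eq_zero_left h)
    rcases h1 with rfl | rfl
    · left; rw [triSL_one_eq, uSL_zero]
    · right; exact triSL_neg_one_zero
  · obtain ⟨s, hs⟩ := triSL_conj_diag ha b
    have e : ((triSL a b, ε) : Gam F) =
        ((uSL s, 1) : Gam F) * (triSL a 0, ε) * ((uSL s, 1) : Gam F)⁻¹ := by
      rw [hs]
      ext <;> simp
    rw [e, aff_conj]
    exact (bound_diag hm1 a ha ε _).conj _

/-- Every element of the affine group has order dividing `6`, `9`, `q - 1` or `(q + 1) / 2`. -/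
theorem bound (hm1 : ¬ IsSquare (-1 : F)) (γ : Gam F) (v : V2 F) :
    Bd (Fintype.card F) (aff γ v) := by
  obtain ⟨g, ε⟩ := γ
  by_cases hg : NoEigen (g : Matrix (Fin 2) (Fin 2) F)
  · exact bound_noEigen hm1 g hg ε v
  · obtain ⟨k, a, b, hk⟩ := exists_conj_triSL g hg
    have e : ((g, ε) : Gam F) = ((k, 1) : Gam F) * (triSL a b, ε) * ((k, 1) : Gam F)⁻¹ := by
      rw [hk]
      ext <;> simp
    rw [e, aff_conj]
    exact (bound_tri hm1 a b ε _).conj _

end fin

end Cfsg.Agent.Helper39.Mu
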