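import Mathlib
import Cfsg.Agent.Helper39.MuSL

set_option autoImplicit false

/-!
# Element orders in the affine group `M₂(F) ⋊ (SL₂(F) × {±1})` (helper39)
-/

namespace Cfsg.Agent.Helper39.Mu

open Matrix Cfsg.Agent.Helper39

section ord

variable {F : Type*} [Field F] [CharP F 3]

theorem aff_zero_pow (γ : Gam F) (n : ℕ) : aff γ 0 ^ n = aff (γ ^ n) 0 := by
  rw [aff_pow, Finset.sum_eq_zero (fun j _ => map_zero _)]

theorem aff_zero_pow_eq_one_iff (γ : Gam F) (n : ℕ) :
    aff γ 0 ^ n = 1 ↔ ∀ x, Lh (γ ^ n) x = x := by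
  rw [aff_zero_pow, aff_eq_one_iff]
  exact ⟨fun h => h.2, fun h => ⟨rfl, h⟩⟩

/-- The action of the unipotent element. -/
theorem Lh_uSL_one (ε : ℤˣ) (x : V2 F) :
    Lh ((uSL 1, ε) : Gam F) x =
      sg F ε • !![x 0 0 + x 0 1 + x 1 0 + x 1 1, x 0 1 + x 1 1; x 1 0 + x 1 1, x 1 1] := by
  rw [Lh_apply]
  congr 1
  show (uSL (1 : F) : Matrix (Fin 2) (Fin 2) F) * x *
    fr (uSL (1 : F) : Matrix (Fin 2) (Fin 2) F) = _
  rw [uSL_coe]
  ext i j
  fin_cases i <;> fin_cases j <;>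
    simp only [Matrix.mul_apply, Fin.sum_univ_two, fr_apply, Matrix.of_apply,
      Matrix.cons_val_zero, Matrix.cons_val_one, Matrix.cons_val', Matrix.cons_val_fin_one,
      Fin.zero_eta, Fin.mk_one, Fin.isValue] <;> ring

theorem uSL_one_cube : (uSL (1 : F)) ^ 3 = 1 := by
  rw [pow_succ, pow_two, ← uSL_add, ← uSL_add]
  have : (1 : F) + 1 + 1 = 0 := by
    have := three_eq_zero (F := F)
    linear_combination this
  rw [this, uSL_zero]

theorem aff_pow_nine {γ : Gam F} (h : ∀ x, Lh (γ ^ 3) x = x) (v : V2 F) : aff γ v ^ 9 = 1 := by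
  have : aff γ v ^ 9 = (aff γ v ^ 3) ^ 3 := by rw [← pow_mul]
  rw [this, aff_pow]
  exact aff_pow_three_of_id h _

theorem aff_pow_six {γ : Gam F} (h : ∀ x, Lh (γ ^ 3) x = -x) (v : V2 F) : aff γ v ^ 6 = 1 := by
  have : aff γ v ^ 6 = (aff γ v ^ 3) ^ 2 := by rw [← pow_mul]
  rw [this, aff_pow]
  exact aff_pow_two_of_neg h _

theorem orderOf_eq_six {G : Type*} [Group G] (f : G) (h6 : f ^ 6 = 1) (h2 : f ^ 2 ≠ 1)
    (h3 : f ^ 3 ≠ 1) : orderOf f = 6 := by
  have hd : orderOf f ∣ 6 := orderOf_dvd_of_pow_eq_one h6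
  have hle : orderOf f ≤ 6 := Nat.le_of_dvd (by norm_num) hd
  have h2' : ¬ orderOf f ∣ 2 := fun h => h2 (orderOf_dvd_iff_pow_eq_one.1 h)
  have h3' : ¬ orderOf f ∣ 3 := fun h => h3 (orderOf_dvd_iff_pow_eq_one.1 h)
  interval_cases h : orderOf f <;> omega

/-- An element of order `9`. -/
theorem exists_order_nine : ∃ f ∈ affGroup F, orderOf f = 9 := by
  refine ⟨aff ((uSL 1, 1) : Gam F) !![0, 0; 0, 1], aff_mem _ _, ?_⟩
  have e : (9 : ℕ) = 3 ^ (1 + 1) := by norm_num
  rw [e]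
  have : Fact (Nat.Prime 3) := ⟨Nat.prime_three⟩
  apply orderOf_eq_prime_pow
  · intro h
    have h0 := congrArg (fun f : Equiv.Perm (V2 F) => f 0) h
    simp only [pow_succ, pow_zero, one_mul, Equiv.Perm.mul_apply, Equiv.Perm.one_apply,
      aff_apply, map_zero, zero_add, Lh_uSL_one, sg_one, one_smul] at h0
    have h00 := congrFun (congrFun h0 0) 0
    simp at h00
    apply two_ne_zero_three (F := F)
    linear_combination h00 - (three_eq_zero : (3 : F) = 0)
  · apply aff_pow_nine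
    intro x
    have : ((uSL 1, 1) : Gam F) ^ 3 = 1 := by
      apply Prod.ext
      · rw [Prod.pow_fst, Prod.fst_one]; exact uSL_one_cube
      · rw [Prod.pow_snd, Prod.snd_one, one_pow]
    rw [this, Lh_one]

/-- An element of order `6`. -/
theorem exists_order_six : ∃ f ∈ affGroup F, orderOf f = 6 := by
  refine ⟨aff ((uSL 1, -1) : Gam F) 0, aff_mem _ _, ?_⟩
  have hcube : ∀ x : V2 F, Lh (((uSL 1, -1) : Gam F) ^ 3) x = -x := by
    intro x
    rw [Lh_scalar _ (Or.inl (by rw [Prod.pow_fst]; exact uSL_one_cube)), Prod.pow_snd,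
      Odd.neg_one_pow (by decide), sg_neg_one, neg_one_smul]
  apply orderOf_eq_six
  · exact aff_pow_six hcube 0
  · intro h
    have h0 := congrArg (fun f : Equiv.Perm (V2 F) => f !![0, 0; 0, 1]) h
    simp only [pow_succ, pow_zero, one_mul, Equiv.Perm.mul_apply, Equiv.Perm.one_apply,
      aff_apply, add_zero, Lh_uSL_one, sg_neg_one] at h0
    have h00 := congrFun (congrFun h0 0) 0
    simp at h00
    apply one_ne_zero (α := F)
    linear_combination h00 - (three_eq_zero : (3 : F) = 0)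
  · intro h
    rw [aff_zero_pow_eq_one_iff] at h
    have h0 := h !![0, 0; 0, 1]
    rw [hcube] at h0
    have h11 := congrFun (congrFun h0 1) 1
    simp at h11
    apply two_ne_zero_three (F := F)
    linear_combination -h11

/-- An element of `SL₂` acting trivially is `±1`. -/
theorem sl_fix_all (g : Matrix.SpecialLinearGroup (Fin 2) F)
    (h : ∀ x : V2 F, (g : Matrix (Fin 2) (Fin 2) F) * x * fr (g : Matrix (Fin 2) (Fin 2) F) = x) :
    g = 1 ∨ g = negSL := by
  have hdet := g.2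
  rw [Matrix.det_fin_two] at hdet
  have h1 := congrFun (congrFun (h !![1, 0; 0, 0]) 1) 1
  have h2 := congrFun (congrFun (h !![0, 0; 0, 1]) 0) 0
  have h3 := congrFun (congrFun (h !![0, 1; 0, 0]) 0) 1
  simp only [Matrix.mul_apply, Fin.sum_univ_two, fr_apply, Matrix.of_apply,
    Matrix.cons_val_zero, Matrix.cons_val_one, Matrix.cons_val', Matrix.cons_val_fin_one,
    mul_zero, mul_one, add_zero, zero_add, zero_mul] at h1 h2 h3
  have h10 : (g : Matrix (Fin 2) (Fin 2) F) 1 0 = 0 := by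
    have : (g : Matrix (Fin 2) (Fin 2) F) 1 0 ^ 4 = 0 := by linear_combination h1
    exact pow_eq_zero_iff (by norm_num) |>.1 this
  have h01 : (g : Matrix (Fin 2) (Fin 2) F) 0 1 = 0 := by
    have : (g : Matrix (Fin 2) (Fin 2) F) 0 1 ^ 4 = 0 := by linear_combination h2
    exact pow_eq_zero_iff (by norm_num) |>.1 this
  rw [h01, zero_mul, sub_zero] at hdet
  have hsq : (g : Matrix (Fin 2) (Fin 2) F) 1 1 ^ 2 = 1 := by
    linear_combination h3 - (g : Matrix (Fin 2) (Fin 2) F) 1 1 ^ 2 * hdet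
  have heq : (g : Matrix (Fin 2) (Fin 2) F) 0 0 = (g : Matrix (Fin 2) (Fin 2) F) 1 1 := by
    linear_combination (g : Matrix (Fin 2) (Fin 2) F) 1 1 * hdet -
      (g : Matrix (Fin 2) (Fin 2) F) 0 0 * hsq
  have hcases : ((g : Matrix (Fin 2) (Fin 2) F) 1 1 - 1) *
      ((g : Matrix (Fin 2) (Fin 2) F) 1 1 + 1) = 0 := by linear_combination hsq
  rcases mul_eq_zero.1 hcases with h | h
  · left
    apply Subtype.ext
    ext i j
    fin_cases i <;> fin_cases j
    · simp only [Fin.zero_eta, Fin.isValue, Matrix.SpecialLinearGroup.coe_one, Matrix.one_apply_eq]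
      rw [heq]; exact sub_eq_zero.1 h
    · simpa using h01
    · simpa using h10
    · simpa using sub_eq_zero.1 h
  · right
    apply Subtype.ext
    rw [negSL_coe]
    ext i j
    fin_cases i <;> fin_cases j
    · simp only [Fin.zero_eta, Fin.isValue, Matrix.of_apply, Matrix.cons_val', Matrix.cons_val_zero,
        Matrix.cons_val_fin_one]
      rw [heq]; exact eq_neg_of_add_eq_zero_left h
    · simpa using h01
    · simpa using h10
    · simpa using eq_neg_of_add_eq_zero_left h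

end ord

section fin

variable {F : Type*} [Field F] [CharP F 3] [Fintype F] [DecidableEq F]

/-- An element of order `q - 1`. -/
theorem exists_order_qm1 (hm1 : ¬ IsSquare (-1 : F)) :
    ∃ f ∈ affGroup F, orderOf f = Fintype.card F - 1 := by
  have hq := card_mod_four hm1
  obtain ⟨l, hl⟩ := IsCyclic.exists_generator (α := Fˣ)
  have hord : orderOf l = Fintype.card F - 1 := by
    rw [orderOf_eq_card_of_forall_mem_zpowers hl, Nat.card_eq_fintype_card, Fintype.card_units]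
  have hγ : ∀ n : ℕ, ((triSL l (0 : F), -1) : Gam F) ^ n = (triSL (l ^ n) 0, (-1) ^ n) := by
    intro n
    apply Prod.ext
    · rw [Prod.pow_fst]; exact triSL_zero_pow l n
    · rw [Prod.pow_snd]
  refine ⟨aff ((triSL l 0, -1) : Gam F) 0, aff_mem _ _, ?_⟩
  apply Nat.dvd_antisymm
  · apply orderOf_dvd_of_pow_eq_one
    rw [aff_zero_pow_eq_one_iff]
    intro x
    have h1 : ((triSL l (0 : F), -1) : Gam F) ^ (Fintype.card F - 1) = 1 := by
      rw [hγ]
      apply Prod.ext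
      · show triSL (l ^ (Fintype.card F - 1)) (0 : F) = 1
        have : l ^ (Fintype.card F - 1) = 1 := by
          rw [← Fintype.card_units]
          exact pow_card_eq_one
        rw [this, triSL_one_eq, uSL_zero]
      · exact units_pow_even _ (Nat.even_iff.2 (by omega))
    rw [h1, Lh_one]
  · obtain ⟨n, hn⟩ : ∃ n, n = orderOf (aff ((triSL l 0, -1) : Gam F) 0) := ⟨_, rfl⟩
    have h := pow_orderOf_eq_one (aff ((triSL l 0, -1) : Gam F) 0)
    rw [← hn] at h ⊢
    rw [aff_zero_pow_eq_one_iff, hγ] at h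
    have hx := h (Matrix.of fun _ _ => 1)
    rw [Lh_apply] at hx
    obtain ⟨e00, -, e10, -⟩ := diag_fp (l ^ n) _ _ hx
    simp only [Matrix.of_apply, mul_one] at e00 e10
    obtain ⟨c, hc⟩ : ∃ c : F, c = sg F ((-1) ^ n) := ⟨_, rfl⟩
    obtain ⟨μ, hμ⟩ : ∃ μ : F, μ = ((l ^ n : Fˣ) : F) := ⟨_, rfl⟩
    rw [← hc, ← hμ] at e00 e10
    have hμ2 : μ ^ 2 = 1 := by
      have : c * μ ^ 2 * (μ ^ 2 - 1) = 0 := by linear_combination e00 - e10
      rw [e10, one_mul] at this
      exact sub_eq_zero.1 this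
    have hc1 : c = 1 := by rw [hμ2, mul_one] at e10; exact e10
    have hev : Even n := by
      by_contra hodd
      rw [Nat.not_even_iff_odd] at hodd
      rw [hc, Odd.neg_one_pow hodd, sg_neg_one] at hc1
      exact two_ne_zero_three (F := F) (by linear_combination -hc1)
    have hl2 : l ^ (2 * n) = 1 := by
      apply Units.ext
      rw [mul_comm, pow_mul, Units.val_pow_eq_pow_val, Units.val_one, ← hμ]
      exact hμ2
    have hdvd : orderOf l ∣ 2 * n := orderOf_dvd_of_pow_eq_one hl2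
    rw [hord] at hdvd
    obtain ⟨r, hr⟩ : ∃ r, r = (Fintype.card F - 1) / 2 := ⟨_, rfl⟩
    have hr2 : Fintype.card F - 1 = 2 * r := by omega
    have hrodd : Odd r := by rw [Nat.odd_iff]; omega
    rw [hr2] at hdvd ⊢
    have h1 : r ∣ n := Nat.dvd_of_mul_dvd_mul_left (by norm_num) hdvd
    exact Nat.Coprime.mul_dvd_of_dvd_of_dvd (Nat.coprime_two_left.2 hrodd) hev.two_dvd h1

/-- An element of order `(q + 1) / 2`. -/
theorem exists_order_qp1 (hm1 : ¬ IsSquare (-1 : F)) :
    ∃ f ∈ affGroup F, orderOf f = (Fintype.card F + 1) / 2 := by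
  have hq := card_mod_four hm1
  have hodd : Odd (Fintype.card F) := Nat.odd_iff.2 (by omega)
  obtain ⟨g₀, hg₀⟩ := exists_noEigen (F := F) hodd
  obtain ⟨c₀, -, hc₀⟩ := exists_gen_torSL hodd hg₀
  obtain ⟨c, hc⟩ : ∃ c : Matrix.SpecialLinearGroup (Fin 2) F, c = (c₀ : _) := ⟨_, rfl⟩
  have hord : orderOf c = Fintype.card F + 1 := by rw [hc, Subgroup.orderOf_coe, hc₀]
  have hγ : ∀ n : ℕ, ((c, 1) : Gam F) ^ n = (c ^ n, 1) := by
    intro n
    apply Prod.ext
    · rw [Prod.pow_fst]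
    · rw [Prod.pow_snd, one_pow]
  have hB : Fintype.card F + 1 = 2 * ((Fintype.card F + 1) / 2) := by omega
  refine ⟨aff ((c, 1) : Gam F) 0, aff_mem _ _, ?_⟩
  apply Nat.dvd_antisymm
  · apply orderOf_dvd_of_pow_eq_one
    rw [aff_zero_pow_eq_one_iff]
    intro x
    have hh : (c ^ ((Fintype.card F + 1) / 2)) ^ 2 = 1 := by
      rw [← pow_mul, mul_comm, ← hB, ← hord, pow_orderOf_eq_one]
    rw [hγ, Lh_scalar ((c ^ ((Fintype.card F + 1) / 2), 1) : Gam F)
      (sl_sq_eq_one two_ne_zero_three _ hh), sg_one, one_smul]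
  · obtain ⟨n, hn⟩ : ∃ n, n = orderOf (aff ((c, 1) : Gam F) 0) := ⟨_, rfl⟩
    have h := pow_orderOf_eq_one (aff ((c, 1) : Gam F) 0)
    rw [← hn] at h ⊢
    rw [aff_zero_pow_eq_one_iff, hγ] at h
    have hfix : ∀ x : V2 F, ((c ^ n : Matrix.SpecialLinearGroup (Fin 2) F) :
        Matrix (Fin 2) (Fin 2) F) * x * fr ((c ^ n : Matrix.SpecialLinearGroup (Fin 2) F) :
        Matrix (Fin 2) (Fin 2) F) = x := by
      intro x
      have := h x
      rw [Lh_apply, sg_one, one_smul] at this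
      exact this
    have hc2 : c ^ (2 * n) = 1 := by
      rw [mul_comm, pow_mul]
      rcases sl_fix_all _ hfix with h1 | h1
      · rw [h1, one_pow]
      · rw [h1, pow_two, negSL_mul_self]
    have hdvd : orderOf c ∣ 2 * n := orderOf_dvd_of_pow_eq_one hc2
    rw [hord, hB] at hdvd
    exact Nat.dvd_of_mul_dvd_mul_left (by norm_num) hdvd

end fin

section abstract

/-- Abstract determination of the set of maximal element orders. -/
theorem maxOrders_eq {G : Type*} [Group G] (S : Set ℕ)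
    (h1 : ∀ g : G, ∃ s ∈ S, orderOf g ∣ s) (h2 : ∀ s ∈ S, ∃ g : G, orderOf g = s)
    (h3 : ∀ s ∈ S, ∀ t ∈ S, s ∣ t → s = t) :
    {n : ℕ | n ∈ Set.range (orderOf : G → ℕ) ∧
      ∀ m ∈ Set.range (orderOf : G → ℕ), n ∣ m → m = n} = S := by
  ext n
  constructor
  · rintro ⟨⟨g, rfl⟩, hmax⟩
    obtain ⟨s, hs, hd⟩ := h1 g
    obtain ⟨g', hg'⟩ := h2 s hs
    have := hmax s ⟨g', hg'⟩ hd
    rw [← this]
    exact hs
  · intro hn
    refine ⟨h2 n hn, ?_⟩
    rintro m ⟨g, rfl⟩ hnm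
    obtain ⟨s, hs, hd⟩ := h1 g
    have := h3 n hn s hs (hnm.trans hd)
    rw [← this] at hd
    exact Nat.dvd_antisymm hd hnm

end abstract

section main

variable {F : Type*} [Field F] [CharP F 3] [Fintype F] [DecidableEq F]

/-- The maximal element orders of the affine group. -/
theorem maxOrders (hm1 : ¬ IsSquare (-1 : F)) (h27 : 27 ≤ Fintype.card F)
    (h3 : 3 ∣ Fintype.card F) :
    {n : ℕ | n ∈ Set.range (orderOf : ↥(affGroup F) → ℕ) ∧
      ∀ m ∈ Set.range (orderOf : ↥(affGroup F) → ℕ), n ∣ m → m = n} =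
      ({6, 9, Fintype.card F - 1, (Fintype.card F + 1) / 2} : Set ℕ) := by
  have hq := card_mod_four hm1
  apply maxOrders_eq
  · intro g
    obtain ⟨⟨γ, v⟩, hγ⟩ := g.2
    have hγ' : aff γ v = (g : Equiv.Perm (V2 F)) := hγ
    rw [← Subgroup.orderOf_coe, ← hγ']
    simp only [Set.mem_insert_iff, Set.mem_singleton_iff]
    rcases bound hm1 γ v with h | h | h | h
    · exact ⟨6, Or.inl rfl, orderOf_dvd_of_pow_eq_one h⟩
    · exact ⟨9, Or.inr (Or.inl rfl), orderOf_dvd_of_pow_eq_one h⟩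
    · exact ⟨_, Or.inr (Or.inr (Or.inl rfl)), orderOf_dvd_of_pow_eq_one h⟩
    · exact ⟨_, Or.inr (Or.inr (Or.inr rfl)), orderOf_dvd_of_pow_eq_one h⟩
  · intro s hs
    simp only [Set.mem_insert_iff, Set.mem_singleton_iff] at hs
    rcases hs with rfl | rfl | rfl | rfl
    · obtain ⟨f, hf, ho⟩ := exists_order_six (F := F)
      exact ⟨⟨f, hf⟩, by rw [Subgroup.orderOf_mk, ho]⟩
    · obtain ⟨f, hf, ho⟩ := exists_order_nine (F := F)
      exact ⟨⟨f, hf⟩, by rw [Subgroup.orderOf_mk, ho]⟩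
    · obtain ⟨f, hf, ho⟩ := exists_order_qm1 hm1
      exact ⟨⟨f, hf⟩, by rw [Subgroup.orderOf_mk, ho]⟩
    · obtain ⟨f, hf, ho⟩ := exists_order_qp1 hm1
      exact ⟨⟨f, hf⟩, by rw [Subgroup.orderOf_mk, ho]⟩
  · obtain ⟨q, hqq⟩ : ∃ q, q = Fintype.card F := ⟨_, rfl⟩
    rw [← hqq] at hq h27 h3 ⊢
    intro s hs t ht hd
    simp only [Set.mem_insert_iff, Set.mem_singleton_iff] at hs ht
    have hB : (q + 1) / 2 ∣ q - 1 → False := by
      intro hd
      have h2 : (q + 1) / 2 ∣ 2 * ((q + 1) / 2) - (q - 1) :=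
        Nat.dvd_sub (dvd_mul_left _ _) hd
      have e : 2 * ((q + 1) / 2) - (q - 1) = 2 := by omega
      rw [e] at h2
      have := Nat.le_of_dvd (by norm_num) h2
      omega
    rcases hs with rfl | rfl | rfl | rfl <;> rcases ht with rfl | rfl | rfl | rfl <;>
      first
        | rfl
        | (exfalso; omega)
        | (exfalso; exact hB hd)
        | (exfalso; have := Nat.le_of_dvd (by omega) hd; omega)

end main

end Cfsg.Agent.Helper39.Mu
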