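import Mathlib
import Cfsg.Agent.Helper39.MuOrd

set_option autoImplicit false

/-!
# A group with non-trivial `3`-core and the truncated Ree maximal orders (helper39)
-/

namespace Cfsg.Agent.Helper39.Mu

open Matrix Cfsg.Agent.Helper39

section transl

variable {F : Type*} [Field F] [CharP F 3]

/-- The translation subgroup of the affine group. -/
def transl (F : Type*) [Field F] [CharP F 3] : Subgroup ↥(affGroup F) where
  carrier := {h | ∃ v : V2 F, (h : Equiv.Perm (V2 F)) = aff 1 v}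
  mul_mem' := by
    rintro a b ⟨v, hv⟩ ⟨w, hw⟩
    exact ⟨Lh 1 w + v, by rw [Subgroup.coe_mul, hv, hw, aff_mul, mul_one]⟩
  one_mem' := ⟨0, by rw [Subgroup.coe_one, aff_one]⟩
  inv_mem' := by
    rintro a ⟨v, hv⟩
    exact ⟨-Lh 1⁻¹ v, by rw [Subgroup.coe_inv, hv, aff_inv, inv_one]⟩

theorem transl_normal : (transl F).Normal := by
  constructor
  rintro n ⟨v, hv⟩ g
  obtain ⟨⟨γ, w⟩, hγ⟩ := g.2
  have hγ' : aff γ w = (g : Equiv.Perm (V2 F)) := hγ
  refine ⟨Lh (γ * 1) (-Lh γ⁻¹ w) + (Lh γ v + w), ?_⟩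
  rw [Subgroup.coe_mul, Subgroup.coe_mul, Subgroup.coe_inv, hv, ← hγ', aff_mul, aff_inv, aff_mul,
    mul_one, mul_inv_cancel]

theorem transl_ne_bot : transl F ≠ ⊥ := by
  intro h
  have hmem : (⟨aff 1 1, aff_mem _ _⟩ : ↥(affGroup F)) ∈ transl F := ⟨1, rfl⟩
  rw [h, Subgroup.mem_bot] at hmem
  have h1 := congrArg (fun x : ↥(affGroup F) => (x : Equiv.Perm (V2 F))) hmem
  simp only [Subgroup.coe_one] at h1
  rw [aff_eq_one_iff] at h1
  exact one_ne_zero h1.1

theorem transl_pgroup : IsPGroup 3 ↥(transl F) := by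
  rintro ⟨g, v, hv⟩
  refine ⟨1, ?_⟩
  apply Subtype.ext
  apply Subtype.ext
  rw [pow_one, Subgroup.coe_pow, Subgroup.coe_one, Subgroup.coe_pow, Subgroup.coe_one]
  show (g : Equiv.Perm (V2 F)) ^ 3 = 1
  rw [hv]
  exact aff_pow_three_of_id Lh_one v

end transl

theorem three_pow_mod_four {α : ℕ} (hodd : Odd α) : 3 ^ α % 4 = 3 := by
  obtain ⟨k, rfl⟩ := hodd
  rw [pow_succ, pow_mul, Nat.mul_mod, Nat.pow_mod]
  norm_num

/-- Main existence theorem. -/
theorem main (α : ℕ) (hα : 3 ≤ α) (hodd : Odd α) :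
    ∃ (H : Type) (_ : Group H) (_ : Fintype H),
      (∃ P : Subgroup H, P.Normal ∧ P ≠ ⊥ ∧ IsPGroup 3 ↥P) ∧
      {n : ℕ | n ∈ Set.range (orderOf : H → ℕ) ∧
        ∀ m ∈ Set.range (orderOf : H → ℕ), n ∣ m → m = n} =
        ({6, 9, 3 ^ α - 1, (3 ^ α + 1) / 2} : Set ℕ) := by
  classical
  have : Fact (Nat.Prime 3) := ⟨Nat.prime_three⟩
  have : Fintype (GaloisField 3 α) := Fintype.ofFinite _
  have hα0 : α ≠ 0 := by omega
  have hcard : Fintype.card (GaloisField 3 α) = 3 ^ α := by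
    rw [← Nat.card_eq_fintype_card]
    exact GaloisField.card 3 α hα0
  have hm1 : ¬ IsSquare (-1 : GaloisField 3 α) := by
    rw [FiniteField.isSquare_neg_one_iff, hcard, three_pow_mod_four hodd]
    simp
  have h27 : 27 ≤ Fintype.card (GaloisField 3 α) := by
    rw [hcard]
    calc 27 = 3 ^ 3 := by norm_num
      _ ≤ 3 ^ α := Nat.pow_le_pow_right (by norm_num) hα
  have h3 : 3 ∣ Fintype.card (GaloisField 3 α) := by
    rw [hcard]
    exact dvd_pow_self 3 hα0
  refine ⟨↥(affGroup (GaloisField 3 α)), inferInstance, Fintype.ofFinite _,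
    ⟨transl (GaloisField 3 α), transl_normal, transl_ne_bot, transl_pgroup⟩, ?_⟩
  rw [← hcard]
  exact maxOrders hm1 h27 h3

end Cfsg.Agent.Helper39.Mu
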