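import Cfsg.Agent.Helper55.N9Defs

/-!
# S4409 (CALL of helper55): shared helper lemmas for the pieces of helper39.
-/

set_option autoImplicit false

namespace Cfsg.Agent.Helper39.N9

open Subgroup Cfsg.Agent.Helper55.N9
open scoped commutatorElement

variable {G : Type*} [Group G]

theorem n9a_normalizer_of_conj (K W : Subgroup G)
    (h : ∀ k ∈ K, ∀ w ∈ W, k * w * k⁻¹ ∈ W) : K ≤ normalizer (W : Set G) := by
  intro k hk
  rw [mem_normalizer_iff]
  intro w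
  constructor
  · exact h k hk w
  · intro hw
    have h1 := h k⁻¹ (inv_mem hk) _ hw
    have e : k⁻¹ * (k * w * k⁻¹) * k⁻¹⁻¹ = w := by group
    rwa [e] at h1

theorem n9a_conj_mem {K X : Subgroup G} (hK : K ≤ normalizer (X : Set G)) {k x : G}
    (hk : k ∈ K) (hx : x ∈ X) : k * x * k⁻¹ ∈ X :=
  (mem_normalizer_iff.mp (hK hk) x).mp hx

theorem n9a_conj_mem' {K X : Subgroup G} (hK : K ≤ normalizer (X : Set G)) {k x : G}
    (hk : k ∈ K) (hx : x ∈ X) : k⁻¹ * x * k ∈ X := by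
  have h := n9a_conj_mem hK (inv_mem hk) hx
  rwa [inv_inv] at h

theorem n9a_zc_comm {X : Subgroup G} {z x : G} (hz : z ∈ zc X) (hx : x ∈ X) :
    z * x = x * z :=
  ((mem_centralizer_iff.mp hz.2) x hx).symm

theorem n9a_zc_inv (X K : Subgroup G) (hK : K ≤ normalizer (X : Set G)) :
    K ≤ normalizer ((zc X : Subgroup G) : Set G) := by
  apply n9a_normalizer_of_conj
  intro k hk z hz
  refine ⟨n9a_conj_mem hK hk hz.1, ?_⟩
  show k * z * k⁻¹ ∈ centralizer (X : Set G)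
  rw [mem_centralizer_iff]
  intro x hx
  have h1 : k⁻¹ * x * k ∈ X := n9a_conj_mem' hK hk hx
  have h2 := n9a_zc_comm hz h1
  have e1 : x * (k * z * k⁻¹) = k * ((k⁻¹ * x * k) * z) * k⁻¹ := by group
  have e2 : k * z * k⁻¹ * x = k * (z * (k⁻¹ * x * k)) * k⁻¹ := by group
  rw [e1, e2, h2]

theorem n9a_comm_inv (X K : Subgroup G) (hK : K ≤ normalizer (X : Set G)) :
    K ≤ normalizer ((⁅X, X⁆ : Subgroup G) : Set G) := by
  apply n9a_normalizer_of_conj
  intro k hk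
  have key : ⁅X, X⁆ ≤ Subgroup.comap ((MulAut.conj k).toMonoidHom) ⁅X, X⁆ := by
    rw [commutator_le]
    intro a ha b hb
    rw [mem_comap]
    have e : (MulAut.conj k).toMonoidHom ⁅a, b⁆ = ⁅k * a * k⁻¹, k * b * k⁻¹⁆ := by
      show k * ⁅a, b⁆ * k⁻¹ = _
      rw [commutatorElement_def, commutatorElement_def]
      group
    rw [e]
    exact commutator_mem_commutator (n9a_conj_mem hK hk ha) (n9a_conj_mem hK hk hb)
  intro w hw
  exact key hw

theorem n9a_comm_le_zc {X : Subgroup G} (hsq : ∀ x ∈ X, x ^ 2 ∈ zc X) : ⁅X, X⁆ ≤ zc X := by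
  rw [commutator_le]
  intro a ha b hb
  have hc : b * (a ^ 2)⁻¹ = (a ^ 2)⁻¹ * b :=
    (n9a_zc_comm (inv_mem (hsq a ha)) hb).symm
  have e : ⁅a, b⁆ = (a * b) ^ 2 * (a ^ 2)⁻¹ * (b ^ 2)⁻¹ := by
    calc ⁅a, b⁆ = a * b * a * ((a ^ 2)⁻¹ * b) * (b ^ 2)⁻¹ := by
          rw [commutatorElement_def]; group
      _ = a * b * a * (b * (a ^ 2)⁻¹) * (b ^ 2)⁻¹ := by rw [hc]
      _ = (a * b) ^ 2 * (a ^ 2)⁻¹ * (b ^ 2)⁻¹ := by rw [pow_two (a * b)]; group
  rw [e]
  exact mul_mem (mul_mem (hsq _ (mul_mem ha hb)) (inv_mem (hsq a ha))) (inv_mem (hsq b hb))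

theorem n9a_comm_sq {X : Subgroup G} (hsq : ∀ x ∈ X, x ^ 2 ∈ zc X) :
    ∀ c ∈ ⁅X, X⁆, c ^ 2 = 1 := by
  have hle := n9a_comm_le_zc hsq
  -- the subgroup of involutions of the centre
  let E : Subgroup G :=
    { carrier := {z | z ∈ zc X ∧ z ^ 2 = 1}
      mul_mem' := by
        rintro a b ⟨ha, ha2⟩ ⟨hb, hb2⟩
        refine ⟨mul_mem ha hb, ?_⟩
        have hab : a * b = b * a := n9a_zc_comm ha hb.1
        have : (a * b) ^ 2 = a ^ 2 * b ^ 2 := by
          rw [pow_two, pow_two, pow_two]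
          calc a * b * (a * b) = a * (b * a) * b := by group
            _ = a * (a * b) * b := by rw [hab]
            _ = a * a * (b * b) := by group
        rw [this, ha2, hb2, one_mul]
      one_mem' := ⟨one_mem _, one_pow 2⟩
      inv_mem' := by
        rintro a ⟨ha, ha2⟩
        exact ⟨inv_mem ha, by rw [inv_pow, ha2, inv_one]⟩ }
  have hE : ⁅X, X⁆ ≤ E := by
    rw [commutator_le]
    intro a ha b hb
    have hcZ : ⁅a, b⁆ ∈ zc X := hle (commutator_mem_commutator ha hb)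
    refine ⟨hcZ, ?_⟩
    -- a b² a⁻¹ = b² and a b a⁻¹ = c b
    have h1 : a * b * a⁻¹ = ⁅a, b⁆ * b := by rw [commutatorElement_def]; group
    have h2 : a * b ^ 2 * a⁻¹ = (⁅a, b⁆ * b) ^ 2 := by
      rw [← h1, pow_two, pow_two]; group
    have h3 : a * b ^ 2 * a⁻¹ = b ^ 2 := by
      have := n9a_zc_comm (hsq b hb) ha
      rw [← this, mul_inv_cancel_right]
    have h4 : (⁅a, b⁆ * b) ^ 2 = ⁅a, b⁆ ^ 2 * b ^ 2 := by
      have hcb : ⁅a, b⁆ * b = b * ⁅a, b⁆ := n9a_zc_comm hcZ hb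
      rw [pow_two, pow_two, pow_two]
      calc ⁅a, b⁆ * b * (⁅a, b⁆ * b) = ⁅a, b⁆ * (b * ⁅a, b⁆) * b := by group
        _ = ⁅a, b⁆ * (⁅a, b⁆ * b) * b := by rw [hcb]
        _ = ⁅a, b⁆ * ⁅a, b⁆ * (b * b) := by group
    rw [h3, h4] at h2
    exact (mul_eq_right (a := ⁅a, b⁆ ^ 2) (b := b ^ 2)).mp h2.symm
  intro c hc
  exact (hE hc).2

theorem n9a_comm_ne_bot {X : Subgroup G} (hna : ¬ ∀ a ∈ X, ∀ b ∈ X, a * b = b * a) :
    (⁅X, X⁆ : Subgroup G) ≠ ⊥ := by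
  intro h
  apply hna
  intro a ha b hb
  have h1 : ⁅a, b⁆ ∈ (⁅X, X⁆ : Subgroup G) := commutator_mem_commutator ha hb
  rw [h, mem_bot] at h1
  exact commutatorElement_eq_one_iff_mul_comm.mp h1

theorem n9a_card_relIndex {H K : Subgroup G} (h : H ≤ K) :
    Nat.card H * H.relIndex K = Nat.card K := by
  have := relIndex_mul_relIndex ⊥ H K bot_le h
  rwa [relIndex_bot_left, relIndex_bot_left] at this

theorem n9a_zc_ne {X : Subgroup G} (hna : ¬ ∀ a ∈ X, ∀ b ∈ X, a * b = b * a) : zc X ≠ X := by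
  intro h
  apply hna
  intro a ha b hb
  have hb' : b ∈ zc X := by rw [h]; exact hb
  exact (n9a_zc_comm hb' ha).symm

end Cfsg.Agent.Helper39.N9
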