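import Cfsg.Agent.Helper55.N9Defs
import Cfsg.Agent.Helper39.N9Aux

/-!
# S4409 (CALL of helper55), piece C2c (helper39).
-/

set_option autoImplicit false

namespace Cfsg.Agent.Helper39.N9

open Subgroup Cfsg.Agent.Helper55.N9
open scoped commutatorElement

variable {G : Type*} [Group G] [Finite G]

-- C2c
theorem n9_case2_center (T : Tools G) (X K : Subgroup G) (c : Core X K) (hXK : ⁅X, K⁆ = X)
    (hni : NoIdx2 K X)
    (hna : ¬ ∀ a ∈ X, ∀ b ∈ X, a * b = b * a)
    (hsq : ∀ x ∈ X, x ^ 2 ∈ zc X)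
    (hfrat : ∀ M : Subgroup G, M ≤ X → M.relIndex X = 2 → zc X ≤ M)
    (hNH : ∀ W : Subgroup G, W ≤ zc X → W.relIndex (zc X) = 2 →
      K ≤ normalizer (W : Set G) → ⁅X, X⁆ ≤ W → False) :
    (Nat.card (zc X) = 2 ∨ Nat.card (zc X) = 4) ∧ ⁅X, X⁆ = zc X := by
  classical
  haveI : Fact (Nat.Prime 2) := ⟨Nat.prime_two⟩
  have hZX : zc X ≤ X := inf_le_left
  have hpZ : IsPGroup 2 (zc X) := c.pX.to_le hZX
  have habZ : ∀ a ∈ zc X, ∀ b ∈ zc X, a * b = b * a := fun a ha b hb => n9a_zc_comm ha hb.1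
  have hKZ : K ≤ normalizer ((zc X : Subgroup G) : Set G) := n9a_zc_inv X K c.inv
  have hNo : NoA8 (zc X) := c.hyp (zc X) hZX (n9a_zc_ne hna) hKZ
  have hcomle : ⁅X, X⁆ ≤ zc X := n9a_comm_le_zc hsq
  have hcomne : (⁅X, X⁆ : Subgroup G) ≠ ⊥ := n9a_comm_ne_bot hna
  have hcomsq := n9a_comm_sq hsq
  have hKcom : K ≤ normalizer ((⁅X, X⁆ : Subgroup G) : Set G) := n9a_comm_inv X K c.inv
  obtain ⟨n, hn⟩ := (IsPGroup.iff_card.mp hpZ)
  have hcomcard : Nat.card (⁅X, X⁆ : Subgroup G) ≠ 1 := by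
    intro h
    exact hcomne ((Subgroup.card_eq_one).mp h)
  have hcomdvd : Nat.card (⁅X, X⁆ : Subgroup G) ∣ Nat.card (zc X) := Subgroup.card_dvd_of_le hcomle
  by_cases hcyc : IsCyclic ↥(zc X)
  · -- cyclic centre
    obtain ⟨g₀, hg₀⟩ := hcyc.exists_generator
    obtain ⟨g, hg⟩ : ∃ g : G, g = (g₀ : G) := ⟨_, rfl⟩
    have hgZ : g ∈ zc X := by rw [hg]; exact g₀.2
    have hZg : ∀ z ∈ zc X, ∃ i : ℤ, g ^ i = z := by
      intro z hz
      obtain ⟨i, hi⟩ := mem_zpowers_iff.mp (hg₀ ⟨z, hz⟩)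
      refine ⟨i, ?_⟩
      have := congrArg (fun y : ↥(zc X) => (y : G)) hi
      simp only [Subgroup.coe_zpow] at this
      rw [hg]
      exact this
    have hZeq : zc X = zpowers g := by
      apply le_antisymm
      · intro z hz
        obtain ⟨i, hi⟩ := hZg z hz
        exact mem_zpowers_iff.mpr ⟨i, hi⟩
      · exact zpowers_le.mpr hgZ
    have hord : orderOf g = 2 ^ n := by
      rw [← hn, hZeq, Nat.card_zpowers]
    by_cases h2 : Nat.card (zc X) = 2
    · refine ⟨Or.inl h2, ?_⟩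
      apply Subgroup.eq_of_le_of_card_ge hcomle
      rw [h2] at hcomdvd ⊢
      have := Nat.le_of_dvd (by norm_num) hcomdvd
      have hpos : 0 < Nat.card (⁅X, X⁆ : Subgroup G) := Nat.card_pos
      have h3 : Nat.card (⁅X, X⁆ : Subgroup G) = 1 ∨ Nat.card (⁅X, X⁆ : Subgroup G) = 2 :=
        (Nat.dvd_prime Nat.prime_two).mp hcomdvd
      rcases h3 with h3 | h3
      · exact absurd h3 hcomcard
      · exact h3.ge
    · exfalso
      -- n ≥ 2
      have hn2 : 2 ≤ n := by
        rcases Nat.lt_or_ge n 2 with h | h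
        · exfalso
          interval_cases n
          · rw [pow_zero] at hn
            rw [hn] at hcomdvd
            exact hcomcard (Nat.dvd_one.mp hcomdvd)
          · rw [pow_one] at hn
            exact absurd hn h2
        · exact h
      have h4 : 4 ∣ orderOf g := by
        rw [hord]
        exact pow_dvd_pow 2 hn2
      apply hNH (zpowers (g ^ 2))
      · exact zpowers_le.mpr (pow_mem hgZ 2)
      · have hle : zpowers (g ^ 2) ≤ zc X := zpowers_le.mpr (pow_mem hgZ 2)
        have h5 := n9a_card_relIndex hle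
        rw [Nat.card_zpowers, orderOf_pow, hn] at h5
        have h6 : (orderOf g).gcd 2 = 2 := by
          apply Nat.gcd_eq_right
          exact (by norm_num : 2 ∣ 4).trans h4
        rw [h6, hord] at h5
        have h7 : 2 ^ n / 2 = 2 ^ (n - 1) := by
          obtain ⟨k, rfl⟩ : ∃ k, n = k + 1 := ⟨n - 1, by omega⟩
          rw [pow_succ, Nat.mul_div_cancel _ (by norm_num), Nat.add_sub_cancel]
        rw [h7] at h5
        have h8 : 2 ^ n = 2 ^ (n - 1) * 2 := by
          obtain ⟨k, rfl⟩ : ∃ k, n = k + 1 := ⟨n - 1, by omega⟩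
          rw [pow_succ, Nat.add_sub_cancel]
        rw [h8] at h5
        exact Nat.eq_of_mul_eq_mul_left (by positivity) h5
      · apply n9a_normalizer_of_conj
        intro k hk w hw
        obtain ⟨i, rfl⟩ := mem_zpowers_iff.mp hw
        have h5 : k * g * k⁻¹ ∈ zc X := n9a_conj_mem hKZ hk hgZ
        obtain ⟨j, hj⟩ := hZg _ h5
        have h6 : k * (g ^ 2) ^ i * k⁻¹ = ((g ^ 2) ^ j) ^ i := by
          have e1 : k * (g ^ 2) ^ i * k⁻¹ = ((k * g * k⁻¹) ^ 2) ^ i := by
            rw [conj_pow, conj_zpow]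
          rw [e1, ← hj, ← zpow_natCast, ← zpow_natCast, ← zpow_mul, ← zpow_mul, ← zpow_mul,
            ← zpow_mul]
          congr 1
          ring
        rw [h6]
        exact zpow_mem (zpow_mem (mem_zpowers _) j) i
      · intro x hx
        obtain ⟨i, hi⟩ := hZg x (hcomle hx)
        have h5 := hcomsq x hx
        rw [← hi, ← zpow_natCast, ← zpow_mul] at h5
        have h6 : (orderOf g : ℤ) ∣ i * ((2 : ℕ) : ℤ) := orderOf_dvd_iff_zpow_eq_one.mpr h5
        have h7 : ((4 : ℕ) : ℤ) ∣ i * ((2 : ℕ) : ℤ) :=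
          (Int.natCast_dvd_natCast.mpr h4).trans h6
        have h8 : (2 : ℤ) ∣ i := by
          obtain ⟨t, ht⟩ := h7
          refine ⟨t, ?_⟩
          push_cast at ht
          omega
        obtain ⟨j, rfl⟩ := h8
        rw [← hi]
        refine mem_zpowers_iff.mpr ⟨j, ?_⟩
        rw [← zpow_natCast, ← zpow_mul]
        norm_num
  · -- noncyclic centre of order at most 4
    have h4 : Nat.card (zc X) ≤ 4 := by
      rcases T.ab8 (zc X) hpZ habZ hNo with h | h
      · exact absurd h hcyc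
      · exact h
    have hn2 : n = 2 := by
      rw [hn] at h4
      have hle : n ≤ 2 := by
        by_contra hgt
        have : 2 ^ 3 ≤ 2 ^ n := Nat.pow_le_pow_right (by norm_num) (by omega)
        omega
      interval_cases n
      · exfalso
        apply hcyc
        rw [pow_zero] at hn
        haveI : Subsingleton ↥(zc X) := (Nat.card_eq_one_iff_unique.mp hn).1
        exact isCyclic_of_subsingleton
      · exfalso
        apply hcyc
        rw [pow_one] at hn
        exact isCyclic_of_prime_card hn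
      · rfl
    rw [hn2] at hn
    have hn4 : Nat.card (zc X) = 4 := by rw [hn]; norm_num
    refine ⟨Or.inr hn4, ?_⟩
    by_contra hne
    apply hNH ⁅X, X⁆ hcomle _ hKcom le_rfl
    have h5 := n9a_card_relIndex hcomle
    rw [hn4] at h5 hcomdvd
    have hlt : Nat.card (⁅X, X⁆ : Subgroup G) < 4 := by
      by_contra hge
      apply hne
      apply Subgroup.eq_of_le_of_card_ge hcomle
      rw [hn4]
      omega
    have hpos : 0 < Nat.card (⁅X, X⁆ : Subgroup G) := Nat.card_pos
    have h6 : Nat.card (⁅X, X⁆ : Subgroup G) = 2 := by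
      interval_cases hh : Nat.card (⁅X, X⁆ : Subgroup G)
      · exact absurd rfl hcomcard
      · rfl
      · omega
    rw [h6] at h5
    omega

end Cfsg.Agent.Helper39.N9
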