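import Mathlib
import Cfsg.Agent.Helper60.NCDefs

/-!
# S4135 (CALL of helper60), piece NORMAB (helper39, double)
-/

set_option autoImplicit false
open Subgroup

namespace Cfsg.Agent.Helper39.NCNORMAB
open Cfsg.Agent.Helper60.NC

variable {G : Type*} [Group G] [Finite G] {r : ℕ} [Fact r.Prime] {N : Subgroup G} {m : ℕ}

/-- NORMAB -/
theorem norm_ab (A : Type*) [CommGroup A] (p : ℕ) (hp : p.Prime) (σ τ : MulAut A)
    (hcomm : σ * τ = τ * σ) (hσ : σ ^ p = 1) (hτ : τ ^ p = 1) (Z₀ : Subgroup A)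
    (hfix : ∀ i j : ℕ, ¬ (p ∣ i ∧ p ∣ j) → ∀ a : A, (σ ^ i * τ ^ j) a = a → a ∈ Z₀) (a : A) :
    a ^ p ∈ Z₀ := by
  classical
  haveI : Fact p.Prime := ⟨hp⟩
  haveI : NeZero p := ⟨hp.ne_zero⟩
  have hc : Commute σ τ := hcomm
  obtain ⟨e, he⟩ : ∃ e : ZMod p → ZMod p → MulAut A, e = fun k l => σ ^ k.val * τ ^ l.val :=
    ⟨_, rfl⟩
  have hadd : ∀ k k' l l' : ZMod p, e (k + k') (l + l') = e k l * e k' l' := by
    intro k k' l l'
    rw [he]
    show σ ^ (k + k').val * τ ^ (l + l').val = σ ^ k.val * τ ^ l.val * (σ ^ k'.val * τ ^ l'.val)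
    rw [ZMod.val_add, ZMod.val_add, ← pow_eq_pow_mod _ hσ, ← pow_eq_pow_mod _ hτ, pow_add,
      pow_add]
    have h1 : Commute (σ ^ k'.val) (τ ^ l.val) := hc.pow_pow _ _
    calc σ ^ k.val * σ ^ k'.val * (τ ^ l.val * τ ^ l'.val)
        = σ ^ k.val * (σ ^ k'.val * τ ^ l.val) * τ ^ l'.val := by simp only [mul_assoc]
      _ = σ ^ k.val * (τ ^ l.val * σ ^ k'.val) * τ ^ l'.val := by rw [h1.eq]
      _ = σ ^ k.val * τ ^ l.val * (σ ^ k'.val * τ ^ l'.val) := by simp only [mul_assoc]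
  have he00 : e 0 0 = 1 := by
    rw [he]
    simp
  have hfixe : ∀ k₀ l₀ : ZMod p, (k₀ ≠ 0 ∨ l₀ ≠ 0) → ∀ b : A, e k₀ l₀ b = b → b ∈ Z₀ := by
    intro k₀ l₀ hkl b hb
    apply hfix k₀.val l₀.val _ b
    · rw [he] at hb
      exact hb
    · rintro ⟨h1, h2⟩
      have hk : k₀ = 0 := by
        have := Nat.eq_zero_of_dvd_of_lt h1 (ZMod.val_lt k₀)
        exact (ZMod.val_eq_zero k₀).mp this
      have hl : l₀ = 0 := by
        have := Nat.eq_zero_of_dvd_of_lt h2 (ZMod.val_lt l₀)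
        exact (ZMod.val_eq_zero l₀).mp this
      rcases hkl with h | h
      · exact h hk
      · exact h hl
  have hNτ : ∏ l : ZMod p, e 0 l a ∈ Z₀ := by
    apply hfixe 0 1 (Or.inr one_ne_zero)
    rw [map_prod]
    have h1 : ∀ l : ZMod p, e 0 1 (e 0 l a) = e 0 (1 + l) a := by
      intro l
      rw [← MulAut.mul_apply, ← hadd, add_zero]
    simp only [h1]
    exact Equiv.prod_comp (Equiv.addLeft (1 : ZMod p)) (fun l => e 0 l a)
  have hNj : ∀ j : ZMod p, ∏ k : ZMod p, e k (j * k) a ∈ Z₀ := by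
    intro j
    apply hfixe 1 j (Or.inl one_ne_zero)
    rw [map_prod]
    have h1 : ∀ k : ZMod p, e 1 j (e k (j * k) a) = e (1 + k) (j * (1 + k)) a := by
      intro k
      rw [← MulAut.mul_apply, ← hadd]
      have : j + j * k = j * (1 + k) := by ring
      rw [this]
    simp only [h1]
    exact Equiv.prod_comp (Equiv.addLeft (1 : ZMod p)) (fun k => e k (j * k) a)
  have hNE : ∏ k : ZMod p, ∏ l : ZMod p, e k l a ∈ Z₀ := by
    apply hfixe 1 0 (Or.inl one_ne_zero)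
    rw [map_prod]
    simp only [map_prod]
    have h1 : ∀ k l : ZMod p, e 1 0 (e k l a) = e (1 + k) l a := by
      intro k l
      rw [← MulAut.mul_apply, ← hadd, zero_add]
    simp only [h1]
    exact Equiv.prod_comp (Equiv.addLeft (1 : ZMod p)) (fun k => ∏ l : ZMod p, e k l a)
  have hid : (∏ l : ZMod p, e 0 l a) * ∏ j : ZMod p, ∏ k : ZMod p, e k (j * k) a
      = a ^ p * ∏ k : ZMod p, ∏ l : ZMod p, e k l a := by
    rw [Finset.prod_comm]
    have hk : ∀ k : ZMod p, k ≠ 0 → ∏ j : ZMod p, e k (j * k) a = ∏ l : ZMod p, e k l a :=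
      fun k hk => Equiv.prod_comp (Equiv.mulRight₀ k hk) (fun l => e k l a)
    have h0 : ∏ j : ZMod p, e 0 (j * 0) a = a ^ p := by
      simp [he00, Finset.prod_const, Finset.card_univ, ZMod.card]
    rw [Fintype.prod_eq_mul_prod_compl (0 : ZMod p) (fun k => ∏ j : ZMod p, e k (j * k) a),
      Fintype.prod_eq_mul_prod_compl (0 : ZMod p) (fun k => ∏ l : ZMod p, e k l a), h0]
    have h2 : ∏ k ∈ ({0} : Finset (ZMod p))ᶜ, ∏ j : ZMod p, e k (j * k) a
        = ∏ k ∈ ({0} : Finset (ZMod p))ᶜ, ∏ l : ZMod p, e k l a := by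
      apply Finset.prod_congr rfl
      intro k hk'
      apply hk
      simpa using hk'
    rw [h2]
    exact mul_left_comm _ _ _
  have hL : (∏ l : ZMod p, e 0 l a) * ∏ j : ZMod p, ∏ k : ZMod p, e k (j * k) a ∈ Z₀ :=
    mul_mem hNτ (prod_mem fun j _ => hNj j)
  rw [hid] at hL
  exact (Subgroup.mul_mem_cancel_right Z₀ hNE).mp hL

end Cfsg.Agent.Helper39.NCNORMAB
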