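import Mathlib
import Cfsg.Agent.Helper60.NCDefs
import Cfsg.Agent.Helper39.NCNORMAB

/-!
# S4135 (CALL of helper60), piece NOFREE (helper39)

`no_free_aux`: the statement with NORMAB as a hypothesis; `no_free` plugs in the NORMAB piece
(`Cfsg.Agent.Helper39.NCNORMAB.norm_ab`).
-/

set_option autoImplicit false
open Subgroup

namespace Cfsg.Agent.Helper39.NCNOFREE
open Cfsg.Agent.Helper60.NC

universe u

/-- conjugation by `g` on a subgroup `K` stable under conjugation by `g` and `g⁻¹`. -/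
def conjAut {G : Type u} [Group G] (K : Subgroup G) (g : G) (h1 : ∀ a ∈ K, g * a * g⁻¹ ∈ K)
    (h2 : ∀ a ∈ K, g⁻¹ * a * g ∈ K) : ↥K ≃* ↥K where
  toFun a := ⟨g * a * g⁻¹, h1 a a.2⟩
  invFun a := ⟨g⁻¹ * a * g, h2 a a.2⟩
  left_inv a := by
    apply Subtype.ext
    show g⁻¹ * (g * (a : G) * g⁻¹) * g = a
    group
  right_inv a := by
    apply Subtype.ext
    show g * (g⁻¹ * (a : G) * g) * g⁻¹ = a
    group
  map_mul' a b := by
    apply Subtype.ext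
    show g * ((a : G) * (b : G)) * g⁻¹ = (g * a * g⁻¹) * (g * b * g⁻¹)
    group

theorem conjAut_apply {G : Type u} [Group G] (K : Subgroup G) (g : G)
    (h1 : ∀ a ∈ K, g * a * g⁻¹ ∈ K) (h2 : ∀ a ∈ K, g⁻¹ * a * g ∈ K) (a : K) :
    ((conjAut K g h1 h2 a : K) : G) = g * a * g⁻¹ := rfl

theorem no_free_aux {G : Type u} [Group G] [Finite G] {r : ℕ} [Fact r.Prime] {N : Subgroup G}
    {m : ℕ}
    (hNA : ∀ (A : Type u) [CommGroup A] (p : ℕ) (_ : p.Prime) (σ τ : MulAut A)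
      (_ : σ * τ = τ * σ) (_ : σ ^ p = 1) (_ : τ ^ p = 1) (Z₀ : Subgroup A)
      (_ : ∀ i j : ℕ, ¬ (p ∣ i ∧ p ∣ j) → ∀ a : A, (σ ^ i * τ ^ j) a = a → a ∈ Z₀) (a : A),
      a ^ p ∈ Z₀)
    (hc : Ctx G r N m) {y w : G} (hM : Mix G r N y w) (g₁ g₂ : G)
    (hn₁ : g₁ ∈ normalizer (centralizer ({y} : Set G) : Set G))
    (hn₂ : g₂ ∈ normalizer (centralizer ({y} : Set G) : Set G))
    (h₁ : g₁ ^ r ∈ centralizer ({y} : Set G)) (h₂ : g₂ ^ r ∈ centralizer ({y} : Set G))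
    (h₁₂ : g₁⁻¹ * g₂⁻¹ * g₁ * g₂ ∈ centralizer ({y} : Set G))
    (hfree : ∀ i j : ℕ, g₁ ^ i * g₂ ^ j ∈ centralizer ({y} : Set G) → r ∣ i ∧ r ∣ j) :
    False := by
  classical
  have hr : r.Prime := Fact.out
  have hgood := hM.good hc
  obtain ⟨K, hK⟩ : ∃ K : Subgroup G, K = centralizer ({y} : Set G) ⊓ N := ⟨_, rfl⟩
  have hKC : ∀ a ∈ K, a ∈ centralizer ({y} : Set G) := fun a ha => by
    rw [hK] at ha; exact ha.1
  have hKN : ∀ a ∈ K, a ∈ N := fun a ha => by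
    rw [hK] at ha; exact ha.2
  -- elements of `K` are central in `C`
  have hcen : ∀ a ∈ K, ∀ d ∈ centralizer ({y} : Set G), d * a * d⁻¹ = a := by
    intro a ha d hd
    rw [← hgood a (hKN a ha) (hKC a ha) d hd, mul_inv_cancel_right]
  have hstab : ∀ g : G, g ∈ normalizer (centralizer ({y} : Set G) : Set G) →
      ∀ a ∈ K, g * a * g⁻¹ ∈ K := by
    intro g hg a ha
    rw [hK]
    exact ⟨(mem_normalizer_iff.mp hg a).mp (hKC a ha), hc.nN.conj_mem a (hKN a ha) g⟩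
  have hstab' : ∀ g : G, g ∈ normalizer (centralizer ({y} : Set G) : Set G) →
      ∀ a ∈ K, g⁻¹ * a * g ∈ K := by
    intro g hg a ha
    have := hstab g⁻¹ (inv_mem hg) a ha
    rwa [inv_inv] at this
  letI instK : CommGroup ↥K :=
    { (inferInstance : Group ↥K) with
      mul_comm := fun a b => Subtype.ext (hgood a (hKN a a.2) (hKC a a.2) b (hKC b b.2)) }
  obtain ⟨σ, hσdef⟩ : ∃ σ : MulAut ↥K, σ = conjAut K g₁ (hstab g₁ hn₁) (hstab' g₁ hn₁) :=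
    ⟨_, rfl⟩
  obtain ⟨τ, hτdef⟩ : ∃ τ : MulAut ↥K, τ = conjAut K g₂ (hstab g₂ hn₂) (hstab' g₂ hn₂) :=
    ⟨_, rfl⟩
  have hσa : ∀ a : K, ((σ a : K) : G) = g₁ * a * g₁⁻¹ := fun a => by rw [hσdef]; rfl
  have hτa : ∀ a : K, ((τ a : K) : G) = g₂ * a * g₂⁻¹ := fun a => by rw [hτdef]; rfl
  have hσpow : ∀ (i : ℕ) (a : K), (((σ ^ i) a : K) : G) = g₁ ^ i * a * (g₁ ^ i)⁻¹ := by
    intro i
    induction i with
    | zero => intro a; simp
    | succ i ih =>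
      intro a
      rw [pow_succ, MulAut.mul_apply, ih, hσa, pow_succ]
      group
  have hτpow : ∀ (j : ℕ) (a : K), (((τ ^ j) a : K) : G) = g₂ ^ j * a * (g₂ ^ j)⁻¹ := by
    intro j
    induction j with
    | zero => intro a; simp
    | succ j ih =>
      intro a
      rw [pow_succ, MulAut.mul_apply, ih, hτa, pow_succ]
      group
  have hcomm : σ * τ = τ * σ := by
    ext a
    rw [MulAut.mul_apply, MulAut.mul_apply, hσa, hτa, hτa, hσa]
    have hca := hcen a a.2 _ h₁₂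
    have e1 : g₁ * (g₂ * (a : G) * g₂⁻¹) * g₁⁻¹
        = g₂ * (g₁ * ((g₁⁻¹ * g₂⁻¹ * g₁ * g₂) * (a : G) * (g₁⁻¹ * g₂⁻¹ * g₁ * g₂)⁻¹) * g₁⁻¹)
          * g₂⁻¹ := by group
    rw [e1, hca]
  have hσr : σ ^ r = 1 := by
    ext a
    rw [hσpow, MulAut.one_apply]
    exact hcen a a.2 _ h₁
  have hτr : τ ^ r = 1 := by
    ext a
    rw [hτpow, MulAut.one_apply]
    exact hcen a a.2 _ h₂
  have hfix : ∀ i j : ℕ, ¬ (r ∣ i ∧ r ∣ j) → ∀ a : ↥K, (σ ^ i * τ ^ j) a = a →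
      a ∈ (center G).subgroupOf K := by
    intro i j hij a ha
    rw [mem_subgroupOf]
    by_contra haZ
    have hCa := hM.cen hc (hKN a a.2) (hKC a a.2) haZ
    have h1 : g₁ ^ i * (g₂ ^ j * (a : G) * (g₂ ^ j)⁻¹) * (g₁ ^ i)⁻¹ = a := by
      have := congrArg (fun b : K => (b : G)) ha
      simp only [MulAut.mul_apply] at this
      rw [hσpow, hτpow] at this
      exact this
    have h2 : g₁ ^ i * g₂ ^ j ∈ centralizer ({(a : G)} : Set G) := by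
      rw [mem_centralizer_singleton_iff]
      nth_rewrite 2 [← h1]
      group
    rw [hCa] at h2
    exact hij (hfree i j h2)
  have hyK : y ∈ K := by
    rw [hK]
    exact ⟨mem_centralizer_singleton_iff.mpr rfl, hM.yN⟩
  have hfin := hNA ↥K r hr σ τ hcomm hσr hτr ((center G).subgroupOf K) hfix ⟨y, hyK⟩
  rw [mem_subgroupOf] at hfin
  have hyr : y ^ r ∈ center G := hfin
  obtain ⟨s, hs⟩ := exists_pow_eq_self_of_coprime (x := y) (n := r) hM.yr.symm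
  apply hM.yZ
  rw [← hs]
  exact pow_mem hyr s

variable {G : Type*} [Group G] [Finite G] {r : ℕ} [Fact r.Prime] {N : Subgroup G} {m : ℕ}

/-- NOFREE (uses NORMAB) -/
theorem no_free (hc : Ctx G r N m) {y w : G} (hM : Mix G r N y w) (g₁ g₂ : G)
    (hn₁ : g₁ ∈ normalizer (centralizer ({y} : Set G) : Set G))
    (hn₂ : g₂ ∈ normalizer (centralizer ({y} : Set G) : Set G))
    (h₁ : g₁ ^ r ∈ centralizer ({y} : Set G)) (h₂ : g₂ ^ r ∈ centralizer ({y} : Set G))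
    (h₁₂ : g₁⁻¹ * g₂⁻¹ * g₁ * g₂ ∈ centralizer ({y} : Set G))
    (hfree : ∀ i j : ℕ, g₁ ^ i * g₂ ^ j ∈ centralizer ({y} : Set G) → r ∣ i ∧ r ∣ j) :
    False := by
  exact no_free_aux
    (fun A _ p hp σ τ hcomm hσ hτ Z₀ hfix a =>
      Cfsg.Agent.Helper39.NCNORMAB.norm_ab A p hp σ τ hcomm hσ hτ Z₀ hfix a)
    hc hM g₁ g₂ hn₁ hn₂ h₁ h₂ h₁₂ hfree

end Cfsg.Agent.Helper39.NCNOFREE
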