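import Mathlib
import Cfsg.Agent.Helper95.OTSDefs

set_option autoImplicit false

/-!
# CALL OTS (helper95, S5972): piece ORTHB (helper39, double).
-/

namespace Cfsg.Agent.Helper39.OTS

open Module Polynomial
open Cfsg.Agent.Helper13.TIsp Cfsg.Agent.Helper42.SpGroup Cfsg.Agent.Helper42.SpModels
open Cfsg.Agent.Helper95.OTS

variable {F : Type*} [Field F] {V : Type*} [AddCommGroup V] [Module F V] [FiniteDimensional F V]
  (B : LinearMap.BilinForm F V)

/-- PIECE ORTHB: an orthogonal basis of a nondegenerate subspace, as a list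
(`LinearMap.BilinForm.exists_orthogonal_basis` applied to the restriction of `B` to `D`). -/
theorem sym_orthb (hsym : ∀ u v, B u v = B v u) (h2 : (2 : F) ≠ 0) (D : Submodule F V)
    (hD : NondegOn B D) :
    ∃ vs : List V, (∀ v ∈ vs, v ∈ D) ∧ vs.Pairwise (fun u v => B u v = 0) ∧
      (∀ v ∈ vs, B v v ≠ 0) ∧ Submodule.span F {v | v ∈ vs} = D ∧ vs.length = finrank F D := by
  classical
  haveI : Invertible (2 : F) := invertibleOfNonzero h2
  have hsymD : LinearMap.IsSymm (B.restrict D) := by
    refine ⟨fun u v => ?_⟩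
    show B u v = B v u
    exact hsym u v
  obtain ⟨b, hb⟩ := LinearMap.BilinForm.exists_orthogonal_basis hsymD
  have hsep : (B.restrict D).SeparatingLeft := by
    intro v hv
    apply Subtype.ext
    apply hD v v.2
    intro w hw
    exact hv ⟨w, hw⟩
  have hne := fun i => LinearMap.IsOrthoᵢ.not_isOrtho_basis_self_of_separatingLeft hb hsep i
  refine ⟨List.ofFn (fun i => ((b i : D) : V)), ?_, ?_, ?_, ?_, ?_⟩
  · intro v hv
    rw [List.mem_ofFn] at hv
    obtain ⟨i, rfl⟩ := hv
    exact (b i).2
  · rw [List.pairwise_ofFn]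
    intro i j hij
    exact hb (ne_of_lt hij)
  · intro v hv
    rw [List.mem_ofFn] at hv
    obtain ⟨i, rfl⟩ := hv
    exact hne i
  · have h1 : {v | v ∈ List.ofFn (fun i => ((b i : D) : V))}
        = D.subtype '' Set.range b := by
      ext v
      simp only [Set.mem_setOf_eq, List.mem_ofFn, Set.mem_image, Set.mem_range]
      constructor
      · rintro ⟨i, rfl⟩
        exact ⟨b i, ⟨i, rfl⟩, rfl⟩
      · rintro ⟨x, ⟨i, rfl⟩, rfl⟩
        exact ⟨i, rfl⟩
    rw [h1, Submodule.span_image, b.span_eq, Submodule.map_top, Submodule.range_subtype]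
  · rw [List.length_ofFn]

end Cfsg.Agent.Helper39.OTS
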