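import Cfsg.Agent.Helper39.PGStar

set_option autoImplicit false

namespace Cfsg.Agent.Helper39.PG

open Subgroup

theorem arith_one {p q f : ℕ} (hp : 2 ≤ p) (hq : 2 ≤ q) (hpq : p ≠ q)
    (h : (p - 1) * (q - 1) ≤ f) (h1 : f ≤ p - 1) (h2 : f ≤ q - 1) : False := by
  obtain ⟨P, rfl⟩ : ∃ P, p = P + 2 := ⟨p - 2, by omega⟩
  obtain ⟨Q, rfl⟩ : ∃ Q, q = Q + 2 := ⟨q - 2, by omega⟩
  have e1 : P + 2 - 1 = P + 1 := by omega
  have e2 : Q + 2 - 1 = Q + 1 := by omega
  rw [e1, e2] at h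
  rw [e1] at h1
  rw [e2] at h2
  have hQ : Q = 0 := by nlinarith
  have hP : P = 0 := by nlinarith
  subst hQ
  subst hP
  exact hpq rfl

theorem arith_two {p q s e : ℕ} (hp : 2 ≤ p) (hq : 2 ≤ q) (hpq : p ≠ q) (hs : 2 ≤ s)
    (he : e ≠ 0) (h : (p - 1) * (q - 1) ≤ s ^ e - 1) (h1 : s ^ (e - 1) * (s - 1) ≤ p - 1)
    (h2 : s ^ (e - 1) * (s - 1) ≤ q - 1) : False := by
  obtain ⟨P, rfl⟩ : ∃ P, p = P + 1 := ⟨p - 1, by omega⟩
  obtain ⟨Q, rfl⟩ : ∃ Q, q = Q + 1 := ⟨q - 1, by omega⟩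
  obtain ⟨c, rfl⟩ : ∃ c, s = c + 1 := ⟨s - 1, by omega⟩
  obtain ⟨e', rfl⟩ : ∃ e', e = e' + 1 := ⟨e - 1, by omega⟩
  simp only [Nat.add_sub_cancel] at h h1 h2
  rw [pow_succ] at h
  have ha : 1 ≤ (c + 1) ^ e' := Nat.one_le_pow _ _ (by omega)
  generalize (c + 1) ^ e' = a at h h1 h2 ha
  have hc : 1 ≤ c := by omega
  have hPQ : P ≠ Q := fun hh => hpq (by rw [hh])
  have hm1 : a ≤ a * c := Nat.le_mul_of_pos_right a (by omega)
  have hm2 : a * c ≤ (a * c) * (a * c) := Nat.le_mul_self _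
  have h' : P * Q + 1 ≤ a * c + a := by
    have : 1 ≤ a * (c + 1) := Nat.one_le_iff_ne_zero.mpr (by positivity)
    have : a * (c + 1) = a * c + a := by ring
    omega
  rcases Nat.lt_or_gt_of_ne hPQ with hlt | hlt
  · have : a * c * (a * c + 1) ≤ P * Q := Nat.mul_le_mul h1 (by omega)
    nlinarith
  · have : (a * c + 1) * (a * c) ≤ P * Q := Nat.mul_le_mul (by omega) h2
    nlinarith

section Above

variable {K : Type*} [Group K] [Finite K] {p q : ℕ} {y : K} {X Y : Set K}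

theorem StarAt.gens_sub (h : StarAt p q y X Y) {x x' : K} (hx : x ∈ X) (hx' : x' ∈ Y)
    (hyx : y ∈ zpowers x) {v : K} (hv : zpowers v = zpowers x) : v ∈ X := by
  have tvx : tw v x := tw_of_zpowers_eq hv
  refine h.inX (Or.inr (by rw [hv]; exact hyx)) ?_ hx (tw_adj tvx) hx' ?_
  · intro hvy
    exact (h.nbrX x hx).2 (tw_trans (tw_symm tvx) hvy)
  · intro hvx'
    exact h.nadj x hx x' hx' ((tvx x').mp hvx')

theorem StarAt.totient_le (h : StarAt p q y X Y) {x x' : K} (hx : x ∈ X) (hx' : x' ∈ Y)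
    (hyx : y ∈ zpowers x) : Nat.totient (orderOf x) ≤ p - 1 := by
  have hsub : {w : K | w ∈ zpowers x ∧ orderOf w = orderOf x} ⊆ X := by
    rintro w ⟨hw, ho⟩
    exact h.gens_sub hx hx' hyx (zpowers_eq_of_mem_of_le hw ho.ge)
  have hle := Set.ncard_le_ncard hsub (Set.toFinite X)
  rw [ncard_order x dvd_rfl, h.cardX] at hle
  exact hle

theorem StarAt.above_of_above (h : StarAt p q y X Y) {x x' : K} (hx : x ∈ X) (hx' : x' ∈ Y)
    (hyx : y ∈ zpowers x) : y ∈ zpowers x' := by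
  rcases (h.nbrY x' hx').1 with h1 | h1
  · exact absurd (Or.inr (mem_trans h1 hyx)) (h.nadj x hx x' hx')
  · exact h1

theorem StarAt.max_tw_mem (h : StarAt p q y X Y) {x b : K} (hx : x ∈ X)
    (hyx : y ∈ zpowers x) (hbT : tw b y) (hyb : y ∈ zpowers b) : b ∈ zpowers x := by
  have hy1 : y ≠ 1 := ne_one_of_not_dom h.ndom
  rcases (hbT x).mpr (adj_symm (h.nbrX x hx).1) with h1 | hxb
  · exact h1
  · by_contra hbx
    by_cases hby : b ∈ zpowers y
    · exact (h.nbrX x hx).2 (tw_of_mem_mem (mem_trans hxb hby) hyx)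
    · obtain ⟨s, e, hs, he⟩ := primePow_of_tw (tw_symm hbT) hyb hy1 hby
      have := tw_interval (tw_symm hbT) hyx hxb
        (fun u hu v hv => chain_of_primePow hs he hu hv)
      exact (h.nbrX x hx).2 (tw_trans this hbT)

theorem StarAt.not_both_above (h : StarAt p q y X Y) (hp : p.Prime) (hq : q.Prime)
    (hpq : p ≠ q) {x x' : K} (hx : x ∈ X) (hx' : x' ∈ Y)
    (hyx : y ∈ zpowers x) (hyx' : y ∈ zpowers x') : False := by
  have hyT : y ∈ {t : K | tw t y} := tw_refl y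
  obtain ⟨b, hbT, hbmax⟩ := Set.exists_max_image {t : K | tw t y} orderOf
    (Set.toFinite _) ⟨y, hyT⟩
  have hbT' : tw b y := hbT
  have hTb : ∀ t, tw t y → t ∈ zpowers b := by
    intro t ht
    have htb : tw t b := tw_trans ht (tw_symm hbT')
    rcases tw_adj htb with h1 | h1
    · exact h1
    · have := zpowers_eq_of_mem_of_le h1 (hbmax t ht)
      rw [this]
      exact mem_zpowers t
  have hb1 : b ≠ 1 := by
    rintro rfl
    exact h.ndom (dom_of_tw hbT' dom_one)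
  have hyb : y ∈ zpowers b := hTb y (tw_refl y)
  have hbx : b ∈ zpowers x := h.max_tw_mem hx hyx hbT' hyb
  have hbx' : b ∈ zpowers x' := h.swap.max_tw_mem hx' hyx' hbT' hyb
  have hφ1 : Nat.totient (orderOf b) ≤ p - 1 :=
    le_trans (Nat.le_of_dvd (Nat.totient_pos.mpr (orderOf_pos x))
      (Nat.totient_dvd_of_dvd (orderOf_dvd_of_mem_zpowers hbx))) (h.totient_le hx hx' hyx)
  have hφ2 : Nat.totient (orderOf b) ≤ q - 1 :=
    le_trans (Nat.le_of_dvd (Nat.totient_pos.mpr (orderOf_pos x'))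
      (Nat.totient_dvd_of_dvd (orderOf_dvd_of_mem_zpowers hbx'))) (h.swap.totient_le hx' hx hyx')
  by_cases hall : ∀ t, tw t y → b ∈ zpowers t
  · have hsub : {t : K | tw t y} ⊆ {w : K | w ∈ zpowers b ∧ orderOf w = orderOf b} :=
      fun t ht => ⟨hTb t ht, Nat.dvd_antisymm (orderOf_dvd_of_mem_zpowers (hTb t ht))
        (orderOf_dvd_of_mem_zpowers (hall t ht))⟩
    have hle := Set.ncard_le_ncard hsub (Set.toFinite _)
    rw [h.cardT, ncard_order b dvd_rfl] at hle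
    exact arith_one hp.two_le hq.two_le hpq hle hφ1 hφ2
  · push Not at hall
    obtain ⟨t, ht, hbt⟩ := hall
    have ht1 : t ≠ 1 := by
      rintro rfl
      exact h.ndom (dom_of_tw ht dom_one)
    obtain ⟨s, e, hs, he⟩ := primePow_of_tw (tw_trans ht (tw_symm hbT')) (hTb t ht) ht1 hbt
    have he0 : e ≠ 0 := by
      rintro rfl
      rw [pow_zero] at he
      exact hb1 (orderOf_eq_one_iff.mp he)
    have hsub : {t : K | tw t y} ⊆ (zpowers b : Set K) \ {1} := by
      intro t ht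
      refine ⟨hTb t ht, ?_⟩
      intro h1
      have h1' : t = 1 := h1
      subst h1'
      exact h.ndom (dom_of_tw ht dom_one)
    have hle := Set.ncard_le_ncard hsub (Set.toFinite _)
    have hcard : ((zpowers b : Set K) \ {1}).ncard = orderOf b - 1 := by
      rw [Set.ncard_sdiff_singleton_of_mem (one_mem (zpowers b))]
      congr 1
      rw [← Nat.card_zpowers b]
      exact (Nat.card_coe_set_eq _)
    rw [h.cardT, hcard, he] at hle
    rw [he, Nat.totient_prime_pow hs (Nat.pos_of_ne_zero he0)] at hφ1 hφ2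
    exact arith_two hp.two_le hq.two_le hpq hs.two_le he0 hle hφ1 hφ2

theorem StarAt.below (h : StarAt p q y X Y) (hp : p.Prime) (hq : q.Prime)
    (hpq : p ≠ q) : ∀ x ∈ X, x ∈ zpowers y := by
  intro x hx
  rcases (h.nbrX x hx).1 with h1 | h1
  · exact h1
  · exfalso
    obtain ⟨x', hx'⟩ := h.neY hq
    exact h.not_both_above hp hq hpq hx hx' h1 (h.above_of_above hx hx' h1)

end Above

end Cfsg.Agent.Helper39.PG
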