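import Mathlib

set_option autoImplicit false

namespace Cfsg.Agent.Helper39.PG

open Subgroup

variable {K : Type*} [Group K]

/-- adjacency in the (reflexive) power graph -/
def adj (x y : K) : Prop := x ∈ zpowers y ∨ y ∈ zpowers x

/-- dominating vertex -/
def dom (y : K) : Prop := ∀ v, adj y v

/-- closed twins -/
def tw (x y : K) : Prop := ∀ v, adj x v ↔ adj y v

theorem adj_refl (x : K) : adj x x := Or.inl (mem_zpowers x)

theorem adj_symm {x y : K} (h : adj x y) : adj y x := Or.symm h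

theorem adj_comm (x y : K) : adj x y ↔ adj y x := or_comm

theorem tw_refl (x : K) : tw x x := fun _ => Iff.rfl

theorem tw_symm {x y : K} (h : tw x y) : tw y x := fun v => (h v).symm

theorem tw_trans {x y z : K} (h : tw x y) (h' : tw y z) : tw x z :=
  fun v => (h v).trans (h' v)

theorem tw_adj {x y : K} (h : tw x y) : adj x y :=
  adj_symm ((h x).mp (adj_refl x))

theorem dom_one : dom (1 : K) := fun v => Or.inl (one_mem _)

theorem dom_of_tw {x y : K} (h : tw x y) (hx : dom x) : dom y :=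
  fun v => (h v).mp (hx v)

theorem tw_of_zpowers_eq {x y : K} (h : zpowers x = zpowers y) : tw x y := by
  intro _
  unfold adj
  rw [← zpowers_le (g := x), ← zpowers_le (g := y), h]

theorem zpowers_eq_of_mem_mem {x y : K} (h1 : x ∈ zpowers y) (h2 : y ∈ zpowers x) :
    zpowers x = zpowers y :=
  le_antisymm (zpowers_le.mpr h1) (zpowers_le.mpr h2)

theorem tw_of_mem_mem {x y : K} (h1 : x ∈ zpowers y) (h2 : y ∈ zpowers x) : tw x y :=
  tw_of_zpowers_eq (zpowers_eq_of_mem_mem h1 h2)

theorem ne_one_of_not_dom {y : K} (h : ¬ dom y) : y ≠ 1 := by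
  rintro rfl
  exact h dom_one

theorem mem_trans {x y z : K} (h1 : x ∈ zpowers y) (h2 : y ∈ zpowers z) : x ∈ zpowers z :=
  (zpowers_le.mpr h2) h1

section Fin

variable [Finite K]

theorem mem_zpowers_of_dvd {b u v : K} (hu : u ∈ zpowers b) (hv : v ∈ zpowers b)
    (h : orderOf u ∣ orderOf v) : u ∈ zpowers v := by
  classical
  have : Fintype (zpowers b) := Fintype.ofFinite _
  set u' : zpowers b := ⟨u, hu⟩ with hu'
  set v' : zpowers b := ⟨v, hv⟩ with hv'
  have hm : 0 < orderOf v' := orderOf_pos v'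
  have hle := IsCyclic.card_pow_eq_one_le (α := zpowers b) hm
  have hsub : (Finset.range (orderOf v')).image (fun k => v' ^ k) ⊆
      Finset.univ.filter (fun a : zpowers b => a ^ orderOf v' = 1) := by
    intro a ha
    obtain ⟨k, -, rfl⟩ := Finset.mem_image.mp ha
    simp only [Finset.mem_filter, Finset.mem_univ, true_and]
    rw [← pow_mul, mul_comm, pow_mul, pow_orderOf_eq_one, one_pow]
  have hcard : ((Finset.range (orderOf v')).image (fun k => v' ^ k)).card = orderOf v' := by
    rw [Finset.card_image_of_injOn, Finset.card_range]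
    intro i hi j hj hij
    exact pow_injOn_Iio_orderOf (by simpa using hi) (by simpa using hj) hij
  have heq := Finset.eq_of_subset_of_card_le hsub (by rw [hcard]; exact hle)
  have hmem : u' ∈ Finset.univ.filter (fun a : zpowers b => a ^ orderOf v' = 1) := by
    simp only [Finset.mem_filter, Finset.mem_univ, true_and]
    apply orderOf_dvd_iff_pow_eq_one.mp
    rw [hu', hv', Subgroup.orderOf_mk, Subgroup.orderOf_mk]
    exact h
  rw [← heq] at hmem
  obtain ⟨k, -, hk⟩ := Finset.mem_image.mp hmem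
  refine ⟨(k : ℤ), ?_⟩
  have := congrArg Subtype.val hk
  simpa using this

theorem exists_order (b : K) {d : ℕ} (hd : d ∣ orderOf b) :
    ∃ w ∈ zpowers b, orderOf w = d :=
  ⟨b ^ (orderOf b / d), Subgroup.pow_mem _ (mem_zpowers b) _,
    orderOf_pow_orderOf_div (orderOf_pos b).ne' hd⟩

theorem adj_iff {b u v : K} (hu : u ∈ zpowers b) (hv : v ∈ zpowers b) :
    adj u v ↔ (orderOf u ∣ orderOf v ∨ orderOf v ∣ orderOf u) := by
  constructor
  · rintro (h | h)
    · exact Or.inl (orderOf_dvd_of_mem_zpowers h)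
    · exact Or.inr (orderOf_dvd_of_mem_zpowers h)
  · rintro (h | h)
    · exact Or.inl (mem_zpowers_of_dvd hu hv h)
    · exact Or.inr (mem_zpowers_of_dvd hv hu h)

theorem ncard_order (b : K) {d : ℕ} (hd : d ∣ orderOf b) :
    {w : K | w ∈ zpowers b ∧ orderOf w = d}.ncard = Nat.totient d := by
  classical
  have : Fintype (zpowers b) := Fintype.ofFinite _
  have h1 := IsCyclic.card_orderOf_eq_totient (α := zpowers b) (d := d)
    (by rw [Fintype.card_eq_nat_card, Nat.card_zpowers]; exact hd)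
  have h2 : {w : K | w ∈ zpowers b ∧ orderOf w = d} = Subtype.val ''
      ((Finset.univ.filter (fun a : zpowers b => orderOf a = d) : Finset (zpowers b)) :
        Set (zpowers b)) := by
    ext w
    constructor
    · rintro ⟨hw, ho⟩
      refine ⟨⟨w, hw⟩, ?_, rfl⟩
      simp only [Finset.coe_filter, Finset.mem_univ, true_and, Set.mem_ofPred_eq]
      rw [Subgroup.orderOf_mk]
      exact ho
    · rintro ⟨a, ha, rfl⟩
      simp only [Finset.coe_filter, Finset.mem_univ, true_and, Set.mem_ofPred_eq] at ha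
      exact ⟨a.2, by rw [Subgroup.orderOf_coe]; exact ha⟩
  rw [h2, Set.ncard_image_of_injective _ Subtype.val_injective, Set.ncard_coe_finset, h1]

theorem zpowers_eq_of_mem_of_le {u v : K} (h : u ∈ zpowers v) (hle : orderOf v ≤ orderOf u) :
    zpowers u = zpowers v := by
  apply Subgroup.eq_of_le_of_card_ge (zpowers_le.mpr h)
  rw [Nat.card_zpowers, Nat.card_zpowers]
  exact hle

end Fin

/-- number theory: a proper nontrivial divisor `m` of `n` comparable with all divisors of `n`
forces `n` to be a prime power. -/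
theorem nt_primePow {m n : ℕ} (hmn : m ∣ n) (hm1 : m ≠ 1) (hnm : ¬ n ∣ m) (hn0 : n ≠ 0)
    (H : ∀ d, d ∣ n → d ∣ m ∨ m ∣ d) : ∃ s e, Nat.Prime s ∧ n = s ^ e := by
  obtain ⟨c, rfl⟩ := hmn
  have hm0 : m ≠ 0 := fun h => hn0 (by rw [h, zero_mul])
  have hc1 : c ≠ 1 := by
    rintro rfl
    exact hnm (by rw [mul_one])
  set r := c.minFac with hr
  have hrp : r.Prime := Nat.minFac_prime hc1
  have hrc : r ∣ c := Nat.minFac_dvd c
  have hmr : m * r ∣ m * c := Nat.mul_dvd_mul_left m hrc
  have claim1 : ∀ s, Nat.Prime s → s ∣ m → s = r := by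
    intro s hs hsm
    obtain ⟨m', rfl⟩ := hsm
    have hm'0 : 0 < m' := Nat.pos_of_ne_zero (fun h => hm0 (by rw [h, mul_zero]))
    have hd : m' * r ∣ s * m' * c :=
      dvd_trans (Nat.mul_dvd_mul_right (Dvd.intro_left s rfl) r) hmr
    rcases H _ hd with h | h
    · have : r ∣ s := by
        apply Nat.dvd_of_mul_dvd_mul_left hm'0
        rw [mul_comm m' s]; exact h
      exact ((Nat.prime_dvd_prime_iff_eq hrp hs).mp this).symm
    · have : s ∣ r := by
        apply Nat.dvd_of_mul_dvd_mul_left hm'0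
        rw [mul_comm m' s]; exact h
      exact (Nat.prime_dvd_prime_iff_eq hs hrp).mp this
  have claim2 : ∀ s, Nat.Prime s → s ∣ m * c → s = r := by
    intro s hs hsn
    rcases H s hsn with h | h
    · exact claim1 s hs h
    · rcases (Nat.dvd_prime hs).mp h with h1 | h1
      · exact absurd h1 hm1
      · exact claim1 s hs (by rw [h1])
  exact ⟨r, _, hrp, Nat.eq_prime_pow_of_unique_prime_dvd hn0 (fun {d} hd hdn => claim2 d hd hdn)⟩

theorem not_primePow_mul {p q : ℕ} (hp : p.Prime) (hq : q.Prime) (hpq : p ≠ q) {n s e : ℕ}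
    (hs : s.Prime) (hn : n = s ^ e) (h : p * q ∣ n) : False := by
  subst hn
  have h1 : p ∣ s ^ e := dvd_trans (Dvd.intro _ rfl) h
  have h2 : q ∣ s ^ e := dvd_trans (Dvd.intro_left _ rfl) h
  have e1 := (Nat.prime_dvd_prime_iff_eq hp hs).mp (hp.dvd_of_dvd_pow h1)
  have e2 := (Nat.prime_dvd_prime_iff_eq hq hs).mp (hq.dvd_of_dvd_pow h2)
  exact hpq (e1.trans e2.symm)

section Fin2

variable [Finite K]

/-- if `a ∈ ⟨b⟩` is adjacent to all of `⟨b⟩`, nontrivial and not a generator, then `|b|` is a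
prime power -/
theorem primePow_of_adj_all {a b : K} (ha : a ∈ zpowers b) (H : ∀ w ∈ zpowers b, adj a w)
    (ha1 : a ≠ 1) (hb : b ∉ zpowers a) : ∃ s e, Nat.Prime s ∧ orderOf b = s ^ e := by
  apply nt_primePow (m := orderOf a) (orderOf_dvd_of_mem_zpowers ha)
  · intro h
    exact ha1 (orderOf_eq_one_iff.mp h)
  · intro h
    exact hb (mem_zpowers_of_dvd (mem_zpowers b) ha h)
  · exact (orderOf_pos b).ne'
  · intro d hd
    obtain ⟨w, hw, rfl⟩ := exists_order b hd
    rcases (adj_iff ha hw).mp (H w hw) with h | h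
    · exact Or.inr h
    · exact Or.inl h

theorem primePow_of_tw {a b : K} (h : tw a b) (ha : a ∈ zpowers b)
    (ha1 : a ≠ 1) (hb : b ∉ zpowers a) : ∃ s e, Nat.Prime s ∧ orderOf b = s ^ e :=
  primePow_of_adj_all ha (fun w hw => (h w).mpr (Or.inr hw)) ha1 hb

theorem chain_of_primePow {b : K} {s e : ℕ} (hs : s.Prime) (hb : orderOf b = s ^ e)
    {u v : K} (hu : u ∈ zpowers b) (hv : v ∈ zpowers b) : adj u v := by
  have h1 := orderOf_dvd_of_mem_zpowers hu
  have h2 := orderOf_dvd_of_mem_zpowers hv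
  rw [hb] at h1 h2
  obtain ⟨i, -, hi⟩ := (Nat.dvd_prime_pow hs).mp h1
  obtain ⟨j, -, hj⟩ := (Nat.dvd_prime_pow hs).mp h2
  rw [adj_iff hu hv, hi, hj]
  rcases le_total i j with h | h
  · exact Or.inl (pow_dvd_pow s h)
  · exact Or.inr (pow_dvd_pow s h)

/-- interval lemma -/
theorem tw_interval {a b c : K} (h : tw a b) (hac : a ∈ zpowers c) (hcb : c ∈ zpowers b)
    (hch : ∀ u ∈ zpowers b, ∀ v ∈ zpowers b, adj u v) : tw c b := by
  intro v
  constructor
  · rintro (hv | hv)
    · exact (h v).mp (Or.inl (mem_trans hac hv))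
    · exact Or.inr (mem_trans hv hcb)
  · rintro (hv | hv)
    · exact Or.inl (mem_trans hcb hv)
    · exact hch c hcb v hv

end Fin2

end Cfsg.Agent.Helper39.PG
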