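import Cfsg.Agent.Helper39.PGAbove

set_option autoImplicit false

namespace Cfsg.Agent.Helper39.PG

open Subgroup

section Below

variable {K : Type*} [Group K] [Finite K] {p q : ℕ} {y : K} {X Y : Set K}

theorem StarAt.ntw_of_proper (h : StarAt p q y X Y) (hp : p.Prime) (hq : q.Prime)
    (hXb : ∀ x ∈ X, x ∈ zpowers y) (hYb : ∀ x ∈ Y, x ∈ zpowers y) :
    ∀ v ∈ zpowers y, orderOf v ≠ orderOf y → ¬ tw v y := by
  intro v hv hne htw
  obtain ⟨x, hx⟩ := h.neX hp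
  obtain ⟨x', hx'⟩ := h.neY hq
  have hyv : y ∉ zpowers v := fun hyv =>
    hne (Nat.dvd_antisymm (orderOf_dvd_of_mem_zpowers hv) (orderOf_dvd_of_mem_zpowers hyv))
  have hv1 : v ≠ 1 := by
    rintro rfl
    exact h.ndom (dom_of_tw htw dom_one)
  obtain ⟨s, e, hs, he⟩ := primePow_of_tw htw hv hv1 hyv
  exact h.nadj x hx x' hx' (chain_of_primePow hs he (hXb x hx) (hYb x' hx'))

theorem StarAt.ordX (h : StarAt p q y X Y) (hXb : ∀ x ∈ X, x ∈ zpowers y)
    (hYb : ∀ x ∈ Y, x ∈ zpowers y)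
    (hN : ∀ v ∈ zpowers y, orderOf v ≠ orderOf y → ¬ tw v y)
    {d : ℕ} (hdn : d ≠ orderOf y)
    {x : K} (hx : x ∈ X) (hdx : d ∣ orderOf x ∨ orderOf x ∣ d)
    {x' : K} (hx' : x' ∈ Y) (hdx' : ¬ (d ∣ orderOf x' ∨ orderOf x' ∣ d)) :
    ∀ v ∈ zpowers y, orderOf v = d → v ∈ X := by
  rintro v hv rfl
  exact h.inX (Or.inl hv) (hN v hv hdn) hx ((adj_iff hv (hXb x hx)).mpr hdx) hx'
    (fun hadj => hdx' ((adj_iff hv (hYb x' hx')).mp hadj))

theorem StarAt.ordNeither (h : StarAt p q y X Y) (hXb : ∀ x ∈ X, x ∈ zpowers y)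
    (hYb : ∀ x ∈ Y, x ∈ zpowers y)
    (hN : ∀ v ∈ zpowers y, orderOf v ≠ orderOf y → ¬ tw v y)
    {d : ℕ} (hd : d ∣ orderOf y) (hdn : d ≠ orderOf y)
    {x : K} (hx : x ∈ X) (hdx : ¬ (d ∣ orderOf x ∨ orderOf x ∣ d))
    {x' : K} (hx' : x' ∈ Y) (hdx' : ¬ (d ∣ orderOf x' ∨ orderOf x' ∣ d)) : False := by
  obtain ⟨v, hv, rfl⟩ := exists_order y hd
  exact h.neither (Or.inl hv) (hN v hv hdn) hx
    (fun hadj => hdx ((adj_iff hv (hXb x hx)).mp hadj)) hx'
    (fun hadj => hdx' ((adj_iff hv (hYb x' hx')).mp hadj))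

theorem StarAt.ordBoth (h : StarAt p q y X Y) (hXb : ∀ x ∈ X, x ∈ zpowers y)
    (hYb : ∀ x ∈ Y, x ∈ zpowers y)
    (hN : ∀ v ∈ zpowers y, orderOf v ≠ orderOf y → ¬ tw v y)
    {d : ℕ} (hd : d ∣ orderOf y) (hdn : d ≠ orderOf y)
    {x : K} (hx : x ∈ X) (hdx : d ∣ orderOf x ∨ orderOf x ∣ d)
    {x' : K} (hx' : x' ∈ Y) (hdx' : d ∣ orderOf x' ∨ orderOf x' ∣ d)
    {w : K} (hw : w ∈ X) (hdw : ¬ (d ∣ orderOf w ∨ orderOf w ∣ d)) : False := by
  obtain ⟨v, hv, rfl⟩ := exists_order y hd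
  exact h.both (Or.inl hv) (hN v hv hdn) hx ((adj_iff hv (hXb x hx)).mpr hdx) hx'
    ((adj_iff hv (hYb x' hx')).mpr hdx') hw
    (fun hadj => hdw ((adj_iff hv (hXb w hw)).mp hadj))

theorem StarAt.ordX_ne (h : StarAt p q y X Y) (hXb : ∀ x ∈ X, x ∈ zpowers y) :
    ∀ x ∈ X, orderOf x ≠ orderOf y := by
  intro x hx heq
  exact (h.nbrX x hx).2 (tw_of_zpowers_eq (zpowers_eq_of_mem_of_le (hXb x hx) heq.ge))

theorem StarAt.exists_primes (h : StarAt p q y X Y) (hp : p.Prime) (hq : q.Prime)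
    (hXb : ∀ x ∈ X, x ∈ zpowers y) (hYb : ∀ x ∈ Y, x ∈ zpowers y)
    (hN : ∀ v ∈ zpowers y, orderOf v ≠ orderOf y → ¬ tw v y) :
    ∃ r r' : ℕ, r.Prime ∧ r'.Prime ∧ r ≠ r' ∧ r ∣ orderOf y ∧ r' ∣ orderOf y ∧
      (∀ v ∈ zpowers y, orderOf v = r → v ∈ X) ∧
      (∀ v ∈ zpowers y, orderOf v = r' → v ∈ Y) := by
  obtain ⟨x, hx⟩ := h.neX hp
  obtain ⟨x', hx'⟩ := h.neY hq
  have hxy := hXb x hx
  have hx'y := hYb x' hx'
  have hnadj : ¬ (orderOf x ∣ orderOf x' ∨ orderOf x' ∣ orderOf x) :=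
    fun hh => h.nadj x hx x' hx' ((adj_iff hxy hx'y).mpr hh)
  have han : orderOf x ∣ orderOf y := orderOf_dvd_of_mem_zpowers hxy
  have ha'n : orderOf x' ∣ orderOf y := orderOf_dvd_of_mem_zpowers hx'y
  have hane := h.ordX_ne hXb x hx
  have ha'ne := h.swap.ordX_ne hYb x' hx'
  have e1 : ∃ r α, Nat.Prime r ∧ r ^ α ∣ orderOf x ∧ ¬ r ^ α ∣ orderOf x' := by
    by_contra hcon
    push Not at hcon
    exact hnadj (Or.inl ((Nat.dvd_iff_prime_pow_dvd_dvd _ _).mpr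
      (fun r α hr hd => hcon r α hr hd)))
  have e2 : ∃ r α, Nat.Prime r ∧ r ^ α ∣ orderOf x' ∧ ¬ r ^ α ∣ orderOf x := by
    by_contra hcon
    push Not at hcon
    exact hnadj (Or.inr ((Nat.dvd_iff_prime_pow_dvd_dvd _ _).mpr
      (fun r α hr hd => hcon r α hr hd)))
  obtain ⟨r, α, hr, hra, hra'⟩ := e1
  obtain ⟨r', α', hr', hr'a', hr'a⟩ := e2
  have hα : α ≠ 0 := by
    rintro rfl
    exact hra' (by simp)
  have hα' : α' ≠ 0 := by
    rintro rfl
    exact hr'a (by simp)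
  have hrαn : r ^ α ∣ orderOf y := dvd_trans hra han
  have hrαne : r ^ α ≠ orderOf y := fun heq => hane (Nat.dvd_antisymm han (heq ▸ hra))
  have hU := h.ordX hXb hYb hN hrαne hx (Or.inl hra) hx'
    (fun hh => hh.elim hra' (fun h2 => hnadj (Or.inr (dvd_trans h2 hra))))
  obtain ⟨u, hu, huo⟩ := exists_order y hrαn
  have huX := hU u hu huo
  have hr'αn : r' ^ α' ∣ orderOf y := dvd_trans hr'a' ha'n
  have hr'αne : r' ^ α' ≠ orderOf y :=
    fun heq => ha'ne (Nat.dvd_antisymm ha'n (heq ▸ hr'a'))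
  have hU' := h.swap.ordX hYb hXb hN hr'αne hx' (Or.inl hr'a') hx
    (fun hh => hh.elim hr'a (fun h2 => hnadj (Or.inl (dvd_trans h2 hr'a'))))
  obtain ⟨u', hu', hu'o⟩ := exists_order y hr'αn
  have hu'Y := hU' u' hu' hu'o
  have hrr' : r ≠ r' := by
    rintro rfl
    apply h.nadj u huX u' hu'Y
    rw [adj_iff hu hu', huo, hu'o]
    rcases le_total α α' with hle | hle
    · exact Or.inl (pow_dvd_pow r hle)
    · exact Or.inr (pow_dvd_pow r hle)
  have hrn : r ∣ orderOf y := dvd_trans (dvd_pow_self r hα) hrαn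
  have hr'n : r' ∣ orderOf y := dvd_trans (dvd_pow_self r' hα') hr'αn
  have hrne : r ≠ orderOf y :=
    fun heq => hane (Nat.dvd_antisymm han (heq ▸ dvd_trans (dvd_pow_self r hα) hra))
  have hr'ne : r' ≠ orderOf y :=
    fun heq => ha'ne (Nat.dvd_antisymm ha'n (heq ▸ dvd_trans (dvd_pow_self r' hα') hr'a'))
  have hndvd : ¬ r ∣ r' := fun hd => hrr' ((Nat.prime_dvd_prime_iff_eq hr hr').mp hd)
  have hndvd' : ¬ r' ∣ r := fun hd => hrr' ((Nat.prime_dvd_prime_iff_eq hr' hr).mp hd).symm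
  refine ⟨r, r', hr, hr', hrr', hrn, hr'n, ?_, ?_⟩
  · refine h.ordX hXb hYb hN hrne huX (by rw [huo]; exact Or.inl (dvd_pow_self r hα)) hu'Y ?_
    rw [hu'o]
    rintro (h1 | h1)
    · exact hndvd (hr.dvd_of_dvd_pow h1)
    · exact hndvd' (dvd_trans (dvd_pow_self r' hα') h1)
  · refine h.swap.ordX hYb hXb hN hr'ne hu'Y
      (by rw [hu'o]; exact Or.inl (dvd_pow_self r' hα')) huX ?_
    rw [huo]
    rintro (h1 | h1)
    · exact hndvd' (hr'.dvd_of_dvd_pow h1)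
    · exact hndvd (dvd_trans (dvd_pow_self r hα) h1)

theorem StarAt.no_sq (h : StarAt p q y X Y) (hXb : ∀ x ∈ X, x ∈ zpowers y)
    (hYb : ∀ x ∈ Y, x ∈ zpowers y)
    (hN : ∀ v ∈ zpowers y, orderOf v ≠ orderOf y → ¬ tw v y)
    {r r' : ℕ} (hr : r.Prime) (hr' : r'.Prime) (hrr' : r ≠ r')
    (hX : ∀ v ∈ zpowers y, orderOf v = r → v ∈ X)
    (hY : ∀ v ∈ zpowers y, orderOf v = r' → v ∈ Y)
    (hd : r * r * r' ∣ orderOf y) : False := by
  have hndvd : ¬ r ∣ r' := fun hd => hrr' ((Nat.prime_dvd_prime_iff_eq hr hr').mp hd)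
  have hndvd' : ¬ r' ∣ r := fun hd => hrr' ((Nat.prime_dvd_prime_iff_eq hr' hr).mp hd).symm
  have hrn : r ∣ orderOf y := dvd_trans ⟨r * r', by ring⟩ hd
  have hr'n : r' ∣ orderOf y := dvd_trans (Dvd.intro_left _ rfl) hd
  obtain ⟨w, hw, hwo⟩ := exists_order y hrn
  obtain ⟨w', hw', hw'o⟩ := exists_order y hr'n
  have hwX := hX w hw hwo
  have hw'Y := hY w' hw' hw'o
  have hpos : 0 < orderOf y := orderOf_pos y
  have hle := Nat.le_of_dvd hpos hd
  have hr2 := hr.two_le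
  have hr'2 := hr'.two_le
  have hrrn : r * r ∣ orderOf y := dvd_trans (Dvd.intro _ rfl) hd
  have hrrne : r * r ≠ orderOf y := by
    intro heq
    rw [← heq] at hle
    nlinarith
  have hV := h.ordX hXb hYb hN hrrne hwX (by rw [hwo]; exact Or.inr (Dvd.intro _ rfl)) hw'Y
    (by
      rw [hw'o]
      rintro (h1 | h1)
      · exact hndvd (dvd_trans (Dvd.intro _ rfl) h1)
      · exact hndvd' ((hr'.dvd_mul.mp h1).elim id id))
  obtain ⟨v, hv, hvo⟩ := exists_order y hrrn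
  have hvX := hV v hv hvo
  have hrr'n : r * r' ∣ orderOf y := dvd_trans ⟨r, by ring⟩ hd
  have hrr'ne : r * r' ≠ orderOf y := by
    intro heq
    rw [← heq] at hle
    nlinarith
  exact h.ordBoth hXb hYb hN hrr'n hrr'ne hwX (by rw [hwo]; exact Or.inr (Dvd.intro _ rfl))
    hw'Y (by rw [hw'o]; exact Or.inr (Dvd.intro_left _ rfl)) hvX
    (by
      rw [hvo]
      rintro (h1 | h1)
      · exact hndvd' (Nat.dvd_of_mul_dvd_mul_left hr.pos h1)
      · exact hndvd (Nat.dvd_of_mul_dvd_mul_left hr.pos h1))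

theorem StarAt.order_eq_mul (h : StarAt p q y X Y) (hXb : ∀ x ∈ X, x ∈ zpowers y)
    (hYb : ∀ x ∈ Y, x ∈ zpowers y)
    (hN : ∀ v ∈ zpowers y, orderOf v ≠ orderOf y → ¬ tw v y)
    {r r' : ℕ} (hr : r.Prime) (hr' : r'.Prime) (hrr' : r ≠ r')
    (hrn : r ∣ orderOf y) (hr'n : r' ∣ orderOf y)
    (hX : ∀ v ∈ zpowers y, orderOf v = r → v ∈ X)
    (hY : ∀ v ∈ zpowers y, orderOf v = r' → v ∈ Y) : orderOf y = r * r' := by
  have hcop : Nat.Coprime r r' := (Nat.coprime_primes hr hr').mpr hrr'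
  obtain ⟨k, hk⟩ := hcop.mul_dvd_of_dvd_of_dvd hrn hr'n
  have hpos := orderOf_pos y
  by_cases hk1 : k = 1
  · rw [hk, hk1, mul_one]
  exfalso
  have hkp : (k.minFac).Prime := Nat.minFac_prime hk1
  have htk : k.minFac ∣ k := Nat.minFac_dvd k
  generalize k.minFac = t at hkp htk
  have hd : r * r' * t ∣ orderOf y := by
    rw [hk]
    exact Nat.mul_dvd_mul_left _ htk
  by_cases h1 : t = r
  · rw [h1] at hd
    exact h.no_sq hXb hYb hN hr hr' hrr' hX hY
      (by rw [show r * r * r' = r * r' * r by ring]; exact hd)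
  by_cases h2 : t = r'
  · rw [h2] at hd
    exact h.swap.no_sq hYb hXb hN hr' hr hrr'.symm hY hX
      (by rw [show r' * r' * r = r * r' * r' by ring]; exact hd)
  obtain ⟨w, hw, hwo⟩ := exists_order y hrn
  obtain ⟨w', hw', hw'o⟩ := exists_order y hr'n
  have htn : t ∣ orderOf y := dvd_trans (Dvd.intro_left _ rfl) hd
  have htne : t ≠ orderOf y := by
    intro heq
    have hle := Nat.le_of_dvd hpos hd
    rw [← heq] at hle
    have h4 : 2 * 2 * t ≤ r * r' * t :=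
      Nat.mul_le_mul_right t (Nat.mul_le_mul hr.two_le hr'.two_le)
    have := hkp.pos
    omega
  refine h.ordNeither hXb hYb hN htn htne (hX w hw hwo) ?_ (hY w' hw' hw'o) ?_
  · rw [hwo]
    rintro (h3 | h3)
    · exact h1 ((Nat.prime_dvd_prime_iff_eq hkp hr).mp h3)
    · exact h1 ((Nat.prime_dvd_prime_iff_eq hr hkp).mp h3).symm
  · rw [hw'o]
    rintro (h3 | h3)
    · exact h2 ((Nat.prime_dvd_prime_iff_eq hkp hr').mp h3)
    · exact h2 ((Nat.prime_dvd_prime_iff_eq hr' hkp).mp h3).symm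

theorem StarAt.p_eq (h : StarAt p q y X Y) (hp : p.Prime) (hXb : ∀ x ∈ X, x ∈ zpowers y)
    {r r' : ℕ} (hr : r.Prime) (hr' : r'.Prime)
    (hn : orderOf y = r * r')
    (hX : ∀ v ∈ zpowers y, orderOf v = r → v ∈ X)
    (hY : ∀ v ∈ zpowers y, orderOf v = r' → v ∈ Y) : p = r := by
  have hrn : r ∣ orderOf y := hn ▸ Dvd.intro _ rfl
  have hr'n : r' ∣ orderOf y := hn ▸ Dvd.intro_left _ rfl
  obtain ⟨w', hw', hw'o⟩ := exists_order y hr'n
  have hw'Y := hY w' hw' hw'o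
  have hset : X = {v | v ∈ zpowers y ∧ orderOf v = r} := by
    ext v
    constructor
    · intro hv
      refine ⟨hXb v hv, ?_⟩
      have hd : orderOf v ∣ r * r' := hn ▸ orderOf_dvd_of_mem_zpowers (hXb v hv)
      have h1 : ¬ (orderOf v ∣ r' ∨ r' ∣ orderOf v) := by
        intro hh
        apply h.nadj v hv w' hw'Y
        rw [adj_iff (hXb v hv) hw', hw'o]
        exact hh
      rcases dvd_prime_mul_prime hr hr' hd with h5 | h5 | h5 | h5
      · exact absurd (Or.inl (h5 ▸ one_dvd _)) h1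
      · exact h5
      · exact absurd (Or.inl (h5 ▸ dvd_rfl)) h1
      · exact absurd (Or.inr (h5 ▸ Dvd.intro_left _ rfl)) h1
    · rintro ⟨hv, hvo⟩
      exact hX v hv hvo
  have hc := h.cardX
  rw [hset, ncard_order y hrn, Nat.totient_prime hr] at hc
  have := hp.two_le
  have := hr.two_le
  omega

theorem StarAt.orderOf_eq (h : StarAt p q y X Y) (hp : p.Prime) (hq : q.Prime)
    (hpq : p ≠ q) : orderOf y = p * q := by
  have hXb := h.below hp hq hpq
  have hYb := h.swap.below hq hp hpq.symm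
  have hN := h.ntw_of_proper hp hq hXb hYb
  obtain ⟨r, r', hr, hr', hrr', hrn, hr'n, hX, hY⟩ := h.exists_primes hp hq hXb hYb hN
  have hn := h.order_eq_mul hXb hYb hN hr hr' hrr' hrn hr'n hX hY
  have e1 := h.p_eq hp hXb hr hr' hn hX hY
  have e2 := h.swap.p_eq hq hYb hr' hr (by rw [hn, mul_comm]) hY hX
  rw [hn, e1, e2]

end Below

section Main

variable {G H : Type*} [Group G] [Finite G] [Group H] [Finite H] (e : G ≃ H)
  (he : ∀ x y : G, adj x y ↔ adj (e x) (e y))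

include he in
theorem exists_order_mul {p q : ℕ} (hp : p.Prime) (hq : q.Prime) (hpq : p ≠ q)
    (hG : ∃ g : G, orderOf g = p * q) : ∃ g : H, orderOf g = p * q := by
  obtain ⟨z, hz⟩ := hG
  by_cases hd : dom z
  · have hall := all_mem_of_dom hp hq hpq hz hd
    have hcard : Nat.card G = p * q := by
      rw [← hz]
      exact (orderOf_eq_card_of_forall_mem_zpowers hall).symm
    have hcardH : Nat.card H = p * q := by
      rw [← hcard]
      exact (Nat.card_congr e).symm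
    have hz1 : z ≠ 1 := by
      rintro rfl
      rw [orderOf_one] at hz
      have h1 := hp.two_le
      have h2 := hq.two_le
      nlinarith
    by_cases hez : e z = 1
    · have h1 : e 1 ≠ 1 := by
        intro h1
        exact hz1 (e.injective (hez.trans h1.symm))
      exact ⟨e 1, order_of_dom_of_card hp hq hpq hcardH ((dom_map e he 1).mpr dom_one) h1⟩
    · exact ⟨e z, order_of_dom_of_card hp hq hpq hcardH ((dom_map e he z).mpr hd) hez⟩
  · have hstar := (starAt_of_order hp hq hpq hz hd).map e he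
    exact ⟨e z, hstar.orderOf_eq hp hq hpq⟩

end Main

end Cfsg.Agent.Helper39.PG
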