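import Cfsg.Agent.Helper39.PGBasic

set_option autoImplicit false

namespace Cfsg.Agent.Helper39.PG

open Subgroup

/-- the "star" configuration at `y` -/
structure StarAt {K : Type*} [Group K] (p q : ℕ) (y : K) (X Y : Set K) : Prop where
  ndom : ¬ dom y
  cardT : {t : K | tw t y}.ncard = (p - 1) * (q - 1)
  cardX : X.ncard = p - 1
  cardY : Y.ncard = q - 1
  nbrX : ∀ x ∈ X, adj x y ∧ ¬ tw x y
  nbrY : ∀ x ∈ Y, adj x y ∧ ¬ tw x y
  nadj : ∀ x ∈ X, ∀ x' ∈ Y, ¬ adj x x'
  cliqueX : ∀ x ∈ X, ∀ x' ∈ X, adj x x'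
  cliqueY : ∀ x ∈ Y, ∀ x' ∈ Y, adj x x'
  rest : ∀ v, adj v y → ¬ tw v y → v ∉ X → v ∉ Y → (∀ x ∈ X, adj v x) ∧ (∀ x ∈ Y, adj v x)

section Gen

variable {K : Type*} [Group K] {p q : ℕ} {y : K} {X Y : Set K}

theorem StarAt.swap (h : StarAt p q y X Y) : StarAt q p y Y X where
  ndom := h.ndom
  cardT := by rw [h.cardT, mul_comm]
  cardX := h.cardY
  cardY := h.cardX
  nbrX := h.nbrY
  nbrY := h.nbrX
  nadj := fun x hx x' hx' hadj => h.nadj x' hx' x hx (adj_symm hadj)
  cliqueX := h.cliqueY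
  cliqueY := h.cliqueX
  rest := fun v h1 h2 h3 h4 => And.symm (h.rest v h1 h2 h4 h3)

theorem StarAt.inX (h : StarAt p q y X Y) {v : K} (h1 : adj v y) (h2 : ¬ tw v y)
    {x : K} (hx : x ∈ X) (hvx : adj v x) {x' : K} (hx' : x' ∈ Y) (hvx' : ¬ adj v x') :
    v ∈ X := by
  by_contra hvX
  have hvY : v ∉ Y := fun hvY => h.nadj x hx v hvY (adj_symm hvx)
  exact hvx' ((h.rest v h1 h2 hvX hvY).2 x' hx')

theorem StarAt.inY (h : StarAt p q y X Y) {v : K} (h1 : adj v y) (h2 : ¬ tw v y)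
    {x : K} (hx : x ∈ X) (hvx : ¬ adj v x) {x' : K} (hx' : x' ∈ Y) (hvx' : adj v x') :
    v ∈ Y :=
  h.swap.inX h1 h2 hx' hvx' hx hvx

theorem StarAt.neither (h : StarAt p q y X Y) {v : K} (h1 : adj v y) (h2 : ¬ tw v y)
    {x : K} (hx : x ∈ X) (hvx : ¬ adj v x) {x' : K} (hx' : x' ∈ Y) (hvx' : ¬ adj v x') :
    False := by
  have hvX : v ∉ X := fun hv => hvx (h.cliqueX v hv x hx)
  have hvY : v ∉ Y := fun hv => hvx' (h.cliqueY v hv x' hx')
  exact hvx ((h.rest v h1 h2 hvX hvY).1 x hx)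

theorem StarAt.both (h : StarAt p q y X Y) {v : K} (h1 : adj v y) (h2 : ¬ tw v y)
    {x : K} (hx : x ∈ X) (hvx : adj v x) {x' : K} (hx' : x' ∈ Y) (hvx' : adj v x')
    {w : K} (hw : w ∈ X) (hvw : ¬ adj v w) : False := by
  have hvX : v ∉ X := fun hv => h.nadj v hv x' hx' hvx'
  have hvY : v ∉ Y := fun hv => h.nadj x hx v hv (adj_symm hvx)
  exact hvw ((h.rest v h1 h2 hvX hvY).1 w hw)

theorem StarAt.neX (h : StarAt p q y X Y) (hp : p.Prime) : X.Nonempty := by
  apply Set.nonempty_of_ncard_ne_zero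
  rw [h.cardX]
  have := hp.two_le
  omega

theorem StarAt.neY (h : StarAt p q y X Y) (hq : q.Prime) : Y.Nonempty :=
  h.swap.neX hq

end Gen

section Map

variable {G H : Type*} [Group G] [Group H] (e : G ≃ H)
  (he : ∀ x y : G, adj x y ↔ adj (e x) (e y))

include he in
theorem dom_map (y : G) : dom (e y) ↔ dom y := by
  unfold dom
  rw [e.surjective.forall]
  exact forall_congr' (fun v => (he y v).symm)

include he in
theorem tw_map (x y : G) : tw (e x) (e y) ↔ tw x y := by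
  unfold tw
  rw [e.surjective.forall]
  exact forall_congr' (fun v => by rw [← he, ← he])

include he in
theorem StarAt.map {p q : ℕ} {y : G} {X Y : Set G} (h : StarAt p q y X Y) :
    StarAt p q (e y) (e '' X) (e '' Y) where
  ndom := fun hd => h.ndom ((dom_map e he y).mp hd)
  cardT := by
    have : {t : H | tw t (e y)} = e '' {t : G | tw t y} := by
      ext v
      obtain ⟨u, rfl⟩ := e.surjective v
      rw [e.injective.mem_set_image]
      exact tw_map e he u y
    rw [this, Set.ncard_image_of_injective _ e.injective, h.cardT]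
  cardX := by rw [Set.ncard_image_of_injective _ e.injective, h.cardX]
  cardY := by rw [Set.ncard_image_of_injective _ e.injective, h.cardY]
  nbrX := by
    rintro _ ⟨x, hx, rfl⟩
    exact ⟨(he x y).mp (h.nbrX x hx).1, fun ht => (h.nbrX x hx).2 ((tw_map e he x y).mp ht)⟩
  nbrY := by
    rintro _ ⟨x, hx, rfl⟩
    exact ⟨(he x y).mp (h.nbrY x hx).1, fun ht => (h.nbrY x hx).2 ((tw_map e he x y).mp ht)⟩
  nadj := by
    rintro _ ⟨x, hx, rfl⟩ _ ⟨x', hx', rfl⟩ hadj
    exact h.nadj x hx x' hx' ((he x x').mpr hadj)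
  cliqueX := by
    rintro _ ⟨x, hx, rfl⟩ _ ⟨x', hx', rfl⟩
    exact (he x x').mp (h.cliqueX x hx x' hx')
  cliqueY := by
    rintro _ ⟨x, hx, rfl⟩ _ ⟨x', hx', rfl⟩
    exact (he x x').mp (h.cliqueY x hx x' hx')
  rest := by
    intro v
    obtain ⟨u, rfl⟩ := e.surjective v
    intro h1 h2 h3 h4
    rw [e.injective.mem_set_image] at h3 h4
    obtain ⟨r1, r2⟩ := h.rest u ((he u y).mpr h1)
      (fun ht => h2 ((tw_map e he u y).mpr ht)) h3 h4
    constructor
    · rintro _ ⟨x, hx, rfl⟩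
      exact (he u x).mp (r1 x hx)
    · rintro _ ⟨x, hx, rfl⟩
      exact (he u x).mp (r2 x hx)

end Map

theorem dvd_prime_mul_prime {p q d : ℕ} (hp : p.Prime) (hq : q.Prime) (h : d ∣ p * q) :
    d = 1 ∨ d = p ∨ d = q ∨ d = p * q := by
  obtain ⟨k1, k2, h1, h2, rfl⟩ := (Nat.dvd_mul).mp h
  rcases (Nat.dvd_prime hp).mp h1 with rfl | rfl <;>
    rcases (Nat.dvd_prime hq).mp h2 with rfl | rfl <;> simp

section GSide

variable {K : Type*} [Group K] [Finite K] {p q : ℕ}

theorem tw_iff_of_order {z : K} (hp : p.Prime) (hq : q.Prime) (hpq : p ≠ q)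
    (hz : orderOf z = p * q) (hnd : ¬ dom z) (t : K) :
    tw t z ↔ t ∈ zpowers z ∧ orderOf t = p * q := by
  constructor
  · intro htw
    have ht1 : t ≠ 1 := by
      rintro rfl
      exact hnd (dom_of_tw htw dom_one)
    have hz1 : z ≠ 1 := ne_one_of_not_dom hnd
    have hmm : t ∈ zpowers z ∧ z ∈ zpowers t := by
      rcases tw_adj htw with h | h
      · refine ⟨h, ?_⟩
        by_contra hz'
        obtain ⟨s, e, hs, he⟩ := primePow_of_tw htw h ht1 hz'
        exact not_primePow_mul hp hq hpq hs he (by rw [hz])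
      · refine ⟨?_, h⟩
        by_contra ht'
        obtain ⟨s, e, hs, he⟩ := primePow_of_tw (tw_symm htw) h hz1 ht'
        exact not_primePow_mul hp hq hpq hs he (hz ▸ orderOf_dvd_of_mem_zpowers h)
    refine ⟨hmm.1, ?_⟩
    rw [← hz]
    exact Nat.dvd_antisymm (orderOf_dvd_of_mem_zpowers hmm.1) (orderOf_dvd_of_mem_zpowers hmm.2)
  · rintro ⟨ht, ho⟩
    exact tw_of_zpowers_eq (zpowers_eq_of_mem_of_le ht (by rw [ho, hz]))

theorem starAt_of_order {z : K} (hp : p.Prime) (hq : q.Prime) (hpq : p ≠ q)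
    (hz : orderOf z = p * q) (hnd : ¬ dom z) :
    StarAt p q z {v | v ∈ zpowers z ∧ orderOf v = p} {v | v ∈ zpowers z ∧ orderOf v = q} where
  ndom := hnd
  cardT := by
    have : {t : K | tw t z} = {t : K | t ∈ zpowers z ∧ orderOf t = p * q} := by
      ext t
      exact tw_iff_of_order hp hq hpq hz hnd t
    rw [this, ncard_order z (by rw [hz]),
      Nat.totient_mul ((Nat.coprime_primes hp hq).mpr hpq), Nat.totient_prime hp,
      Nat.totient_prime hq]
  cardX := by
    rw [ncard_order z (by rw [hz]; exact Dvd.intro _ rfl), Nat.totient_prime hp]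
  cardY := by
    rw [ncard_order z (by rw [hz]; exact Dvd.intro_left _ rfl), Nat.totient_prime hq]
  nbrX := by
    rintro x ⟨hx, ho⟩
    refine ⟨Or.inl hx, fun ht => ?_⟩
    have := ((tw_iff_of_order hp hq hpq hz hnd x).mp ht).2
    rw [ho] at this
    have h1 : q = 1 := by
      have hp0 := hp.pos
      nlinarith
    exact hq.one_lt.ne' h1
  nbrY := by
    rintro x ⟨hx, ho⟩
    refine ⟨Or.inl hx, fun ht => ?_⟩
    have := ((tw_iff_of_order hp hq hpq hz hnd x).mp ht).2
    rw [ho] at this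
    have h1 : p = 1 := by
      have hq0 := hq.pos
      nlinarith
    exact hp.one_lt.ne' h1
  nadj := by
    rintro x ⟨hx, ho⟩ x' ⟨hx', ho'⟩ hadj
    rw [adj_iff hx hx', ho, ho'] at hadj
    rcases hadj with h | h
    · exact hpq ((Nat.prime_dvd_prime_iff_eq hp hq).mp h)
    · exact hpq ((Nat.prime_dvd_prime_iff_eq hq hp).mp h).symm
  cliqueX := by
    rintro x ⟨hx, ho⟩ x' ⟨hx', ho'⟩
    rw [adj_iff hx hx', ho, ho']
    exact Or.inl dvd_rfl
  cliqueY := by
    rintro x ⟨hx, ho⟩ x' ⟨hx', ho'⟩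
    rw [adj_iff hx hx', ho, ho']
    exact Or.inl dvd_rfl
  rest := by
    intro v h1 h2 h3 h4
    rcases h1 with h | h
    · have hd : orderOf v ∣ p * q := hz ▸ orderOf_dvd_of_mem_zpowers h
      rcases dvd_prime_mul_prime hp hq hd with h5 | h5 | h5 | h5
      · have hv1 : v = 1 := orderOf_eq_one_iff.mp h5
        subst hv1
        exact ⟨fun x _ => Or.inl (one_mem _), fun x _ => Or.inl (one_mem _)⟩
      · exact absurd ⟨h, h5⟩ h3
      · exact absurd ⟨h, h5⟩ h4
      · exact absurd ((tw_iff_of_order hp hq hpq hz hnd v).mpr ⟨h, h5⟩) h2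
    · exact ⟨fun x hx => Or.inr (mem_trans hx.1 h), fun x hx => Or.inr (mem_trans hx.1 h)⟩

theorem all_mem_of_dom {z : K} (hp : p.Prime) (hq : q.Prime) (hpq : p ≠ q)
    (hz : orderOf z = p * q) (hd : dom z) : ∀ x : K, x ∈ zpowers z := by
  intro x
  by_contra hx
  rcases hd x with h | h
  · have hz1 : z ≠ 1 := by
      rintro rfl
      rw [orderOf_one] at hz
      have h1 := hp.two_le
      have h2 := hq.two_le
      nlinarith
    obtain ⟨s, e, hs, he⟩ := primePow_of_adj_all h (fun w _ => hd w) hz1 hx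
    exact not_primePow_mul hp hq hpq hs he (hz ▸ orderOf_dvd_of_mem_zpowers h)
  · exact hx h

theorem order_of_dom_of_card {y : K} (hp : p.Prime) (hq : q.Prime) (hpq : p ≠ q)
    (hcard : Nat.card K = p * q) (hd : dom y) (hy1 : y ≠ 1) : orderOf y = p * q := by
  have key : ∀ {p q : ℕ} (_ : p.Prime) (_ : q.Prime) (_ : p ≠ q) (a b : K),
      orderOf a = p → orderOf b = q → p ∣ orderOf y := by
    intro p q hp hq hpq a b ha hb
    rcases hd a with h | h
    · have h1 : orderOf y ∣ p := ha ▸ orderOf_dvd_of_mem_zpowers h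
      have h2 : orderOf y = p := by
        rcases (Nat.dvd_prime hp).mp h1 with h3 | h3
        · exact absurd (orderOf_eq_one_iff.mp h3) hy1
        · exact h3
      exfalso
      rcases hd b with h' | h'
      · have := orderOf_dvd_of_mem_zpowers h'
        rw [h2, hb] at this
        exact hpq ((Nat.prime_dvd_prime_iff_eq hp hq).mp this)
      · have := orderOf_dvd_of_mem_zpowers h'
        rw [h2, hb] at this
        exact hpq ((Nat.prime_dvd_prime_iff_eq hq hp).mp this).symm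
    · exact ha ▸ orderOf_dvd_of_mem_zpowers h
  haveI := Fact.mk hp
  haveI := Fact.mk hq
  obtain ⟨a, ha⟩ := exists_prime_orderOf_dvd_card' (G := K) p
    (by rw [hcard]; exact Dvd.intro _ rfl)
  obtain ⟨b, hb⟩ := exists_prime_orderOf_dvd_card' (G := K) q
    (by rw [hcard]; exact Dvd.intro_left _ rfl)
  have h1 := key hp hq hpq a b ha hb
  have h2 := key hq hp hpq.symm b a hb ha
  have h3 : p * q ∣ orderOf y :=
    Nat.Coprime.mul_dvd_of_dvd_of_dvd ((Nat.coprime_primes hp hq).mpr hpq) h1 h2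
  have h4 : orderOf y ∣ p * q := hcard ▸ orderOf_dvd_natCard y
  exact Nat.dvd_antisymm h4 h3

end GSide

end Cfsg.Agent.Helper39.PG
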