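import Mathlib
import Cfsg.Agent.Helper3.TwoTrans
import Cfsg.Agent.Helper15.CharInner

/-!
# Permutation characters: irreducibility criterion, Burnside sums and orbit counts (helper39)
-/

set_option autoImplicit false

namespace Cfsg.Agent.Helper39.PermIrr

open MulAction
open scoped ComplexConjugate Pointwise

/-- A class function with integral multiplicities and norm one, having positive inner product
with some character, is an irreducible character. -/
theorem isIrr_of_int_norm_one {G : Type*} [Group G] [Fintype G] {θ π : G → ℂ}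
    (hcl : Cfsg.IsClassFunction G θ)
    (hint : ∀ χ : Cfsg.IrrCharacter G, ∃ z : ℤ, Cfsg.classInner θ χ = (z : ℂ))
    (hnorm : Cfsg.classInner θ θ = 1) (hπ : Cfsg.IsCharacter G π)
    (hpos : ∃ r : ℝ, 0 < r ∧ Cfsg.classInner θ π = (r : ℂ)) : Cfsg.IsIrrCharacter G θ := by
  classical
  have : Fintype (Cfsg.IrrCharacter G) := Fintype.ofFinite _
  choose z hz using hint
  have hm : ∀ χ : Cfsg.IrrCharacter G, ∃ m : ℕ, Cfsg.classInner π χ = (m : ℂ) :=
    fun χ => Cfsg.Agent.Helper15.inner_nat hπ (Cfsg.Agent.Helper15.isChar_of_irr χ.2)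
  choose m hm using hm
  have h1 := Cfsg.Agent.Helper15.classInner_eq_sum (θ := θ) (θ' := θ) hcl
  rw [hnorm] at h1
  have h2 : (1 : ℤ) = ∑ χ, z χ * z χ := by
    have h2' : ((1 : ℤ) : ℂ) = ((∑ χ, z χ * z χ : ℤ) : ℂ) := by
      push_cast
      rw [h1]
      apply Finset.sum_congr rfl
      intro χ _
      rw [hz χ, map_intCast]
    exact_mod_cast h2'
  have h3 := Cfsg.Agent.Helper15.classInner_eq_sum (θ := θ) (θ' := π) hcl
  obtain ⟨r, hr, hrπ⟩ := hpos
  have h4 : (r : ℂ) = ((∑ χ, z χ * (m χ : ℤ) : ℤ) : ℂ) := by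
    rw [← hrπ, h3]
    push_cast
    apply Finset.sum_congr rfl
    intro χ _
    rw [hz χ, hm χ, Complex.conj_natCast]
  have h5 : 0 < ∑ χ, z χ * (m χ : ℤ) := by
    have h6 : (r : ℂ) = (((∑ χ, z χ * (m χ : ℤ) : ℤ) : ℝ) : ℂ) := by
      rw [h4]
      push_cast
      rfl
    have h7 : r = ((∑ χ, z χ * (m χ : ℤ) : ℤ) : ℝ) := Complex.ofReal_injective h6
    rw [h7] at hr
    exact_mod_cast hr
  have hz0 : ∀ χ, 0 ≤ z χ := by
    by_contra hneg
    push Not at hneg
    obtain ⟨χ₀, hχ₀⟩ := hneg
    have hothers : ∀ χ, χ ≠ χ₀ → z χ = 0 := by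
      intro χ hχ
      by_contra hne
      have h8 : z χ₀ * z χ₀ + z χ * z χ ≤ ∑ χ, z χ * z χ := by
        rw [← Finset.sum_pair (f := fun χ => z χ * z χ) hχ.symm]
        apply Finset.sum_le_sum_of_subset_of_nonneg (Finset.subset_univ _)
        intro i _ _
        exact mul_self_nonneg _
      have h9 : 0 < z χ * z χ := mul_self_pos.2 hne
      have h10 : 0 < z χ₀ * z χ₀ := mul_self_pos.2 hχ₀.ne
      linarith
    have h11 : ∑ χ, z χ * (m χ : ℤ) = z χ₀ * (m χ₀ : ℤ) := by
      rw [Finset.sum_eq_single χ₀]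
      · intro χ _ hχ
        rw [hothers χ hχ, zero_mul]
      · intro h
        exact absurd (Finset.mem_univ _) h
    rw [h11] at h5
    have h12 : z χ₀ * (m χ₀ : ℤ) ≤ 0 :=
      mul_nonpos_of_nonpos_of_nonneg hχ₀.le (Int.natCast_nonneg _)
    linarith
  have hθ : Cfsg.IsCharacter G θ := by
    apply Cfsg.Agent.Helper3.isCharacter_of_classInner_nat θ hcl
    intro χ
    refine ⟨(z χ).toNat, ?_⟩
    rw [hz χ]
    have h13 := Int.toNat_of_nonneg (hz0 χ)
    exact_mod_cast congrArg (Int.cast : ℤ → ℂ) h13.symm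
  exact Cfsg.Agent.Helper15.isIrr_of_inner_one hθ hnorm

section General

variable {G : Type*} [Group G]

/-- The permutation character of a transitive action is a character. -/
theorem isCharacter_perm [Fintype G] (X : Type*) [MulAction G X] [Finite X]
    [IsPretransitive G X] [Nonempty X] :
    Cfsg.IsCharacter G (fun g => (Nat.card (fixedBy X g) : ℂ)) := by
  classical
  obtain ⟨x₀⟩ := ‹Nonempty X›
  have h := Cfsg.Agent.Helper3.isCharacter_indFun (stabilizer G x₀) (fun _ => (1 : ℂ))
    Cfsg.Agent.Helper79.isCharacter_one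
  have e : (fun g => (Nat.card (fixedBy X g) : ℂ))
      = Cfsg.indFun (stabilizer G x₀) (fun _ => (1 : ℂ)) := by
    funext g
    rw [Cfsg.Agent.Helper15.indFun_stabilizer_one_apply]
    congr 1
    apply Nat.card_congr
    apply Equiv.subtypeEquivRight
    intro z
    simp [mem_fixedBy, orbit_eq_univ]
  rw [e]
  exact h

/-- Burnside's lemma for a transitive action. -/
theorem sum_perm [Fintype G] (X : Type*) [MulAction G X] [Finite X]
    [IsPretransitive G X] [Nonempty X] :
    ∑ g : G, (Nat.card (fixedBy X g) : ℂ) = (Nat.card G : ℂ) := by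
  have h := Cfsg.Agent.Helper3.sum_natCard_fixedBy G X
  have h1 : Nat.card (orbitRel.Quotient G X) = 1 := by
    have hsub : Subsingleton (orbitRel.Quotient G X) :=
      (MulAction.pretransitive_iff_subsingleton_quotient G X).mp inferInstance
    obtain ⟨x₀⟩ := ‹Nonempty X›
    have hne : Nonempty (orbitRel.Quotient G X) := ⟨Quotient.mk'' x₀⟩
    exact Nat.card_eq_one_iff_unique.mpr ⟨hsub, hne⟩
  rw [h1, one_mul] at h
  exact_mod_cast h

theorem card_fixedBy_prod (X Y : Type*) [MulAction G X] [MulAction G Y] (g : G) :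
    Nat.card (fixedBy (X × Y) g) = Nat.card (fixedBy X g) * Nat.card (fixedBy Y g) := by
  rw [← Nat.card_prod]
  apply Nat.card_congr
  refine
    { toFun := fun z => (⟨z.1.1, (Prod.ext_iff.1 z.2).1⟩, ⟨z.1.2, (Prod.ext_iff.1 z.2).2⟩)
      invFun := fun z => ⟨(z.1.1, z.2.1), Prod.ext z.1.2 z.2.2⟩
      left_inv := fun z => rfl
      right_inv := fun z => rfl }

/-- Burnside's lemma for a product action. -/
theorem sum_perm_mul [Fintype G] (X Y : Type*) [MulAction G X] [MulAction G Y] [Finite X]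
    [Finite Y] :
    ∑ g : G, (Nat.card (fixedBy X g) : ℂ) * (Nat.card (fixedBy Y g) : ℂ)
      = (Nat.card (orbitRel.Quotient G (X × Y)) : ℂ) * (Nat.card G : ℂ) := by
  have h := Cfsg.Agent.Helper3.sum_natCard_fixedBy G (X × Y)
  simp only [card_fixedBy_prod] at h
  exact_mod_cast h

/-- Counting orbits through a complete invariant. -/
theorem card_orbits_of_inv {Z P : Type*} [MulAction G Z] (inv : Z → P)
    (h1 : ∀ (g : G) (z : Z), inv (g • z) = inv z)
    (h2 : ∀ z z' : Z, inv z = inv z' → ∃ g : G, g • z = z')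
    (h3 : Function.Surjective inv) :
    Nat.card (orbitRel.Quotient G Z) = Nat.card P := by
  have hwd : ∀ a b : Z, orbitRel G Z a b → inv a = inv b := by
    intro a b hab
    obtain ⟨g, rfl⟩ := (orbitRel_apply).mp hab
    exact h1 g b
  apply Nat.card_congr
  refine Equiv.ofBijective (Quotient.lift inv hwd) ⟨?_, ?_⟩
  · intro q q' hq
    induction q using Quotient.inductionOn with
    | h z =>
      induction q' using Quotient.inductionOn with
      | h z' =>
        obtain ⟨g, hg⟩ := h2 z' z hq.symm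
        apply Quotient.sound
        exact (orbitRel_apply).mpr ⟨g, hg⟩
  · intro p
    obtain ⟨z, rfl⟩ := h3 p
    exact ⟨Quotient.mk _ z, rfl⟩

end General

end Cfsg.Agent.Helper39.PermIrr
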