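import Mathlib
import Cfsg.Agent.Helper39.PermIrr

/-!
# Orbits of a 4-transitive group on pairs built from points, ordered pairs and 2-subsets
(helper39)
-/

set_option autoImplicit false

namespace Cfsg.Agent.Helper39.PermIrr

open MulAction
open scoped Pointwise

section Trans

variable {G : Type*} [Group G] {α : Type*} [MulAction G α]

theorem trans3 [IsMultiplyPretransitive G α 3] {a b c a' b' c' : α} (hab : a ≠ b) (hac : a ≠ c)
    (hbc : b ≠ c) (hab' : a' ≠ b') (hac' : a' ≠ c') (hbc' : b' ≠ c') :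
    ∃ g : G, g • a = a' ∧ g • b = b' ∧ g • c = c' := by
  have hu : Function.Injective ![a, b, c] := by
    intro i j h
    fin_cases i <;> fin_cases j <;> simp_all
  have hv : Function.Injective ![a', b', c'] := by
    intro i j h
    fin_cases i <;> fin_cases j <;> simp_all
  obtain ⟨g, hg⟩ := exists_smul_eq G (⟨![a, b, c], hu⟩ : Fin 3 ↪ α) ⟨![a', b', c'], hv⟩
  refine ⟨g, ?_, ?_, ?_⟩
  · have := DFunLike.congr_fun hg 0
    simpa using this
  · have := DFunLike.congr_fun hg 1
    simpa using this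
  · have := DFunLike.congr_fun hg 2
    simpa using this

theorem trans4 [IsMultiplyPretransitive G α 4] {a b c d a' b' c' d' : α} (hab : a ≠ b)
    (hac : a ≠ c) (had : a ≠ d) (hbc : b ≠ c) (hbd : b ≠ d) (hcd : c ≠ d) (hab' : a' ≠ b')
    (hac' : a' ≠ c') (had' : a' ≠ d') (hbc' : b' ≠ c') (hbd' : b' ≠ d') (hcd' : c' ≠ d') :
    ∃ g : G, g • a = a' ∧ g • b = b' ∧ g • c = c' ∧ g • d = d' := by
  have hu : Function.Injective ![a, b, c, d] := by
    intro i j h
    fin_cases i <;> fin_cases j <;> simp_all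
  have hv : Function.Injective ![a', b', c', d'] := by
    intro i j h
    fin_cases i <;> fin_cases j <;> simp_all
  obtain ⟨g, hg⟩ := exists_smul_eq G (⟨![a, b, c, d], hu⟩ : Fin 4 ↪ α) ⟨![a', b', c', d'], hv⟩
  refine ⟨g, ?_, ?_, ?_, ?_⟩
  · have := DFunLike.congr_fun hg 0
    simpa using this
  · have := DFunLike.congr_fun hg 1
    simpa using this
  · have := DFunLike.congr_fun hg 2
    simpa using this
  · have := DFunLike.congr_fun hg 3
    simpa using this

end Trans

section TwoSubsets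

variable {G : Type*} [Group G] {α : Type*} [DecidableEq α] [MulAction G α]

/-- The 2-subset `{a, b}`. -/
def mk2 (a b : α) (h : a ≠ b) : Set.powersetCard α 2 :=
  ⟨{a, b}, Set.powersetCard.mem_iff.mpr (Finset.card_pair h)⟩

theorem mk2_val (a b : α) (h : a ≠ b) : ((mk2 a b h : Set.powersetCard α 2) : Finset α) = {a, b} :=
  rfl

theorem mem_mk2 {a b c : α} (h : a ≠ b) :
    c ∈ ((mk2 a b h : Set.powersetCard α 2) : Finset α) ↔ c = a ∨ c = b := by
  rw [mk2_val]
  simp

theorem mk2_congr {a b a' b' : α} (h : a ≠ b) (ha : a = a') (hb : b = b') :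
    mk2 a b h = mk2 a' b' (ha ▸ hb ▸ h) := by
  subst ha
  subst hb
  rfl

theorem smul_mk2 (g : G) (a b : α) (h : a ≠ b) :
    g • mk2 a b h = mk2 (g • a) (g • b) (fun h' => h (smul_left_cancel g h')) := by
  apply Subtype.ext
  rw [Set.powersetCard.coe_smul, mk2_val, mk2_val, Finset.smul_finset_insert,
    Finset.smul_finset_singleton]

theorem smul_mk2_eq (g : G) {a b a' b' : α} (h : a ≠ b) (h' : a' ≠ b') (ha : g • a = a')
    (hb : g • b = b') : g • mk2 a b h = mk2 a' b' h' := by
  rw [smul_mk2]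
  exact mk2_congr _ ha hb

theorem exists_mk2 (s : Set.powersetCard α 2) : ∃ (a b : α) (h : a ≠ b), s = mk2 a b h := by
  obtain ⟨a, b, h, hs⟩ := Finset.card_eq_two.mp (Set.powersetCard.mem_iff.mp s.2)
  exact ⟨a, b, h, Subtype.ext hs⟩

theorem exists_mk2_of_mem (s : Set.powersetCard α 2) {a : α} (ha : a ∈ (s : Finset α)) :
    ∃ (b : α) (h : a ≠ b), s = mk2 a b h := by
  obtain ⟨x, y, h, rfl⟩ := exists_mk2 s
  rcases (mem_mk2 h).mp ha with rfl | rfl
  · exact ⟨y, h, rfl⟩
  · refine ⟨x, h.symm, ?_⟩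
    apply Subtype.ext
    rw [mk2_val, mk2_val, Finset.pair_comm]

theorem smul_mem_smul_iff (g : G) (s : Set.powersetCard α 2) (a : α) :
    g • a ∈ ((g • s : Set.powersetCard α 2) : Finset α) ↔ a ∈ (s : Finset α) := by
  rw [Set.powersetCard.coe_smul]
  exact Finset.smul_mem_smul_finset_iff g

end TwoSubsets

section Orbits

variable {G : Type*} [Group G] {α : Type*} [DecidableEq α] [MulAction G α] [Finite α]

omit [DecidableEq α] in
theorem exists_four (h4 : 4 ≤ Nat.card α) :
    ∃ a b c d : α, a ≠ b ∧ a ≠ c ∧ a ≠ d ∧ b ≠ c ∧ b ≠ d ∧ c ≠ d := by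
  have : Fintype α := Fintype.ofFinite α
  obtain ⟨e⟩ : Nonempty (Fin 4 ↪ α) := by
    apply Function.Embedding.nonempty_of_card_le
    rw [Fintype.card_fin, ← Nat.card_eq_fintype_card]
    exact h4
  exact ⟨e 0, e 1, e 2, e 3, e.injective.ne (by decide), e.injective.ne (by decide),
    e.injective.ne (by decide), e.injective.ne (by decide), e.injective.ne (by decide),
    e.injective.ne (by decide)⟩

/-- Orbits on (2-subset, point): two. -/
theorem card_orbits_sub_pt [IsMultiplyPretransitive G α 4] (h4 : 4 ≤ Nat.card α) :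
    Nat.card (orbitRel.Quotient G (Set.powersetCard α 2 × α)) = 2 := by
  have t3 : IsMultiplyPretransitive G α 3 := isMultiplyPretransitive_of_le (n := 4) (by norm_num) h4
  have t2 : IsMultiplyPretransitive G α 2 := isMultiplyPretransitive_of_le (n := 4) (by norm_num) h4
  rw [card_orbits_of_inv (P := Bool)
    (fun z : Set.powersetCard α 2 × α => decide (z.2 ∈ (z.1 : Finset α)))]
  · simp
  · rintro g ⟨s, c⟩
    simp only [Prod.smul_mk, decide_eq_decide]
    exact smul_mem_smul_iff g s c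
  · rintro ⟨s, c⟩ ⟨s', c'⟩ h
    simp only [decide_eq_decide] at h
    by_cases hc : c ∈ (s : Finset α)
    · obtain ⟨y, hy, rfl⟩ := exists_mk2_of_mem s hc
      obtain ⟨y', hy', rfl⟩ := exists_mk2_of_mem s' (h.mp hc)
      obtain ⟨g, h1, h2⟩ := (is_two_pretransitive_iff.mp t2) hy hy'
      exact ⟨g, Prod.ext (smul_mk2_eq g hy hy' h1 h2) h1⟩
    · obtain ⟨x, y, hxy, rfl⟩ := exists_mk2 s
      obtain ⟨x', y', hxy', rfl⟩ := exists_mk2 s'
      have hc' : c' ∉ ((mk2 x' y' hxy' : Set.powersetCard α 2) : Finset α) :=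
        fun h' => hc (h.mpr h')
      rw [mem_mk2] at hc hc'
      push Not at hc hc'
      obtain ⟨g, h1, h2, h3⟩ := trans3 (G := G) hxy hc.1.symm hc.2.symm hxy' hc'.1.symm hc'.2.symm
      exact ⟨g, Prod.ext (smul_mk2_eq g hxy hxy' h1 h2) h3⟩
  · obtain ⟨a, b, c, d, hab, hac, had, hbc, hbd, hcd⟩ := exists_four h4
    intro p
    cases p
    · refine ⟨(mk2 a b hab, c), ?_⟩
      simp only [decide_eq_false_iff_not, mem_mk2]
      push Not
      exact ⟨hac.symm, hbc.symm⟩
    · refine ⟨(mk2 a b hab, a), ?_⟩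
      simp [mem_mk2]

omit [DecidableEq α] [Finite α] in
theorem emb_ext_two {u v : Fin 2 ↪ α} (h0 : u 0 = v 0) (h1 : u 1 = v 1) : u = v := by
  ext i
  fin_cases i
  · exact h0
  · exact h1

omit [DecidableEq α] [Finite α] in
theorem smul_emb_eq (g : G) {u v : Fin 2 ↪ α} (h0 : g • u 0 = v 0) (h1 : g • u 1 = v 1) :
    g • u = v := by
  apply emb_ext_two
  · rw [Function.Embedding.smul_apply, h0]
  · rw [Function.Embedding.smul_apply, h1]

/-- Orbits on (2-subset, ordered pair): four. -/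
theorem card_orbits_sub_pair [IsMultiplyPretransitive G α 4] (h4 : 4 ≤ Nat.card α) :
    Nat.card (orbitRel.Quotient G (Set.powersetCard α 2 × (Fin 2 ↪ α))) = 4 := by
  have t3 : IsMultiplyPretransitive G α 3 := isMultiplyPretransitive_of_le (n := 4) (by norm_num) h4
  have t2 : IsMultiplyPretransitive G α 2 := isMultiplyPretransitive_of_le (n := 4) (by norm_num) h4
  rw [card_orbits_of_inv (P := Bool × Bool)
    (fun z : Set.powersetCard α 2 × (Fin 2 ↪ α) =>
      (decide (z.2 0 ∈ (z.1 : Finset α)), decide (z.2 1 ∈ (z.1 : Finset α))))]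
  · simp [Nat.card_eq_fintype_card]
  · rintro g ⟨s, u⟩
    simp only [Prod.smul_mk, Function.Embedding.smul_apply, Prod.mk.injEq]
    exact ⟨decide_eq_decide.mpr (smul_mem_smul_iff g s _),
      decide_eq_decide.mpr (smul_mem_smul_iff g s _)⟩
  · rintro ⟨s, u⟩ ⟨s', u'⟩ h
    simp only [Prod.mk.injEq, decide_eq_decide] at h
    obtain ⟨h0, h1⟩ := h
    have hu : u 0 ≠ u 1 := u.injective.ne (by decide)
    have hu' : u' 0 ≠ u' 1 := u'.injective.ne (by decide)
    by_cases m0 : u 0 ∈ (s : Finset α)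
    · obtain ⟨y, hy, rfl⟩ := exists_mk2_of_mem s m0
      obtain ⟨y', hy', rfl⟩ := exists_mk2_of_mem s' (h0.mp m0)
      by_cases m1 : u 1 ∈ ((mk2 (u 0) y hy : Set.powersetCard α 2) : Finset α)
      · have m1' := h1.mp m1
        rw [mem_mk2] at m1 m1'
        have e1 : u 1 = y := m1.resolve_left hu.symm
        have e1' : u' 1 = y' := m1'.resolve_left hu'.symm
        obtain ⟨g, g0, g1⟩ := (is_two_pretransitive_iff.mp t2) hu hu'
        exact ⟨g, Prod.ext (smul_mk2_eq g hy hy' g0 (by rw [← e1, ← e1', g1]))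
          (smul_emb_eq g g0 g1)⟩
      · have m1' : u' 1 ∉ ((mk2 (u' 0) y' hy' : Set.powersetCard α 2) : Finset α) :=
          fun h' => m1 (h1.mpr h')
        rw [mem_mk2] at m1 m1'
        push Not at m1 m1'
        obtain ⟨g, g0, g1, g2⟩ := trans3 (G := G) hu hy m1.2 hu' hy' m1'.2
        exact ⟨g, Prod.ext (smul_mk2_eq g hy hy' g0 g2) (smul_emb_eq g g0 g1)⟩
    · have m0' : u' 0 ∉ (s' : Finset α) := fun h' => m0 (h0.mpr h')
      by_cases m1 : u 1 ∈ (s : Finset α)
      · obtain ⟨y, hy, rfl⟩ := exists_mk2_of_mem s m1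
        obtain ⟨y', hy', rfl⟩ := exists_mk2_of_mem s' (h1.mp m1)
        rw [mem_mk2] at m0 m0'
        push Not at m0 m0'
        obtain ⟨g, g0, g1, g2⟩ := trans3 (G := G) hu m0.2 hy hu' m0'.2 hy'
        exact ⟨g, Prod.ext (smul_mk2_eq g hy hy' g1 g2) (smul_emb_eq g g0 g1)⟩
      · have m1' : u' 1 ∉ (s' : Finset α) := fun h' => m1 (h1.mpr h')
        obtain ⟨x, y, hxy, rfl⟩ := exists_mk2 s
        obtain ⟨x', y', hxy', rfl⟩ := exists_mk2 s'
        rw [mem_mk2] at m0 m0' m1 m1'
        push Not at m0 m0' m1 m1'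
        obtain ⟨g, g0, g1, g2, g3⟩ := trans4 (G := G) hu m0.1 m0.2 m1.1 m1.2 hxy hu' m0'.1 m0'.2
          m1'.1 m1'.2 hxy'
        exact ⟨g, Prod.ext (smul_mk2_eq g hxy hxy' g2 g3) (smul_emb_eq g g0 g1)⟩
  · obtain ⟨a, b, c, d, hab, hac, had, hbc, hbd, hcd⟩ := exists_four h4
    have hinj : Function.Injective ![a, b] := by
      intro i j h
      fin_cases i <;> fin_cases j <;> simp_all
    rintro ⟨p, q⟩
    cases p <;> cases q
    · refine ⟨(mk2 c d hcd, ⟨![a, b], hinj⟩), ?_⟩
      simp [mem_mk2, hac, had, hbc, hbd]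
    · refine ⟨(mk2 b c hbc, ⟨![a, b], hinj⟩), ?_⟩
      simp [mem_mk2, hab, hac]
    · refine ⟨(mk2 a c hac, ⟨![a, b], hinj⟩), ?_⟩
      simp [mem_mk2, hab.symm, hbc]
    · refine ⟨(mk2 a b hab, ⟨![a, b], hinj⟩), ?_⟩
      simp [mem_mk2]

omit [Finite α] in
theorem disjoint_smul_iff (g : G) (s t : Set.powersetCard α 2) :
    Disjoint ((g • s : Set.powersetCard α 2) : Finset α) ((g • t : Set.powersetCard α 2) : Finset α)
      ↔ Disjoint (s : Finset α) (t : Finset α) := by
  rw [Finset.disjoint_iff_inter_eq_empty, Finset.disjoint_iff_inter_eq_empty,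
    Set.powersetCard.coe_smul, Set.powersetCard.coe_smul, ← Finset.smul_finset_inter,
    Finset.smul_finset_eq_empty]

/-- Orbits on pairs of 2-subsets: three. -/
theorem card_orbits_sub_sub [IsMultiplyPretransitive G α 4] (h4 : 4 ≤ Nat.card α) :
    Nat.card (orbitRel.Quotient G (Set.powersetCard α 2 × Set.powersetCard α 2)) = 3 := by
  have t3 : IsMultiplyPretransitive G α 3 := isMultiplyPretransitive_of_le (n := 4) (by norm_num) h4
  have t2 : IsMultiplyPretransitive G α 2 := isMultiplyPretransitive_of_le (n := 4) (by norm_num) h4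
  rw [card_orbits_of_inv (P := Option Bool)
    (fun z : Set.powersetCard α 2 × Set.powersetCard α 2 =>
      if z.1 = z.2 then none else some (decide (Disjoint (z.1 : Finset α) (z.2 : Finset α))))]
  · simp [Nat.card_eq_fintype_card]
  · rintro g ⟨s, t⟩
    simp only [Prod.smul_mk, smul_left_cancel_iff]
    by_cases hst : s = t
    · rw [if_pos hst, if_pos hst]
    · rw [if_neg hst, if_neg hst]
      exact congrArg some (decide_eq_decide.mpr (disjoint_smul_iff g s t))
  · rintro ⟨s, t⟩ ⟨s', t'⟩ h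
    simp only at h
    by_cases hst : s = t
    · rw [if_pos hst] at h
      have hst' : s' = t' := by
        by_contra hne
        rw [if_neg hne] at h
        exact (Option.some_ne_none _ h.symm).elim
      subst hst
      subst hst'
      obtain ⟨a, b, hab, rfl⟩ := exists_mk2 s
      obtain ⟨a', b', hab', rfl⟩ := exists_mk2 s'
      obtain ⟨g, g0, g1⟩ := (is_two_pretransitive_iff.mp t2) hab hab'
      exact ⟨g, Prod.ext (smul_mk2_eq g hab hab' g0 g1) (smul_mk2_eq g hab hab' g0 g1)⟩
    · rw [if_neg hst] at h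
      have hst' : s' ≠ t' := by
        intro he
        rw [if_pos he] at h
        exact (Option.some_ne_none _ h).elim
      rw [if_neg hst'] at h
      have hiff : Disjoint (s : Finset α) (t : Finset α) ↔ Disjoint (s' : Finset α) (t' : Finset α) :=
        decide_eq_decide.mp (Option.some.inj h)
      by_cases hd : Disjoint (s : Finset α) (t : Finset α)
      · have hd' := hiff.mp hd
        obtain ⟨a, b, hab, rfl⟩ := exists_mk2 s
        obtain ⟨c, d, hcd, rfl⟩ := exists_mk2 t
        obtain ⟨a', b', hab', rfl⟩ := exists_mk2 s'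
        obtain ⟨c', d', hcd', rfl⟩ := exists_mk2 t'
        have ha := Finset.disjoint_left.mp hd ((mem_mk2 hab).mpr (Or.inl rfl))
        have hb := Finset.disjoint_left.mp hd ((mem_mk2 hab).mpr (Or.inr rfl))
        have ha' := Finset.disjoint_left.mp hd' ((mem_mk2 hab').mpr (Or.inl rfl))
        have hb' := Finset.disjoint_left.mp hd' ((mem_mk2 hab').mpr (Or.inr rfl))
        rw [mem_mk2] at ha hb ha' hb'
        push Not at ha hb ha' hb'
        obtain ⟨g, g0, g1, g2, g3⟩ := trans4 (G := G) hab ha.1 ha.2 hb.1 hb.2 hcd hab' ha'.1 ha'.2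
          hb'.1 hb'.2 hcd'
        exact ⟨g, Prod.ext (smul_mk2_eq g hab hab' g0 g1) (smul_mk2_eq g hcd hcd' g2 g3)⟩
      · have hd' : ¬ Disjoint (s' : Finset α) (t' : Finset α) := fun h' => hd (hiff.mpr h')
        obtain ⟨x, hxs, hxt⟩ := Finset.not_disjoint_iff.mp hd
        obtain ⟨x', hxs', hxt'⟩ := Finset.not_disjoint_iff.mp hd'
        obtain ⟨y, hy, rfl⟩ := exists_mk2_of_mem s hxs
        obtain ⟨z, hz, rfl⟩ := exists_mk2_of_mem t hxt
        obtain ⟨y', hy', rfl⟩ := exists_mk2_of_mem s' hxs'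
        obtain ⟨z', hz', rfl⟩ := exists_mk2_of_mem t' hxt'
        have hyz : y ≠ z := fun e => hst (mk2_congr hy rfl e)
        have hyz' : y' ≠ z' := fun e => hst' (mk2_congr hy' rfl e)
        obtain ⟨g, g0, g1, g2⟩ := trans3 (G := G) hy hz hyz hy' hz' hyz'
        exact ⟨g, Prod.ext (smul_mk2_eq g hy hy' g0 g1) (smul_mk2_eq g hz hz' g0 g2)⟩
  · obtain ⟨a, b, c, d, hab, hac, had, hbc, hbd, hcd⟩ := exists_four h4
    have hne1 : mk2 a b hab ≠ mk2 c d hcd := by
      intro e
      have h1 : a ∈ ((mk2 c d hcd : Set.powersetCard α 2) : Finset α) := by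
        rw [← e]
        exact (mem_mk2 hab).mpr (Or.inl rfl)
      rcases (mem_mk2 hcd).mp h1 with h | h
      · exact hac h
      · exact had h
    have hne2 : mk2 a b hab ≠ mk2 a c hac := by
      intro e
      have h1 : b ∈ ((mk2 a c hac : Set.powersetCard α 2) : Finset α) := by
        rw [← e]
        exact (mem_mk2 hab).mpr (Or.inr rfl)
      rcases (mem_mk2 hac).mp h1 with h | h
      · exact hab h.symm
      · exact hbc h
    rintro (_ | p)
    · exact ⟨(mk2 a b hab, mk2 a b hab), if_pos rfl⟩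
    · cases p
      · refine ⟨(mk2 a b hab, mk2 a c hac), ?_⟩
        simp only
        rw [if_neg hne2]
        congr 1
        rw [decide_eq_false_iff_not, Finset.not_disjoint_iff]
        exact ⟨a, (mem_mk2 hab).mpr (Or.inl rfl), (mem_mk2 hac).mpr (Or.inl rfl)⟩
      · refine ⟨(mk2 a b hab, mk2 c d hcd), ?_⟩
        simp only
        rw [if_neg hne1]
        congr 1
        rw [decide_eq_true_eq, Finset.disjoint_left]
        intro x hx hx'
        rw [mem_mk2] at hx hx'
        rcases hx with rfl | rfl <;> rcases hx' with h | h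
        · exact hac h
        · exact had h
        · exact hbc h
        · exact hbd h

end Orbits

end Cfsg.Agent.Helper39.PermIrr
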