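import Mathlib
import Cfsg.Agent.Helper39.PermOrbits

/-!
# Two irreducible characters of a 4-transitive group (helper39)

For a finite group `G` acting 4-transitively on `α` (at least four points), with `F g` the number
of fixed points and `P g` the number of fixed 2-subsets:
* `irr_chi2`: `P - F` is irreducible;
* `irr_chi11`: `F (F - 1) - P - F + 1` is irreducible.
-/

set_option autoImplicit false

namespace Cfsg.Agent.Helper39.PermIrr

open MulAction
open scoped ComplexConjugate Pointwise

/-- The number of fixed points, as a complex number. -/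
noncomputable def fixC (G : Type*) [Group G] (X : Type*) [MulAction G X] (g : G) : ℂ :=
  (Nat.card (fixedBy X g) : ℂ)

theorem conj_fixC (G : Type*) [Group G] (X : Type*) [MulAction G X] (g : G) :
    conj (fixC G X g) = fixC G X g := by
  unfold fixC
  exact Complex.conj_natCast _

theorem cast_descFactorial_succ (f k : ℕ) :
    ((f.descFactorial (k + 1) : ℕ) : ℂ) = ((f : ℂ) - k) * (f.descFactorial k : ℂ) := by
  rw [Nat.descFactorial_succ]
  by_cases h : k ≤ f
  · rw [Nat.cast_mul, Nat.cast_sub h]
  · have h0 : f.descFactorial k = 0 := Nat.descFactorial_eq_zero_iff_lt.mpr (by omega)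
    rw [h0]
    simp

section Emb

variable {G : Type*} [Group G] {α : Type*} [Finite α] [MulAction G α]

theorem card_fixedBy_emb (k : ℕ) (g : G) :
    Nat.card (fixedBy (Fin k ↪ α) g) = (Nat.card (fixedBy α g)).descFactorial k := by
  classical
  have : Fintype α := Fintype.ofFinite α
  have : Fintype (fixedBy α g) := Fintype.ofFinite _
  have e : fixedBy (Fin k ↪ α) g ≃ (Fin k ↪ fixedBy α g) :=
    { toFun := fun u => ⟨fun i => ⟨u.1 i, by
          have h := DFunLike.congr_fun u.2 i
          rw [Function.Embedding.smul_apply] at h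
          exact h⟩, fun i j h => u.1.injective (Subtype.ext_iff.mp h)⟩
      invFun := fun v => ⟨v.trans (Function.Embedding.subtype _), by
          rw [mem_fixedBy]
          ext i
          rw [Function.Embedding.smul_apply]
          exact (v i).2⟩
      left_inv := fun u => by
        apply Subtype.ext
        ext i
        rfl
      right_inv := fun v => by
        ext i
        rfl }
  rw [Nat.card_congr e, Nat.card_eq_fintype_card, Fintype.card_embedding_eq, Fintype.card_fin,
    Nat.card_eq_fintype_card]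

theorem fixC_emb (k : ℕ) (g : G) :
    fixC G (Fin k ↪ α) g = ((Nat.card (fixedBy α g)).descFactorial k : ℂ) := by
  unfold fixC
  rw [card_fixedBy_emb]

theorem fixC_emb2 (g : G) : fixC G (Fin 2 ↪ α) g = fixC G α g * (fixC G α g - 1) := by
  rw [fixC_emb, cast_descFactorial_succ, cast_descFactorial_succ, Nat.descFactorial_zero]
  unfold fixC
  push_cast
  ring

theorem fixC_emb3 (g : G) :
    fixC G (Fin 3 ↪ α) g = fixC G α g * (fixC G α g - 1) * (fixC G α g - 2) := by
  rw [fixC_emb, cast_descFactorial_succ, cast_descFactorial_succ, cast_descFactorial_succ,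
    Nat.descFactorial_zero]
  unfold fixC
  push_cast
  ring

theorem fixC_emb4 (g : G) :
    fixC G (Fin 4 ↪ α) g
      = fixC G α g * (fixC G α g - 1) * (fixC G α g - 2) * (fixC G α g - 3) := by
  rw [fixC_emb, cast_descFactorial_succ, cast_descFactorial_succ, cast_descFactorial_succ,
    cast_descFactorial_succ, Nat.descFactorial_zero]
  unfold fixC
  push_cast
  ring

theorem sum_emb [Fintype G] (k : ℕ) [hk : IsMultiplyPretransitive G α k] (hle : k ≤ Nat.card α) :
    ∑ g : G, fixC G (Fin k ↪ α) g = (Nat.card G : ℂ) := by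
  have : Fintype α := Fintype.ofFinite α
  have hne : Nonempty (Fin k ↪ α) := by
    apply Function.Embedding.nonempty_of_card_le
    rw [Fintype.card_fin, ← Nat.card_eq_fintype_card]
    exact hle
  have : IsPretransitive G (Fin k ↪ α) := hk
  exact sum_perm (Fin k ↪ α)

end Emb

/-- A difference of two characters of norm one, with inner product one with some character, is
irreducible. -/
theorem isIrr_of_sub {G : Type*} [Group G] [Fintype G] {θ₁ θ₂ π : G → ℂ}
    (h1 : Cfsg.IsCharacter G θ₁) (h2 : Cfsg.IsCharacter G θ₂) (hπ : Cfsg.IsCharacter G π)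
    (hnorm : Cfsg.classInner (fun g => θ₁ g - θ₂ g) (fun g => θ₁ g - θ₂ g) = 1)
    (hpos : Cfsg.classInner (fun g => θ₁ g - θ₂ g) π = 1) :
    Cfsg.IsIrrCharacter G (fun g => θ₁ g - θ₂ g) := by
  apply isIrr_of_int_norm_one (π := π) _ _ hnorm hπ ⟨1, one_pos, by rw [hpos]; simp⟩
  · intro g h
    show θ₁ (h * g * h⁻¹) - θ₂ (h * g * h⁻¹) = θ₁ g - θ₂ g
    rw [Cfsg.Agent.Helper79.isCharacter_isClassFunction h1 g h,
      Cfsg.Agent.Helper79.isCharacter_isClassFunction h2 g h]
  · intro χ
    obtain ⟨n₁, hn₁⟩ := Cfsg.Agent.Helper3.classInner_isCharacter_nat h1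
      (Cfsg.Agent.Helper79.irr_isCharacter χ)
    obtain ⟨n₂, hn₂⟩ := Cfsg.Agent.Helper3.classInner_isCharacter_nat h2
      (Cfsg.Agent.Helper79.irr_isCharacter χ)
    refine ⟨(n₁ : ℤ) - n₂, ?_⟩
    have hlin : Cfsg.classInner (fun g => θ₁ g - θ₂ g) (χ : G → ℂ)
        = Cfsg.classInner θ₁ (χ : G → ℂ) - Cfsg.classInner θ₂ (χ : G → ℂ) := by
      unfold Cfsg.classInner
      rw [← mul_sub, ← Finset.sum_sub_distrib]
      congr 1
      apply Finset.sum_congr rfl
      intro g _
      ring
    rw [hlin, hn₁, hn₂]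
    push_cast
    ring

section Main

variable {G : Type*} [Group G] [Fintype G] {α : Type*} [DecidableEq α] [Finite α] [MulAction G α]

omit [Fintype G] in
theorem nonempty_sub (h4 : 4 ≤ Nat.card α) : Nonempty (Set.powersetCard α 2) := by
  obtain ⟨a, b, c, d, hab, _⟩ := exists_four h4
  exact ⟨mk2 a b hab⟩

variable [h4t : IsMultiplyPretransitive G α 4]

omit [DecidableEq α] in
theorem sumA1 (h4 : 4 ≤ Nat.card α) : ∑ g : G, fixC G α g = (Nat.card G : ℂ) := by
  have t2 : IsMultiplyPretransitive G α 2 := isMultiplyPretransitive_of_le (n := 4) (by norm_num) h4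
  have : IsPretransitive G α := isPretransitive_of_is_two_pretransitive
  have : Nonempty α := Finite.card_pos_iff.mp (by omega)
  exact sum_perm α

omit [DecidableEq α] in
theorem sumA2 (h4 : 4 ≤ Nat.card α) :
    ∑ g : G, fixC G α g * (fixC G α g - 1) = (Nat.card G : ℂ) := by
  have t2 : IsMultiplyPretransitive G α 2 := isMultiplyPretransitive_of_le (n := 4) (by norm_num) h4
  simp only [← fixC_emb2]
  exact sum_emb 2 (by omega)

omit [DecidableEq α] in
theorem sumA3 (h4 : 4 ≤ Nat.card α) :
    ∑ g : G, fixC G α g * (fixC G α g - 1) * (fixC G α g - 2) = (Nat.card G : ℂ) := by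
  have t3 : IsMultiplyPretransitive G α 3 := isMultiplyPretransitive_of_le (n := 4) (by norm_num) h4
  simp only [← fixC_emb3]
  exact sum_emb 3 (by omega)

omit [DecidableEq α] in
theorem sumA4 (h4 : 4 ≤ Nat.card α) :
    ∑ g : G, fixC G α g * (fixC G α g - 1) * (fixC G α g - 2) * (fixC G α g - 3)
      = (Nat.card G : ℂ) := by
  simp only [← fixC_emb4]
  exact sum_emb 4 h4

omit [Fintype G] in
theorem isPretransitive_sub (h4 : 4 ≤ Nat.card α) : IsPretransitive G (Set.powersetCard α 2) := by
  have t2 : IsMultiplyPretransitive G α 2 := isMultiplyPretransitive_of_le (n := 4) (by norm_num) h4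
  exact Set.powersetCard.isPretransitive_of_isMultiplyPretransitive G t2

theorem sumB1 (h4 : 4 ≤ Nat.card α) :
    ∑ g : G, fixC G (Set.powersetCard α 2) g = (Nat.card G : ℂ) := by
  have := isPretransitive_sub (G := G) h4
  have := nonempty_sub h4
  exact sum_perm (Set.powersetCard α 2)

theorem sumB2 (h4 : 4 ≤ Nat.card α) :
    ∑ g : G, fixC G (Set.powersetCard α 2) g * fixC G α g = 2 * (Nat.card G : ℂ) := by
  have h := sum_perm_mul (G := G) (Set.powersetCard α 2) α
  rw [card_orbits_sub_pt h4] at h
  unfold fixC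
  rw [h]
  norm_num

theorem sumB3 (h4 : 4 ≤ Nat.card α) :
    ∑ g : G, fixC G (Set.powersetCard α 2) g * (fixC G α g * (fixC G α g - 1))
      = 4 * (Nat.card G : ℂ) := by
  have h := sum_perm_mul (G := G) (Set.powersetCard α 2) (Fin 2 ↪ α)
  rw [card_orbits_sub_pair h4] at h
  simp only [← fixC_emb2]
  unfold fixC
  rw [h]
  norm_num

theorem sumB4 (h4 : 4 ≤ Nat.card α) :
    ∑ g : G, fixC G (Set.powersetCard α 2) g * fixC G (Set.powersetCard α 2) g
      = 3 * (Nat.card G : ℂ) := by
  have h := sum_perm_mul (G := G) (Set.powersetCard α 2) (Set.powersetCard α 2)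
  rw [card_orbits_sub_sub h4] at h
  unfold fixC
  rw [h]
  norm_num

theorem isCharacter_fixC_sub (h4 : 4 ≤ Nat.card α) :
    Cfsg.IsCharacter G (fixC G (Set.powersetCard α 2)) := by
  have := isPretransitive_sub (G := G) h4
  have := nonempty_sub h4
  exact isCharacter_perm (Set.powersetCard α 2)

omit [DecidableEq α] in
theorem isCharacter_fixC_pt (h4 : 4 ≤ Nat.card α) : Cfsg.IsCharacter G (fixC G α) := by
  have t2 : IsMultiplyPretransitive G α 2 := isMultiplyPretransitive_of_le (n := 4) (by norm_num) h4
  have : IsPretransitive G α := isPretransitive_of_is_two_pretransitive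
  have : Nonempty α := Finite.card_pos_iff.mp (by omega)
  exact isCharacter_perm α

omit [DecidableEq α] in
theorem isCharacter_fixC_pair (h4 : 4 ≤ Nat.card α) :
    Cfsg.IsCharacter G (fixC G (Fin 2 ↪ α)) := by
  have t2 : IsMultiplyPretransitive G α 2 := isMultiplyPretransitive_of_le (n := 4) (by norm_num) h4
  have : IsPretransitive G (Fin 2 ↪ α) := t2
  have : Fintype α := Fintype.ofFinite α
  have hne : Nonempty (Fin 2 ↪ α) := by
    apply Function.Embedding.nonempty_of_card_le
    rw [Fintype.card_fin, ← Nat.card_eq_fintype_card]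
    omega
  exact isCharacter_perm (Fin 2 ↪ α)

/-- The character `P - F` (partition `(n-2, 2)`) is irreducible. -/
theorem irr_chi2 (h4 : 4 ≤ Nat.card α) :
    Cfsg.IsIrrCharacter G (fun g => fixC G (Set.powersetCard α 2) g - fixC G α g) := by
  have hG : (Nat.card G : ℂ) ≠ 0 := by exact_mod_cast Nat.card_pos.ne'
  apply isIrr_of_sub (isCharacter_fixC_sub h4) (isCharacter_fixC_pt h4) (isCharacter_fixC_sub h4)
  · unfold Cfsg.classInner
    have hc : ∀ g : G, (fixC G (Set.powersetCard α 2) g - fixC G α g)
        * conj (fixC G (Set.powersetCard α 2) g - fixC G α g)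
        = fixC G (Set.powersetCard α 2) g * fixC G (Set.powersetCard α 2) g
          - 2 * (fixC G (Set.powersetCard α 2) g * fixC G α g)
          + fixC G α g * (fixC G α g - 1) + fixC G α g := by
      intro g
      rw [map_sub, conj_fixC, conj_fixC]
      ring
    simp only [hc, Finset.sum_add_distrib, Finset.sum_sub_distrib, ← Finset.mul_sum]
    rw [sumB4 h4, sumB2 h4, sumA2 h4, sumA1 h4]
    field_simp
    ring
  · unfold Cfsg.classInner
    have hc : ∀ g : G, (fixC G (Set.powersetCard α 2) g - fixC G α g)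
        * conj (fixC G (Set.powersetCard α 2) g)
        = fixC G (Set.powersetCard α 2) g * fixC G (Set.powersetCard α 2) g
          - fixC G (Set.powersetCard α 2) g * fixC G α g := by
      intro g
      rw [conj_fixC]
      ring
    simp only [hc, Finset.sum_sub_distrib]
    rw [sumB4 h4, sumB2 h4]
    field_simp
    ring

/-- The character `F (F - 1) - P - F + 1` (partition `(n-2, 1, 1)`) is irreducible. -/
theorem irr_chi11 (h4 : 4 ≤ Nat.card α) :
    Cfsg.IsIrrCharacter G (fun g => fixC G α g * (fixC G α g - 1)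
      - fixC G (Set.powersetCard α 2) g - fixC G α g + 1) := by
  have hG : (Nat.card G : ℂ) ≠ 0 := by exact_mod_cast Nat.card_pos.ne'
  obtain ⟨θ₁, hθ₁⟩ : ∃ θ₁ : G → ℂ, θ₁ = fixC G (Fin 2 ↪ α) + fun _ => (1 : ℂ) := ⟨_, rfl⟩
  obtain ⟨θ₂, hθ₂⟩ : ∃ θ₂ : G → ℂ, θ₂ = fixC G (Set.powersetCard α 2) + fixC G α := ⟨_, rfl⟩
  have a1 : ∀ g, θ₁ g = fixC G α g * (fixC G α g - 1) + 1 := by
    intro g
    rw [hθ₁, Pi.add_apply, fixC_emb2]
  have a2 : ∀ g, θ₂ g = fixC G (Set.powersetCard α 2) g + fixC G α g := by
    intro g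
    rw [hθ₂, Pi.add_apply]
  have h1 : Cfsg.IsCharacter G θ₁ := by
    rw [hθ₁]
    exact Cfsg.Agent.Helper79.isCharacter_add (isCharacter_fixC_pair h4)
      Cfsg.Agent.Helper79.isCharacter_one
  have h2 : Cfsg.IsCharacter G θ₂ := by
    rw [hθ₂]
    exact Cfsg.Agent.Helper79.isCharacter_add (isCharacter_fixC_sub h4) (isCharacter_fixC_pt h4)
  have e : (fun g => fixC G α g * (fixC G α g - 1)
      - fixC G (Set.powersetCard α 2) g - fixC G α g + 1) = fun g => θ₁ g - θ₂ g := by
    funext g
    rw [a1, a2]
    ring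
  rw [e]
  apply isIrr_of_sub h1 h2 (isCharacter_fixC_pair h4)
  · unfold Cfsg.classInner
    have hc : ∀ g : G, (θ₁ g - θ₂ g) * conj (θ₁ g - θ₂ g)
        = fixC G α g * (fixC G α g - 1) * (fixC G α g - 2) * (fixC G α g - 3)
          + 2 * (fixC G α g * (fixC G α g - 1) * (fixC G α g - 2))
          + fixC G α g * (fixC G α g - 1) - fixC G α g + 1
          + fixC G (Set.powersetCard α 2) g * fixC G (Set.powersetCard α 2) g
          - 2 * (fixC G (Set.powersetCard α 2) g * (fixC G α g * (fixC G α g - 1)))
          + 2 * (fixC G (Set.powersetCard α 2) g * fixC G α g)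
          - 2 * fixC G (Set.powersetCard α 2) g := by
      intro g
      rw [a1, a2, map_sub, map_add, map_add, map_mul, map_sub, map_one, conj_fixC, conj_fixC]
      ring
    simp only [hc, Finset.sum_add_distrib, Finset.sum_sub_distrib, ← Finset.mul_sum]
    rw [sumA4 h4, sumA3 h4, sumA2 h4, sumA1 h4, sumB4 h4, sumB3 h4, sumB2 h4, sumB1 h4]
    simp only [Finset.sum_const, Finset.card_univ, nsmul_eq_mul, mul_one,
      ← Nat.card_eq_fintype_card]
    field_simp
    ring
  · unfold Cfsg.classInner
    have hc : ∀ g : G, (θ₁ g - θ₂ g) * conj (fixC G (Fin 2 ↪ α) g)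
        = fixC G α g * (fixC G α g - 1) * (fixC G α g - 2) * (fixC G α g - 3)
          + 3 * (fixC G α g * (fixC G α g - 1) * (fixC G α g - 2))
          + fixC G α g * (fixC G α g - 1)
          - fixC G (Set.powersetCard α 2) g * (fixC G α g * (fixC G α g - 1)) := by
      intro g
      rw [a1, a2, conj_fixC, fixC_emb2]
      ring
    simp only [hc, Finset.sum_add_distrib, Finset.sum_sub_distrib, ← Finset.mul_sum]
    rw [sumA4 h4, sumA3 h4, sumA2 h4, sumB3 h4]
    field_simp
    ring

omit [DecidableEq α] in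
/-- The character `F - 1` (partition `(n-1, 1)`) is irreducible. -/
theorem irr_chi1 (h4 : 4 ≤ Nat.card α) :
    Cfsg.IsIrrCharacter G (fun g => fixC G α g - 1) := by
  have t2 : IsMultiplyPretransitive G α 2 := isMultiplyPretransitive_of_le (n := 4) (by norm_num) h4
  have : IsPretransitive G α := isPretransitive_of_is_two_pretransitive
  exact (Cfsg.Agent.Helper3.isIrrCharacter_perm_sub_one_iff (G := G) (X := α) (by omega)).mpr t2

end Main

section Values

variable {G : Type*} [Group G] {α : Type*} [DecidableEq α] [Finite α] [MulAction G α]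

omit [Finite α] in
/-- An element without 2-cycles fixes exactly the 2-subsets of its fixed points. -/
theorem card_fixedBy_sub_of_no_two (g : G) (hg : ∀ a : α, g • g • a = a → g • a = a) :
    Nat.card (fixedBy (Set.powersetCard α 2) g) = (Nat.card (fixedBy α g)).choose 2 := by
  rw [← Set.powersetCard.card]
  symm
  apply Nat.card_congr
  have hfix : ∀ t : Set.powersetCard (fixedBy α g) 2,
      Set.powersetCard.map 2 (Function.Embedding.subtype _) t ∈ fixedBy (Set.powersetCard α 2) g := by
    intro t
    rw [mem_fixedBy]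
    apply Subtype.ext
    rw [Set.powersetCard.coe_smul, Set.powersetCard.val_map]
    ext x
    rw [Finset.mem_smul_finset]
    constructor
    · rintro ⟨y, hy, rfl⟩
      obtain ⟨z, hz, rfl⟩ := Finset.mem_map.mp hy
      have hz2 : g • (z : α) = z := z.2
      rw [Function.Embedding.coe_subtype, hz2]
      exact Finset.mem_map.mpr ⟨z, hz, rfl⟩
    · intro hx
      obtain ⟨z, hz, rfl⟩ := Finset.mem_map.mp hx
      exact ⟨_, hx, z.2⟩
  refine Equiv.ofBijective (fun t => ⟨Set.powersetCard.map 2 (Function.Embedding.subtype _) t,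
    hfix t⟩) ⟨?_, ?_⟩
  · intro t t' h
    have h1 : (Set.powersetCard.map 2 (Function.Embedding.subtype _) t).val
        = (Set.powersetCard.map 2 (Function.Embedding.subtype _) t').val :=
      congrArg (fun z => z.1.1) h
    rw [Set.powersetCard.val_map, Set.powersetCard.val_map] at h1
    exact Subtype.ext (Finset.map_injective _ h1)
  · rintro ⟨s, hs⟩
    rw [mem_fixedBy] at hs
    obtain ⟨a, b, hab, rfl⟩ := exists_mk2 s
    rw [smul_mk2] at hs
    have ha : g • a ∈ ((mk2 a b hab : Set.powersetCard α 2) : Finset α) := by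
      rw [← hs]
      exact (mem_mk2 _).mpr (Or.inl rfl)
    have hb : g • b ∈ ((mk2 a b hab : Set.powersetCard α 2) : Finset α) := by
      rw [← hs]
      exact (mem_mk2 _).mpr (Or.inr rfl)
    rw [mem_mk2] at ha hb
    have hgab : g • a ≠ g • b := fun h' => hab (smul_left_cancel g h')
    have hfa : g • a = a := by
      rcases ha with ha | ha
      · exact ha
      · have hb' : g • b = a := by
          rcases hb with hb | hb
          · exact hb
          · exact absurd (ha.trans hb.symm) hgab
        apply hg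
        rw [ha, hb']
    have hfb : g • b = b := by
      rcases hb with hb | hb
      · exact absurd (hfa.trans hb.symm) hgab
      · exact hb
    obtain ⟨a', ha'⟩ : ∃ a' : fixedBy α g, (a' : α) = a := ⟨⟨a, hfa⟩, rfl⟩
    obtain ⟨b', hb'⟩ : ∃ b' : fixedBy α g, (b' : α) = b := ⟨⟨b, hfb⟩, rfl⟩
    have hab' : a' ≠ b' := by
      intro h'
      apply hab
      rw [← ha', ← hb', h']
    refine ⟨mk2 a' b' hab', ?_⟩
    apply Subtype.ext
    apply Subtype.ext
    show (Set.powersetCard.map 2 (Function.Embedding.subtype _) (mk2 a' b' hab')).val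
      = ((mk2 a b hab : Set.powersetCard α 2) : Finset α)
    rw [Set.powersetCard.val_map, mk2_val, mk2_val]
    simp [ha', hb']

omit [Finite α] in
theorem fixC_sub_of_no_two (g : G) (hg : ∀ a : α, g • g • a = a → g • a = a) :
    fixC G (Set.powersetCard α 2) g = fixC G α g * (fixC G α g - 1) / 2 := by
  unfold fixC
  rw [card_fixedBy_sub_of_no_two g hg, Nat.cast_choose_two]

end Values

end Cfsg.Agent.Helper39.PermIrr
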