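import Mathlib
import Cfsg.Agent.Helper39.PermChi

/-!
# Elements of the alternating groups with prescribed cycle type, and the characters of
`A_n` vanishing on 2-elements and on elements of order 3 (helper39)
-/

set_option autoImplicit false

namespace Cfsg.Agent.Helper39.PermIrr

open MulAction Equiv
open scoped Pointwise

section Elts

variable {n : ℕ}

/-- A permutation without a 2-cycle in its cycle type has no point of period exactly two. -/
theorem no_two_of_not_mem (g : Perm (Fin n)) (h2 : 2 ∉ g.cycleType) (a : Fin n)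
    (h : g (g a) = a) : g a = a := by
  by_contra hne
  apply h2
  have hc := Equiv.Perm.isCycle_cycleOf g hne
  have h1 : (g.cycleOf a) a ≠ a := by
    rw [Equiv.Perm.cycleOf_apply_self]
    exact hne
  have hpow : (g.cycleOf a) ^ 2 = 1 := by
    rw [hc.pow_eq_one_iff' h1, pow_two, Equiv.Perm.mul_apply, Equiv.Perm.cycleOf_apply_self,
      Equiv.Perm.cycleOf_apply_apply_self]
    exact h
  have hord : orderOf (g.cycleOf a) = 2 := by
    have hd := orderOf_dvd_of_pow_eq_one hpow
    have hne1 : orderOf (g.cycleOf a) ≠ 1 := by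
      rw [Ne, orderOf_eq_one_iff]
      exact hc.ne_one
    exact (Nat.prime_two.eq_one_or_self_of_dvd _ hd).resolve_left hne1
  rw [Equiv.Perm.cycleType_def, Multiset.mem_map]
  refine ⟨g.cycleOf a, ?_, ?_⟩
  · rw [← Finset.mem_def, Equiv.Perm.cycleOf_mem_cycleFactorsFinset_iff, Equiv.Perm.mem_support]
    exact hne
  · rw [Function.comp_apply, ← hc.orderOf, hord]

theorem fixC_perm (g : Perm (Fin n)) :
    fixC (Perm (Fin n)) (Fin n) g = ((n - g.cycleType.sum : ℕ) : ℂ) := by
  unfold fixC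
  congr 1
  have h := Equiv.Perm.card_fixedPoints g
  rw [Fintype.card_fin] at h
  rw [← h, ← Nat.card_eq_fintype_card]
  rfl

theorem exists_alt_elt (m : Multiset ℕ) (hsum : m.sum ≤ n) (h2 : ∀ a ∈ m, 2 ≤ a)
    (hev : Even (m.sum + Multiset.card m)) :
    ∃ x : alternatingGroup (Fin n), (x : Perm (Fin n)).cycleType = m := by
  obtain ⟨g, hg⟩ := (Equiv.Perm.exists_with_cycleType_iff (α := Fin n)).mpr
    ⟨by rw [Fintype.card_fin]; exact hsum, h2⟩
  refine ⟨⟨g, ?_⟩, hg⟩
  rw [Equiv.Perm.mem_alternatingGroup, Equiv.Perm.sign_of_cycleType, hg]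
  exact Even.neg_one_pow hev

theorem exists_two_elt (i k j f : ℕ) (hsum : 2 * i + 4 * k + 8 * j + f = n)
    (hev : Even (i + k + j)) :
    ∃ x : alternatingGroup (Fin n), (∃ e : ℕ, orderOf x = 2 ^ e) ∧
      fixC (Perm (Fin n)) (Fin n) (x : Perm (Fin n)) = (f : ℂ) ∧
      (i = 0 → ∀ a : Fin n, (x : Perm (Fin n)) • (x : Perm (Fin n)) • a = a →
        (x : Perm (Fin n)) • a = a) := by
  have hms : (Multiset.replicate i 2 + Multiset.replicate k 4 + Multiset.replicate j 8).sum
      = 2 * i + 4 * k + 8 * j := by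
    simp only [Multiset.sum_add, Multiset.sum_replicate, smul_eq_mul]
    ring
  have hmc : Multiset.card (Multiset.replicate i 2 + Multiset.replicate k 4
      + Multiset.replicate j 8) = i + k + j := by
    simp only [Multiset.card_add, Multiset.card_replicate]
  have hmem : ∀ a ∈ Multiset.replicate i 2 + Multiset.replicate k 4 + Multiset.replicate j 8,
      a = 2 ∨ a = 4 ∨ a = 8 := by
    intro a ha
    rw [Multiset.mem_add, Multiset.mem_add] at ha
    rcases ha with (ha | ha) | ha
    · exact Or.inl (Multiset.eq_of_mem_replicate ha)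
    · exact Or.inr (Or.inl (Multiset.eq_of_mem_replicate ha))
    · exact Or.inr (Or.inr (Multiset.eq_of_mem_replicate ha))
  obtain ⟨x, hx⟩ := exists_alt_elt (n := n)
    (Multiset.replicate i 2 + Multiset.replicate k 4 + Multiset.replicate j 8)
    (by rw [hms]; omega)
    (by
      intro a ha
      rcases hmem a ha with rfl | rfl | rfl <;> norm_num)
    (by
      rw [hms, hmc]
      obtain ⟨r, hr⟩ := hev
      exact ⟨i + 2 * k + 4 * j + r, by omega⟩)
  refine ⟨x, ?_, ?_, ?_⟩
  · have hd : orderOf x ∣ 2 ^ 3 := by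
      rw [← Subgroup.orderOf_coe, ← Equiv.Perm.lcm_cycleType, hx, Multiset.lcm_dvd]
      intro a ha
      rcases hmem a ha with rfl | rfl | rfl <;> norm_num
    obtain ⟨e, -, he⟩ := (Nat.dvd_prime_pow Nat.prime_two).mp hd
    exact ⟨e, he⟩
  · rw [fixC_perm, hx, hms]
    congr 1
    omega
  · intro hi a ha
    apply no_two_of_not_mem _ _ a ha
    rw [hx, hi]
    intro h2
    rcases Multiset.mem_add.mp h2 with h2 | h2
    · rcases Multiset.mem_add.mp h2 with h2 | h2
      · simp at h2
      · exact absurd (Multiset.eq_of_mem_replicate h2) (by norm_num)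
    · exact absurd (Multiset.eq_of_mem_replicate h2) (by norm_num)

theorem exists_three_elt (k f : ℕ) (hk : 1 ≤ k) (hsum : 3 * k + f = n) :
    ∃ y : alternatingGroup (Fin n), orderOf y = 3 ∧
      fixC (Perm (Fin n)) (Fin n) (y : Perm (Fin n)) = (f : ℂ) ∧
      (∀ a : Fin n, (y : Perm (Fin n)) • (y : Perm (Fin n)) • a = a →
        (y : Perm (Fin n)) • a = a) := by
  obtain ⟨y, hy⟩ := exists_alt_elt (n := n) (Multiset.replicate k 3)
    (by rw [Multiset.sum_replicate, smul_eq_mul]; omega)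
    (by
      intro a ha
      rw [Multiset.eq_of_mem_replicate ha]
      norm_num)
    (by
      rw [Multiset.sum_replicate, Multiset.card_replicate, smul_eq_mul]
      exact ⟨2 * k, by omega⟩)
  refine ⟨y, ?_, ?_, ?_⟩
  · have hd : orderOf y ∣ 3 := by
      rw [← Subgroup.orderOf_coe, ← Equiv.Perm.lcm_cycleType, hy, Multiset.lcm_dvd]
      intro a ha
      rw [Multiset.eq_of_mem_replicate ha]
    have hne1 : orderOf y ≠ 1 := by
      rw [← Subgroup.orderOf_coe, Ne, orderOf_eq_one_iff, ← Equiv.Perm.cycleType_eq_zero, hy]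
      intro h0
      have := congrArg Multiset.card h0
      rw [Multiset.card_replicate, Multiset.card_zero] at this
      omega
    exact (Nat.prime_three.eq_one_or_self_of_dvd _ hd).resolve_left hne1
  · rw [fixC_perm, hy, Multiset.sum_replicate, smul_eq_mul]
    congr 1
    omega
  · intro a ha
    apply no_two_of_not_mem _ _ a ha
    rw [hy]
    intro h2
    exact absurd (Multiset.eq_of_mem_replicate h2) (by norm_num)

end Elts

section Final

variable {n : ℕ}

theorem fixC_alt_pt (x : alternatingGroup (Fin n)) :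
    fixC (alternatingGroup (Fin n)) (Fin n) x
      = fixC (Perm (Fin n)) (Fin n) (x : Perm (Fin n)) := rfl

theorem fixC_alt_sub (x : alternatingGroup (Fin n)) :
    fixC (alternatingGroup (Fin n)) (Set.powersetCard (Fin n) 2) x
      = fixC (Perm (Fin n)) (Set.powersetCard (Fin n) 2) (x : Perm (Fin n)) := rfl

theorem exists_irr_of_formula (Φ : ℂ → ℂ → ℂ)
    (hS : Cfsg.IsIrrCharacter (Perm (Fin n)) (fun g => Φ (fixC (Perm (Fin n)) (Fin n) g)
      (fixC (Perm (Fin n)) (Set.powersetCard (Fin n) 2) g)))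
    (hA : Cfsg.IsIrrCharacter (alternatingGroup (Fin n))
      (fun g => Φ (fixC (alternatingGroup (Fin n)) (Fin n) g)
        (fixC (alternatingGroup (Fin n)) (Set.powersetCard (Fin n) 2) g)))
    (Q : alternatingGroup (Fin n) → Prop) (x : alternatingGroup (Fin n)) (hQ : Q x)
    (hx : Φ (fixC (Perm (Fin n)) (Fin n) (x : Perm (Fin n)))
      (fixC (Perm (Fin n)) (Set.powersetCard (Fin n) 2) (x : Perm (Fin n))) = 0) :
    ∃ χ : Cfsg.IrrCharacter (alternatingGroup (Fin n)),
      (∃ x : alternatingGroup (Fin n), Q x ∧ (χ : alternatingGroup (Fin n) → ℂ) x = 0) ∧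
      ∃ ψ : Cfsg.IrrCharacter (Equiv.Perm (Fin n)), ∀ x : alternatingGroup (Fin n),
        (ψ : Equiv.Perm (Fin n) → ℂ) x = (χ : alternatingGroup (Fin n) → ℂ) x := by
  refine ⟨⟨_, hA⟩, ⟨x, hQ, ?_⟩, ⟨_, hS⟩, fun y => ?_⟩
  · show Φ (fixC (alternatingGroup (Fin n)) (Fin n) x)
      (fixC (alternatingGroup (Fin n)) (Set.powersetCard (Fin n) 2) x) = 0
    rw [fixC_alt_pt, fixC_alt_sub]
    exact hx
  · show Φ (fixC (Perm (Fin n)) (Fin n) (y : Perm (Fin n)))
        (fixC (Perm (Fin n)) (Set.powersetCard (Fin n) 2) (y : Perm (Fin n)))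
      = Φ (fixC (alternatingGroup (Fin n)) (Fin n) y)
        (fixC (alternatingGroup (Fin n)) (Set.powersetCard (Fin n) 2) y)
    rw [fixC_alt_pt, fixC_alt_sub]

theorem altTrans (hn : 6 ≤ n) : IsMultiplyPretransitive (alternatingGroup (Fin n)) (Fin n) 4 := by
  have := alternatingGroup.isMultiplyPretransitive (Fin n)
  have hc : Nat.card (Fin n) = n := by simp
  exact isMultiplyPretransitive_of_le (n := Nat.card (Fin n) - 2) (by rw [hc]; omega)
    (Nat.sub_le _ _)

/-- `A_n` (`n ≥ 7`) has an irreducible character, extending to `S_n`, vanishing at some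
2-element. -/
theorem two_part (hn : 7 ≤ n) :
    ∃ χ : Cfsg.IrrCharacter (alternatingGroup (Fin n)),
      (∃ x : alternatingGroup (Fin n), (∃ j : ℕ, orderOf x = 2 ^ j) ∧
        (χ : alternatingGroup (Fin n) → ℂ) x = 0) ∧
      ∃ ψ : Cfsg.IrrCharacter (Equiv.Perm (Fin n)), ∀ x : alternatingGroup (Fin n),
        (ψ : Equiv.Perm (Fin n) → ℂ) x = (χ : alternatingGroup (Fin n) → ℂ) x := by
  have hc : Nat.card (Fin n) = n := by simp
  have h4 : 4 ≤ Nat.card (Fin n) := by rw [hc]; omega
  have tS : IsMultiplyPretransitive (Perm (Fin n)) (Fin n) 4 :=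
    Equiv.Perm.isMultiplyPretransitive (Fin n) 4
  have tA := altTrans (n := n) (by omega)
  by_cases h1 : n % 2 = 1
  · obtain ⟨x, hQ, hF, -⟩ : ∃ x : alternatingGroup (Fin n), (∃ e : ℕ, orderOf x = 2 ^ e) ∧
        fixC (Perm (Fin n)) (Fin n) (x : Perm (Fin n)) = ((1 : ℕ) : ℂ) ∧
        ((n - 1) / 2 - (n % 4) / 3 * 2 = 0 → ∀ a : Fin n,
          (x : Perm (Fin n)) • (x : Perm (Fin n)) • a = a → (x : Perm (Fin n)) • a = a) := by
      rcases (by omega : n % 4 = 1 ∨ n % 4 = 3) with h | h
      · have e : (n - 1) / 2 - (n % 4) / 3 * 2 = (n - 1) / 2 := by omega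
        rw [e]
        exact exists_two_elt ((n - 1) / 2) 0 0 1 (by omega) ⟨(n - 1) / 4, by omega⟩
      · have e : (n - 1) / 2 - (n % 4) / 3 * 2 = (n - 5) / 2 := by omega
        rw [e]
        exact exists_two_elt ((n - 5) / 2) 1 0 1 (by omega) ⟨(n - 1) / 4, by omega⟩
    exact exists_irr_of_formula (fun F _ => F - 1) (irr_chi1 h4) (irr_chi1 h4) _ x hQ
      (by rw [hF]; norm_num)
  · by_cases h2 : n % 4 = 0
    · obtain ⟨x, hQ, hF, hno⟩ : ∃ x : alternatingGroup (Fin n), (∃ e : ℕ, orderOf x = 2 ^ e) ∧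
          fixC (Perm (Fin n)) (Fin n) (x : Perm (Fin n)) = ((0 : ℕ) : ℂ) ∧
          (0 = 0 → ∀ a : Fin n,
            (x : Perm (Fin n)) • (x : Perm (Fin n)) • a = a → (x : Perm (Fin n)) • a = a) := by
        rcases (by omega : n % 8 = 0 ∨ n % 8 = 4) with h | h
        · exact exists_two_elt 0 (n / 4) 0 0 (by omega) ⟨n / 8, by omega⟩
        · exact exists_two_elt 0 ((n - 8) / 4) 1 0 (by omega) ⟨n / 8, by omega⟩
      have hP := fixC_sub_of_no_two (x : Perm (Fin n)) (hno rfl)
      exact exists_irr_of_formula (fun F P => P - F) (irr_chi2 h4) (irr_chi2 h4) _ x hQ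
        (by rw [hP, hF]; norm_num)
    · obtain ⟨x, hQ, hF, hno⟩ : ∃ x : alternatingGroup (Fin n), (∃ e : ℕ, orderOf x = 2 ^ e) ∧
          fixC (Perm (Fin n)) (Fin n) (x : Perm (Fin n)) = ((2 : ℕ) : ℂ) ∧
          (0 = 0 → ∀ a : Fin n,
            (x : Perm (Fin n)) • (x : Perm (Fin n)) • a = a → (x : Perm (Fin n)) • a = a) := by
        rcases (by omega : n % 8 = 2 ∨ n % 8 = 6) with h | h
        · exact exists_two_elt 0 ((n - 2) / 4) 0 2 (by omega) ⟨n / 8, by omega⟩
        · exact exists_two_elt 0 ((n - 10) / 4) 1 2 (by omega) ⟨n / 8, by omega⟩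
      have hP := fixC_sub_of_no_two (x : Perm (Fin n)) (hno rfl)
      exact exists_irr_of_formula (fun F P => F * (F - 1) - P - F + 1) (irr_chi11 h4)
        (irr_chi11 h4) _ x hQ (by rw [hP, hF]; norm_num)

/-- `A_n` (`n ≥ 7`) has an irreducible character, extending to `S_n`, vanishing at some element
of order 3. -/
theorem three_part (hn : 7 ≤ n) :
    ∃ χ : Cfsg.IrrCharacter (alternatingGroup (Fin n)),
      (∃ y : alternatingGroup (Fin n), orderOf y = 3 ∧
        (χ : alternatingGroup (Fin n) → ℂ) y = 0) ∧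
      ∃ ψ : Cfsg.IrrCharacter (Equiv.Perm (Fin n)), ∀ x : alternatingGroup (Fin n),
        (ψ : Equiv.Perm (Fin n) → ℂ) x = (χ : alternatingGroup (Fin n) → ℂ) x := by
  have hc : Nat.card (Fin n) = n := by simp
  have h4 : 4 ≤ Nat.card (Fin n) := by rw [hc]; omega
  have tS : IsMultiplyPretransitive (Perm (Fin n)) (Fin n) 4 :=
    Equiv.Perm.isMultiplyPretransitive (Fin n) 4
  have tA := altTrans (n := n) (by omega)
  obtain ⟨y, hQ, hF, hno⟩ := exists_three_elt (n := n) (n / 3) (n % 3) (by omega) (by omega)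
  have hP := fixC_sub_of_no_two (y : Perm (Fin n)) hno
  rcases (by omega : n % 3 = 0 ∨ n % 3 = 1 ∨ n % 3 = 2) with h | h | h
  · rw [h] at hF
    exact exists_irr_of_formula (fun F P => P - F) (irr_chi2 h4) (irr_chi2 h4) _ y hQ
      (by rw [hP, hF]; norm_num)
  · rw [h] at hF
    exact exists_irr_of_formula (fun F P => F * (F - 1) - P - F + 1) (irr_chi11 h4)
      (irr_chi11 h4) _ y hQ (by rw [hP, hF]; norm_num)
  · rw [h] at hF
    exact exists_irr_of_formula (fun F P => F * (F - 1) - P - F + 1) (irr_chi11 h4)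
      (irr_chi11 h4) _ y hQ (by rw [hP, hF]; norm_num)

end Final

end Cfsg.Agent.Helper39.PermIrr
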