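import Mathlib

/-!
# S3626 piece LARGE: fibre power over a normal `p`-subgroup

For a finite group `Y` with a non-trivial normal `p`-subgroup `P`, the subgroup of `Y ^ k` of the
tuples that are constant modulo `P` has the same set of element orders as `Y` and at least
`|P| ^ k` elements.
-/

set_option autoImplicit false

namespace Cfsg.Agent.Helper39

/-- Elements congruent modulo a normal `p`-subgroup have comparable orders. -/
theorem spec_orderOf_dvd_or {Y : Type*} [Group Y] [Finite Y] (p : ℕ) [Fact p.Prime]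
    (P : Subgroup Y) (hPn : P.Normal) (hPp : IsPGroup p P) (y y' : Y) (h : y * y'⁻¹ ∈ P) :
    orderOf y ∣ orderOf y' ∨ orderOf y' ∣ orderOf y := by
  have hπ : (QuotientGroup.mk y : Y ⧸ P) = QuotientGroup.mk y' := by
    have h1 : (QuotientGroup.mk (y * y'⁻¹) : Y ⧸ P) = 1 := (QuotientGroup.eq_one_iff _).mpr h
    rw [QuotientGroup.mk_mul, QuotientGroup.mk_inv, mul_inv_eq_one] at h1
    exact h1
  obtain ⟨n, hn⟩ : ∃ n, n = orderOf (QuotientGroup.mk y : Y ⧸ P) := ⟨_, rfl⟩
  have hn0 : n ≠ 0 := by rw [hn]; exact (orderOf_pos _).ne'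
  have key : ∀ z : Y, (QuotientGroup.mk z : Y ⧸ P) = QuotientGroup.mk y →
      ∃ α : ℕ, orderOf z = n * p ^ α := by
    intro z hz
    have h1 : n ∣ orderOf z := by
      rw [hn, ← hz]
      apply orderOf_dvd_of_pow_eq_one
      rw [← QuotientGroup.mk_pow, pow_orderOf_eq_one, QuotientGroup.mk_one]
    have h2 : z ^ n ∈ P := by
      rw [← QuotientGroup.eq_one_iff, QuotientGroup.mk_pow, hz, hn, pow_orderOf_eq_one]
    obtain ⟨α, hα⟩ := (IsPGroup.iff_orderOf.mp hPp) ⟨z ^ n, h2⟩
    rw [Subgroup.orderOf_mk] at hα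
    refine ⟨α, ?_⟩
    rw [orderOf_pow_of_dvd hn0 h1] at hα
    rw [← hα, Nat.mul_div_cancel' h1]
  obtain ⟨α, hα⟩ := key y rfl
  obtain ⟨β, hβ⟩ := key y' hπ.symm
  rcases le_total α β with hab | hab
  · left
    rw [hα, hβ]
    exact Nat.mul_dvd_mul_left n (pow_dvd_pow p hab)
  · right
    rw [hα, hβ]
    exact Nat.mul_dvd_mul_left n (pow_dvd_pow p hab)

/-- The fibre power: tuples constant modulo `P`. -/
def specFibre {Y : Type*} [Group Y] (P : Subgroup Y) (hPn : P.Normal) (k : ℕ) :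
    Subgroup (Fin k → Y) where
  carrier := {f | ∀ i j, f i * (f j)⁻¹ ∈ P}
  mul_mem' := by
    intro f g hf hg i j
    have h1 : f i * (g i * (g j)⁻¹) * (f i)⁻¹ ∈ P := hPn.conj_mem _ (hg i j) _
    have h2 := P.mul_mem h1 (hf i j)
    have e : f i * (g i * (g j)⁻¹) * (f i)⁻¹ * (f i * (f j)⁻¹) = (f * g) i * ((f * g) j)⁻¹ := by
      simp only [Pi.mul_apply]
      group
    rwa [e] at h2
  one_mem' := by
    intro i j
    simp
  inv_mem' := by
    intro f hf i j
    have h1 : (f i)⁻¹ * (f j * (f i)⁻¹) * ((f i)⁻¹)⁻¹ ∈ P := hPn.conj_mem _ (hf j i) _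
    have e : (f i)⁻¹ * (f j * (f i)⁻¹) * ((f i)⁻¹)⁻¹ = f⁻¹ i * (f⁻¹ j)⁻¹ := by
      simp only [Pi.inv_apply]
      group
    rwa [e] at h1

theorem mem_specFibre {Y : Type*} [Group Y] (P : Subgroup Y) (hPn : P.Normal) (k : ℕ)
    (f : Fin k → Y) : f ∈ specFibre P hPn k ↔ ∀ i j, f i * (f j)⁻¹ ∈ P := Iff.rfl

theorem spec_orderOf_fibre {Y : Type*} [Group Y] [Finite Y] (p : ℕ) [Fact p.Prime]
    (P : Subgroup Y) (hPn : P.Normal) (hPp : IsPGroup p P) (k : ℕ) (f : Fin (k + 1) → Y)
    (hf : f ∈ specFibre P hPn (k + 1)) : ∃ i₀, orderOf f = orderOf (f i₀) := by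
  obtain ⟨i₀, -, hi₀⟩ := Finset.exists_max_image Finset.univ (fun i => orderOf (f i))
    ⟨0, Finset.mem_univ _⟩
  refine ⟨i₀, ?_⟩
  have hdvd : ∀ j, orderOf (f j) ∣ orderOf (f i₀) := by
    intro j
    rcases spec_orderOf_dvd_or p P hPn hPp (f j) (f i₀) (hf j i₀) with h | h
    · exact h
    · have h1 := Nat.le_of_dvd (orderOf_pos _) h
      have h2 := hi₀ j (Finset.mem_univ _)
      have h3 : orderOf (f j) = orderOf (f i₀) := le_antisymm h2 h1
      rw [h3]
  rw [orderOf_eq_orderOf_iff]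
  intro n
  constructor
  · intro h
    have h1 := congrFun h i₀
    simpa using h1
  · intro h
    funext j
    simp only [Pi.pow_apply, Pi.one_apply]
    exact orderOf_dvd_iff_pow_eq_one.mp ((hdvd j).trans (orderOf_dvd_of_pow_eq_one h))

/-- Transport of a group structure along an equivalence keeps the set of element orders. -/
theorem spec_transport {A : Type*} [Group A] {Z : Type} (e : Z ≃ A) :
    ∃ (_ : Group Z), Set.range (orderOf : Z → ℕ) = Set.range (orderOf : A → ℕ) := by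
  letI : Group Z := e.group
  refine ⟨e.group, ?_⟩
  have E : Z ≃* A := e.mulEquiv
  ext d
  constructor
  · rintro ⟨z, rfl⟩
    exact ⟨E z, E.orderOf_eq z⟩
  · rintro ⟨f, rfl⟩
    exact ⟨E.symm f, E.symm.orderOf_eq f⟩

theorem exists_large_same_orders {Y : Type*} [Group Y] [Finite Y] (p : ℕ) [Fact p.Prime]
    (P : Subgroup Y) (hPn : P.Normal) (hP1 : P ≠ ⊥) (hPp : IsPGroup p P) (N : ℕ) :
    ∃ (Z : Type) (_ : Group Z) (_ : Fintype Z), N < Fintype.card Z ∧
      Set.range (orderOf : Z → ℕ) = Set.range (orderOf : Y → ℕ) := by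
  obtain ⟨D, hD⟩ : ∃ D : Subgroup (Fin (N + 1) → Y), D = specFibre P hPn (N + 1) := ⟨_, rfl⟩
  have hrange : Set.range (orderOf : ↥D → ℕ) = Set.range (orderOf : Y → ℕ) := by
    ext d
    constructor
    · rintro ⟨f, rfl⟩
      obtain ⟨i₀, hi₀⟩ := spec_orderOf_fibre p P hPn hPp N (f : Fin (N + 1) → Y)
        (by rw [← hD]; exact f.2)
      exact ⟨(f : Fin (N + 1) → Y) i₀, by rw [← hi₀, Subgroup.orderOf_coe]⟩
    · rintro ⟨y, rfl⟩
      have hmem : (fun _ : Fin (N + 1) => y) ∈ D := by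
        rw [hD]
        intro i j
        simp
      refine ⟨⟨_, hmem⟩, ?_⟩
      rw [Subgroup.orderOf_mk, orderOf_eq_orderOf_iff]
      intro n
      constructor
      · intro h
        have h1 := congrFun h 0
        simpa using h1
      · intro h
        funext j
        simpa using h
  have hcard : N < Nat.card D := by
    have h1 : 1 < Nat.card P := P.one_lt_card_iff_ne_bot.mpr hP1
    have hinj : Function.Injective (fun g : Fin (N + 1) → ↥P =>
        (⟨fun i => (g i : Y), by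
          rw [hD]
          intro i j
          exact P.mul_mem (g i).2 (P.inv_mem (g j).2)⟩ : ↥D)) := by
      intro g g' hgg'
      funext i
      have h2 := congrFun (congrArg Subtype.val hgg') i
      exact Subtype.ext h2
    have h2 := Nat.card_le_card_of_injective _ hinj
    rw [Nat.card_fun, Nat.card_fin] at h2
    have h3 : 2 ^ (N + 1) ≤ Nat.card P ^ (N + 1) := Nat.pow_le_pow_left h1 _
    have h4 : N + 1 < 2 ^ (N + 1) := Nat.lt_two_pow_self
    omega
  obtain ⟨e⟩ : Nonempty (↥D ≃ Fin (Nat.card D)) := ⟨Finite.equivFin D⟩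
  obtain ⟨inst, hinst⟩ := spec_transport (e.symm : Fin (Nat.card D) ≃ ↥D)
  refine ⟨Fin (Nat.card D), inst, inferInstance, ?_, ?_⟩
  · rw [Fintype.card_fin]
    exact hcard
  · rw [← hrange]
    exact hinst

end Cfsg.Agent.Helper39
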