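import Mathlib

/-!
# S3626 piece MAXO: from the set of maximal element orders to all element orders
-/

set_option autoImplicit false

namespace Cfsg.Agent.Helper39

theorem orders_of_maxOrders_aux {H : Type*} [Group H] [Finite H] (S : Set ℕ)
    (hS : {n : ℕ | n ∈ Set.range (orderOf : H → ℕ) ∧
      ∀ m ∈ Set.range (orderOf : H → ℕ), n ∣ m → m = n} = S) :
    ∀ (k : ℕ) (y : H), Nat.card H - orderOf y ≤ k → ∃ s ∈ S, orderOf y ∣ s := by
  intro k
  induction k with
  | zero =>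
    intro y hy
    refine ⟨orderOf y, ?_, dvd_rfl⟩
    rw [← hS]
    refine ⟨⟨y, rfl⟩, ?_⟩
    rintro m ⟨y', rfl⟩ hdvd
    have h1 : orderOf y' ≤ Nat.card H := orderOf_le_card
    have h2 : orderOf y ≤ orderOf y' := Nat.le_of_dvd (orderOf_pos y') hdvd
    omega
  | succ k ih =>
    intro y hy
    by_cases hmax : ∀ m ∈ Set.range (orderOf : H → ℕ), orderOf y ∣ m → m = orderOf y
    · refine ⟨orderOf y, ?_, dvd_rfl⟩
      rw [← hS]
      exact ⟨⟨y, rfl⟩, hmax⟩
    · push Not at hmax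
      obtain ⟨m, ⟨y', rfl⟩, hdvd, hne⟩ := hmax
      have h1 : orderOf y' ≤ Nat.card H := orderOf_le_card
      have h2 : orderOf y ≤ orderOf y' := Nat.le_of_dvd (orderOf_pos y') hdvd
      obtain ⟨s, hs, hs'⟩ := ih y' (by omega)
      exact ⟨s, hs, hdvd.trans hs'⟩

theorem orders_of_maxOrders {H : Type*} [Group H] [Finite H] (S : Set ℕ)
    (hS : {n : ℕ | n ∈ Set.range (orderOf : H → ℕ) ∧
      ∀ m ∈ Set.range (orderOf : H → ℕ), n ∣ m → m = n} = S) (d : ℕ) :
    (∃ y : H, orderOf y = d) ↔ ∃ s ∈ S, d ∣ s := by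
  constructor
  · rintro ⟨y, rfl⟩
    exact orders_of_maxOrders_aux S hS (Nat.card H) y (Nat.sub_le _ _)
  · rintro ⟨s, hs, hds⟩
    rw [← hS] at hs
    obtain ⟨⟨y0, rfl⟩, -⟩ := hs
    have hpos : 0 < orderOf y0 := orderOf_pos y0
    have h1 : orderOf y0 / d ≠ 0 := by
      obtain ⟨c, hc⟩ := hds
      have hd : 0 < d := by
        rcases Nat.eq_zero_or_pos d with h0 | h0
        · rw [h0, zero_mul] at hc
          omega
        · exact h0
      rw [hc, Nat.mul_div_cancel_left c hd]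
      rintro rfl
      rw [mul_zero] at hc
      omega
    refine ⟨y0 ^ (orderOf y0 / d), ?_⟩
    rw [orderOf_pow_of_dvd h1 (Nat.div_dvd_of_dvd hds), Nat.div_div_self hds hpos.ne']

end Cfsg.Agent.Helper39
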