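import Cfsg.Agent.Helper39.FreeSL2

set_option autoImplicit false

namespace Cfsg.Agent.Helper39

open Polynomial Matrix

noncomputable section

/-! ### Formal matrices -/

section formal

variable {R : Type*} [CommRing R]

/-- The matrix of a central element of the lower unipotent subgroup of the Suzuki group. -/
def zMat (β β' : R) : Matrix (Fin 4) (Fin 4) R :=
  !![1, 0, 0, 0; 0, 1, 0, 0; β, 0, 1, 0; β', β, 0, 1]

/-- The antidiagonal matrix. -/
def nMat (R : Type*) [CommRing R] : Matrix (Fin 4) (Fin 4) R :=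
  !![0, 0, 0, 1; 0, 0, 1, 0; 0, 1, 0, 0; 1, 0, 0, 0]

theorem zMat_mul (β β' γ γ' : R) : zMat β β' * zMat γ γ' = zMat (β + γ) (β' + γ') := by
  ext i j
  fin_cases i <;> fin_cases j <;>
    simp [zMat, Matrix.mul_apply, Fin.sum_univ_four, add_comm]

theorem zMat_zero : zMat (0 : R) 0 = 1 := by
  ext i j
  fin_cases i <;> fin_cases j <;> simp [zMat]

theorem nMat_mul_nMat : nMat R * nMat R = 1 := by
  ext i j
  fin_cases i <;> fin_cases j <;> simp [nMat, Matrix.mul_apply, Fin.sum_univ_four]

theorem zMat_mul_nMat (β β' : R) :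
    zMat β β' * nMat R = !![0, 0, 0, 1; 0, 0, 1, 0; 0, 1, 0, β; 1, 0, β, β'] := by
  ext i j
  fin_cases i <;> fin_cases j <;> simp [zMat, nMat, Matrix.mul_apply, Fin.sum_univ_four]

/-- `zMat` as an element of `GL₄`. -/
def zGL (β β' : R) : GL (Fin 4) R :=
  ⟨zMat β β', zMat (-β) (-β'), by rw [zMat_mul]; simp [zMat_zero],
    by rw [zMat_mul]; simp [zMat_zero]⟩

/-- `nMat` as an element of `GL₄`. -/
def nGL (R : Type*) [CommRing R] : GL (Fin 4) R :=
  ⟨nMat R, nMat R, nMat_mul_nMat, nMat_mul_nMat⟩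

theorem zGL_coe (β β' : R) : ((zGL β β' : GL (Fin 4) R) : Matrix (Fin 4) (Fin 4) R) = zMat β β' :=
  rfl

theorem nGL_coe : ((nGL R : GL (Fin 4) R) : Matrix (Fin 4) (Fin 4) R) = nMat R := rfl

theorem zGL_mul (β β' γ γ' : R) : zGL β β' * zGL γ γ' = zGL (β + γ) (β' + γ') := by
  apply Units.ext
  simp only [Units.val_mul, zGL_coe, zMat_mul]

theorem zGL_inv (β β' : R) : (zGL β β')⁻¹ = zGL (-β) (-β') := by
  apply Units.ext
  rfl

theorem nGL_mul_nGL : nGL R * nGL R = 1 := by
  apply Units.ext
  simp only [Units.val_mul, nGL_coe, nMat_mul_nMat, Units.val_one]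

theorem nGL_inv : (nGL R)⁻¹ = nGL R := by
  apply Units.ext
  rfl

theorem map_zGL {S : Type*} [CommRing S] (φ : R →+* S) (β β' : R) :
    Matrix.GeneralLinearGroup.map φ (zGL β β') = zGL (φ β) (φ β') := by
  apply Units.ext
  ext i j
  simp only [Matrix.GeneralLinearGroup.map_apply, zGL_coe, zMat]
  fin_cases i <;> fin_cases j <;> simp

theorem map_nGL {S : Type*} [CommRing S] (φ : R →+* S) :
    Matrix.GeneralLinearGroup.map φ (nGL R) = nGL S := by
  apply Units.ext
  ext i j
  simp only [Matrix.GeneralLinearGroup.map_apply, nGL_coe, nMat]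
  fin_cases i <;> fin_cases j <;> simp

end formal

/-! ### The generators over `A[X][Y]` -/

section gens

variable (A : Type*) [CommRing A]

/-- `Z(C h, h(Y))` for a polynomial `h`. -/
def zh (h : A[X]) : GL (Fin 4) A[X][X] := zGL (C h) (h.map C)

/-- the formal generators of a free subgroup -/
def sgam (i : ℕ) : GL (Fin 4) A[X][X] :=
  zh A (cen A (2 * i)) * nGL _ * zh A (cen A (2 * i + 1)) * nGL _

variable {A}

theorem zh_mul (h₁ h₂ : A[X]) : zh A h₁ * zh A h₂ = zh A (h₁ + h₂) := by
  simp [zh, zGL_mul]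

theorem zh_inv (h : A[X]) : (zh A h)⁻¹ = zh A (-h) := by
  simp [zh, zGL_inv]

theorem map_zh {B : Type*} [CommRing B] (φ : A →+* B) (h : A[X]) :
    Matrix.GeneralLinearGroup.map (Polynomial.mapRingHom (Polynomial.mapRingHom φ)) (zh A h) =
      zh B (h.map φ) := by
  simp only [zh, map_zGL]
  congr 1
  · simp
  · simp only [coe_mapRingHom, Polynomial.map_map]
    congr 1
    ext x
    simp

theorem map_sgam {B : Type*} [CommRing B] (φ : A →+* B) (i : ℕ) :
    Matrix.GeneralLinearGroup.map (Polynomial.mapRingHom (Polynomial.mapRingHom φ)) (sgam A i) =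
      sgam B i := by
  simp only [sgam, map_mul, map_zh, map_nGL, map_cen]

end gens


section dominance

variable {S : Type*} [CommRing S] [IsDomain S]

/-- The `(3,3)` entry strictly dominates all other entries in degree. -/
def Dominant (M : Matrix (Fin 4) (Fin 4) S[X]) : Prop :=
  0 < natDegree (M 3 3) ∧ ∀ r s, ¬ (r = 3 ∧ s = 3) → degree (M r s) < degree (M 3 3)

theorem Dominant.ne_zero {M : Matrix (Fin 4) (Fin 4) S[X]} (h : Dominant M) : M 3 3 ≠ 0 := by
  intro h0
  have := h.1
  rw [h0] at this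
  simp at this

theorem Dominant.mul {M M' : Matrix (Fin 4) (Fin 4) S[X]} (h : Dominant M) (h' : Dominant M') :
    Dominant (M * M') := by
  have hd : degree (M 3 3) ≠ ⊥ := fun h0 => h.ne_zero (degree_eq_bot.mp h0)
  have hd' : degree (M' 3 3) ≠ ⊥ := fun h0 => h'.ne_zero (degree_eq_bot.mp h0)
  have key : ∀ r j s : Fin 4, ¬ (r = 3 ∧ j = 3 ∧ s = 3) →
      degree (M r j * M' j s) < degree (M 3 3) + degree (M' 3 3) := by
    intro r j s hrjs
    rw [degree_mul]
    by_cases hrj : r = 3 ∧ j = 3
    · obtain ⟨rfl, rfl⟩ := hrj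
      have hs : ¬ ((3 : Fin 4) = 3 ∧ s = 3) := fun hh => hrjs ⟨rfl, rfl, hh.2⟩
      exact WithBot.add_lt_add_left hd (h'.2 3 s hs)
    · have h1 := h.2 r j hrj
      have h2 : degree (M' j s) ≤ degree (M' 3 3) := by
        by_cases hjs : j = 3 ∧ s = 3
        · obtain ⟨rfl, rfl⟩ := hjs; exact le_rfl
        · exact (h'.2 j s hjs).le
      calc degree (M r j) + degree (M' j s) ≤ degree (M r j) + degree (M' 3 3) := by gcongr
        _ < degree (M 3 3) + degree (M' 3 3) := WithBot.add_lt_add_right hd' h1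
  have htop : degree ((M * M') 3 3) = degree (M 3 3) + degree (M' 3 3) := by
    rw [Matrix.mul_apply, Fin.sum_univ_four, ← degree_mul]
    apply degree_add_eq_right_of_degree_lt
    rw [degree_mul]
    refine (degree_add_le _ _).trans_lt (max_lt ((degree_add_le _ _).trans_lt (max_lt ?_ ?_)) ?_)
    · exact key 3 0 3 (by decide)
    · exact key 3 1 3 (by decide)
    · exact key 3 2 3 (by decide)
  constructor
  · have h1 : natDegree ((M * M') 3 3) = natDegree (M 3 3 * M' 3 3) := by
      apply natDegree_eq_of_degree_eq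
      rw [htop, degree_mul]
    rw [h1, natDegree_mul h.ne_zero h'.ne_zero]
    have := h.1
    omega
  · intro r s hrs
    rw [htop, Matrix.mul_apply, Fin.sum_univ_four]
    have hk : ∀ j : Fin 4, ¬ (r = 3 ∧ j = 3 ∧ s = 3) := fun j hh => hrs ⟨hh.1, hh.2.2⟩
    refine (degree_add_le _ _).trans_lt (max_lt ((degree_add_le _ _).trans_lt
      (max_lt ((degree_add_le _ _).trans_lt (max_lt ?_ ?_)) ?_)) ?_)
    · exact key r 0 s (hk 0)
    · exact key r 1 s (hk 1)
    · exact key r 2 s (hk 2)
    · exact key r 3 s (hk 3)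

theorem dominant_zMat_mul_nMat (β β' : S[X]) (hβ : degree β ≤ 0) (hβ' : 0 < natDegree β') :
    Dominant (zMat β β' * nMat _) := by
  rw [zMat_mul_nMat]
  have h1 : (0 : WithBot ℕ) < degree β' := natDegree_pos_iff_degree_pos.mp hβ'
  have h0 : degree (0 : S[X]) < degree β' := by rw [degree_zero]; exact lt_of_le_of_lt bot_le h1
  have h1' : degree (1 : S[X]) < degree β' := by rw [degree_one]; exact h1
  have hb : degree β < degree β' := lt_of_le_of_lt hβ h1
  constructor
  · simpa using hβ'
  · intro r s hrs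
    fin_cases r <;> fin_cases s <;> first
      | exact absurd ⟨rfl, rfl⟩ hrs
      | exact h0
      | exact h1'
      | exact hb

/-- dominance up to a right factor `n` -/
def DomR (M : Matrix (Fin 4) (Fin 4) S[X]) : Prop := Dominant M ∨ Dominant (M * nMat _)

theorem DomR.mul_left {D E : Matrix (Fin 4) (Fin 4) S[X]} (hD : Dominant D) (hE : DomR E) :
    DomR (D * E) := by
  rcases hE with h | h
  · exact Or.inl (hD.mul h)
  · right
    rw [Matrix.mul_assoc]
    exact hD.mul h

end dominance

section words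

variable {K : Type*} [Field K]

theorem cen_sub_natDegree' {n n' : ℕ} (h : n ≠ n') : 0 < natDegree (cen K n - cen K n') := by
  rcases lt_or_gt_of_ne h with h | h
  · have : natDegree (cen K n) < natDegree (cen K n') := by
      simp only [cen, natDegree_X_pow]; omega
    rw [natDegree_sub_eq_right_of_natDegree_lt this]
    simp [cen]
  · have : natDegree (cen K n') < natDegree (cen K n) := by
      simp only [cen, natDegree_X_pow]; omega
    rw [natDegree_sub_eq_left_of_natDegree_lt this]
    simp [cen]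

theorem dom_zh (h : K[X]) (hh : 0 < natDegree h) :
    Dominant ((zh K h * nGL _ : GL (Fin 4) K[X][X]) : Matrix (Fin 4) (Fin 4) K[X][X]) := by
  rw [Units.val_mul, nGL_coe, zh, zGL_coe]
  apply dominant_zMat_mul_nMat
  · exact degree_C_le
  · rw [natDegree_map_eq_of_injective (C_injective)]
    exact hh

theorem cen_natDegree_pos (n : ℕ) : 0 < natDegree (cen K n) := by
  simp [cen]

theorem cen_neg_natDegree_pos (n : ℕ) : 0 < natDegree (-cen K n) := by
  simp [cen]

/-- the product of a word -/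
def wprod (K : Type*) [Field K] (L : List (ℕ × Bool)) : GL (Fin 4) K[X][X] :=
  (L.map fun x => cond x.2 (sgam K x.1) (sgam K x.1)⁻¹).prod

/-- the leading factor of a reduced word -/
def headFac (K : Type*) [Field K] (x : ℕ × Bool) : GL (Fin 4) K[X][X] :=
  if x.2 then zh K (cen K (2 * x.1)) * nGL _
  else nGL _ * (zh K (cen K (2 * x.1 + 1)))⁻¹ * nGL _

theorem wprod_cons (x : ℕ × Bool) (L : List (ℕ × Bool)) :
    wprod K (x :: L) = cond x.2 (sgam K x.1) (sgam K x.1)⁻¹ * wprod K L := by
  simp [wprod]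

theorem sgam_inv (i : ℕ) : (sgam K i)⁻¹ =
    nGL _ * (zh K (cen K (2 * i + 1)))⁻¹ * nGL _ * (zh K (cen K (2 * i)))⁻¹ := by
  simp only [sgam, _root_.mul_inv_rev, nGL_inv, mul_assoc]

theorem nGL_mul_cancel_left (x : GL (Fin 4) K[X][X]) : nGL _ * (nGL _ * x) = x := by
  rw [← mul_assoc, nGL_mul_nGL, one_mul]

theorem DomR.mul_left' {D E : GL (Fin 4) K[X][X]}
    (hD : Dominant (D : Matrix (Fin 4) (Fin 4) K[X][X]))
    (hE : DomR (E : Matrix (Fin 4) (Fin 4) K[X][X])) :
    DomR ((D * E : GL (Fin 4) K[X][X]) : Matrix (Fin 4) (Fin 4) K[X][X]) := by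
  rw [Units.val_mul]
  exact DomR.mul_left hD hE

theorem word_inv (x : ℕ × Bool) (L : List (ℕ × Bool)) (hL : FreeGroup.IsReduced (x :: L)) :
    ∃ E : GL (Fin 4) K[X][X], DomR (E : Matrix (Fin 4) (Fin 4) K[X][X]) ∧
      wprod K (x :: L) = headFac K x * E := by
  induction L generalizing x with
  | nil =>
    obtain ⟨i, b⟩ := x
    cases b
    · refine ⟨(zh K (cen K (2 * i)))⁻¹, ?_, ?_⟩
      · right
        rw [zh_inv, ← nGL_coe, ← Units.val_mul]
        exact dom_zh _ (cen_neg_natDegree_pos _)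
      · simp [wprod, headFac, sgam_inv]
    · refine ⟨zh K (cen K (2 * i + 1)) * nGL _, ?_, ?_⟩
      · left
        exact dom_zh _ (cen_natDegree_pos _)
      · simp [wprod, headFac, sgam, mul_assoc]
  | cons y L ih =>
    rw [FreeGroup.isReduced_cons_cons] at hL
    obtain ⟨hxy, hred⟩ := hL
    obtain ⟨E, hE, hEq⟩ := ih y hred
    rw [wprod_cons, hEq]
    obtain ⟨i, b⟩ := x
    obtain ⟨j, c⟩ := y
    simp only at hxy
    cases b <;> cases c
    · -- γ_i⁻¹ γ_j⁻¹
      refine ⟨(zh K (cen K (2 * i)))⁻¹ * nGL _ * ((zh K (cen K (2 * j + 1)))⁻¹ * nGL _ * E), ?_, ?_⟩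
      · apply DomR.mul_left' _ (DomR.mul_left' _ hE)
        · rw [zh_inv]; exact dom_zh _ (cen_neg_natDegree_pos _)
        · rw [zh_inv]; exact dom_zh _ (cen_neg_natDegree_pos _)
      · simp only [headFac, sgam_inv, cond_false, Bool.false_eq_true, if_false, mul_assoc]
    · -- γ_i⁻¹ γ_j, i ≠ j
      have hij : i ≠ j := fun h => by simpa using hxy h
      refine ⟨(zh K (cen K (2 * i)))⁻¹ * zh K (cen K (2 * j)) * nGL _ * E, ?_, ?_⟩
      · apply DomR.mul_left' _ hE
        rw [zh_inv, zh_mul]
        apply dom_zh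
        have : -cen K (2 * i) + cen K (2 * j) = cen K (2 * j) - cen K (2 * i) := by ring
        rw [this]
        exact cen_sub_natDegree' (by omega)
      · simp only [headFac, sgam_inv, cond_false, Bool.false_eq_true, if_false, if_true,
          mul_assoc]
    · -- γ_i γ_j⁻¹, i ≠ j
      have hij : i ≠ j := fun h => by simpa using hxy h
      refine ⟨zh K (cen K (2 * i + 1)) * (zh K (cen K (2 * j + 1)))⁻¹ * nGL _ * E, ?_, ?_⟩
      · apply DomR.mul_left' _ hE
        rw [zh_inv, zh_mul]
        apply dom_zh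
        have : cen K (2 * i + 1) + -cen K (2 * j + 1) = cen K (2 * i + 1) - cen K (2 * j + 1) := by
          ring
        rw [this]
        exact cen_sub_natDegree' (by omega)
      · simp only [headFac, sgam, cond_true, Bool.false_eq_true, if_false, if_true,
          mul_assoc, nGL_mul_cancel_left]
    · -- γ_i γ_j
      refine ⟨zh K (cen K (2 * i + 1)) * nGL _ * (zh K (cen K (2 * j)) * nGL _ * E), ?_, ?_⟩
      · apply DomR.mul_left' _ (DomR.mul_left' _ hE)
        · exact dom_zh _ (cen_natDegree_pos _)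
        · exact dom_zh _ (cen_natDegree_pos _)
      · simp only [headFac, sgam, cond_true, if_true, mul_assoc]

end words


section words2

variable {K : Type*} [Field K]

theorem mul_nMat_apply33 {R : Type*} [CommRing R] (M : Matrix (Fin 4) (Fin 4) R) :
    (M * nMat R) 3 3 = M 3 0 := by
  simp [Matrix.mul_apply, Fin.sum_univ_four, nMat]

theorem nMat_mul_apply33 {R : Type*} [CommRing R] (M : Matrix (Fin 4) (Fin 4) R) :
    (nMat R * M) 3 3 = M 0 3 := by
  simp [Matrix.mul_apply, Fin.sum_univ_four, nMat]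

theorem wprod_entry (x : ℕ × Bool) (L : List (ℕ × Bool)) (hL : FreeGroup.IsReduced (x :: L)) :
    ∃ r s : Fin 4, 0 < natDegree
      (((wprod K (x :: L) : GL (Fin 4) K[X][X]) : Matrix (Fin 4) (Fin 4) K[X][X]) r s) := by
  obtain ⟨E, hE, hEq⟩ := word_inv (K := K) x L hL
  obtain ⟨i, b⟩ := x
  cases b
  · -- head factor n V⁻¹ n
    have hD : Dominant (((zh K (cen K (2 * i + 1)))⁻¹ * nGL _ : GL (Fin 4) K[X][X]) :
        Matrix (Fin 4) (Fin 4) K[X][X]) := by
      rw [zh_inv]; exact dom_zh _ (cen_neg_natDegree_pos _)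
    have hP : ((nGL _ * wprod K ((i, false) :: L) : GL (Fin 4) K[X][X]) :
        Matrix (Fin 4) (Fin 4) K[X][X]) =
        (((zh K (cen K (2 * i + 1)))⁻¹ * nGL _ : GL (Fin 4) K[X][X]) :
          Matrix (Fin 4) (Fin 4) K[X][X]) * (E : Matrix (Fin 4) (Fin 4) K[X][X]) := by
      have hg : nGL _ * wprod K ((i, false) :: L) =
          (zh K (cen K (2 * i + 1)))⁻¹ * nGL _ * E := by
        rw [hEq]
        simp only [headFac, Bool.false_eq_true, if_false, mul_assoc, nGL_mul_cancel_left]
      rw [hg, Units.val_mul]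
    rcases hE with h | h
    · have := (hD.mul h).1
      rw [← hP, Units.val_mul, nGL_coe, nMat_mul_apply33] at this
      exact ⟨0, 3, this⟩
    · have := (hD.mul h).1
      rw [← Matrix.mul_assoc, ← hP, mul_nMat_apply33, Units.val_mul, nGL_coe] at this
      have h2 : (nMat K[X][X] * ((wprod K ((i, false) :: L) : GL (Fin 4) K[X][X]) :
          Matrix (Fin 4) (Fin 4) K[X][X])) 3 0 =
          ((wprod K ((i, false) :: L) : GL (Fin 4) K[X][X]) :
            Matrix (Fin 4) (Fin 4) K[X][X]) 0 0 := by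
        simp [Matrix.mul_apply, Fin.sum_univ_four, nMat]
      rw [h2] at this
      exact ⟨0, 0, this⟩
  · have hD : Dominant ((zh K (cen K (2 * i)) * nGL _ : GL (Fin 4) K[X][X]) :
        Matrix (Fin 4) (Fin 4) K[X][X]) := dom_zh _ (cen_natDegree_pos _)
    have hP : ((wprod K ((i, true) :: L) : GL (Fin 4) K[X][X]) :
        Matrix (Fin 4) (Fin 4) K[X][X]) =
        ((zh K (cen K (2 * i)) * nGL _ : GL (Fin 4) K[X][X]) :
          Matrix (Fin 4) (Fin 4) K[X][X]) * (E : Matrix (Fin 4) (Fin 4) K[X][X]) := by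
      have hg : wprod K ((i, true) :: L) = zh K (cen K (2 * i)) * nGL _ * E := by
        rw [hEq]
        simp only [headFac, if_true]
      rw [hg, Units.val_mul]
    rcases hE with h | h
    · have := (hD.mul h).1
      rw [← hP] at this
      exact ⟨3, 3, this⟩
    · have := (hD.mul h).1
      rw [← Matrix.mul_assoc, ← hP, mul_nMat_apply33] at this
      exact ⟨3, 0, this⟩

/-- The formal word matrix of a non-trivial word has an entry of positive degree. -/
theorem sz_word_entry {w : FreeGroup ℕ} (hw : w ≠ 1) :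
    ∃ r s : Fin 4, 0 < natDegree
      (((FreeGroup.lift (sgam K) w : GL (Fin 4) K[X][X]) : Matrix (Fin 4) (Fin 4) K[X][X]) r s) := by
  have h1 : FreeGroup.lift (sgam K) w = wprod K w.toWord := by
    conv_lhs => rw [← FreeGroup.mk_toWord (x := w)]
    rw [FreeGroup.lift_mk]
    rfl
  rw [h1]
  have hne : w.toWord ≠ [] := fun h => hw (FreeGroup.toWord_eq_nil_iff.mp h)
  obtain ⟨x, L, hxL⟩ := List.exists_cons_of_ne_nil hne
  have hred : FreeGroup.IsReduced (x :: L) := by
    rw [← hxL]; exact FreeGroup.isReduced_toWord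
  rw [hxL]
  exact wprod_entry x L hred

theorem natDegree_eval_X_pow_le (E : K[X][X]) (e B : ℕ) (hc : ∀ j, natDegree (E.coeff j) ≤ B) :
    natDegree (E.eval (X ^ e)) ≤ B + e * natDegree E := by
  rw [eval_eq_sum_range]
  apply natDegree_sum_le_of_forall_le
  intro j hj
  rw [Finset.mem_range] at hj
  refine natDegree_mul_le.trans ?_
  rw [← pow_mul, natDegree_X_pow]
  have := hc j
  have : e * j ≤ e * natDegree E := Nat.mul_le_mul_left e (by omega)
  omega

theorem natDegree_eval_X_pow_ge (E : K[X][X]) (e : ℕ) (hJ : 0 < natDegree E)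
    (hc : ∀ j, natDegree (E.coeff j) < e) : e ≤ natDegree (E.eval (X ^ e)) := by
  rw [eval_eq_sum_range, Finset.sum_range_succ]
  have hlead : E.coeff (natDegree E) ≠ 0 := by
    have : E ≠ 0 := by
      intro h; rw [h] at hJ; simp at hJ
    exact leadingCoeff_ne_zero.mpr this
  have htop : natDegree (E.coeff (natDegree E) * (X ^ e) ^ natDegree E) =
      natDegree (E.coeff (natDegree E)) + e * natDegree E := by
    rw [← pow_mul, natDegree_mul_X_pow _ hlead]
  have hlow : natDegree (∑ x ∈ Finset.range (natDegree E), E.coeff x * (X ^ e) ^ x) <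
      natDegree (E.coeff (natDegree E) * (X ^ e) ^ natDegree E) := by
    rw [htop]
    have hb : natDegree (∑ x ∈ Finset.range (natDegree E), E.coeff x * (X ^ e) ^ x) ≤
        e * natDegree E - 1 := by
      apply natDegree_sum_le_of_forall_le
      intro j hj
      rw [Finset.mem_range] at hj
      refine natDegree_mul_le.trans ?_
      rw [← pow_mul, natDegree_X_pow]
      have h1 := hc j
      have h2 : e * (j + 1) ≤ e * natDegree E := Nat.mul_le_mul_left e (by omega)
      have h3 : e * (j + 1) = e * j + e := by ring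
      omega
    have hpos : 0 < e * natDegree E := by
      have := hc 0
      exact Nat.mul_pos (by omega) hJ
    omega
  rw [natDegree_add_eq_right_of_natDegree_lt hlow, htop]
  have : e * 1 ≤ e * natDegree E := Nat.mul_le_mul_left e hJ
  omega

end words2

end

end Cfsg.Agent.Helper39
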