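import Cfsg.Agent.Helper39.SzFormal
import Cfsg.Prelude.Def_Sz

set_option autoImplicit false

namespace Cfsg.Agent.Helper39

open Polynomial Matrix

noncomputable section

universe u

/-! ### Membership in the Suzuki group -/

section membership

variable {F : Type*} [Field F]

theorem zGL_mem_Sz [CharP F 2] (e : ℕ) (he0 : e ≠ 0) (b : F) (hb : (b ^ e) ^ e = b ^ 2) :
    zGL b (b ^ e) ∈ Cfsg.Lie.Sz F e := by
  have h2 : (2 : F) = 0 := CharP.cast_eq_zero F 2
  apply Subgroup.subset_closure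
  constructor
  · intro u v
    change Cfsg.Lie.altForm4 (zMat b (b ^ e) *ᵥ u) (zMat b (b ^ e) *ᵥ v) = Cfsg.Lie.altForm4 u v
    simp only [Cfsg.Lie.altForm4, Matrix.mulVec, dotProduct, Fin.sum_univ_four, zMat]
    simp only [Matrix.of_apply, Matrix.cons_val_zero, Matrix.cons_val_one, Matrix.cons_val',
      Matrix.cons_val_fin_one, Matrix.cons_val_two, Matrix.cons_val_three, Matrix.head_cons,
      Matrix.tail_cons, Matrix.head_fin_const]
    linear_combination (b ^ e * u 0 * v 0 + b * u 0 * v 1 + b * u 1 * v 0) * h2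
  · rw [zGL_coe]
    ext i j
    have hneg : -(b ^ e) = b ^ e := by linear_combination (-(b ^ e)) * h2
    fin_cases i <;> fin_cases j <;>
      simp [Cfsg.Lie.star4, Cfsg.Lie.pairOf, zMat, he0, hneg, hb, pow_two]

theorem nGL_mem_Sz [CharP F 2] (e : ℕ) (he0 : e ≠ 0) : nGL F ∈ Cfsg.Lie.Sz F e := by
  have h2 : (2 : F) = 0 := CharP.cast_eq_zero F 2
  have hneg1 : (-1 : F) = 1 := by linear_combination (-1 : F) * h2
  apply Subgroup.subset_closure
  constructor
  · intro u v
    change Cfsg.Lie.altForm4 (nMat F *ᵥ u) (nMat F *ᵥ v) = Cfsg.Lie.altForm4 u v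
    simp only [Cfsg.Lie.altForm4, Matrix.mulVec, dotProduct, Fin.sum_univ_four, nMat]
    simp only [Matrix.of_apply, Matrix.cons_val_zero, Matrix.cons_val_one, Matrix.cons_val',
      Matrix.cons_val_fin_one, Matrix.cons_val_two, Matrix.cons_val_three, Matrix.head_cons,
      Matrix.tail_cons, Matrix.head_fin_const]
    ring
  · rw [nGL_coe]
    ext i j
    fin_cases i <;> fin_cases j <;> simp [Cfsg.Lie.star4, Cfsg.Lie.pairOf, nMat, he0, hneg1]

end membership

/-! ### Word matrices and degree bounds -/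

/-- The formal word matrix over `A[X][Y]`. -/
def wordSz (A : Type*) [CommRing A] (w : FreeGroup ℕ) : GL (Fin 4) A[X][X] :=
  FreeGroup.lift (sgam A) w

theorem map_wordSz {A B : Type*} [CommRing A] [CommRing B] (φ : A →+* B) (w : FreeGroup ℕ) :
    Matrix.GeneralLinearGroup.map (Polynomial.mapRingHom (Polynomial.mapRingHom φ)) (wordSz A w) =
      wordSz B w := by
  have : (Matrix.GeneralLinearGroup.map (Polynomial.mapRingHom (Polynomial.mapRingHom φ))).comp
      (FreeGroup.lift (sgam A)) = FreeGroup.lift (sgam B) := by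
    apply FreeGroup.ext_hom
    intro i
    simp [map_sgam]
  exact DFunLike.congr_fun this w

/-- the entries of the integral word matrix -/
def szEntry (w : FreeGroup ℕ) (r s : Fin 4) : ℤ[X][X] :=
  ((wordSz ℤ w : GL (Fin 4) ℤ[X][X]) : Matrix (Fin 4) (Fin 4) ℤ[X][X]) r s

/-- bound for the `Y`-degree of the entries -/
def szBY (w : FreeGroup ℕ) : ℕ :=
  Finset.univ.sup fun rs : Fin 4 × Fin 4 => natDegree (szEntry w rs.1 rs.2)

/-- bound for the `X`-degree of the coefficients of one entry -/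
def szBX1 (w : FreeGroup ℕ) (rs : Fin 4 × Fin 4) : ℕ :=
  (Finset.range (szBY w + 1)).sup fun j => natDegree ((szEntry w rs.1 rs.2).coeff j)

/-- bound for the `X`-degree of the coefficients of the entries -/
def szBX (w : FreeGroup ℕ) : ℕ :=
  Finset.univ.sup (szBX1 w)

theorem wordSz_entry_eq (F : Type u) [Field F] (w : FreeGroup ℕ) (r s : Fin 4) :
    ((wordSz F w : GL (Fin 4) F[X][X]) : Matrix (Fin 4) (Fin 4) F[X][X]) r s =
      (szEntry w r s).map (Polynomial.mapRingHom (Int.castRingHom F)) := by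
  rw [← map_wordSz (Int.castRingHom F) w]
  rfl

theorem szBY_spec (w : FreeGroup ℕ) (r s : Fin 4) : natDegree (szEntry w r s) ≤ szBY w :=
  Finset.le_sup (f := fun rs : Fin 4 × Fin 4 => natDegree (szEntry w rs.1 rs.2))
    (Finset.mem_univ (r, s))

theorem szBX_spec (w : FreeGroup ℕ) (r s : Fin 4) (j : ℕ) (hj : j < szBY w + 1) :
    natDegree ((szEntry w r s).coeff j) ≤ szBX w := by
  have h1 : natDegree ((szEntry w r s).coeff j) ≤ szBX1 w (r, s) :=
    Finset.le_sup (f := fun j => natDegree ((szEntry w r s).coeff j)) (Finset.mem_range.mpr hj)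
  exact h1.trans (Finset.le_sup (f := szBX1 w) (Finset.mem_univ (r, s)))

theorem natDegree_wordSz_le (F : Type u) [Field F] (w : FreeGroup ℕ) (r s : Fin 4) :
    natDegree (((wordSz F w : GL (Fin 4) F[X][X]) : Matrix (Fin 4) (Fin 4) F[X][X]) r s) ≤
      szBY w := by
  rw [wordSz_entry_eq]
  exact (natDegree_map_le).trans (szBY_spec w r s)

theorem natDegree_coeff_map_le_aux {A B : Type*} [CommRing A] [CommRing B] (φ : A →+* B)
    (P : A[X][X]) (BY BX : ℕ) (hY : natDegree P ≤ BY)
    (hX : ∀ j, j < BY + 1 → natDegree (P.coeff j) ≤ BX) (j : ℕ) :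
    natDegree ((P.map (Polynomial.mapRingHom φ)).coeff j) ≤ BX := by
  rw [coeff_map, coe_mapRingHom]
  by_cases hj : j < BY + 1
  · exact (natDegree_map_le).trans (hX j hj)
  · rw [coeff_eq_zero_of_natDegree_lt (by omega)]
    simp

theorem natDegree_coeff_wordSz_le (F : Type u) [Field F] (w : FreeGroup ℕ) (r s : Fin 4) (j : ℕ) :
    natDegree ((((wordSz F w : GL (Fin 4) F[X][X]) : Matrix (Fin 4) (Fin 4) F[X][X]) r s).coeff j) ≤
      szBX w := by
  rw [wordSz_entry_eq]
  exact natDegree_coeff_map_le_aux (Int.castRingHom F) _ (szBY w) (szBX w) (szBY_spec w r s)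
    (fun j hj => szBX_spec w r s j hj) j

/-! ### Evaluation -/

/-- Evaluation `X ↦ τ`, `Y ↦ τ ^ e`. -/
def szEv {F : Type*} [Field F] (τ : F) (e : ℕ) : F[X][X] →+* F :=
  Polynomial.eval₂RingHom (Polynomial.evalRingHom τ) (τ ^ e)

theorem szEv_apply {F : Type*} [Field F] (τ : F) (e : ℕ) (E : F[X][X]) :
    szEv τ e E = eval τ (E.eval (X ^ e)) := by
  have h := Polynomial.hom_eval₂ E (RingHom.id F[X]) (Polynomial.evalRingHom τ) (X ^ e)
  simp only [coe_evalRingHom, RingHom.comp_id, eval_pow, eval_X] at h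
  exact h.symm

theorem szEv_C {F : Type*} [Field F] (τ : F) (e : ℕ) (h : F[X]) :
    szEv τ e (C h) = eval τ h := by
  simp [szEv]

theorem szEv_map_C {F : Type*} [Field F] (τ : F) (e : ℕ) (h : F[X]) :
    szEv τ e (h.map C) = eval (τ ^ e) h := by
  simp only [szEv, coe_eval₂RingHom, eval₂_map]
  have : (evalRingHom τ).comp (C : F →+* F[X]) = RingHom.id F := by
    ext x; simp
  rw [this, eval₂_id]

theorem map_szEv_zh {F : Type*} [Field F] (τ : F) (e : ℕ) (k : ℕ) :
    Matrix.GeneralLinearGroup.map (szEv τ e) (zh F (cen F k)) =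
      zGL (τ ^ (k + 1)) ((τ ^ (k + 1)) ^ e) := by
  rw [zh, map_zGL, szEv_C, szEv_map_C]
  simp only [cen, eval_pow, eval_X]
  congr 1
  rw [← pow_mul, ← pow_mul, mul_comm]

theorem map_szEv_sgam_mem {F : Type*} [Field F] [CharP F 2] (τ : F) (e : ℕ) (he0 : e ≠ 0)
    (hF : ∀ b : F, (b ^ e) ^ e = b ^ 2) (i : ℕ) :
    Matrix.GeneralLinearGroup.map (szEv τ e) (sgam F i) ∈ Cfsg.Lie.Sz F e := by
  simp only [sgam, map_mul, map_szEv_zh, map_nGL]
  exact Subgroup.mul_mem _ (Subgroup.mul_mem _ (Subgroup.mul_mem _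
    (zGL_mem_Sz e he0 _ (hF _)) (nGL_mem_Sz e he0)) (zGL_mem_Sz e he0 _ (hF _)))
    (nGL_mem_Sz e he0)

/-- A non-trivial word is not a law of the Suzuki groups over large fields. -/
theorem exists_sz_witness (w : FreeGroup ℕ) (hw : w ≠ 1) :
    ∃ N : ℕ, ∀ (F : Type u) [Field F] [Fintype F] (m : ℕ), 1 ≤ m → N ≤ m →
      Fintype.card F = 2 ^ (2 * m + 1) →
      ∃ f : ℕ → ↥(Cfsg.Lie.Sz F (2 ^ (m + 1))), FreeGroup.lift f w ≠ 1 := by
  refine ⟨szBX w + szBY w + 1, ?_⟩
  intro F _ _ m hm1 hNm hcard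
  -- characteristic 2
  have : CharP F 2 := by
    obtain ⟨p, hp⟩ := CharP.exists F
    have := hp
    obtain ⟨n, hpprime, hn⟩ := FiniteField.card F p
    have h2 : p ∣ 2 ^ (2 * m + 1) := by
      rw [← hcard, hn]
      exact dvd_pow_self _ (PNat.ne_zero n)
    have hp2 : p = 2 := (Nat.prime_dvd_prime_iff_eq hpprime Nat.prime_two).mp
      (hpprime.dvd_of_dvd_pow h2)
    rw [← hp2]; exact hp
  set e : ℕ := 2 ^ (m + 1) with he
  have he0 : e ≠ 0 := by positivity
  have hF : ∀ b : F, (b ^ e) ^ e = b ^ 2 := by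
    intro b
    have h1 : e * e = 2 ^ (2 * m + 1) * 2 := by
      rw [he, ← pow_add, ← pow_succ]; congr 1; omega
    rw [← pow_mul, h1, pow_mul, ← hcard, FiniteField.pow_card]
  -- the entry
  obtain ⟨r, s, hrs⟩ := sz_word_entry (K := F) hw
  set E : F[X][X] := ((wordSz F w : GL (Fin 4) F[X][X]) : Matrix (Fin 4) (Fin 4) F[X][X]) r s
    with hE
  have hEpos : 0 < natDegree E := hrs
  have hm_lt : m + 1 < e := by
    rw [he]; exact Nat.lt_two_pow_self
  have hcoef : ∀ j, natDegree (E.coeff j) < e := by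
    intro j
    have := natDegree_coeff_wordSz_le F w r s j
    rw [← hE] at this
    omega
  have hge := natDegree_eval_X_pow_ge E e hEpos hcoef
  have hle := natDegree_eval_X_pow_le E e (szBX w)
    (fun j => by have := natDegree_coeff_wordSz_le F w r s j; rw [← hE] at this; exact this)
  have hEY : natDegree E ≤ szBY w := natDegree_wordSz_le F w r s
  set δ : F := (1 : Matrix (Fin 4) (Fin 4) F) r s with hδ
  set G : F[X] := E.eval (X ^ e) - C δ with hG
  have hGdeg : natDegree G = natDegree (E.eval (X ^ e)) := by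
    rw [hG]
    apply natDegree_sub_eq_left_of_natDegree_lt
    rw [natDegree_C]
    omega
  have hGne : G ≠ 0 := by
    intro h0
    rw [h0, natDegree_zero] at hGdeg
    omega
  have hcardlt : natDegree G < Fintype.card F := by
    rw [hGdeg, hcard]
    have h1 : e * natDegree E ≤ e * szBY w := Nat.mul_le_mul_left e hEY
    have h2 : szBY w + 1 < 2 ^ m := by
      have : m < 2 ^ m := Nat.lt_two_pow_self
      omega
    have h3 : (2 : ℕ) ^ (2 * m + 1) = e * 2 ^ m := by
      rw [he, ← pow_add]; congr 1; omega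
    rw [h3]
    have h4 : e * (szBY w + 1) < e * 2 ^ m := Nat.mul_lt_mul_of_pos_left h2 (by omega)
    have h5 : e * (szBY w + 1) = e * szBY w + e := by ring
    omega
  obtain ⟨τ, hτ⟩ := Polynomial.exists_eval_ne_zero_of_natDegree_lt_card G hGne (by
    rw [Cardinal.mk_fintype, Nat.cast_lt]; exact hcardlt)
  refine ⟨fun i => ⟨Matrix.GeneralLinearGroup.map (szEv τ e) (sgam F i),
    map_szEv_sgam_mem τ e he0 hF i⟩, ?_⟩
  intro hone
  have hlift : ((FreeGroup.lift (fun i => (⟨Matrix.GeneralLinearGroup.map (szEv τ e) (sgam F i),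
      map_szEv_sgam_mem τ e he0 hF i⟩ : ↥(Cfsg.Lie.Sz F e))) w : ↥(Cfsg.Lie.Sz F e)) :
        GL (Fin 4) F) = Matrix.GeneralLinearGroup.map (szEv τ e) (wordSz F w) := by
    have : (Subgroup.subtype (Cfsg.Lie.Sz F e)).comp
        (FreeGroup.lift (fun i => (⟨Matrix.GeneralLinearGroup.map (szEv τ e) (sgam F i),
          map_szEv_sgam_mem τ e he0 hF i⟩ : ↥(Cfsg.Lie.Sz F e)))) =
        (Matrix.GeneralLinearGroup.map (szEv τ e)).comp (FreeGroup.lift (sgam F)) := by
      apply FreeGroup.ext_hom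
      intro i
      simp
    exact DFunLike.congr_fun this w
  rw [hone] at hlift
  apply hτ
  have hentry : (1 : Matrix (Fin 4) (Fin 4) F) r s = szEv τ e E := by
    have := congrArg (fun g : GL (Fin 4) F => (g : Matrix (Fin 4) (Fin 4) F) r s) hlift
    simpa using this
  rw [hG, eval_sub, eval_C, ← szEv_apply, ← hentry, hδ, sub_self]


end

end Cfsg.Agent.Helper39
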